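import Cfsg.Agent.H42.OThrH
import Cfsg.Agent.S2362

set_option autoImplicit false

/-!
The classes of subgroups of order three of `Ω(7,3)`.
-/

namespace Cfsg.Agent.H42.OT

open QuadraticMap Cfsg.Agent.Orth Matrix

/-! ### Group theoretic wrapper -/

theorem eq_or_of_mem {G : Type*} [Group G] {y w : G} (hy : orderOf y = 3) (hw : w ∈ Subgroup.zpowers y)
    (hw1 : w ≠ 1) : w = y ∨ w = y⁻¹ := by
  classical
  have hfin : IsOfFinOrder y := orderOf_pos_iff.1 (by rw [hy]; norm_num)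
  rw [← hfin.mem_powers_iff_mem_zpowers, hfin.mem_powers_iff_mem_range_orderOf] at hw
  have h3 : y ^ 3 = 1 := by rw [← hy]; exact pow_orderOf_eq_one y
  simp only [hy, Finset.mem_image, Finset.mem_range] at hw
  obtain ⟨k, hk, rfl⟩ := hw
  interval_cases k
  · simp at hw1
  · left; simp
  · right
    rw [eq_inv_iff_mul_eq_one, ← pow_succ, h3]

theorem of_elts {G H : Type*} [Group G] [Group H] (E : H ≃* G) (y : Fin 7 → G) (h3 : ∀ i, orderOf (y i) = 3)
    (hne : ∀ i j (g : G), (g * y i * g⁻¹ = y j ∨ g * y i * g⁻¹ = (y j)⁻¹) → i = j)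
    (hc : ∀ x : G, orderOf x = 3 → ∃ i, ∃ g : G, g * x * g⁻¹ = y i) :
    ∃ Y : Fin 7 → Subgroup H, (∀ i, Nat.card (Y i) = 3) ∧
      (∀ i j, (∃ g : H, (Y i).map (MulAut.conj g).toMonoidHom = Y j) → i = j) ∧
      (∀ X : Subgroup H, Nat.card X = 3 → ∃ i, ∃ g : H, X.map (MulAut.conj g).toMonoidHom = Y i) := by
  have ho : ∀ i, orderOf (E.symm (y i)) = 3 := fun i => by rw [MulEquiv.orderOf_eq, h3]
  have hmap : ∀ (g x : H), (Subgroup.zpowers x).map (MulAut.conj g).toMonoidHom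
      = Subgroup.zpowers (g * x * g⁻¹) := by
    intro g x
    rw [MonoidHom.map_zpowers]; rfl
  refine ⟨fun i => Subgroup.zpowers (E.symm (y i)), fun i => ?_, ?_, ?_⟩
  · rw [Nat.card_zpowers, ho]
  · rintro i j ⟨g, hg⟩
    rw [hmap] at hg
    change _ = Subgroup.zpowers (E.symm (y j)) at hg
    have h1 : g * E.symm (y i) * g⁻¹ ∈ Subgroup.zpowers (E.symm (y j)) := by
      rw [← hg]; exact Subgroup.mem_zpowers _
    have h2 : g * E.symm (y i) * g⁻¹ ≠ 1 := by
      intro h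
      rw [mul_inv_eq_one, mul_eq_left] at h
      have := ho i
      rw [h, orderOf_one] at this
      exact absurd this (by norm_num)
    refine hne i j (E g) ?_
    rcases eq_or_of_mem (ho j) h1 h2 with h4 | h4
    · left
      have := congrArg E h4
      simpa using this
    · right
      have := congrArg E h4
      simpa using this
  · intro X hX
    haveI : Finite X := Nat.finite_of_card_ne_zero (by rw [hX]; norm_num)
    haveI : Fact (Nat.Prime 3) := ⟨Nat.prime_three⟩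
    obtain ⟨x, hx⟩ := exists_prime_orderOf_dvd_card' (G := X) 3 (by rw [hX])
    have hx' : orderOf (x : H) = 3 := by rw [Subgroup.orderOf_coe, hx]
    have hXz : Subgroup.zpowers (x : H) = X := by
      refine Subgroup.eq_of_le_of_card_ge ?_ ?_
      · rw [Subgroup.zpowers_le]; exact x.2
      · rw [hX, Nat.card_zpowers, hx']
    obtain ⟨i, g, hg⟩ := hc (E x) (by rw [MulEquiv.orderOf_eq, hx'])
    refine ⟨i, E.symm g, ?_⟩
    change _ = Subgroup.zpowers (E.symm (y i))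
    rw [← hXz, hmap, ← hg]
    simp

/-! ### The standard basis -/

noncomputable abbrev Q7 : QuadraticForm (ZMod 3) (Unit ⊕ (Fin 3 ⊕ Fin 3) → ZMod 3) := qfOdd 3 (ZMod 3)

abbrev z7 : Unit ⊕ (Fin 3 ⊕ Fin 3) → ZMod 3 := Pi.single (Sum.inl ()) 1

theorem polar_z7 (v : Unit ⊕ (Fin 3 ⊕ Fin 3) → ZMod 3) : polar Q7 v z7 = 2 * v (Sum.inl ()) := by
  rw [polar_qfOdd]
  simp

theorem hQ7 : (polarBilin Q7).Nondegenerate := qfOdd_nondegenerate 3 (ZMod 3) z3d

theorem hR7 : RGrp Q7 = ⊤ := RGrp_top_of_two hQ7 z3d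

theorem std7 : Std Q7 z7 (oddE 3 (ZMod 3)) (oddF 3 (ZMod 3)) where
  hyp := isHyp_odd 3 (ZMod 3)
  qz := by rw [qfOdd_apply]; simp
  ze i := by rw [pc, polar_z7]; simp
  zf i := by rw [pc, polar_z7]; simp
  sep v h1 h2 h3 := by
    funext i
    rcases i with ⟨⟩ | i | i
    · rw [polar_z7] at h1
      exact (mul_eq_zero.1 h1).resolve_left z3d
    · have := h3 i
      rwa [polar_oddF] at this
    · have := h2 i
      rwa [polar_oddE] at this

theorem fr7 : Module.finrank (ZMod 3) (Unit ⊕ (Fin 3 ⊕ Fin 3) → ZMod 3) = 7 := by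
  rw [Module.finrank_fintype_fun_eq_card]; rfl

section

variable {V : Type*} [AddCommGroup V] [Module (ZMod 3) V] [FiniteDimensional (ZMod 3) V]
  {Q : QuadraticForm (ZMod 3) V} {z : V} {e f : Fin 3 → V}
variable (S : Std Q z e f) {hQ : (polarBilin Q).Nondegenerate} {hR : RGrp Q = ⊤}

/-- The six elements. -/
def ym (t : Fin 6) : OGrp Q := ex (md_sn S t)

omit [FiniteDimensional (ZMod 3) V] in
theorem ym_cube (t : Fin 6) : (ym S t) ^ 3 = 1 := ex_cube _

omit [FiniteDimensional (ZMod 3) V] in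
theorem ym_nn (t : Fin 6) (v : V) : nn (ym S t) v = md Q z e f t v := nn_ex _ _

omit [FiniteDimensional (ZMod 3) V] in
theorem ym_ne (t : Fin 6) : ym S t ≠ 1 := by
  have h : ∃ v, md Q z e f t v ≠ 0 := by
    fin_cases t
    · refine ⟨f 1, ?_⟩
      change wd Q (e 1) (e 0) (f 1) ≠ 0
      rw [wd_apply, S.hyp.fe, S.hyp.fe, if_pos rfl, if_neg (by decide), one_smul, zero_smul, sub_zero]
      intro h
      have := S.hyp.ef 0 0
      rw [h, polar_zero_left, if_pos rfl] at this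
      exact zero_ne_one this
    · obtain ⟨v, hv⟩ := t2_inv0 S (δ := 1) (by decide)
      exact ⟨_, hv⟩
    · obtain ⟨v, hv⟩ := t2_inv0 S (δ := 2) (by decide)
      exact ⟨_, hv⟩
    · obtain ⟨v, hv⟩ := t3_inv0 S
      exact ⟨_, hv⟩
    · obtain ⟨v, hv⟩ := t4_inv0 S (δ := 1)
      exact ⟨_, hv⟩
    · obtain ⟨v, hv⟩ := t4_inv0 S (δ := 2)
      exact ⟨_, hv⟩
  obtain ⟨v, hv⟩ := h
  exact ex_ne _ hv

theorem rel {t t' : Fin 6} {g : OGrp Q}
    (h : g * ym S t * g⁻¹ = ym S t' ∨ g * ym S t * g⁻¹ = (ym S t')⁻¹) :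
    t = t' ∧ (t = 3 → chi hQ hR g = 1) := by
  obtain ⟨s, hs, hs'⟩ : ∃ s : ZMod 3, (s = 1 ∨ s = -1) ∧ ∀ v, (g : V ≃ₗ[ZMod 3] V) (md Q z e f t v)
      = s • md Q z e f t' ((g : V ≃ₗ[ZMod 3] V) v) := by
    rcases h with h | h
    · refine ⟨1, Or.inl rfl, fun v => ?_⟩
      rw [← ym_nn S t, ← nn_conj, h, ym_nn, one_smul]
    · refine ⟨-1, Or.inr rfl, fun v => ?_⟩
      rw [← ym_nn S t, ← nn_conj, h, nn_inv, ym_nn, neg_one_smul]
  have hss : s * s = 1 := by rcases hs with rfl | rfl <;> decide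
  have h1 : t = t' := md_sep S g hss hs'
  subst h1
  refine ⟨rfl, ?_⟩
  rintro rfl
  exact norm3 S hs hs'

theorem exists_type (hQ : (polarBilin Q).Nondegenerate) (hfr : Module.finrank (ZMod 3) V = 7) {x : OGrp Q}
    (hx : x ^ 3 = 1) (hx1 : x ≠ 1) : ∃ t, ∃ g : OGrp Q, g * x * g⁻¹ = ym S t := by
  have hn : SN Q (nn x) := sn_nn hx
  obtain ⟨v, hv⟩ : ∃ v, nn x v ≠ 0 := by
    by_contra hcon
    push Not at hcon
    exact hx1 (eq_one_of_nn hx hcon)
  have key : ∀ (t : Fin 6) {ι : Type} [Fintype ι] [DecidableEq ι] {G A : Matrix ι ι (ZMod 3)},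
      NF Q (nn x) G A → NF Q (md Q z e f t) G A → ∃ t, ∃ g : OGrp Q, g * x * g⁻¹ = ym S t := by
    intro t ι _ _ G A h1 h2
    obtain ⟨u, hu, hu'⟩ := h1
    obtain ⟨w, hw, hw'⟩ := h2
    obtain ⟨g, hg⟩ := hu.conj hQ hw hu' hw'
    exact ⟨t, g, conj_of hx (ym_cube S t) g fun v => by rw [hg, ym_nn]⟩
  rcases classify hQ hfr hn hv (fun ⟨u, hu⟩ => no_disc (t3_fam S) (fun v hv => t3_perp S hv) hu)
    with h | h | h | h | h | h
  · exact key 0 h (t1_nf S)
  · exact key 1 h (t2_nf S one_ne_zero)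
  · exact key 2 h (t2_nf S (by decide))
  · exact key 3 h (t3_nf S)
  · exact key 4 h (t4_nf S one_ne_zero)
  · exact key 5 h (t4_nf S (by decide))

omit [FiniteDimensional (ZMod 3) V] in
theorem neg1_comm (g : OGrp Q) : neg1 Q * g = g * neg1 Q := by
  refine OGrp_ext fun v => ?_
  rw [coe_mul_apply, coe_mul_apply, neg1_apply, neg1_apply, map_neg]

include S in
theorem pm (hQ : (polarBilin Q).Nondegenerate) (hR : RGrp Q = ⊤) {g x w : OGrp Q} (hg : chi hQ hR g = 1)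
    (h : g * x * g⁻¹ = w) : ∃ g' : OGrp Q, g' ∈ commutator (OGrp Q) ∧ g' * x * g'⁻¹ = w := by
  rw [chi_apply] at hg
  rcases Int.units_eq_one_or (parityHom hQ hR g) with h1 | h1
  · rw [h1, one_mul] at hg
    exact ⟨g, (mem_commutator_iff_homs hQ hR g).2 ⟨h1, hg⟩, h⟩
  · have h2 : spinHom hQ hR g = -1 := by
      rw [h1] at hg
      rcases Int.units_eq_one_or (spinHom hQ hR g) with h2 | h2
      · rw [h2] at hg; exact absurd hg (by decide)
      · exact h2
    refine ⟨neg1 Q * g, (mem_commutator_iff_homs hQ hR _).2 ⟨?_, ?_⟩, ?_⟩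
    · rw [_root_.map_mul, (neg1_homs S).1, h1]; rfl
    · rw [_root_.map_mul, (neg1_homs S).2, h2]; rfl
    · rw [_root_.mul_inv_rev]
      calc neg1 Q * g * x * (g⁻¹ * (neg1 Q)⁻¹) = neg1 Q * (g * x * g⁻¹) * (neg1 Q)⁻¹ := by group
        _ = w := by rw [h, neg1_comm, mul_inv_cancel_right]

include S in
omit [FiniteDimensional (ZMod 3) V] in
theorem qz_ne : Q z ≠ 0 := by rw [S.qz]; exact one_ne_zero

/-- The seven elements. -/
noncomputable def y7 : Fin 7 → OGrp Q :=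
  Fin.snoc (α := fun _ => OGrp Q) (ym S) (refl Q z (qz_ne S) * ym S 3 * (refl Q z (qz_ne S))⁻¹)

omit [FiniteDimensional (ZMod 3) V] in
theorem y7_cast (t : Fin 6) : y7 S (Fin.castSucc t) = ym S t := by
  rw [y7, Fin.snoc_castSucc]

omit [FiniteDimensional (ZMod 3) V] in
theorem y7_last : y7 S (Fin.last 6) = refl Q z (qz_ne S) * ym S 3 * (refl Q z (qz_ne S))⁻¹ := by
  rw [y7, Fin.snoc_last]

theorem chi_h (hQ : (polarBilin Q).Nondegenerate) (hR : RGrp Q = ⊤) : chi hQ hR (refl Q z (qz_ne S)) = -1 := by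
  rw [chi_apply, parityHom_refl, spinHom_refl, S.qz, sqc1]; rfl

theorem chi_of_mem {hQ : (polarBilin Q).Nondegenerate} {hR : RGrp Q = ⊤} {g : OGrp Q}
    (hg : g ∈ commutator (OGrp Q)) : chi hQ hR g = 1 := by
  rw [mem_commutator_iff_homs hQ hR] at hg
  rw [chi_apply, hg.1, hg.2]; rfl

omit [FiniteDimensional (ZMod 3) V] in
theorem y7_cube (i : Fin 7) : (y7 S i) ^ 3 = 1 := by
  induction i using Fin.lastCases with
  | last => rw [y7_last, conj_pow, ym_cube]; simp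
  | cast t => rw [y7_cast, ym_cube]

omit [FiniteDimensional (ZMod 3) V] in
theorem y7_ne (i : Fin 7) : y7 S i ≠ 1 := by
  induction i using Fin.lastCases with
  | last =>
    rw [y7_last, Ne, mul_inv_eq_one, mul_eq_left]
    exact ym_ne S 3
  | cast t => rw [y7_cast]; exact ym_ne S t

theorem mem_of_cube (hQ : (polarBilin Q).Nondegenerate) {x : OGrp Q} (hx : x ^ 3 = 1) :
    x ∈ commutator (OGrp Q) := by
  have h1 := mul_self_mem_commutator hQ (x * x)
  have h2 : x * x * (x * x) = x := by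
    calc x * x * (x * x) = x ^ 3 * x := by rw [pow_succ, pow_two, mul_assoc (x * x), mul_assoc]
      _ = x := by rw [hx, one_mul]
  rwa [h2] at h1

theorem y7_sep (hQ : (polarBilin Q).Nondegenerate) (hR : RGrp Q = ⊤) (i j : Fin 7) {g : OGrp Q}
    (hg : g ∈ commutator (OGrp Q))
    (h : g * y7 S i * g⁻¹ = y7 S j ∨ g * y7 S i * g⁻¹ = (y7 S j)⁻¹) : i = j := by
  have hcg := chi_of_mem (hQ := hQ) (hR := hR) hg
  have hch := chi_h S hQ hR
  set r := refl Q z (qz_ne S) with hr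
  induction i using Fin.lastCases with
  | last =>
    induction j using Fin.lastCases with
    | last => rfl
    | cast t =>
      exfalso
      rw [y7_last, y7_cast, ← hr] at h
      have h1 : (g * r) * ym S 3 * (g * r)⁻¹ = ym S t ∨ (g * r) * ym S 3 * (g * r)⁻¹ = (ym S t)⁻¹ := by
        have e1 : (g * r) * ym S 3 * (g * r)⁻¹ = g * (r * ym S 3 * r⁻¹) * g⁻¹ := by group
        rw [e1]; exact h
      have h2 := (rel (hQ := hQ) (hR := hR) S h1).2 rfl
      rw [_root_.map_mul, hcg, hch] at h2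
      exact absurd h2 (by decide)
  | cast t =>
    induction j using Fin.lastCases with
    | last =>
      exfalso
      rw [y7_last, y7_cast, ← hr] at h
      have h1 : (r⁻¹ * g) * ym S t * (r⁻¹ * g)⁻¹ = ym S 3 ∨ (r⁻¹ * g) * ym S t * (r⁻¹ * g)⁻¹ = (ym S 3)⁻¹ := by
        have e1 : (r⁻¹ * g) * ym S t * (r⁻¹ * g)⁻¹ = r⁻¹ * (g * ym S t * g⁻¹) * r := by group
        rw [e1]
        rcases h with h | h
        · left; rw [h]; group
        · right; rw [h]; group
      obtain ⟨h3, h2⟩ := rel (hQ := hQ) (hR := hR) S h1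
      have h2 := h2 h3
      rw [_root_.map_mul, map_inv, hcg, hch] at h2
      exact absurd h2 (by decide)
    | cast t' =>
      rw [y7_cast, y7_cast] at h
      rw [(rel (hQ := hQ) (hR := hR) S h).1]

theorem y7_complete (hQ : (polarBilin Q).Nondegenerate) (hR : RGrp Q = ⊤)
    (hfr : Module.finrank (ZMod 3) V = 7) {x : OGrp Q} (hx : x ^ 3 = 1) (hx1 : x ≠ 1) :
    ∃ i, ∃ g : OGrp Q, g ∈ commutator (OGrp Q) ∧ g * x * g⁻¹ = y7 S i := by
  obtain ⟨t, g, hg⟩ := exists_type S hQ hfr hx hx1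
  by_cases ht : t = 3
  · subst ht
    rcases Int.units_eq_one_or (chi hQ hR g) with h1 | h1
    · obtain ⟨g', hg', h2⟩ := pm S hQ hR h1 hg
      exact ⟨Fin.castSucc 3, g', hg', by rw [y7_cast, h2]⟩
    · have h3 : chi hQ hR (refl Q z (qz_ne S) * g) = 1 := by
        rw [_root_.map_mul, chi_h S, h1]; rfl
      obtain ⟨g', hg', h2⟩ := pm S hQ hR (x := x) (w := y7 S (Fin.last 6)) h3 (by
        rw [y7_last, ← hg]; group)
      exact ⟨Fin.last 6, g', hg', h2⟩
  · obtain ⟨c, hc, hp, hs⟩ := md_full S (hQ := hQ) (hR := hR) ht (parityHom hQ hR g) (spinHom hQ hR g)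
    refine ⟨Fin.castSucc t, c⁻¹ * g, (mem_commutator_iff_homs hQ hR _).2 ⟨?_, ?_⟩, ?_⟩
    · rw [_root_.map_mul, map_inv, hp, inv_mul_cancel]
    · rw [_root_.map_mul, map_inv, hs, inv_mul_cancel]
    · rw [y7_cast]
      have hc' : c * ym S t = ym S t * c := hc
      calc c⁻¹ * g * x * (c⁻¹ * g)⁻¹ = c⁻¹ * (g * x * g⁻¹) * c := by group
        _ = ym S t := by rw [hg, mul_assoc, ← hc', inv_mul_cancel_left]

end

theorem seven_classes : ∃ Y : Fin 7 → Subgroup (Cfsg.POmega (ZMod 3) (Cfsg.quadFormOdd 3 (ZMod 3))),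
    (∀ i, Nat.card (Y i) = 3) ∧
    (∀ i j, (∃ g : Cfsg.POmega (ZMod 3) (Cfsg.quadFormOdd 3 (ZMod 3)),
      (Y i).map (MulAut.conj g).toMonoidHom = Y j) → i = j) ∧
    (∀ X : Subgroup (Cfsg.POmega (ZMod 3) (Cfsg.quadFormOdd 3 (ZMod 3))), Nat.card X = 3 →
      ∃ i, ∃ g : Cfsg.POmega (ZMod 3) (Cfsg.quadFormOdd 3 (ZMod 3)),
        X.map (MulAut.conj g).toMonoidHom = Y i) := by
  have hcen := Cfsg.Agent.S2362.center_triv (F := ZMod 3) (by rw [ZMod.card]; decide) 3 le_rfl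
  have hbot : Subgroup.center ↥(commutator (OGrp Q7)) = ⊥ := Subgroup.card_eq_one.1 hcen
  let E : Cfsg.POmega (ZMod 3) (Cfsg.quadFormOdd 3 (ZMod 3)) ≃* ↥(commutator (OGrp Q7)) :=
    ((ClassO.pomE Q7).trans (QuotientGroup.quotientMulEquivOfEq hbot)).trans QuotientGroup.quotientBot
  haveI : Fact (Nat.Prime 3) := ⟨Nat.prime_three⟩
  refine of_elts E (fun i => ⟨y7 std7 i, mem_of_cube hQ7 (y7_cube std7 i)⟩) ?_ ?_ ?_
  · intro i
    rw [Subgroup.orderOf_mk]
    exact orderOf_eq_prime (y7_cube std7 i) (y7_ne std7 i)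
  · intro i j g h
    refine y7_sep std7 hQ7 hR7 i j (g := g) g.2 ?_
    rcases h with h | h
    · left; exact congrArg Subtype.val h
    · right; exact congrArg Subtype.val h
  · intro x hx
    have h1 : (x : OGrp Q7) ^ 3 = 1 := by
      have := pow_orderOf_eq_one x
      rw [hx] at this
      exact congrArg Subtype.val this
    have h2 : (x : OGrp Q7) ≠ 1 := by
      intro h
      have : x = 1 := Subtype.ext h
      rw [this, orderOf_one] at hx
      exact absurd hx (by norm_num)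
    obtain ⟨i, g, hg, hgx⟩ := y7_complete std7 hQ7 hR7 fr7 h1 h2
    exact ⟨i, ⟨g, hg⟩, Subtype.ext hgx⟩

end Cfsg.Agent.H42.OT
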