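import Cfsg.Agent.H42.OctB
import Cfsg.Agent.H42.OThrI

set_option autoImplicit false

/-!
Invariants separating the eight models, and large centralizers.
-/

namespace Cfsg.Agent.H42.Oct

open QuadraticMap Cfsg.Agent.Orth Matrix Cfsg.Agent.H42.OT

variable {V : Type*} [AddCommGroup V] [Module (ZMod 3) V] {Q : QuadraticForm (ZMod 3) V}

/-- The invariants. -/
def Iv (Q : QuadraticForm (ZMod 3) V) (n : V →ₗ[ZMod 3] V) : Fin 6 → Prop :=
  Fin.snoc (α := fun _ => Prop) (Inv Q n) (∃ v, n v = 0 ∧ ∀ t, v ≠ n t)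

theorem iv_cast (n : V →ₗ[ZMod 3] V) (k : Fin 5) : Iv Q n (Fin.castSucc k) = Inv Q n k := by
  rw [Iv, Fin.snoc_castSucc]

theorem iv_last (n : V →ₗ[ZMod 3] V) : Iv Q n (Fin.last 5) = (∃ v, n v = 0 ∧ ∀ t, v ≠ n t) := by
  rw [Iv, Fin.snoc_last]

theorem iv_congr {n n' : V →ₗ[ZMod 3] V} (g : OGrp Q) {s : ZMod 3} (hs : s * s = 1)
    (h : ∀ v, (g : V ≃ₗ[ZMod 3] V) (n v) = s • n' ((g : V ≃ₗ[ZMod 3] V) v)) (k : Fin 6)
    (hk : Iv Q n k) : Iv Q n' k := by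
  induction k using Fin.lastCases with
  | cast k => rw [iv_cast] at hk ⊢; exact inv_congr g hs h k hk
  | last =>
    rw [iv_last] at hk ⊢
    obtain ⟨v, hv, hv'⟩ := hk
    have h1 : ∀ v, n' ((g : V ≃ₗ[ZMod 3] V) v) = s • (g : V ≃ₗ[ZMod 3] V) (n v) := by
      intro v
      rw [h, smul_smul, hs, one_smul]
    refine ⟨(g : V ≃ₗ[ZMod 3] V) v, by rw [h1, hv, map_zero, smul_zero], fun t ht => ?_⟩
    obtain ⟨t, rfl⟩ := (g : V ≃ₗ[ZMod 3] V).surjective t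
    rw [h1, ← map_smul] at ht
    have h3 := (g : V ≃ₗ[ZMod 3] V).injective ht
    exact hv' (s • t) (by rw [map_smul, ← h3])

variable {e f : Fin 4 → V}

def tb : Fin 8 → Fin 6 → Option Bool :=
  ![![some false, none, none, none, none, some true],
    ![some true, some true, some false, none, some false, none],
    ![some true, some false, none, none, some false, none],
    ![some false, none, none, none, none, some false],
    ![some true, some true, some false, none, some true, none],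
    ![some true, some false, none, none, some true, none],
    ![some true, some true, some true, some false, none, none],
    ![some true, some true, some true, some true, none, none]]

theorem tb_sep : ∀ t t' : Fin 8, t ≠ t' → ∃ k, (tb t k = some true ∧ tb t' k = some false) ∨
    (tb t k = some false ∧ tb t' k = some true) := by decide

section
variable (S : Std8 Q e f)
include S

theorem e_ne (i : Fin 4) : e i ≠ 0 := by
  intro h
  have := S.hyp.fe i i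
  rw [h, polar_zero_right, if_pos rfl] at this
  exact zero_ne_one this

/-- rank one square. -/
theorem k_q {n : V →ₗ[ZMod 3] V} (hn : SN Q n) {δ : ZMod 3} (hnn : ∀ v, n (n v) = (δ * polar Q v (e 0)) • e 0) (v : V) :
    Q (n v) = δ * (polar Q v (e 0) * polar Q v (e 0)) := by
  rw [hn.q, hnn, psr, mul_assoc]

theorem k_inv0 {n : V →ₗ[ZMod 3] V} {δ : ZMod 3} (hδ : δ ≠ 0)
    (hnn : ∀ v, n (n v) = (δ * polar Q v (e 0)) • e 0) : Inv Q n 0 := by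
  refine ⟨f 0, ?_⟩
  rw [hnn, S.hyp.fe, if_pos rfl, mul_one]
  exact smul_ne_zero hδ (e_ne S _)

theorem k_inv1 {n : V →ₗ[ZMod 3] V} (hn : SN Q n) (hnn : ∀ v, n (n v) = ((1 : ZMod 3) * polar Q v (e 0)) • e 0) : Inv Q n 1 := by
  refine ⟨f 0, ?_⟩
  rw [k_q S hn hnn, S.hyp.fe, if_pos rfl]; rfl

theorem k_inv2 {n : V →ₗ[ZMod 3] V} (hn : SN Q n) (hnn : ∀ v, n (n v) = ((1 : ZMod 3) * polar Q v (e 0)) • e 0) : ¬ Inv Q n 2 := by
  rintro ⟨v, hv⟩
  rw [k_q S hn hnn, one_mul] at hv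
  exact zq _ hv

theorem k_inv1' {n : V →ₗ[ZMod 3] V} (hn : SN Q n) (hnn : ∀ v, n (n v) = ((2 : ZMod 3) * polar Q v (e 0)) • e 0) : ¬ Inv Q n 1 := by
  rintro ⟨v, hv⟩
  rw [k_q S hn hnn] at hv
  exact zq2 _ hv

theorem k_inv4 {δ : ZMod 3} (hδ : δ ≠ 0) : ¬ Inv Q (Ka Q e f δ) 4 := by
  rintro ⟨v, hv, hv'⟩
  rw [Ka_sq S] at hv
  have h1 : polar Q v (e 0) = 0 := by
    rcases smul_eq_zero.1 hv with h | h
    · exact (mul_eq_zero.1 h).resolve_left hδ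
    · exact absurd h (e_ne S _)
  apply hv' ((- (δ * polar Q v (hw e f 1 δ))) • f 0)
  rw [map_smul, map_smul, Ka_sq S, wd_apply, h1, S.hyp.fe, if_pos rfl, smul_smul, zero_smul, zero_sub, ← neg_smul]
  congr 1
  have := dsq δ hδ
  linear_combination polar Q v (hw e f 1 δ) * this

theorem kj_inv4 {δ : ZMod 3} : Inv Q (Ka Q e f δ + Jb Q e) 4 := by
  have hnn : ∀ v, (Ka Q e f δ + Jb Q e) ((Ka Q e f δ + Jb Q e) v) = (δ * polar Q v (e 0)) • e 0 := fun v => by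
    rw [add_sq (KJ S δ), Ka_sq S, Jb_sq S, add_zero]
  refine ⟨f 3, by rw [hnn, S.hyp.fe]; simp, fun t ht => ?_⟩
  rw [hnn, LinearMap.add_apply, (Ka_v S δ).2.2.1, (Jb_v S).2.1, zero_add] at ht
  have := congrArg (fun w => polar Q w (f 2)) ht
  simp only [psl, S.hyp.ef, if_pos] at this
  simp at this

theorem kk_nn (δ : ZMod 3) (v : V) : (Ka Q e f 1 + Kb Q e f δ) ((Ka Q e f 1 + Kb Q e f δ) v)
    = polar Q v (e 0) • e 0 + (δ * polar Q v (e 2)) • e 2 := by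
  rw [add_sq (KK S 1 δ), Ka_sq S, Kb_sq S, one_mul]

theorem kk_q {δ : ZMod 3} (hn : SN Q (Ka Q e f 1 + Kb Q e f δ)) (v : V) : Q ((Ka Q e f 1 + Kb Q e f δ) v)
    = polar Q v (e 0) * polar Q v (e 0) + δ * (polar Q v (e 2) * polar Q v (e 2)) := by
  rw [hn.q, kk_nn S, par, psr, psr, mul_assoc]

theorem kk_inv0 {δ : ZMod 3} : Inv Q (Ka Q e f 1 + Kb Q e f δ) 0 := by
  refine ⟨f 0, ?_⟩
  rw [kk_nn S, S.hyp.fe, S.hyp.fe, if_pos rfl, if_neg (by decide), one_smul, mul_zero, zero_smul, add_zero]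
  exact e_ne S _

theorem kk_inv1 {δ : ZMod 3} (hn : SN Q (Ka Q e f 1 + Kb Q e f δ)) : Inv Q (Ka Q e f 1 + Kb Q e f δ) 1 := by
  refine ⟨f 0, ?_⟩
  rw [kk_q S hn, S.hyp.fe, S.hyp.fe, if_pos rfl, if_neg (by decide)]; simp

theorem kk_inv2 (hn : SN Q (Ka Q e f 1 + Kb Q e f 1)) : Inv Q (Ka Q e f 1 + Kb Q e f 1) 2 := by
  refine ⟨f 0 + f 2, ?_⟩
  rw [kk_q S hn, pal, pal]
  simp [S.hyp.fe]
  decide

theorem kk_inv2' (hn : SN Q (Ka Q e f 1 + Kb Q e f 2)) : Inv Q (Ka Q e f 1 + Kb Q e f 2) 2 := by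
  refine ⟨f 2, ?_⟩
  rw [kk_q S hn]
  simp [S.hyp.fe]

theorem kk_inv3 (hn : SN Q (Ka Q e f 1 + Kb Q e f 1)) : ¬ Inv Q (Ka Q e f 1 + Kb Q e f 1) 3 := by
  rintro ⟨v, hv, hv'⟩
  rw [kk_q S hn] at hv'
  obtain ⟨h1, h2⟩ := zq4 _ _ hv'
  rw [kk_nn S, h1, h2] at hv
  simp at hv

theorem kk_inv3' (hn : SN Q (Ka Q e f 1 + Kb Q e f 2)) : Inv Q (Ka Q e f 1 + Kb Q e f 2) 3 := by
  refine ⟨f 0 + f 2, ?_, ?_⟩
  · rw [kk_nn S, pal, pal]
    simp only [S.hyp.fe]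
    intro h
    have := congrArg (fun w => polar Q w (f 0)) h
    simp [S.hyp.ef, psl, pal] at this
  · rw [kk_q S hn, pal, pal]
    simp [S.hyp.fe]
    decide

theorem j_inv5 : ∃ v, Ja Q e v = 0 ∧ ∀ t, v ≠ Ja Q e t := by
  refine ⟨e 2, (Ja_v S).2.2.2.2 _, fun t ht => ?_⟩
  have := congrArg (fun w => polar Q w (f 2)) ht
  simp [wd_apply, pdl, psl, S.hyp.ef] at this

theorem jj_zero {v : V} (hv : (Ja Q e + Jb Q e) v = 0) : ∀ i, polar Q v (e i) = 0 := by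
  have h : ∀ w, polar Q ((Ja Q e + Jb Q e) v) w = 0 := fun w => by rw [hv, polar_zero_left]
  have h0 := h (f 0)
  have h1 := h (f 1)
  have h2 := h (f 2)
  have h3 := h (f 3)
  simp [wd_apply, pdl, psl, pal, S.hyp.ef] at h0 h1 h2 h3
  intro i
  fin_cases i
  · exact h1
  · exact h0
  · exact h3
  · exact h2

theorem jj_inv5 : ¬ ∃ v, (Ja Q e + Jb Q e) v = 0 ∧ ∀ t, v ≠ (Ja Q e + Jb Q e) t := by
  rintro ⟨v, hv, hv'⟩
  have h0 := jj_zero S hv
  apply hv' (polar Q v (f 0) • f 1 - polar Q v (f 1) • f 0 + polar Q v (f 2) • f 3 - polar Q v (f 3) • f 2)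
  have hE := expand S v
  simp only [h0, zero_smul, Finset.sum_const_zero, add_zero, Fin.sum_univ_four] at hE
  rw [map_sub, map_add, map_sub, map_smul, map_smul, map_smul, map_smul]
  simp only [LinearMap.add_apply]
  rw [(Ja_v S).1, (Ja_v S).2.1, (Ja_v S).2.2.1, (Ja_v S).2.2.2.1, (Jb_v S).1, (Jb_v S).2.1, (Jb_v S).2.2.1,
    (Jb_v S).2.2.2.1]
  conv_lhs => rw [hE]
  module

theorem iv_tb (t : Fin 8) (k : Fin 6) : (tb t k = some true → Iv Q (md Q e f t) k) ∧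
    (tb t k = some false → ¬ Iv Q (md Q e f t) k) := by
  have c0 : ∀ n : V →ₗ[ZMod 3] V, Iv Q n 0 = Inv Q n 0 := fun n => iv_cast n 0
  have c1 : ∀ n : V →ₗ[ZMod 3] V, Iv Q n 1 = Inv Q n 1 := fun n => iv_cast n 1
  have c2 : ∀ n : V →ₗ[ZMod 3] V, Iv Q n 2 = Inv Q n 2 := fun n => iv_cast n 2
  have c3 : ∀ n : V →ₗ[ZMod 3] V, Iv Q n 3 = Inv Q n 3 := fun n => iv_cast n 3
  have c4 : ∀ n : V →ₗ[ZMod 3] V, Iv Q n 4 = Inv Q n 4 := fun n => iv_cast n 4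
  have c5 : ∀ n : V →ₗ[ZMod 3] V, Iv Q n 5 = (∃ v, n v = 0 ∧ ∀ t, v ≠ n t) := fun n => iv_last n
  have nj : ∀ (δ : ZMod 3) (v : V), (Ka Q e f δ + Jb Q e) ((Ka Q e f δ + Jb Q e) v) = (δ * polar Q v (e 0)) • e 0 := fun δ v => by
    rw [add_sq (KJ S δ), Ka_sq S, Jb_sq S, add_zero]
  have tr : ∀ (n : V →ₗ[ZMod 3] V) (k : Fin 6), ((none : Option Bool) = some true → Iv Q n k) ∧
    ((none : Option Bool) = some false → ¬ Iv Q n k) := fun n k => ⟨fun h => (by simp at h), fun h => (by simp at h)⟩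
  have tT : ∀ (n : V →ₗ[ZMod 3] V) (k : Fin 6), Iv Q n k → ((some true : Option Bool) = some true → Iv Q n k) ∧
    ((some true : Option Bool) = some false → ¬ Iv Q n k) := fun n k h => ⟨fun _ => h, fun h => by simp at h⟩
  have tF : ∀ (n : V →ₗ[ZMod 3] V) (k : Fin 6), ¬ Iv Q n k → ((some false : Option Bool) = some true → Iv Q n k) ∧
    ((some false : Option Bool) = some false → ¬ Iv Q n k) := fun n k h => ⟨fun h => by simp at h, fun _ => h⟩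
  have hδ1 : (1 : ZMod 3) ≠ 0 := one_ne_zero
  have hδ2 : (2 : ZMod 3) ≠ 0 := by decide
  fin_cases t
  · fin_cases k
    · exact tF _ _ (by rw [show (((fun i ↦ i) ⟨0, _⟩ : Fin 6)) = 0 from rfl, c0]; rintro ⟨v, hv⟩; exact hv (Ja_sq S v))
    · exact tr _ _
    · exact tr _ _
    · exact tr _ _
    · exact tr _ _
    · exact tT _ _ (by rw [show (((fun i ↦ i) ⟨5, _⟩ : Fin 6)) = 5 from rfl, c5]; exact j_inv5 S)
  · fin_cases k
    · exact tT _ _ ((c0 _).symm ▸ k_inv0 S hδ1 (Ka_sq S 1))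
    · exact tT _ _ ((c1 _).symm ▸ k_inv1 S (md_sn S 1) (Ka_sq S 1))
    · exact tF _ _ (fun h => k_inv2 S (md_sn S 1) (Ka_sq S 1) ((c2 _) ▸ h))
    · exact tr _ _
    · exact tF _ _ (fun h => k_inv4 S hδ1 ((c4 _) ▸ h))
    · exact tr _ _
  · fin_cases k
    · exact tT _ _ ((c0 _).symm ▸ k_inv0 S hδ2 (Ka_sq S 2))
    · exact tF _ _ (fun h => k_inv1' S (md_sn S 2) (Ka_sq S 2) ((c1 _) ▸ h))
    · exact tr _ _
    · exact tr _ _
    · exact tF _ _ (fun h => k_inv4 S hδ2 ((c4 _) ▸ h))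
    · exact tr _ _
  · fin_cases k
    · exact tF _ _ (fun h => by
        have h' : Inv Q (Ja Q e + Jb Q e) 0 := (c0 _) ▸ h
        obtain ⟨v, hv⟩ := h'
        exact hv (by rw [add_sq (JJ S), Ja_sq S, Jb_sq S, add_zero]))
    · exact tr _ _
    · exact tr _ _
    · exact tr _ _
    · exact tr _ _
    · exact tF _ _ (fun h => jj_inv5 S ((c5 _) ▸ h))
  · fin_cases k
    · exact tT _ _ ((c0 _).symm ▸ k_inv0 S hδ1 (nj 1))
    · exact tT _ _ ((c1 _).symm ▸ k_inv1 S (md_sn S 4) (nj 1))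
    · exact tF _ _ (fun h => k_inv2 S (md_sn S 4) (nj 1) ((c2 _) ▸ h))
    · exact tr _ _
    · exact tT _ _ ((c4 _).symm ▸ kj_inv4 S)
    · exact tr _ _
  · fin_cases k
    · exact tT _ _ ((c0 _).symm ▸ k_inv0 S hδ2 (nj 2))
    · exact tF _ _ (fun h => k_inv1' S (md_sn S 5) (nj 2) ((c1 _) ▸ h))
    · exact tr _ _
    · exact tr _ _
    · exact tT _ _ ((c4 _).symm ▸ kj_inv4 S)
    · exact tr _ _
  · fin_cases k
    · exact tT _ _ ((c0 _).symm ▸ kk_inv0 S)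
    · exact tT _ _ ((c1 _).symm ▸ kk_inv1 S (md_sn S 6))
    · exact tT _ _ ((c2 _).symm ▸ kk_inv2 S (md_sn S 6))
    · exact tF _ _ (fun h => kk_inv3 S (md_sn S 6) ((c3 _) ▸ h))
    · exact tr _ _
    · exact tr _ _
  · fin_cases k
    · exact tT _ _ ((c0 _).symm ▸ kk_inv0 S)
    · exact tT _ _ ((c1 _).symm ▸ kk_inv1 S (md_sn S 7))
    · exact tT _ _ ((c2 _).symm ▸ kk_inv2' S (md_sn S 7))
    · exact tT _ _ ((c3 _).symm ▸ kk_inv3' S (md_sn S 7))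
    · exact tr _ _
    · exact tr _ _

theorem md_sep8 {t t' : Fin 8} (g : OGrp Q) {s : ZMod 3} (hs : s * s = 1)
    (h : ∀ v, (g : V ≃ₗ[ZMod 3] V) (md Q e f t v) = s • md Q e f t' ((g : V ≃ₗ[ZMod 3] V) v)) : t = t' := by
  by_contra hne
  have h' : ∀ v, ((g⁻¹ : OGrp Q) : V ≃ₗ[ZMod 3] V) (md Q e f t' v)
      = s • md Q e f t (((g⁻¹ : OGrp Q) : V ≃ₗ[ZMod 3] V) v) := by
    intro v
    have h1 := h (((g⁻¹ : OGrp Q) : V ≃ₗ[ZMod 3] V) v)
    rw [coe_apply_inv_self] at h1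
    have h2 := congrArg (fun w => s • ((g⁻¹ : OGrp Q) : V ≃ₗ[ZMod 3] V) w) h1
    simp only [coe_inv_apply_self] at h2
    rw [h2, map_smul, smul_smul, hs, one_smul]
  obtain ⟨k, ⟨h1, h2⟩ | ⟨h1, h2⟩⟩ := tb_sep t t' hne
  · exact (iv_tb S t' k).2 h2 (iv_congr g hs h k ((iv_tb S t k).1 h1))
  · exact (iv_tb S t k).2 h1 (iv_congr g⁻¹ hs h' k ((iv_tb S t' k).1 h2))

theorem md_full8 [FiniteDimensional (ZMod 3) V] {hQ : (polarBilin Q).Nondegenerate} {hR : RGrp Q = ⊤} {t : Fin 8}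
    (h3 : t ≠ 3) (h4 : t ≠ 4) (h5 : t ≠ 5) : Full hQ hR (ex (md_sn S t)) := by
  fin_cases t
  · refine full_refl (a := hw e f 3 1) (b := hw e f 3 2) _ (qh S _ _) (qh S _ _) ?_ ?_
    · change wd Q (e 1) (e 0) _ = 0
      rw [wd_apply, he' S (by decide), he' S (by decide)]; simp
    · change wd Q (e 1) (e 0) _ = 0
      rw [wd_apply, he' S (by decide), he' S (by decide)]; simp
  · exact full_refl (a := hw e f 3 1) (b := hw e f 3 2) _ (qh S _ _) (qh S _ _) (Ka_h3 S _ _) (Ka_h3 S _ _)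
  · exact full_refl (a := hw e f 3 1) (b := hw e f 3 2) _ (qh S _ _) (qh S _ _) (Ka_h3 S _ _) (Ka_h3 S _ _)
  · exact absurd rfl h3
  · exact absurd rfl h4
  · exact absurd rfl h5
  · obtain ⟨v, hv⟩ := kk_inv1 S (md_sn S 6)
    obtain ⟨w, hw⟩ := kk_inv2 S (md_sn S 6)
    exact full_K _ hv hw
  · obtain ⟨v, hv⟩ := kk_inv1 S (md_sn S 7)
    obtain ⟨w, hw⟩ := kk_inv2' S (md_sn S 7)
    exact full_K _ hv hw

end

end Cfsg.Agent.H42.Oct
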