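import Cfsg.Agent.H42.OctC
import Cfsg.Agent.Orth.Levi

set_option autoImplicit false

/-!
The normalizers of the models with a small centralizer.
-/

namespace Cfsg.Agent.H42.Oct

open QuadraticMap Cfsg.Agent.Orth Matrix Cfsg.Agent.H42.OT

theorem det4 {R : Type*} [CommRing R] (M : Matrix (Fin 4) (Fin 4) R) : M.det =
    M 0 0 * (M 1 1 * M 2 2 * M 3 3 - M 1 1 * M 2 3 * M 3 2 - M 1 2 * M 2 1 * M 3 3 + M 1 2 * M 2 3 * M 3 1
      + M 1 3 * M 2 1 * M 3 2 - M 1 3 * M 2 2 * M 3 1)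
    - M 0 1 * (M 1 0 * M 2 2 * M 3 3 - M 1 0 * M 2 3 * M 3 2 - M 1 2 * M 2 0 * M 3 3 + M 1 2 * M 2 3 * M 3 0
      + M 1 3 * M 2 0 * M 3 2 - M 1 3 * M 2 2 * M 3 0)
    + M 0 2 * (M 1 0 * M 2 1 * M 3 3 - M 1 0 * M 2 3 * M 3 1 - M 1 1 * M 2 0 * M 3 3 + M 1 1 * M 2 3 * M 3 0
      + M 1 3 * M 2 0 * M 3 1 - M 1 3 * M 2 1 * M 3 0)
    - M 0 3 * (M 1 0 * M 2 1 * M 3 2 - M 1 0 * M 2 2 * M 3 1 - M 1 1 * M 2 0 * M 3 2 + M 1 1 * M 2 2 * M 3 0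
      + M 1 2 * M 2 0 * M 3 1 - M 1 2 * M 2 1 * M 3 0) := by
  rw [det_succ_row_zero, Fin.sum_univ_four, det_fin_three, det_fin_three, det_fin_three, det_fin_three]
  simp [Matrix.submatrix_apply, Fin.succAbove, Fin.succ, Fin.castSucc]
  ring

theorem pf4 {R : Type*} [CommRing R] (M : Matrix (Fin 4) (Fin 4) R) :
    M.det = (M 0 0 * M 1 1 - M 1 0 * M 0 1 + M 2 0 * M 3 1 - M 3 0 * M 2 1) *
      (M 0 2 * M 1 3 - M 1 2 * M 0 3 + M 2 2 * M 3 3 - M 3 2 * M 2 3)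
      - (M 0 0 * M 1 2 - M 1 0 * M 0 2 + M 2 0 * M 3 2 - M 3 0 * M 2 2) *
      (M 0 1 * M 1 3 - M 1 1 * M 0 3 + M 2 1 * M 3 3 - M 3 1 * M 2 3)
      + (M 0 0 * M 1 3 - M 1 0 * M 0 3 + M 2 0 * M 3 3 - M 3 0 * M 2 3) *
      (M 0 1 * M 1 2 - M 1 1 * M 0 2 + M 2 1 * M 3 2 - M 3 1 * M 2 2) := by
  rw [det4]; ring

section conc

abbrev V8 : Type := Fin 4 ⊕ Fin 4 → ZMod 3
noncomputable abbrev Q8 : QuadraticForm (ZMod 3) V8 := qfPlus 4 (ZMod 3)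
abbrev e8 : Fin 4 → V8 := stdE 4 (ZMod 3)
abbrev f8 : Fin 4 → V8 := stdF 4 (ZMod 3)

theorem std8 : Std8 Q8 e8 f8 where
  hyp := isHyp_plus 4 (ZMod 3)
  sep v h1 h2 := by
    funext i
    rcases i with i | i
    · have := h2 i
      rwa [polar_stdF] at this
    · have := h1 i
      rwa [polar_stdE] at this

theorem hQ8 : (polarBilin Q8).Nondegenerate := qfPlus_nondegenerate 4 (ZMod 3)

theorem hR8 : RGrp Q8 = ⊤ := RGrp_top_of_two hQ8 z3d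

theorem fr8 : Module.finrank (ZMod 3) V8 = 8 := by
  rw [Module.finrank_fintype_fun_eq_card]; rfl

theorem hom_of_cube {V : Type*} [AddCommGroup V] [Module (ZMod 3) V] {Q : QuadraticForm (ZMod 3) V} (φ : OGrp Q →* ℤˣ)
    {y : OGrp Q} (h : y ^ 3 = 1) : φ y = 1 := by
  have h1 : (φ y) ^ 3 = 1 := by rw [← map_pow, h, map_one]
  rcases Int.units_eq_one_or (φ y) with h2 | h2
  · exact h2
  · rw [h2] at h1
    exact absurd h1 (by decide)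

theorem lev {g : OGrp Q8} {M : Matrix (Fin 4) (Fin 4) (ZMod 3)} (hM : M.det ≠ 0)
    (h : ∀ i, (g : V8 ≃ₗ[ZMod 3] V8) (e8 i) = ∑ j, M j i • e8 j) :
    parityHom hQ8 hR8 g = 1 ∧ spinHom hQ8 hR8 g = sqc M.det := by
  obtain ⟨l, l1, l2, l3⟩ := exists_list_levF (F := ZMod 3) z3d hM
  set y : OGrp Q8 := (reflProd Q8 l)⁻¹ * g with hy
  have h1 : ∀ i, (y : V8 ≃ₗ[ZMod 3] V8) (e8 i) = e8 i := by
    intro i
    rw [hy, coe_mul_apply, h i]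
    have h2 : (reflProd Q8 l : V8 ≃ₗ[ZMod 3] V8) (e8 i) = ∑ j, M j i • e8 j := by
      rw [l3, levF]
      funext k
      rcases k with k | k
      · simp [Matrix.mulVec, dotProduct, Pi.single_apply, Finset.sum_apply]
      · simp [Matrix.mulVec, dotProduct, Pi.single_apply, Finset.sum_apply]
    rw [← h2, coe_inv_apply_self]
  have h3 : ∀ v i, polar Q8 ((y : V8 ≃ₗ[ZMod 3] V8) v - v) (e8 i) = 0 := by
    intro v i
    have := OGrp_polar y v (e8 i)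
    rw [h1] at this
    rw [pdl, this, sub_self]
  have h4 : ∀ v, (∀ i, polar Q8 v (e8 i) = 0) → (y : V8 ≃ₗ[ZMod 3] V8) v = v := by
    intro v hv
    have hE := expand std8 v
    simp only [hv, zero_smul, Finset.sum_const_zero, add_zero] at hE
    rw [hE, map_sum]
    exact Finset.sum_congr rfl fun i _ => by rw [map_smul, h1]
  have h5 : y ^ 3 = 1 := by
    obtain ⟨D, hD⟩ : ∃ D : V8 →ₗ[ZMod 3] V8, ∀ v, D v = (y : V8 ≃ₗ[ZMod 3] V8) v - v :=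
      ⟨((y : V8 ≃ₗ[ZMod 3] V8) : V8 →ₗ[ZMod 3] V8) - LinearMap.id, fun v => rfl⟩
    refine OGrp_ext fun v => ?_
    rw [cube_apply (h := y) (D := D) (fun v => by rw [hD]; exact (add_sub_cancel v _).symm)]
    have h6 : D (D v) = 0 := by
      rw [hD (D v), hD v, h4 _ (h3 v), sub_self]
    rw [h6, map_zero, add_zero, coe_one_apply]
  have e1 : g = reflProd Q8 l * y := by rw [hy, mul_inv_cancel_left]
  clear_value y
  clear hy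
  rw [e1, _root_.map_mul, _root_.map_mul, hom_of_cube _ h5, hom_of_cube _ h5, mul_one, mul_one, parityHom_reflProd,
    spinHom_reflProd, l1.neg_one_pow]
  refine ⟨rfl, sqc_eq_of_iff ?_⟩
  obtain ⟨r, hr⟩ := l2
  have hn := nrm_ne_zero Q8 l
  constructor
  · rintro ⟨a, ha⟩
    have ha0 : a ≠ 0 := by rintro rfl; rw [mul_zero] at ha; exact hn ha
    refine ⟨r / a, ?_⟩
    rw [ha] at hr
    field_simp
    rw [pow_two]
    linear_combination hr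
  · rintro ⟨a, ha⟩
    have ha0 : a ≠ 0 := by rintro rfl; rw [mul_zero] at ha; exact hM ha
    refine ⟨r / a, ?_⟩
    rw [ha] at hr
    field_simp
    rw [pow_two]
    linear_combination hr

end conc

/-! ### Normalizers -/

theorem coords {g : OGrp Q8} (h : ∀ i j, polar Q8 ((g : V8 ≃ₗ[ZMod 3] V8) (e8 i)) (e8 j) = 0) (i : Fin 4) :
    (g : V8 ≃ₗ[ZMod 3] V8) (e8 i) = ∑ j, (Matrix.of fun j i => polar Q8 ((g : V8 ≃ₗ[ZMod 3] V8) (e8 i)) (f8 j)) j i • e8 j := by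
  have hE := expand std8 ((g : V8 ≃ₗ[ZMod 3] V8) (e8 i))
  simp only [h, zero_smul, Finset.sum_const_zero, add_zero] at hE
  exact hE

theorem polar_exp (X : V8) {y : V8} (h : ∀ j, polar Q8 y (e8 j) = 0) :
    polar Q8 X y = polar Q8 X (e8 0) * polar Q8 y (f8 0) + polar Q8 X (e8 1) * polar Q8 y (f8 1)
      + polar Q8 X (e8 2) * polar Q8 y (f8 2) + polar Q8 X (e8 3) * polar Q8 y (f8 3) := by
  have hE := expand std8 y
  simp only [h, zero_smul, Finset.sum_const_zero, add_zero] at hE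
  conv_lhs => rw [hE]
  rw [psumr, Fin.sum_univ_four, psr, psr, psr, psr]
  ring

theorem norm_JJ {g : OGrp Q8} {s : ZMod 3} (hs : s = 1 ∨ s = -1)
    (h : ∀ v, (g : V8 ≃ₗ[ZMod 3] V8) (md Q8 e8 f8 3 v) = s • md Q8 e8 f8 3 ((g : V8 ≃ₗ[ZMod 3] V8) v)) :
    parityHom hQ8 hR8 g = 1 ∧ spinHom hQ8 hR8 g = 1 := by
  have S := std8
  have hss : s * s = 1 := by rcases hs with rfl | rfl <;> decide
  have h' : ∀ v, (Ja Q8 e8 + Jb Q8 e8) ((g : V8 ≃ₗ[ZMod 3] V8) v) = s • (g : V8 ≃ₗ[ZMod 3] V8) ((Ja Q8 e8 + Jb Q8 e8) v) := by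
    intro v
    have := h v
    change (g : V8 ≃ₗ[ZMod 3] V8) ((Ja Q8 e8 + Jb Q8 e8) v) = s • (Ja Q8 e8 + Jb Q8 e8) ((g : V8 ≃ₗ[ZMod 3] V8) v) at this
    rw [this, smul_smul, hss, one_smul]
  have he : ∀ i j, polar Q8 ((g : V8 ≃ₗ[ZMod 3] V8) (e8 i)) (e8 j) = 0 := by
    intro i
    refine jj_zero S ?_
    rw [h', LinearMap.add_apply, (Ja_v S).2.2.2.2, (Jb_v S).2.2.2.2, add_zero, map_zero, smul_zero]
  set M : Matrix (Fin 4) (Fin 4) (ZMod 3) := Matrix.of fun j i => polar Q8 ((g : V8 ≃ₗ[ZMod 3] V8) (e8 i)) (f8 j) with hM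
  have hMa : ∀ j i, M j i = polar Q8 ((g : V8 ≃ₗ[ZMod 3] V8) (e8 i)) (f8 j) := fun j i => rfl
  -- the form
  have key : ∀ (X : V8) (i j : Fin 4), (Ja Q8 e8 + Jb Q8 e8) X = (g : V8 ≃ₗ[ZMod 3] V8) (e8 i) →
      M 0 i * M 1 j - M 1 i * M 0 j + M 2 i * M 3 j - M 3 i * M 2 j = polar Q8 X ((g : V8 ≃ₗ[ZMod 3] V8) (e8 j)) := by
    intro X i j hX
    rw [polar_exp X (he j)]
    simp only [hMa]
    rw [← hX]
    simp [wd_apply, pal, pdl, psl, S.hyp.ef]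
    ring
  have hg : ∀ i j, polar Q8 ((g : V8 ≃ₗ[ZMod 3] V8) (f8 i)) ((g : V8 ≃ₗ[ZMod 3] V8) (e8 j)) = if i = j then 1 else 0 := by
    intro i j
    rw [OGrp_polar, S.hyp.fe]
  have x0 : (Ja Q8 e8 + Jb Q8 e8) (s • (g : V8 ≃ₗ[ZMod 3] V8) (f8 1)) = (g : V8 ≃ₗ[ZMod 3] V8) (e8 0) := by
    rw [map_smul, h', LinearMap.add_apply, (Ja_v S).2.1, (Jb_v S).2.2.2.1, add_zero, smul_smul, hss, one_smul]
  have x1 : (Ja Q8 e8 + Jb Q8 e8) (-s • (g : V8 ≃ₗ[ZMod 3] V8) (f8 0)) = (g : V8 ≃ₗ[ZMod 3] V8) (e8 1) := by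
    rw [map_smul, h', LinearMap.add_apply, (Ja_v S).1, (Jb_v S).2.2.1, add_zero, smul_smul, neg_mul, hss, map_neg,
      neg_one_smul, neg_neg]
  have x2 : (Ja Q8 e8 + Jb Q8 e8) (s • (g : V8 ≃ₗ[ZMod 3] V8) (f8 3)) = (g : V8 ≃ₗ[ZMod 3] V8) (e8 2) := by
    rw [map_smul, h', LinearMap.add_apply, (Ja_v S).2.2.2.1, (Jb_v S).2.1, zero_add, smul_smul, hss, one_smul]
  have hdet : M.det = 1 := by
    rw [pf4 M, key _ 0 1 x0, key _ 2 3 x2, key _ 0 2 x0, key _ 1 3 x1, key _ 0 3 x0, key _ 1 2 x1]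
    simp only [psl, hg]
    simp [hss]
  have := lev (g := g) (M := M) (by rw [hdet]; exact one_ne_zero) (coords he)
  rw [hdet, sqc1] at this
  exact this

theorem Kn (δ : ZMod 3) (X : V8) :
    polar Q8 ((Ka Q8 e8 f8 δ + Jb Q8 e8) X) (f8 0) = - polar Q8 X (hw e8 f8 1 δ) ∧
    polar Q8 ((Ka Q8 e8 f8 δ + Jb Q8 e8) X) (f8 1) = polar Q8 X (e8 0) ∧
    polar Q8 ((Ka Q8 e8 f8 δ + Jb Q8 e8) X) (f8 2) = polar Q8 X (e8 3) ∧
    polar Q8 ((Ka Q8 e8 f8 δ + Jb Q8 e8) X) (f8 3) = - polar Q8 X (e8 2) ∧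
    polar Q8 ((Ka Q8 e8 f8 δ + Jb Q8 e8) X) (e8 0) = 0 ∧
    polar Q8 ((Ka Q8 e8 f8 δ + Jb Q8 e8) X) (e8 1) = δ * polar Q8 X (e8 0) ∧
    polar Q8 ((Ka Q8 e8 f8 δ + Jb Q8 e8) X) (e8 2) = 0 ∧
    polar Q8 ((Ka Q8 e8 f8 δ + Jb Q8 e8) X) (e8 3) = 0 := by
  have S := std8
  have h0 : polar Q8 (hw e8 f8 1 δ) (f8 1) = 1 := by
    rw [hw, pal, psl, S.hyp.ef, S.hyp.ff]; simp
  have h1 : polar Q8 (hw e8 f8 1 δ) (e8 1) = δ := by
    rw [hw, pal, psl, S.hyp.ee, S.hyp.fe]; simp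
  simp only [LinearMap.add_apply, wd_apply, pal, pdl, psl, S.hyp.ef, S.hyp.ee, h0, h1,
    hf' S (show (0 : Fin 4) ≠ 1 by decide), hf' S (show (2 : Fin 4) ≠ 1 by decide), hf' S (show (3 : Fin 4) ≠ 1 by decide),
    he' S (show (0 : Fin 4) ≠ 1 by decide), he' S (show (2 : Fin 4) ≠ 1 by decide), he' S (show (3 : Fin 4) ≠ 1 by decide)]
  simp
  ring

theorem pH (X : V8) (δ : ZMod 3) : polar Q8 X (hw e8 f8 1 δ) = polar Q8 X (e8 1) + δ * polar Q8 X (f8 1) := by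
  rw [hw, par, psr]

theorem zsq : ∀ a : ZMod 3, a ≠ 0 → a * a = 1 := by decide

section KJ

variable {δ : ZMod 3} (hδ : δ ≠ 0) {g : OGrp Q8} {s : ZMod 3} (hss : s * s = 1)
  (h' : ∀ v, (Ka Q8 e8 f8 δ + Jb Q8 e8) ((g : V8 ≃ₗ[ZMod 3] V8) v) = s • (g : V8 ≃ₗ[ZMod 3] V8) ((Ka Q8 e8 f8 δ + Jb Q8 e8) v))
include hδ hss h'

theorem ge0 : (g : V8 ≃ₗ[ZMod 3] V8) (e8 0) = polar Q8 ((g : V8 ≃ₗ[ZMod 3] V8) (f8 0)) (e8 0) • e8 0 := by
  have S := std8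
  have nj : ∀ (v : V8), (Ka Q8 e8 f8 δ + Jb Q8 e8) ((Ka Q8 e8 f8 δ + Jb Q8 e8) v) = (δ * polar Q8 v (e8 0)) • e8 0 := fun v => by
    rw [add_sq (KJ S δ), Ka_sq S, Jb_sq S, add_zero]
  have h1 := nj ((g : V8 ≃ₗ[ZMod 3] V8) (f8 0))
  rw [h', map_smul, h', smul_smul, hss, one_smul, nj, S.hyp.fe, if_pos rfl, mul_one, map_smul] at h1
  have h2 := congrArg (fun w => δ • w) h1
  simp only [smul_smul, dsq δ hδ, one_smul, ← mul_assoc, one_mul] at h2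
  exact h2

theorem eps_ne : polar Q8 ((g : V8 ≃ₗ[ZMod 3] V8) (f8 0)) (e8 0) ≠ 0 := by
  intro h
  have h1 := ge0 hδ hss h'
  rw [h, zero_smul] at h1
  exact e_ne std8 0 (by simpa using h1)

theorem ge0' (v : V8) : polar Q8 ((g : V8 ≃ₗ[ZMod 3] V8) v) (e8 0)
    = polar Q8 ((g : V8 ≃ₗ[ZMod 3] V8) (f8 0)) (e8 0) * polar Q8 v (e8 0) := by
  have h1 := OGrp_polar g v (e8 0)
  have h2 := zsq _ (eps_ne hδ hss h')
  rw [ge0 hδ hss h', psr] at h1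
  rw [← h1, ← mul_assoc, h2, one_mul]

theorem norm_KJ1 (hη : polar Q8 ((g : V8 ≃ₗ[ZMod 3] V8) (hw e8 f8 1 (-δ))) (f8 1)
      = s * polar Q8 ((g : V8 ≃ₗ[ZMod 3] V8) (f8 0)) (e8 0)) :
    parityHom hQ8 hR8 g = 1 ∧ spinHom hQ8 hR8 g = 1 := by
  have S := std8
  set ε := polar Q8 ((g : V8 ≃ₗ[ZMod 3] V8) (f8 0)) (e8 0) with hε
  have hεε : ε * ε = 1 := zsq _ (eps_ne hδ hss h')
  have x2 : (Ka Q8 e8 f8 δ + Jb Q8 e8) (s • (g : V8 ≃ₗ[ZMod 3] V8) (f8 3)) = (g : V8 ≃ₗ[ZMod 3] V8) (e8 2) := by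
    rw [map_smul, h', LinearMap.add_apply, (Ka_v S δ).2.2.1, (Jb_v S).2.1, zero_add, smul_smul, hss, one_smul]
  have x3 : (Ka Q8 e8 f8 δ + Jb Q8 e8) (-s • (g : V8 ≃ₗ[ZMod 3] V8) (f8 2)) = (g : V8 ≃ₗ[ZMod 3] V8) (e8 3) := by
    rw [map_smul, h', LinearMap.add_apply, (Ka_v S δ).2.1, (Jb_v S).1, zero_add, smul_smul, neg_mul, hss, map_neg,
      neg_one_smul, neg_neg]
  have xh : (Ka Q8 e8 f8 δ + Jb Q8 e8) (s • (g : V8 ≃ₗ[ZMod 3] V8) (f8 0)) = (g : V8 ≃ₗ[ZMod 3] V8) (hw e8 f8 1 δ) := by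
    rw [map_smul, h', LinearMap.add_apply, (Ka_v S δ).1, (Jb_v S).2.2.1, add_zero, smul_smul, hss, one_smul]
  have xu : (Ka Q8 e8 f8 δ + Jb Q8 e8) ((g : V8 ≃ₗ[ZMod 3] V8) (hw e8 f8 1 (-δ))) = 0 := by
    have : (Ka Q8 e8 f8 δ + Jb Q8 e8) (hw e8 f8 1 (-δ)) = 0 := by
      rw [LinearMap.add_apply, Jb_h S, add_zero, wd_apply, he' S (by decide)]
      have : polar Q8 (hw e8 f8 1 (-δ)) (hw e8 f8 1 δ) = 0 := by
        simp only [hw, pal, par, psl, psr, S.hyp.ee, S.hyp.ef, S.hyp.fe, S.hyp.ff]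
        simp
      rw [this]; simp
    rw [h', this, map_zero, smul_zero]
  have f30 : polar Q8 ((g : V8 ≃ₗ[ZMod 3] V8) (f8 3)) (e8 0) = 0 := by
    rw [ge0' hδ hss h', S.hyp.fe, if_neg (by decide), mul_zero]
  have f20 : polar Q8 ((g : V8 ≃ₗ[ZMod 3] V8) (f8 2)) (e8 0) = 0 := by
    rw [ge0' hδ hss h', S.hyp.fe, if_neg (by decide), mul_zero]
  obtain ⟨-, a1, a2, a3, a4, a5, a6, a7⟩ := Kn δ (s • (g : V8 ≃ₗ[ZMod 3] V8) (f8 3))
  obtain ⟨-, b1, b2, b3, b4, b5, b6, b7⟩ := Kn δ (-s • (g : V8 ≃ₗ[ZMod 3] V8) (f8 2))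
  obtain ⟨-, c1, c2, c3, c4, c5, c6, c7⟩ := Kn δ (s • (g : V8 ≃ₗ[ZMod 3] V8) (f8 0))
  obtain ⟨d0, d1, d2, d3, -, -, -, -⟩ := Kn δ ((g : V8 ≃ₗ[ZMod 3] V8) (hw e8 f8 1 (-δ)))
  rw [x2] at a1 a2 a3 a4 a5 a6 a7
  rw [x3] at b1 b2 b3 b4 b5 b6 b7
  rw [xh] at c1 c2 c3 c4 c5 c6 c7
  rw [xu, polar_zero_left] at d0 d1 d2 d3
  rw [psl, f30, mul_zero] at a1 a5
  rw [psl, f20, mul_zero] at b1 b5
  rw [psl, ← hε] at c1 c5
  rw [mul_zero] at a5 b5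
  -- the vector `e 1`
  have he1 : (g : V8 ≃ₗ[ZMod 3] V8) (e8 1) = -((g : V8 ≃ₗ[ZMod 3] V8) (hw e8 f8 1 δ) + (g : V8 ≃ₗ[ZMod 3] V8) (hw e8 f8 1 (-δ))) := by
    rw [← map_add, ← map_neg]
    congr 1
    rw [hw, hw]
    have h3 := three_smul' (e8 1)
    linear_combination (norm := module) h3
  have hxe1 : polar Q8 ((g : V8 ≃ₗ[ZMod 3] V8) (hw e8 f8 1 (-δ))) (e8 1) = -(δ * (s * ε)) := by
    rw [eq_comm, neg_eq_zero] at d0
    rw [pH, hη] at d0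
    linear_combination d0
  have g10 : polar Q8 ((g : V8 ≃ₗ[ZMod 3] V8) (e8 1)) (e8 0) = 0 := by
    rw [he1, polar_neg_left, pal, c4, ← d1, add_zero, neg_zero]
  have g11 : polar Q8 ((g : V8 ≃ₗ[ZMod 3] V8) (e8 1)) (e8 1) = 0 := by
    rw [he1, polar_neg_left, pal, c5, hxe1]; ring
  have g12 : polar Q8 ((g : V8 ≃ₗ[ZMod 3] V8) (e8 1)) (e8 2) = 0 := by
    rw [he1, polar_neg_left, pal, c6, zero_add]; exact d3.symm
  have g13 : polar Q8 ((g : V8 ≃ₗ[ZMod 3] V8) (e8 1)) (e8 3) = 0 := by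
    rw [he1, polar_neg_left, pal, c7, ← d2, add_zero, neg_zero]
  have hM11 : polar Q8 ((g : V8 ≃ₗ[ZMod 3] V8) (e8 1)) (f8 1) = s * ε := by
    rw [he1, polar_neg_left, pal, c1, hη]
    have : ∀ a : ZMod 3, -(a + a) = a := by decide
    exact this _
  have hge0 := ge0 hδ hss h'
  rw [← hε] at hge0
  have he : ∀ i j, polar Q8 ((g : V8 ≃ₗ[ZMod 3] V8) (e8 i)) (e8 j) = 0 := by
    intro i j
    fin_cases i
    · change polar Q8 ((g : V8 ≃ₗ[ZMod 3] V8) (e8 0)) (e8 j) = 0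
      rw [hge0, psl, S.hyp.ee, mul_zero]
    · fin_cases j
      · exact g10
      · exact g11
      · exact g12
      · exact g13
    · fin_cases j
      · exact a4
      · exact a5
      · exact a6
      · exact a7
    · fin_cases j
      · exact b4
      · exact b5
      · exact b6
      · exact b7
  set M : Matrix (Fin 4) (Fin 4) (ZMod 3) := Matrix.of fun j i => polar Q8 ((g : V8 ≃ₗ[ZMod 3] V8) (e8 i)) (f8 j) with hM
  have hMa : ∀ j i, M j i = polar Q8 ((g : V8 ≃ₗ[ZMod 3] V8) (e8 i)) (f8 j) := fun j i => rfl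
  have hp : M 2 2 * M 3 3 - M 2 3 * M 3 2 = s := by
    have h1 := polar_exp (s • (g : V8 ≃ₗ[ZMod 3] V8) (f8 3)) (y := (g : V8 ≃ₗ[ZMod 3] V8) (e8 3)) (he 3)
    have h2 : polar Q8 (s • (g : V8 ≃ₗ[ZMod 3] V8) (f8 3)) ((g : V8 ≃ₗ[ZMod 3] V8) (e8 3)) = s := by
      rw [psl, OGrp_polar, S.hyp.fe, if_pos rfl, mul_one]
    rw [h2, ← hMa, ← hMa, ← hMa, ← hMa] at h1
    have h3 : polar Q8 (s • (g : V8 ≃ₗ[ZMod 3] V8) (f8 3)) (e8 0) = 0 := by rw [psl, f30, mul_zero]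
    have h4 : M 1 3 = 0 := b1
    have h5 : M 2 2 = polar Q8 (s • (g : V8 ≃ₗ[ZMod 3] V8) (f8 3)) (e8 3) := a2
    have h6 : M 3 2 = - polar Q8 (s • (g : V8 ≃ₗ[ZMod 3] V8) (f8 3)) (e8 2) := a3
    rw [h3, h4] at h1
    rw [h5, h6]
    linear_combination -h1
  have hdet : M.det = 1 := by
    have m00 : M 0 0 = ε := by rw [hMa, hge0, psl, S.hyp.ef, if_pos rfl, mul_one]
    have m10 : M 1 0 = 0 := by rw [hMa, hge0, psl, S.hyp.ef, if_neg (by decide), mul_zero]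
    have m20 : M 2 0 = 0 := by rw [hMa, hge0, psl, S.hyp.ef, if_neg (by decide), mul_zero]
    have m30 : M 3 0 = 0 := by rw [hMa, hge0, psl, S.hyp.ef, if_neg (by decide), mul_zero]
    have m11 : M 1 1 = s * ε := hM11
    have m12 : M 1 2 = 0 := a1
    have m13 : M 1 3 = 0 := b1
    rw [det4, m00, m10, m20, m30, m11, m12, m13]
    linear_combination (ε * (s * ε)) * hp + (s * s) * hεε + hss
  have := lev (g := g) (M := M) (by rw [hdet]; exact one_ne_zero) (coords he)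
  rw [hdet, sqc1] at this
  exact this

theorem norm_KJ2 : (parityHom hQ8 hR8 g = 1 ∧ spinHom hQ8 hR8 g = 1) ∨
    (parityHom hQ8 hR8 g = -1 ∧ spinHom hQ8 hR8 g = sqc (-δ)) := by
  have S := std8
  have hs0 : s ≠ 0 := by rintro rfl; rw [mul_zero] at hss; exact zero_ne_one hss
  have hε0 := eps_ne hδ hss h'
  have hu : (Ka Q8 e8 f8 δ + Jb Q8 e8) (hw e8 f8 1 (-δ)) = 0 := by
    rw [LinearMap.add_apply, Jb_h S, add_zero, wd_apply, he' S (by decide)]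
    have : polar Q8 (hw e8 f8 1 (-δ)) (hw e8 f8 1 δ) = 0 := by
      simp only [hw, pal, par, psl, psr, S.hyp.ee, S.hyp.ef, S.hyp.fe, S.hyp.ff]
      simp
    rw [this]; simp
  have hQu : Q8 (hw e8 f8 1 (-δ)) = -δ := qh S _ _
  have hQu0 : Q8 (hw e8 f8 1 (-δ)) ≠ 0 := by rw [hQu]; exact neg_ne_zero.2 hδ
  have hη0 : polar Q8 ((g : V8 ≃ₗ[ZMod 3] V8) (hw e8 f8 1 (-δ))) (f8 1) ≠ 0 := by
    intro h0
    have xu : (Ka Q8 e8 f8 δ + Jb Q8 e8) ((g : V8 ≃ₗ[ZMod 3] V8) (hw e8 f8 1 (-δ))) = 0 := by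
      rw [h', hu, map_zero, smul_zero]
    obtain ⟨d0, d1, d2, d3, -, -, -, -⟩ := Kn δ ((g : V8 ≃ₗ[ZMod 3] V8) (hw e8 f8 1 (-δ)))
    rw [xu, polar_zero_left] at d0 d1 d2 d3
    rw [eq_comm, neg_eq_zero] at d0
    rw [pH, h0, mul_zero, add_zero] at d0
    have hall : ∀ j, polar Q8 ((g : V8 ≃ₗ[ZMod 3] V8) (hw e8 f8 1 (-δ))) (e8 j) = 0 := by
      intro j
      fin_cases j
      · exact d1.symm
      · exact d0
      · rw [eq_comm, neg_eq_zero] at d3; exact d3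
      · exact d2.symm
    have h3 := polar_exp ((g : V8 ≃ₗ[ZMod 3] V8) (hw e8 f8 1 (-δ))) hall
    rw [hall, hall, hall, hall, pself, OGrp_q, hQu] at h3
    simp at h3
    rcases h3 with h3 | h3
    · exact absurd h3 (by decide)
    · exact hδ h3
  have hor : ∀ a b c : ZMod 3, a ≠ 0 → b ≠ 0 → c ≠ 0 → a = b * c ∨ -a = b * c := by decide
  rcases hor _ _ _ hη0 hs0 hε0 with h1 | h1
  · exact Or.inl (norm_KJ1 hδ hss h' h1)
  right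
  set r : OGrp Q8 := refl Q8 _ hQu0 with hr
  have hn : SN Q8 (Ka Q8 e8 f8 δ + Jb Q8 e8) :=
    ⟨add_skew (wd_skew _ _) (wd_skew _ _), add_cube (KJ S _) (Ka_cube S _) (fun v => Jb_sq S _)⟩
  have hrn : ∀ v, (Ka Q8 e8 f8 δ + Jb Q8 e8) ((r : V8 ≃ₗ[ZMod 3] V8) v) = (r : V8 ≃ₗ[ZMod 3] V8) ((Ka Q8 e8 f8 δ + Jb Q8 e8) v) := by
    intro v
    rw [hr, refl_apply, refl_apply, map_sub, map_smul, hu, smul_zero, hn.skew, hu, polar_zero_right, neg_zero,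
      mul_zero, zero_smul]
  have h2 := norm_KJ1 (g := g * r) hδ hss (fun v => by
    rw [coe_mul_apply, coe_mul_apply, h', hrn]) (by
    rw [coe_mul_apply, coe_mul_apply]
    have r1 : (r : V8 ≃ₗ[ZMod 3] V8) (hw e8 f8 1 (-δ)) = - hw e8 f8 1 (-δ) := by
      rw [hr, refl_apply, pself, mul_comm 2, inv_mul_cancel_left₀ hQu0]
      module
    have r2 : (r : V8 ≃ₗ[ZMod 3] V8) (f8 0) = f8 0 := by
      rw [hr, refl_apply, hf std8 (by decide)]; simp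
    rw [r1, r2, map_neg, polar_neg_left, h1])
  rw [_root_.map_mul, _root_.map_mul, hr, parityHom_refl, spinHom_refl, hQu] at h2
  obtain ⟨h3, h4⟩ := h2
  constructor
  · rcases Int.units_eq_one_or (parityHom hQ8 hR8 g) with h5 | h5
    · rw [h5] at h3; exact absurd h3 (by decide)
    · exact h5
  · rcases Int.units_eq_one_or (sqc (-δ)) with h5 | h5
    · rw [h5, mul_one] at h4; rw [h4, h5]
    · rw [h5] at h4 ⊢
      rcases Int.units_eq_one_or (spinHom hQ8 hR8 g) with h6 | h6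
      · rw [h6] at h4; exact absurd h4 (by decide)
      · exact h6

end KJ

end Cfsg.Agent.H42.Oct
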