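import Cfsg.Agent.H42.OctD

set_option autoImplicit false

/-!
The thirteen classes of elements of order three.
-/

namespace Cfsg.Agent.H42.Oct

open QuadraticMap Cfsg.Agent.Orth Matrix Cfsg.Agent.H42.OT

/-- parity and spinor norm -/
noncomputable def hm : OGrp Q8 →* ℤˣ × ℤˣ := (parityHom hQ8 hR8).prod (spinHom hQ8 hR8)

theorem hm_apply (g : OGrp Q8) : hm g = (parityHom hQ8 hR8 g, spinHom hQ8 hR8 g) := rfl

theorem mem_comm {g : OGrp Q8} : g ∈ commutator (OGrp Q8) ↔ hm g = 1 := by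
  rw [mem_commutator_iff_homs hQ8 hR8, hm_apply, Prod.mk_eq_one]

/-- The image of the normalizer. -/
def St (t : Fin 8) (a : ℤˣ × ℤˣ) : Prop :=
  (t = 3 → a = 1) ∧ (t = 4 → a = 1 ∨ a = (-1, -1)) ∧ (t = 5 → a = 1 ∨ a = (-1, 1))

instance (t : Fin 8) (a : ℤˣ × ℤˣ) : Decidable (St t a) := by unfold St; infer_instance

def ty : Fin 13 → Fin 8 := ![0, 1, 2, 6, 7, 4, 4, 5, 5, 3, 3, 3, 3]
def co : Fin 13 → ℤˣ × ℤˣ := ![1, 1, 1, 1, 1, 1, (-1, 1), 1, (-1, -1), 1, (-1, 1), (-1, -1), (1, -1)]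

def E (i : Fin 13) (a : ℤˣ × ℤˣ) (j : Fin 13) : Prop := ty i = ty j ∧ St (ty i) (a * co i * co j)

instance (i : Fin 13) (a : ℤˣ × ℤˣ) (j : Fin 13) : Decidable (E i a j) := by unfold E; infer_instance

theorem D1 : ∀ (t : Fin 8) (a : ℤˣ × ℤˣ), ∃ i, ty i = t ∧ St t (co i * a) := by decide
theorem D2 : ∀ (i : Fin 13) (a : ℤˣ × ℤˣ), ∃ j, E i a j := by decide
theorem D3 : ∀ (i : Fin 13) (a : ℤˣ × ℤˣ) (j j' : Fin 13), E i a j → E i a j' → j = j' := by decide +kernel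
theorem D4 : ∀ a : ℤˣ × ℤˣ, a * a = 1 := by decide

/-- The eight elements. -/
noncomputable def y8 (t : Fin 8) : OGrp Q8 := ex (md_sn std8 t)

theorem y8_cube (t : Fin 8) : (y8 t) ^ 3 = 1 := ex_cube _

theorem y8_nn (t : Fin 8) (v : V8) : nn (y8 t) v = md Q8 e8 f8 t v := nn_ex _ _

theorem y8_ne (t : Fin 8) : y8 t ≠ 1 := by
  have S := std8
  have h : ∃ v, md Q8 e8 f8 t v ≠ 0 := by
    fin_cases t
    · refine ⟨f8 1, ?_⟩
      change Ja Q8 e8 (f8 1) ≠ 0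
      rw [(Ja_v S).2.1]; exact e_ne S _
    · obtain ⟨v, hv⟩ := k_inv0 S (δ := 1) (by decide) (Ka_sq S 1)
      exact ⟨_, hv⟩
    · obtain ⟨v, hv⟩ := k_inv0 S (δ := 2) (by decide) (Ka_sq S 2)
      exact ⟨_, hv⟩
    · refine ⟨f8 1, ?_⟩
      change (Ja Q8 e8 + Jb Q8 e8) (f8 1) ≠ 0
      rw [LinearMap.add_apply, (Ja_v S).2.1, (Jb_v S).2.2.2.1, add_zero]; exact e_ne S _
    · refine ⟨f8 3, ?_⟩
      change (Ka Q8 e8 f8 1 + Jb Q8 e8) (f8 3) ≠ 0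
      rw [LinearMap.add_apply, (Ka_v S 1).2.2.1, (Jb_v S).2.1, zero_add]; exact e_ne S _
    · refine ⟨f8 3, ?_⟩
      change (Ka Q8 e8 f8 2 + Jb Q8 e8) (f8 3) ≠ 0
      rw [LinearMap.add_apply, (Ka_v S 2).2.2.1, (Jb_v S).2.1, zero_add]; exact e_ne S _
    · obtain ⟨v, hv⟩ := kk_inv0 S (δ := 1)
      exact ⟨_, hv⟩
    · obtain ⟨v, hv⟩ := kk_inv0 S (δ := 2)
      exact ⟨_, hv⟩
  obtain ⟨v, hv⟩ := h
  exact ex_ne _ hv

theorem rel8 {t t' : Fin 8} {g : OGrp Q8}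
    (h : g * y8 t * g⁻¹ = y8 t' ∨ g * y8 t * g⁻¹ = (y8 t')⁻¹) : t = t' ∧ St t (hm g) := by
  obtain ⟨s, hs, hs'⟩ : ∃ s : ZMod 3, (s = 1 ∨ s = -1) ∧ ∀ v, (g : V8 ≃ₗ[ZMod 3] V8) (md Q8 e8 f8 t v)
      = s • md Q8 e8 f8 t' ((g : V8 ≃ₗ[ZMod 3] V8) v) := by
    rcases h with h | h
    · refine ⟨1, Or.inl rfl, fun v => ?_⟩
      rw [← y8_nn t, ← nn_conj, h, y8_nn, one_smul]
    · refine ⟨-1, Or.inr rfl, fun v => ?_⟩
      rw [← y8_nn t, ← nn_conj, h, nn_inv, y8_nn, neg_one_smul]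
  have hss : s * s = 1 := by rcases hs with rfl | rfl <;> decide
  have h1 : t = t' := md_sep8 std8 g hss hs'
  subst h1
  refine ⟨rfl, ?_, ?_, ?_⟩
  · rintro rfl
    obtain ⟨h1, h2⟩ := norm_JJ hs hs'
    rw [hm_apply, h1, h2]; rfl
  · rintro rfl
    have h2 : ∀ v, (Ka Q8 e8 f8 1 + Jb Q8 e8) ((g : V8 ≃ₗ[ZMod 3] V8) v) = s • (g : V8 ≃ₗ[ZMod 3] V8) ((Ka Q8 e8 f8 1 + Jb Q8 e8) v) := by
      intro v
      have := hs' v
      change (g : V8 ≃ₗ[ZMod 3] V8) ((Ka Q8 e8 f8 1 + Jb Q8 e8) v) = s • (Ka Q8 e8 f8 1 + Jb Q8 e8) ((g : V8 ≃ₗ[ZMod 3] V8) v) at this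
      rw [this, smul_smul, hss, one_smul]
    rw [hm_apply]
    rcases norm_KJ2 (δ := 1) (by decide) hss h2 with ⟨h3, h4⟩ | ⟨h3, h4⟩
    · left; rw [h3, h4]; rfl
    · right; rw [h3, h4, show (-1 : ZMod 3) = 2 by decide, sqc2]
  · rintro rfl
    have h2 : ∀ v, (Ka Q8 e8 f8 2 + Jb Q8 e8) ((g : V8 ≃ₗ[ZMod 3] V8) v) = s • (g : V8 ≃ₗ[ZMod 3] V8) ((Ka Q8 e8 f8 2 + Jb Q8 e8) v) := by
      intro v
      have := hs' v
      change (g : V8 ≃ₗ[ZMod 3] V8) ((Ka Q8 e8 f8 2 + Jb Q8 e8) v) = s • (Ka Q8 e8 f8 2 + Jb Q8 e8) ((g : V8 ≃ₗ[ZMod 3] V8) v) at this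
      rw [this, smul_smul, hss, one_smul]
    rw [hm_apply]
    rcases norm_KJ2 (δ := 2) (by decide) hss h2 with ⟨h3, h4⟩ | ⟨h3, h4⟩
    · left; rw [h3, h4]; rfl
    · right; rw [h3, h4, show (-2 : ZMod 3) = 1 by decide, sqc1]

theorem hu0 (δ : ZMod 3) : (Ka Q8 e8 f8 δ + Jb Q8 e8) (hw e8 f8 1 (-δ)) = 0 := by
  have S := std8
  rw [LinearMap.add_apply, Jb_h S, add_zero, wd_apply, he' S (by decide)]
  have : polar Q8 (hw e8 f8 1 (-δ)) (hw e8 f8 1 δ) = 0 := by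
    simp only [hw, pal, par, psl, psr, S.hyp.ee, S.hyp.ef, S.hyp.fe, S.hyp.ff]
    simp
  rw [this]; simp

theorem full8 (t : Fin 8) (a : ℤˣ × ℤˣ) (h : St t a) : ∃ c : OGrp Q8, c * y8 t = y8 t * c ∧ hm c = a := by
  have h1 : a = 1 → ∃ c : OGrp Q8, c * y8 t = y8 t * c ∧ hm c = a := by
    rintro rfl
    exact ⟨1, by simp, _root_.map_one _⟩
  by_cases h3 : t = 3
  · exact h1 (h.1 h3)
  by_cases h4 : t = 4
  · rcases h.2.1 h4 with h5 | h5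
    · exact h1 h5
    subst h4 h5
    have hq : Q8 (hw e8 f8 1 (-1)) = -1 := qh std8 _ _
    have hq0 : Q8 (hw e8 f8 1 (-1)) ≠ 0 := by rw [hq]; decide
    refine ⟨refl Q8 _ hq0, refl_comm _ hq0 (hu0 1), ?_⟩
    rw [hm_apply, parityHom_refl, spinHom_refl, hq, show (-1 : ZMod 3) = 2 by decide, sqc2]
  by_cases h5 : t = 5
  · rcases h.2.2 h5 with h6 | h6
    · exact h1 h6
    subst h5 h6
    have hq : Q8 (hw e8 f8 1 (-2)) = -2 := qh std8 _ _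
    have hq0 : Q8 (hw e8 f8 1 (-2)) ≠ 0 := by rw [hq]; decide
    refine ⟨refl Q8 _ hq0, refl_comm _ hq0 (hu0 2), ?_⟩
    rw [hm_apply, parityHom_refl, spinHom_refl, hq, show (-2 : ZMod 3) = 1 by decide, sqc1]
  · obtain ⟨c, hc, h6, h7⟩ := md_full8 std8 (hQ := hQ8) (hR := hR8) h3 h4 h5 a.1 a.2
    exact ⟨c, hc, by rw [hm_apply, h6, h7]⟩

theorem exists_type8 {x : OGrp Q8} (hx : x ^ 3 = 1) (hx1 : x ≠ 1) : ∃ t, ∃ g : OGrp Q8, g * x * g⁻¹ = y8 t := by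
  have S := std8
  have hn : SN Q8 (nn x) := sn_nn hx
  obtain ⟨v, hv⟩ : ∃ v, nn x v ≠ 0 := by
    by_contra hcon
    push Not at hcon
    exact hx1 (eq_one_of_nn hx hcon)
  have key : ∀ (t : Fin 8) {ι : Type} [Fintype ι] [DecidableEq ι] {G A : Matrix ι ι (ZMod 3)},
      NF Q8 (nn x) G A → NF Q8 (md Q8 e8 f8 t) G A → ∃ t, ∃ g : OGrp Q8, g * x * g⁻¹ = y8 t := by
    intro t ι _ _ G A h1 h2
    obtain ⟨u, hu, hu'⟩ := h1
    obtain ⟨w, hw, hw'⟩ := h2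
    obtain ⟨g, hg⟩ := hu.conj hQ8 hw hu' hw'
    exact ⟨t, g, conj_of hx (y8_cube t) g fun v => by rw [hg, y8_nn]⟩
  rcases classify8 hQ8 fr8 hn hv with h | h | h | h | h | h | h | h
  · exact key 0 h (nf0 S)
  · exact key 1 h (nfK S one_ne_zero (md_sn S 1))
  · exact key 2 h (nfK S (by decide) (md_sn S 2))
  · exact key 3 h (nf3 S)
  · exact key 4 h (nfKJ S one_ne_zero (md_sn S 4))
  · exact key 5 h (nfKJ S (by decide) (md_sn S 5))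
  · exact key 6 h (nfKK S one_ne_zero one_ne_zero (md_sn S 6))
  · exact key 7 h (nfKK S one_ne_zero (by decide) (md_sn S 7))

theorem hm_surj (a : ℤˣ × ℤˣ) : ∃ c : OGrp Q8, hm c = a := by
  obtain ⟨c, -, h⟩ := full8 0 a ⟨fun h => absurd h (by decide), fun h => absurd h (by decide), fun h => absurd h (by decide)⟩
  exact ⟨c, h⟩

/-- coset representatives -/
noncomputable def rp (a : ℤˣ × ℤˣ) : OGrp Q8 := (hm_surj a).choose

theorem hm_rp (a : ℤˣ × ℤˣ) : hm (rp a) = a := (hm_surj a).choose_spec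

/-- The thirteen elements. -/
noncomputable def y13 (i : Fin 13) : OGrp Q8 := rp (co i) * y8 (ty i) * (rp (co i))⁻¹

theorem y13_cube (i : Fin 13) : (y13 i) ^ 3 = 1 := by
  rw [y13, conj_pow, y8_cube]; simp

theorem y13_ne (i : Fin 13) : y13 i ≠ 1 := by
  rw [y13, Ne, mul_inv_eq_one, mul_eq_left]
  exact y8_ne _

theorem y13_sep {i j : Fin 13} {g : OGrp Q8} (h : g * y13 i * g⁻¹ = y13 j ∨ g * y13 i * g⁻¹ = (y13 j)⁻¹) :
    E i (hm g) j := by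
  have h1 : ((rp (co j))⁻¹ * g * rp (co i)) * y8 (ty i) * ((rp (co j))⁻¹ * g * rp (co i))⁻¹ = y8 (ty j) ∨
      ((rp (co j))⁻¹ * g * rp (co i)) * y8 (ty i) * ((rp (co j))⁻¹ * g * rp (co i))⁻¹ = (y8 (ty j))⁻¹ := by
    have e1 : ((rp (co j))⁻¹ * g * rp (co i)) * y8 (ty i) * ((rp (co j))⁻¹ * g * rp (co i))⁻¹
      = (rp (co j))⁻¹ * (g * y13 i * g⁻¹) * rp (co j) := by rw [y13]; group
    rw [e1]
    rcases h with h | h
    · left; rw [h, y13]; group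
    · right; rw [h, y13]; group
  obtain ⟨h2, h3⟩ := rel8 h1
  refine ⟨h2, ?_⟩
  rw [_root_.map_mul, _root_.map_mul, map_inv, hm_rp, hm_rp] at h3
  have e2 : (co j)⁻¹ * hm g * co i = hm g * co i * co j := by
    rw [inv_eq_of_mul_eq_one_left (D4 (co j))]
    rw [mul_assoc, mul_comm]
  rwa [e2] at h3

theorem y13_conj {i j : Fin 13} {g : OGrp Q8} (h : E i (hm g) j) :
    ∃ w ∈ commutator (OGrp Q8), w * (g * y13 i * g⁻¹) * w⁻¹ = y13 j := by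
  obtain ⟨h1, h2⟩ := h
  obtain ⟨c, hc, hc2⟩ := full8 _ _ h2
  refine ⟨rp (co j) * c * (g * rp (co i))⁻¹, ?_, ?_⟩
  · rw [mem_comm, _root_.map_mul, _root_.map_mul, map_inv, _root_.map_mul, hm_rp, hm_rp, hc2]
    have := D4 (co j)
    calc co j * (hm g * co i * co j) * (hm g * co i)⁻¹ = (co j * co j) * ((hm g * co i) * (hm g * co i)⁻¹) := by
          rw [mul_comm (hm g * co i) (co j)]; simp only [mul_assoc]
      _ = 1 := by rw [this, mul_inv_cancel, one_mul]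
  · rw [y13, y13, ← h1]
    calc rp (co j) * c * (g * rp (co i))⁻¹ * (g * (rp (co i) * y8 (ty i) * (rp (co i))⁻¹) * g⁻¹)
          * (rp (co j) * c * (g * rp (co i))⁻¹)⁻¹
        = rp (co j) * (c * y8 (ty i) * c⁻¹) * (rp (co j))⁻¹ := by group
      _ = _ := by rw [hc, mul_inv_cancel_right]

theorem y13_complete {x : OGrp Q8} (hx : x ^ 3 = 1) (hx1 : x ≠ 1) :
    ∃ i, ∃ w ∈ commutator (OGrp Q8), w * x * w⁻¹ = y13 i := by
  obtain ⟨t, g, hg⟩ := exists_type8 hx hx1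
  obtain ⟨i, hi, hi2⟩ := D1 t (hm g)
  obtain ⟨c, hc, hc2⟩ := full8 _ _ hi2
  refine ⟨i, rp (co i) * c * g, ?_, ?_⟩
  · rw [mem_comm, _root_.map_mul, _root_.map_mul, hm_rp, hc2]
    calc co i * (co i * hm g) * hm g = (co i * co i) * (hm g * hm g) := by simp only [mul_assoc]
      _ = 1 := by rw [D4, D4, one_mul]
  · rw [y13, hi]
    calc rp (co i) * c * g * x * (rp (co i) * c * g)⁻¹ = rp (co i) * (c * (g * x * g⁻¹) * c⁻¹) * (rp (co i))⁻¹ := by group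
      _ = _ := by rw [hg, hc, mul_inv_cancel_right]

end Cfsg.Agent.H42.Oct
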