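import Cfsg.Agent.H42.OctE

set_option autoImplicit false

/-!
Counting orbits of a symmetric group of degree three on the thirteen classes.
-/

namespace Cfsg.Agent.H42.Oct

open Equiv

/-- number of fixed points -/
def Fx (φ : Perm (Fin 4) →* Perm (Fin 13)) (g : Perm (Fin 4)) : ℕ :=
  (Finset.univ.filter fun x => φ g x = x).card

theorem fx_conj (φ : Perm (Fin 4) →* Perm (Fin 13)) (h g : Perm (Fin 4)) : Fx φ (h * g * h⁻¹) = Fx φ g := by
  unfold Fx
  refine Finset.card_nbij' (fun x => φ h⁻¹ x) (fun x => φ h x) ?_ ?_ ?_ ?_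
  · intro x hx
    simp only [Finset.coe_filter, Finset.mem_univ, true_and, Set.mem_setOf_eq] at hx ⊢
    rw [← Perm.mul_apply, ← map_mul]
    conv_rhs => rw [← hx]
    rw [← Perm.mul_apply, ← map_mul]
    congr 2; group
  · intro x hx
    simp only [Finset.coe_filter, Finset.mem_univ, true_and, Set.mem_setOf_eq] at hx ⊢
    rw [← Perm.mul_apply, ← map_mul]
    conv_rhs => rw [← hx]
    rw [← Perm.mul_apply, ← map_mul]
    congr 2; group
  · intro x _
    show φ h (φ h⁻¹ x) = x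
    rw [← Perm.mul_apply, ← map_mul, mul_inv_cancel, map_one]; rfl
  · intro x _
    show φ h⁻¹ (φ h x) = x
    rw [← Perm.mul_apply, ← map_mul, inv_mul_cancel, map_one]; rfl

theorem P1 : ∀ a b : Perm (Fin 4), a * a = 1 → b * b = 1 → a * b = b * a → a ≠ 1 → b ≠ 1 → a * b ≠ 1 →
    (Perm.sign a = -1 ∧ Perm.sign b = -1) ∨ (∃ h, h * a * h⁻¹ = a * b) ∨ (∃ h, h * b * h⁻¹ = a * b) := by
  decide +kernel
theorem P2 : ∀ a b : Perm (Fin 4), a * a = 1 → Perm.sign a = -1 → b * b = 1 → Perm.sign b = -1 →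
    ∃ h, h * a * h⁻¹ = b := by decide +kernel
theorem P3 : ∀ a b : Perm (Fin 4), a * a = 1 → a ≠ 1 → Perm.sign a = 1 → b * b = 1 → b ≠ 1 → Perm.sign b = 1 →
    ∃ h, h * a * h⁻¹ = b := by decide +kernel
theorem P4 : ∀ a b : Perm (Fin 4), a ≠ 1 → a * a * a = 1 → b ≠ 1 → b * b * b = 1 →
    ∃ h, h * a * h⁻¹ = b := by decide +kernel
theorem P5 : ∀ a b : Perm (Fin 4), a * a ≠ 1 → a * a * a ≠ 1 → b * b ≠ 1 → b * b * b ≠ 1 →
    ∃ h, h * a * h⁻¹ = b := by decide +kernel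
theorem P6 : ∀ a : Perm (Fin 4), a * a ≠ 1 → a * a * a ≠ 1 → (a * a) * (a * a) = 1 ∧ Perm.sign (a * a) = 1 := by
  decide +kernel

def c0 : Perm (Fin 4) := Equiv.swap 0 1 * Equiv.swap 1 2
def d0 : Perm (Fin 4) := finRotate 4

theorem c0_prop : c0 ≠ 1 ∧ c0 * c0 * c0 = 1 := by decide +kernel
theorem d0_prop : d0 * d0 ≠ 1 ∧ d0 * d0 * d0 ≠ 1 := by decide +kernel

theorem Q0 : ∑ g : Perm (Fin 4), ((Perm.sign g : ℤˣ) : ℤ) * (if g = 1 then 1 else 0) = 1 := by decide +kernel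
theorem Q1 : ∑ g : Perm (Fin 4), ((Perm.sign g : ℤˣ) : ℤ) * (if g ≠ 1 ∧ g * g = 1 ∧ Perm.sign g = -1 then 1 else 0) = -6 := by
  decide +kernel
theorem Q2 : ∑ g : Perm (Fin 4), ((Perm.sign g : ℤˣ) : ℤ) * (if g ≠ 1 ∧ g * g = 1 ∧ Perm.sign g ≠ -1 then 1 else 0) = 3 := by
  decide +kernel
theorem Q3 : ∑ g : Perm (Fin 4), ((Perm.sign g : ℤˣ) : ℤ) * (if g * g ≠ 1 ∧ g * g * g = 1 then 1 else 0) = 8 := by
  decide +kernel
theorem Q4 : ∑ g : Perm (Fin 4), ((Perm.sign g : ℤˣ) : ℤ) * (if g * g ≠ 1 ∧ g * g * g ≠ 1 then 1 else 0) = -6 := by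
  decide +kernel

theorem R1 : ∀ p : Fin 4, (Finset.univ.filter fun g : Perm (Fin 4) => g p = p).card = 6 := by decide +kernel
theorem R2 : ∀ p : Fin 4, ∑ g ∈ Finset.univ.filter (fun g : Perm (Fin 4) => g p = p),
          (if g = 1 then 13 else if g * g = 1 then 7 else 4) = 42 := by decide +kernel
theorem R3 : ∀ (p : Fin 4) (g : Perm (Fin 4)), g p = p → g = 1 ∨ (g ≠ 1 ∧ g * g = 1 ∧ Perm.sign g = -1) ∨
          (g ≠ 1 ∧ g * g ≠ 1 ∧ g * g * g = 1) := by decide +kernel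

theorem cnt1 : (Finset.univ.filter fun x : Fin 13 => E x (-1, 1) x).card = 7 := by decide +kernel
theorem cnt2 : (Finset.univ.filter fun x : Fin 13 => E x (-1, -1) x).card = 7 := by decide +kernel
theorem cnt3 : (Finset.univ.filter fun x : Fin 13 => E x (1, -1) x).card = 5 := by decide +kernel

section
variable (φ : Perm (Fin 4) →* Perm (Fin 13)) (κ : ℤˣ × ℤˣ →* Perm (Fin 4)) (hκ : ∀ a i, E i a (φ (κ a) i))
include hκ

theorem fx_kap (a : ℤˣ × ℤˣ) : Fx φ (κ a) = (Finset.univ.filter fun x : Fin 13 => E x a x).card := by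
  unfold Fx
  congr 1
  ext x
  simp only [Finset.mem_filter, Finset.mem_univ, true_and]
  constructor
  · intro h
    have := hκ a x
    rwa [h] at this
  · intro h
    exact D3 _ _ _ _ (hκ a x) h

theorem fx_one : Fx φ 1 = 13 := by
  unfold Fx
  rw [map_one]
  simp

theorem signs : κ (-1, 1) * κ (-1, 1) = 1 ∧ κ (-1, -1) * κ (-1, -1) = 1 ∧ Perm.sign (κ (-1, 1)) = -1 ∧
    Perm.sign (κ (-1, -1)) = -1 := by
  have e1 : κ (-1, 1) * κ (-1, 1) = 1 := by rw [← map_mul, D4, map_one]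
  have e2 : κ (-1, -1) * κ (-1, -1) = 1 := by rw [← map_mul, D4, map_one]
  have e3 : κ (-1, 1) * κ (-1, -1) = κ (1, -1) := by rw [← map_mul]; rfl
  have e4 : κ (-1, 1) * κ (-1, -1) = κ (-1, -1) * κ (-1, 1) := by rw [← map_mul, mul_comm, map_mul]
  have f1 := fx_kap φ κ hκ (-1, 1)
  have f2 := fx_kap φ κ hκ (-1, -1)
  have f3 := fx_kap φ κ hκ (1, -1)
  rw [cnt1] at f1
  rw [cnt2] at f2
  rw [cnt3] at f3
  have n1 : κ (-1, 1) ≠ 1 := by
    intro h; rw [h, fx_one φ κ hκ] at f1; omega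
  have n2 : κ (-1, -1) ≠ 1 := by
    intro h; rw [h, fx_one φ κ hκ] at f2; omega
  have n3 : κ (-1, 1) * κ (-1, -1) ≠ 1 := by
    rw [e3]; intro h; rw [h, fx_one φ κ hκ] at f3; omega
  rcases P1 _ _ e1 e2 e4 n1 n2 n3 with h | ⟨h, hh⟩ | ⟨h, hh⟩
  · exact ⟨e1, e2, h.1, h.2⟩
  · exfalso
    rw [e3] at hh
    have := fx_conj φ h (κ (-1, 1))
    rw [hh, f3, f1] at this
    omega
  · exfalso
    rw [e3] at hh
    have := fx_conj φ h (κ (-1, -1))
    rw [hh, f3, f2] at this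
    omega

theorem fx_tr {g : Perm (Fin 4)} (h1 : g * g = 1) (h2 : Perm.sign g = -1) : Fx φ g = 7 := by
  obtain ⟨e1, -, e3, -⟩ := signs φ κ hκ
  obtain ⟨h, hh⟩ := P2 _ _ e1 e3 h1 h2
  rw [← hh, fx_conj, fx_kap φ κ hκ, cnt1]

theorem dt : κ (1, -1) * κ (1, -1) = 1 ∧ κ (1, -1) ≠ 1 ∧ Perm.sign (κ (1, -1)) = 1 := by
  obtain ⟨e1, e2, e3, e4⟩ := signs φ κ hκ
  refine ⟨by rw [← map_mul, D4, map_one], ?_, ?_⟩
  · intro h
    have f3 := fx_kap φ κ hκ (1, -1)
    rw [cnt3, h, fx_one φ κ hκ] at f3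
    omega
  · have e5 : κ (1, -1) = κ (-1, 1) * κ (-1, -1) := by rw [← map_mul]; rfl
    rw [e5, map_mul, e3, e4]; rfl

theorem fx_dt {g : Perm (Fin 4)} (h1 : g * g = 1) (h0 : g ≠ 1) (h2 : Perm.sign g = 1) : Fx φ g = 5 := by
  obtain ⟨e1, e2, e3⟩ := dt φ κ hκ
  obtain ⟨h, hh⟩ := P3 _ _ e1 e2 e3 h1 h0 h2
  rw [← hh, fx_conj, fx_kap φ κ hκ, cnt3]

/-- every point is fixed by an odd permutation -/
theorem exists_odd (x : Fin 13) : ∃ g : Perm (Fin 4), Perm.sign g = -1 ∧ φ g x = x := by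
  classical
  obtain ⟨s1, s2, s3, s4⟩ := signs φ κ hκ
  have hgood : ∀ x : Fin 13, x.val < 9 → ∃ g : Perm (Fin 4), Perm.sign g = -1 ∧ φ g x = x := by
    have h9 : ∀ x : Fin 13, x.val < 9 → E x (-1, 1) x ∨ E x (-1, -1) x := by decide
    intro x hx
    rcases h9 x hx with h | h
    · exact ⟨_, s3, D3 _ _ _ _ (hκ _ x) h⟩
    · exact ⟨_, s4, D3 _ _ _ _ (hκ _ x) h⟩
  by_contra hcon
  push Not at hcon
  -- the orbit
  have horb : ∀ g : Perm (Fin 4), ¬ (φ g x).val < 9 := by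
    intro g hg
    obtain ⟨h, h1, h2⟩ := hgood _ hg
    refine hcon (g⁻¹ * h * g) ?_ ?_
    · rw [map_mul, map_mul, h1]; simp
    · rw [map_mul, map_mul, Perm.mul_apply, Perm.mul_apply, h2, ← Perm.mul_apply, ← map_mul, inv_mul_cancel, map_one]; rfl
  letI : MulAction (Perm (Fin 4)) (Fin 13) := MulAction.compHom (Fin 13) φ
  have hsm : ∀ (g : Perm (Fin 4)) (y : Fin 13), g • y = φ g y := fun _ _ => rfl
  have hO : MulAction.orbit (Perm (Fin 4)) x = {y | ¬ y.val < 9} := by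
    refine Set.eq_of_subset_of_ncard_le ?_ ?_ (Set.toFinite _)
    · rintro _ ⟨g, rfl⟩
      exact horb g
    · have h1 : ({y : Fin 13 | ¬ y.val < 9} : Set (Fin 13)).ncard = 4 := by
        rw [Set.ncard_eq_toFinset_card']; decide
      rw [h1]
      have hx9 : ¬ x.val < 9 := by
        have := horb 1
        rwa [map_one] at this
      have hdist : ∀ x : Fin 13, ¬ x.val < 9 → ∀ a b : ℤˣ × ℤˣ, ∀ j, E x a j → E x b j → a = b := by decide +kernel
      have hinj : Function.Injective (fun a : ℤˣ × ℤˣ => φ (κ a) x) := by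
        intro a b hab
        have h2 := hκ a x
        have h3 := hκ b x
        simp only at hab
        rw [hab] at h2
        exact hdist x hx9 a b _ h2 h3
      have h4 : (Set.range (fun a : ℤˣ × ℤˣ => φ (κ a) x)).ncard = 4 := by
        rw [← Set.image_univ, Set.ncard_image_of_injective _ hinj, Set.ncard_univ, Nat.card_eq_fintype_card]
        decide
      refine h4.symm.le.trans (Set.ncard_le_ncard ?_ (Set.toFinite _))
      rintro _ ⟨a, rfl⟩
      exact ⟨κ a, rfl⟩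
  have hidx := MulAction.index_stabilizer (Perm (Fin 4)) x
  have h1 : ({y : Fin 13 | ¬ y.val < 9} : Set (Fin 13)).ncard = 4 := by
    rw [Set.ncard_eq_toFinset_card']; decide
  rw [hO, h1] at hidx
  have hcard := (MulAction.stabilizer (Perm (Fin 4)) x).card_mul_index
  have h24 : Nat.card (Perm (Fin 4)) = 24 := by rw [Nat.card_eq_fintype_card, Fintype.card_perm]; rfl
  rw [hidx, h24] at hcard
  have : Fact (Nat.Prime 2) := ⟨Nat.prime_two⟩
  obtain ⟨t, ht⟩ := exists_prime_orderOf_dvd_card' (G := MulAction.stabilizer (Perm (Fin 4)) x) 2 (by omega)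
  obtain ⟨t, htx⟩ := t
  rw [Subgroup.orderOf_mk] at ht
  have ht1 : t ≠ 1 := by rintro rfl; rw [orderOf_one] at ht; omega
  have ht2 : t * t = 1 := by rw [← pow_two, ← ht]; exact pow_orderOf_eq_one t
  have htx' : φ t x = x := htx
  have ht3 : Perm.sign t = 1 := by
    rcases Int.units_eq_one_or (Perm.sign t) with h | h
    · exact h
    · exact absurd htx' (hcon t h)
  obtain ⟨z1, z2, z3⟩ := dt φ κ hκ
  obtain ⟨h, hh⟩ := P3 _ _ z1 z2 z3 ht2 ht1 ht3
  have hy := horb h⁻¹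
  have hy2 : φ (κ (1, -1)) (φ h⁻¹ x) = φ h⁻¹ x := by
    rw [← hh, map_mul, map_mul, Perm.mul_apply, Perm.mul_apply] at htx'
    have := congrArg (φ h⁻¹) htx'
    rwa [← Perm.mul_apply (φ h⁻¹) (φ h), ← map_mul, inv_mul_cancel, map_one, Perm.one_apply] at this
  have h5 := hκ (1, -1) (φ h⁻¹ x)
  rw [hy2] at h5
  have h6 : ∀ y : Fin 13, ¬ y.val < 9 → ¬ E y (1, -1) y := by decide
  exact h6 _ hy h5

theorem sum_zero : ∑ g : Perm (Fin 4), ((Perm.sign g : ℤˣ) : ℤ) * (Fx φ g : ℤ) = 0 := by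
  classical
  have h1 : ∀ g : Perm (Fin 4), (Fx φ g : ℤ) = ∑ x : Fin 13, if φ g x = x then 1 else 0 := by
    intro g
    unfold Fx
    rw [Finset.card_filter]; push_cast; rfl
  simp_rw [h1, Finset.mul_sum]
  rw [Finset.sum_comm]
  refine Finset.sum_eq_zero fun x _ => ?_
  obtain ⟨h, hs, hx⟩ := exists_odd φ κ hκ x
  have hx' : φ h⁻¹ x = x := by
    conv_lhs => rw [← hx]
    rw [← Perm.mul_apply, ← map_mul, inv_mul_cancel, map_one]; rfl
  have h2 : ∑ g : Perm (Fin 4), ((Perm.sign g : ℤˣ) : ℤ) * (if φ g x = x then 1 else 0)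
      = ∑ g : Perm (Fin 4), ((Perm.sign (g * h) : ℤˣ) : ℤ) * (if φ (g * h) x = x then 1 else 0) :=
    (Fintype.sum_equiv (Equiv.mulRight h) _ _ (fun g => rfl)).symm
  have h3 : ∀ g : Perm (Fin 4), ((Perm.sign (g * h) : ℤˣ) : ℤ) * (if φ (g * h) x = x then 1 else 0)
      = - (((Perm.sign g : ℤˣ) : ℤ) * (if φ g x = x then 1 else 0)) := by
    intro g
    rw [map_mul, hs, map_mul, Perm.mul_apply, hx]
    split_ifs <;> simp
  simp_rw [h3, Finset.sum_neg_distrib] at h2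
  omega

theorem fx_c0 : Fx φ c0 = 4 := by
  classical
  have h0 := sum_zero φ κ hκ
  have hval : ∀ g : Perm (Fin 4), (Fx φ g : ℤ) = 13 * (if g = 1 then 1 else 0)
      + 7 * (if g ≠ 1 ∧ g * g = 1 ∧ Perm.sign g = -1 then 1 else 0)
      + 5 * (if g ≠ 1 ∧ g * g = 1 ∧ Perm.sign g ≠ -1 then 1 else 0)
      + (Fx φ c0 : ℤ) * (if g * g ≠ 1 ∧ g * g * g = 1 then 1 else 0)
      + (Fx φ d0 : ℤ) * (if g * g ≠ 1 ∧ g * g * g ≠ 1 then 1 else 0) := by
    intro g
    by_cases a1 : g = 1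
    · subst a1
      rw [fx_one φ κ hκ]; simp
    · by_cases a2 : g * g = 1
      · by_cases a3 : Perm.sign g = -1
        · rw [fx_tr φ κ hκ a2 a3]; simp [a1, a2, a3]
        · rw [fx_dt φ κ hκ a2 a1 ((Int.units_eq_one_or _).resolve_right a3)]; simp [a1, a2, a3]
      · by_cases a3 : g * g * g = 1
        · obtain ⟨h, hh⟩ := P4 c0 g c0_prop.1 c0_prop.2 a1 a3
          rw [← hh, fx_conj, hh]; simp [a1, a2, a3]
        · obtain ⟨h, hh⟩ := P5 d0 g d0_prop.1 d0_prop.2 a2 a3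
          rw [← hh, fx_conj, hh]; simp [a1, a2, a3]
  have h1 : ∑ g : Perm (Fin 4), ((Perm.sign g : ℤˣ) : ℤ) * (Fx φ g : ℤ) =
      13 * (∑ g : Perm (Fin 4), ((Perm.sign g : ℤˣ) : ℤ) * (if g = 1 then 1 else 0)) +
      7 * (∑ g : Perm (Fin 4), ((Perm.sign g : ℤˣ) : ℤ) * (if g ≠ 1 ∧ g * g = 1 ∧ Perm.sign g = -1 then 1 else 0)) +
      5 * (∑ g : Perm (Fin 4), ((Perm.sign g : ℤˣ) : ℤ) * (if g ≠ 1 ∧ g * g = 1 ∧ Perm.sign g ≠ -1 then 1 else 0)) +
      (Fx φ c0 : ℤ) * (∑ g : Perm (Fin 4), ((Perm.sign g : ℤˣ) : ℤ) * (if g * g ≠ 1 ∧ g * g * g = 1 then 1 else 0)) +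
      (Fx φ d0 : ℤ) * (∑ g : Perm (Fin 4), ((Perm.sign g : ℤˣ) : ℤ) * (if g * g ≠ 1 ∧ g * g * g ≠ 1 then 1 else 0)) := by
    rw [Finset.mul_sum, Finset.mul_sum, Finset.mul_sum, Finset.mul_sum, Finset.mul_sum,
      ← Finset.sum_add_distrib, ← Finset.sum_add_distrib, ← Finset.sum_add_distrib, ← Finset.sum_add_distrib]
    refine Finset.sum_congr rfl fun g _ => ?_
    rw [hval g]; ring
  have h2 : Fx φ d0 ≤ 5 := by
    obtain ⟨q1, q2⟩ := P6 d0 d0_prop.1 d0_prop.2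
    rw [← fx_dt φ κ hκ q1 d0_prop.1 q2]
    unfold Fx
    apply Finset.card_le_card
    intro x hx
    simp only [Finset.mem_filter, Finset.mem_univ, true_and] at hx ⊢
    rw [map_mul, Perm.mul_apply, hx, hx]
  rw [h1, Q0, Q1, Q2, Q3, Q4] at h0
  omega

theorem fx_3 {g : Perm (Fin 4)} (h1 : g ≠ 1) (h3 : g * g * g = 1) : Fx φ g = 4 := by
  obtain ⟨h, hh⟩ := P4 _ _ c0_prop.1 c0_prop.2 h1 h3
  rw [← hh, fx_conj, fx_c0 φ κ hκ]

theorem orbits7 (p : Fin 4) : ∃ c : Fin 7 → Fin 13, (∀ k l (g : Perm (Fin 4)), g p = p → φ g (c k) = c l → k = l) ∧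
    (∀ i, ∃ k, ∃ g : Perm (Fin 4), g p = p ∧ φ g i = c k) := by
  classical
  let T : Subgroup (Perm (Fin 4)) := MulAction.stabilizer (Perm (Fin 4)) p
  have hT : ∀ g, g ∈ T ↔ g p = p := fun g => Iff.rfl
  letI : MulAction T (Fin 13) := MulAction.compHom (Fin 13) (φ.comp T.subtype)
  have hsm : ∀ (g : T) (y : Fin 13), g • y = φ g y := fun _ _ => rfl
  have hB := MulAction.sum_card_fixedBy_eq_card_orbits_mul_card_group T (Fin 13)
  have hcT : Fintype.card T = 6 := by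
    have : Fintype.card T = (Finset.univ.filter fun g : Perm (Fin 4) => g p = p).card := by
      rw [Fintype.card_subtype]
      congr 1
    rw [this, R1]
  have hsum : ∑ a : T, Fintype.card (MulAction.fixedBy (Fin 13) a) = 42 := by
    have h1 : ∀ a : T, Fintype.card (MulAction.fixedBy (Fin 13) a)
        = if (a : Perm (Fin 4)) = 1 then 13 else if (a : Perm (Fin 4)) * a = 1 then 7 else 4 := by
      intro a
      have h2 : Fintype.card (MulAction.fixedBy (Fin 13) a) = Fx φ (a : Perm (Fin 4)) := by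
        rw [Fintype.card_subtype]
        unfold Fx
        congr 1
      rw [h2]
      rcases R3 p a ((hT _).1 a.2) with h4 | ⟨h4, h5, h6⟩ | ⟨h4, h5, h6⟩
      · rw [h4, fx_one φ κ hκ, if_pos rfl]
      · rw [if_neg h4, if_pos h5, fx_tr φ κ hκ h5 h6]
      · rw [if_neg h4, if_neg h5, fx_3 φ κ hκ h4 h6]
    simp_rw [h1]
    have h4 : ∑ a : T, (if (a : Perm (Fin 4)) = 1 then 13 else if (a : Perm (Fin 4)) * a = 1 then 7 else 4)
        = ∑ g ∈ Finset.univ.filter (fun g : Perm (Fin 4) => g p = p),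
          (if g = 1 then 13 else if g * g = 1 then 7 else 4) := by
      rw [← Finset.sum_subtype (Finset.univ.filter (fun g : Perm (Fin 4) => g p = p)) (p := fun g => g ∈ T)
        (fun g => by simp only [Finset.mem_filter, Finset.mem_univ, true_and, hT])
        (fun g : Perm (Fin 4) => if g = 1 then 13 else if g * g = 1 then 7 else 4)]
    rw [h4, R2]
  rw [hsum, hcT] at hB
  have h7 : Fintype.card (Quotient (MulAction.orbitRel T (Fin 13))) = 7 := by omega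
  have eq : Fin 7 ≃ Quotient (MulAction.orbitRel T (Fin 13)) := (Fintype.equivFinOfCardEq h7).symm
  refine ⟨fun k => (eq k).out, ?_, ?_⟩
  · intro k l g hg hkl
    apply eq.injective
    rw [← Quotient.out_eq (eq k), ← Quotient.out_eq (eq l), Quotient.eq]
    refine (MulAction.orbitRel T (Fin 13)).symm ?_
    exact ⟨⟨g, (hT g).2 hg⟩, hkl⟩
  · intro i
    refine ⟨eq.symm (Quotient.mk _ i), ?_⟩
    have h8 := Quotient.exact (s := MulAction.orbitRel T (Fin 13)) (a := (eq (eq.symm (Quotient.mk _ i))).out) (b := i)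
      (by rw [Quotient.out_eq, eq.apply_symm_apply])
    obtain ⟨g, hg⟩ := h8
    exact ⟨g, (hT _).1 g.2, hg⟩

end

end Cfsg.Agent.H42.Oct
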