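import Cfsg.Agent.H42.OctF
import Cfsg.Agent.ClassO.Card
import Cfsg.Prelude.Def_KGroupFacts

set_option autoImplicit false

/-!
The action of the outer automorphism group on the thirteen classes.
-/

namespace Cfsg.Agent.H42.Oct

open QuadraticMap Cfsg.Agent.Orth Matrix Cfsg.Agent.H42.OT

section abs

variable {D : Type*} [Group D] {y : Fin 13 → D}

/-- class data -/
structure CD (y : Fin 13 → D) : Prop where
  ord : ∀ i, orderOf (y i) = 3
  sep : ∀ i j (g : D), (g * y i * g⁻¹ = y j ∨ g * y i * g⁻¹ = (y j)⁻¹) → i = j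
  comp : ∀ x : D, orderOf x = 3 → ∃ i, ∃ g, g * x * g⁻¹ = y i

theorem CD.ex (h : CD y) (α : MulAut D) (i : Fin 13) : ∃ j, ∃ g, g * α (y i) * g⁻¹ = y j :=
  h.comp _ (by rw [MulEquiv.orderOf_eq, h.ord])

/-- the permutation of the classes -/
noncomputable def CD.pi (h : CD y) (α : MulAut D) (i : Fin 13) : Fin 13 := (h.ex α i).choose

theorem CD.pi_spec (h : CD y) (α : MulAut D) (i : Fin 13) : ∃ g, g * α (y i) * g⁻¹ = y (h.pi α i) :=
  (h.ex α i).choose_spec

theorem CD.pi_eq (h : CD y) {α : MulAut D} {i j : Fin 13} {g : D}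
    (hg : g * α (y i) * g⁻¹ = y j ∨ g * α (y i) * g⁻¹ = (y j)⁻¹) : h.pi α i = j := by
  obtain ⟨g', hg'⟩ := h.pi_spec α i
  symm
  refine h.sep _ _ (g' * g⁻¹) ?_
  rcases hg with hg | hg
  · left
    rw [← hg, ← hg']; group
  · right
    have : y j = (g * α (y i) * g⁻¹)⁻¹ := by rw [hg, inv_inv]
    rw [this, ← hg']; group

theorem CD.pi_mul (h : CD y) (α β : MulAut D) (i : Fin 13) : h.pi (α * β) i = h.pi α (h.pi β i) := by
  obtain ⟨g, hg⟩ := h.pi_spec β i
  obtain ⟨g', hg'⟩ := h.pi_spec α (h.pi β i)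
  refine h.pi_eq (g := g' * α g) (Or.inl ?_)
  rw [← hg', ← hg, _root_.map_mul, _root_.map_mul, map_inv, MulAut.mul_apply]
  group

theorem CD.pi_conj (h : CD y) (g : D) (i : Fin 13) : h.pi (MulAut.conj g) i = i := by
  refine h.pi_eq (g := g⁻¹) (Or.inl ?_)
  rw [MulAut.conj_apply]; group

/-- the hom -/
noncomputable def CD.Phi0 (h : CD y) : MulAut D →* Equiv.Perm (Fin 13) :=
  MonoidHom.toHomPerm (G := MulAut D) (α := Fin 13)
    { toFun := fun α => h.pi α
      map_one' := funext fun i => by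
        have := h.pi_conj 1 i
        rw [_root_.map_one] at this
        exact this
      map_mul' := fun α β => funext fun i => h.pi_mul α β i }

theorem CD.Phi0_apply (h : CD y) (α : MulAut D) (i : Fin 13) : h.Phi0 α i = h.pi α i := rfl

/-- the hom from the outer automorphism group -/
noncomputable def CD.Phi (h : CD y) : Cfsg.Out D →* Equiv.Perm (Fin 13) :=
  QuotientGroup.lift (Cfsg.Inn D) h.Phi0 (by
    rintro _ ⟨g, rfl⟩
    ext i
    rw [h.Phi0_apply, h.pi_conj]; rfl)

theorem CD.Phi_mk (h : CD y) (α : MulAut D) (i : Fin 13) : h.Phi ((α : MulAut D) : Cfsg.Out D) i = h.pi α i := rfl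

theorem CD.subgroups (h : CD y) {H : Type*} [Group H] (E : H ≃* D) :
    ∃ Y : Fin 13 → Subgroup H, (∀ i, Nat.card (Y i) = 3) ∧
      (∀ i j, (∃ g : H, (Y i).map (MulAut.conj g).toMonoidHom = Y j) → i = j) ∧
      (∀ X : Subgroup H, Nat.card X = 3 → ∃ i, ∃ g : H, X.map (MulAut.conj g).toMonoidHom = Y i) := by
  have ho : ∀ i, orderOf (E.symm (y i)) = 3 := fun i => by rw [MulEquiv.orderOf_eq, h.ord]
  have hmap : ∀ (g x : H), (Subgroup.zpowers x).map (MulAut.conj g).toMonoidHom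
      = Subgroup.zpowers (g * x * g⁻¹) := by
    intro g x
    rw [MonoidHom.map_zpowers]; rfl
  refine ⟨fun i => Subgroup.zpowers (E.symm (y i)), fun i => ?_, ?_, ?_⟩
  · rw [Nat.card_zpowers, ho]
  · rintro i j ⟨g, hg⟩
    rw [hmap] at hg
    change _ = Subgroup.zpowers (E.symm (y j)) at hg
    have h1 : g * E.symm (y i) * g⁻¹ ∈ Subgroup.zpowers (E.symm (y j)) := by
      rw [← hg]; exact Subgroup.mem_zpowers _
    have h2 : g * E.symm (y i) * g⁻¹ ≠ 1 := by
      intro h
      rw [mul_inv_eq_one, mul_eq_left] at h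
      have := ho i
      rw [h, orderOf_one] at this
      exact absurd this (by norm_num)
    refine h.sep i j (E g) ?_
    rcases eq_or_of_mem (ho j) h1 h2 with h4 | h4
    · left
      have := congrArg E h4
      simpa using this
    · right
      have := congrArg E h4
      simpa using this
  · intro X hX
    haveI : Finite X := Nat.finite_of_card_ne_zero (by rw [hX]; norm_num)
    haveI : Fact (Nat.Prime 3) := ⟨Nat.prime_three⟩
    obtain ⟨x, hx⟩ := exists_prime_orderOf_dvd_card' (G := X) 3 (by rw [hX])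
    have hx' : orderOf (x : H) = 3 := by rw [Subgroup.orderOf_coe, hx]
    have hXz : Subgroup.zpowers (x : H) = X := by
      refine Subgroup.eq_of_le_of_card_ge ?_ ?_
      · rw [Subgroup.zpowers_le]; exact x.2
      · rw [hX, Nat.card_zpowers, hx']
    obtain ⟨i, g, hg⟩ := h.comp (E x) (by rw [MulEquiv.orderOf_eq, hx'])
    refine ⟨i, E.symm g, ?_⟩
    change _ = Subgroup.zpowers (E.symm (y i))
    rw [← hXz, hmap, ← hg]
    simp

end abs

/-! ### The commutator subgroup modulo its centre -/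

noncomputable abbrev W8 : Subgroup (OGrp Q8) := commutator (OGrp Q8)

theorem hyp3 : ClassO.Hyp Q8 (fun i => Pi.single (Sum.inl (Fin.castLE (show 3 ≤ 4 by norm_num) i)) 1)
    (fun i => Pi.single (Sum.inr (Fin.castLE (show 3 ≤ 4 by norm_num) i)) 1) :=
  ClassO.hyp_plus (ZMod 3) 4 (Fin.castLE (by norm_num)) (Fin.castLE_injective _)

theorem cen_sq {z : W8} (hz : z ∈ Subgroup.center W8) : z * z = 1 := by
  rcases ClassO.center_cases hQ8 hR8 hyp3 W8 (ClassO.commutator_eq_EGrp hQ8 hR8 hyp3) hz with h | h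
  · rw [h, one_mul]
  · apply Subtype.ext
    refine OGrp_ext fun x => ?_
    rw [Subgroup.coe_mul, coe_mul_apply, h, h, neg_neg]; rfl

variable {D : Type*} [Group D] (ψ : W8 ⧸ Subgroup.center W8 ≃* D)

/-- the projection -/
noncomputable def qq : W8 →* D := ψ.toMonoidHom.comp (QuotientGroup.mk' (Subgroup.center W8))

theorem qq_surj : Function.Surjective (qq ψ) := ψ.surjective.comp (QuotientGroup.mk'_surjective _)

theorem qq_one {w : W8} : qq ψ w = 1 ↔ w ∈ Subgroup.center W8 := by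
  change ψ (QuotientGroup.mk w) = 1 ↔ _
  rw [map_eq_one_iff ψ ψ.injective, QuotientGroup.eq_one_iff]

theorem eq_of_cubes {a b : W8} (ha : a ^ 3 = 1) (hb : b ^ 3 = 1) (h : qq ψ a = qq ψ b) : a = b := by
  have h1 : b⁻¹ * a ∈ Subgroup.center W8 := by
    rw [← qq_one ψ, _root_.map_mul, map_inv, h, inv_mul_cancel]
  have h2 := cen_sq h1
  have h3 : (b⁻¹ * a) ^ 3 = 1 := by
    have hc : Commute b⁻¹ a := by
      have := Subgroup.mem_center_iff.1 h1 a
      -- a * (b⁻¹ * a) = (b⁻¹ * a) * a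
      have h5 : a * b⁻¹ = b⁻¹ * a := by
        have h6 : (a * b⁻¹) * a = (b⁻¹ * a) * a := by rw [mul_assoc]; exact this
        exact mul_right_cancel h6
      exact h5.symm
    rw [hc.mul_pow, inv_pow, ha, hb, inv_one, one_mul]
  have h4 : b⁻¹ * a = 1 := by
    rw [pow_succ, pow_two, h2, one_mul] at h3
    exact h3
  rwa [inv_mul_eq_one, eq_comm] at h4

/-- the elements -/
noncomputable def yw (i : Fin 13) : W8 := ⟨y13 i, mem_of_cube hQ8 (y13_cube i)⟩

theorem yw_cube (i : Fin 13) : (yw i) ^ 3 = 1 := Subtype.ext (y13_cube i)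

theorem E_one : ∀ i : Fin 13, E i 1 i := by decide

theorem cd : CD (fun i => qq ψ (yw i)) where
  ord i := by
    haveI : Fact (Nat.Prime 3) := ⟨Nat.prime_three⟩
    apply orderOf_eq_prime
    · rw [← map_pow, yw_cube, _root_.map_one]
    · intro h
      have h1 := eq_of_cubes ψ (yw_cube i) (one_pow 3) (h.trans (_root_.map_one _).symm)
      exact y13_ne i (congrArg Subtype.val h1)
  sep i j g h := by
    obtain ⟨w, rfl⟩ := qq_surj ψ g
    have h1 : w * yw i * w⁻¹ = yw j ∨ w * yw i * w⁻¹ = (yw j)⁻¹ := by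
      have hc : (w * yw i * w⁻¹) ^ 3 = 1 := by rw [conj_pow, yw_cube]; simp
      rcases h with h | h
      · left
        refine eq_of_cubes ψ hc (yw_cube j) ?_
        rw [_root_.map_mul, _root_.map_mul, map_inv]; exact h
      · right
        refine eq_of_cubes ψ hc (by rw [inv_pow, yw_cube, inv_one]) ?_
        rw [_root_.map_mul, _root_.map_mul, map_inv, map_inv]; exact h
    have h2 : (w : OGrp Q8) * y13 i * (w : OGrp Q8)⁻¹ = y13 j ∨ (w : OGrp Q8) * y13 i * (w : OGrp Q8)⁻¹ = (y13 j)⁻¹ := by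
      rcases h1 with h1 | h1
      · left; exact congrArg Subtype.val h1
      · right; exact congrArg Subtype.val h1
    have h3 := y13_sep h2
    rw [mem_comm.1 w.2] at h3
    exact D3 _ _ _ _ (E_one i) h3
  comp x hx := by
    obtain ⟨w, rfl⟩ := qq_surj ψ x
    have h3 : (qq ψ w) ^ 3 = 1 := orderOf_dvd_iff_pow_eq_one.1 (by rw [hx])
    rw [← map_pow, qq_one] at h3
    have h4 := cen_sq h3
    have hcomm : Commute w (w ^ 3) := Commute.self_pow w 3
    set w' := w * w ^ 3 with hw'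
    have h5 : w' ^ 3 = 1 := by
      rw [hw', hcomm.mul_pow]
      calc w ^ 3 * (w ^ 3) ^ 3 = (w ^ 3 * w ^ 3) * (w ^ 3 * w ^ 3) := by
            rw [pow_succ (w ^ 3), pow_two (w ^ 3)]; simp only [mul_assoc]
        _ = 1 := by rw [h4, one_mul]
    have h6 : qq ψ w' = qq ψ w := by rw [hw', _root_.map_mul, (qq_one ψ).2 h3, mul_one]
    have h7 : w' ≠ 1 := by
      intro h
      rw [← h6, h, _root_.map_one, orderOf_one] at hx
      omega
    obtain ⟨i, v, hv, hv2⟩ := y13_complete (x := (w' : OGrp Q8)) (congrArg Subtype.val h5)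
      (fun h => h7 (Subtype.ext h))
    refine ⟨i, qq ψ ⟨v, hv⟩, ?_⟩
    rw [← h6, ← map_inv, ← _root_.map_mul, ← _root_.map_mul]
    congr 1
    exact Subtype.ext hv2

/-! ### The outer automorphisms induced by isometries -/

/-- passing to the quotient by the centre -/
noncomputable def qc : MulAut W8 →* MulAut (W8 ⧸ Subgroup.center W8) where
  toFun e := ClassBase.quotCenterCongr e
  map_one' := by
    apply MulEquiv.ext
    intro x
    obtain ⟨x, rfl⟩ := QuotientGroup.mk_surjective x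
    rfl
  map_mul' a b := by
    apply MulEquiv.ext
    intro x
    obtain ⟨x, rfl⟩ := QuotientGroup.mk_surjective x
    rfl

/-- automorphisms induced by isometries -/
noncomputable def be : OGrp Q8 →* MulAut D :=
  ((MulAut.congr ψ).toMonoidHom.comp qc).comp (MulAut.conjNormal (H := W8))

theorem be_apply (g : OGrp Q8) (w : W8) : be ψ g (qq ψ w) = qq ψ (MulAut.conjNormal g w) := by
  change ψ (qc (MulAut.conjNormal g) (ψ.symm (ψ (QuotientGroup.mk w)))) = _
  rw [MulEquiv.symm_apply_apply]; rfl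

theorem be_mem {w : OGrp Q8} (hw : w ∈ W8) : be ψ w = MulAut.conj (qq ψ ⟨w, hw⟩) := by
  apply MulEquiv.ext
  intro x
  obtain ⟨v, rfl⟩ := qq_surj ψ x
  rw [be_apply, MulAut.conj_apply, ← map_inv, ← _root_.map_mul, ← _root_.map_mul]
  exact congrArg (qq ψ) (Subtype.ext rfl)

/-- the outer automorphisms -/
noncomputable def ob : OGrp Q8 →* Cfsg.Out D := (QuotientGroup.mk' (Cfsg.Inn D)).comp (be ψ)

theorem ob_ker : hm.ker ≤ (ob ψ).ker := by
  intro w hw
  have hw' : w ∈ W8 := mem_comm.2 hw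
  rw [MonoidHom.mem_ker]
  change ((be ψ w : MulAut D) : Cfsg.Out D) = 1
  rw [be_mem ψ hw', QuotientGroup.eq_one_iff]
  exact ⟨_, rfl⟩

/-- the Klein four group of outer automorphisms -/
noncomputable def ka : ℤˣ × ℤˣ →* Cfsg.Out D := hm.liftOfRightInverse rp hm_rp ⟨ob ψ, ob_ker ψ⟩

theorem ka_apply (a : ℤˣ × ℤˣ) : ka ψ a = ob ψ (rp a) := by
  have h := MonoidHom.liftOfRightInverse_comp_apply hm rp hm_rp ⟨ob ψ, ob_ker ψ⟩ (rp a)
  rw [hm_rp] at h
  exact h

theorem ka_E (a : ℤˣ × ℤˣ) (i : Fin 13) : E i a ((cd ψ).Phi (ka ψ a) i) := by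
  obtain ⟨j, hj⟩ := D2 i a
  have h1 : E i (hm (rp a)) j := by rw [hm_rp]; exact hj
  obtain ⟨w, hw, hw2⟩ := y13_conj h1
  have h2 : (cd ψ).Phi (ka ψ a) i = j := by
    rw [ka_apply]
    change (cd ψ).Phi ((be ψ (rp a) : MulAut D) : Cfsg.Out D) i = j
    rw [CD.Phi_mk]
    refine (cd ψ).pi_eq (g := qq ψ ⟨w, hw⟩) (Or.inl ?_)
    rw [be_apply, ← map_inv, ← _root_.map_mul, ← _root_.map_mul]
    congr 1
    exact Subtype.ext hw2
  rw [h2]; exact hj

theorem ka_inj : Function.Injective (ka ψ) := by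
  intro a b hab
  have h1 := ka_E ψ a 9
  have h2 := ka_E ψ b 9
  rw [hab] at h1
  have : ∀ (a b : ℤˣ × ℤˣ) (j : Fin 13), E 9 a j → E 9 b j → a = b := by decide
  exact this _ _ _ h1 h2

end Cfsg.Agent.H42.Oct
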