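import Cfsg.Agent.H42.OctH
import Cfsg.Agent.H42.OctG

set_option autoImplicit false

/-!
Classes of subgroups of order three of a group with a normal subgroup `PΩ₈⁺(3)` and quotient `S₃`.
-/

namespace Cfsg.Agent.H42.Oct

open Cfsg.Agent.OutD4 Cfsg.Agent.H42.OctOut Cfsg.Agent.H42.OT

theorem seven_abs {D : Type*} [Group D] [Finite (Cfsg.Out D)] (hZ : Subgroup.center D = ⊥)
    (hθ0 : ∀ S : Subgroup (Cfsg.Out D), Nonempty (S ≃* Equiv.Perm (Fin 3)) → 4 ∣ Nat.card (Cfsg.Out D) →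
      ∃ (θ : Cfsg.Out D ≃* Equiv.Perm (Fin 4)) (p : Fin 4), ∀ s, s ∈ S ↔ θ s p = p)
    {G : Type*} [Group G] (L : Subgroup G) [L.Normal] (hC : Subgroup.centralizer (L : Set G) ≤ L)
    (e : L ≃* D) (q : Nonempty (G ⧸ L ≃* Equiv.Perm (Fin 3)))
    (ψ : W8 ⧸ Subgroup.center W8 ≃* D) :
    ∃ Y : Fin 7 → Subgroup G, (∀ i, Y i ≤ L ∧ Nat.card (Y i) = 3) ∧
      (∀ i j, (∃ g : G, (Y i).map (MulAut.conj g).toMonoidHom = Y j) → i = j) ∧
      ∀ X : Subgroup G, X ≤ L → Nat.card X = 3 → ∃ i, ∃ g : G, X.map (MulAut.conj g).toMonoidHom = Y i := by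
  set y : Fin 13 → D := fun i => qq ψ (yw i) with hy
  have H : CD y := cd ψ
  -- the outer action
  have s1 : Nonempty ((outAct L e).range ≃* Equiv.Perm (Fin 3)) := by
    obtain ⟨q⟩ := q
    exact ⟨((QuotientGroup.quotientKerEquivRange (outAct L e)).symm.trans
      (QuotientGroup.quotientMulEquivOfEq (ker_outAct hZ L hC e))).trans q⟩
  have h4 : 4 ∣ Nat.card (Cfsg.Out D) := by
    have h1 : Nat.card (ka ψ).range = 4 := by
      rw [← Nat.card_congr (MonoidHom.ofInjective (ka_inj ψ)).toEquiv, Nat.card_eq_fintype_card]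
      decide
    rw [← h1]
    exact Subgroup.card_subgroup_dvd_card _
  obtain ⟨θ, p, hθ⟩ := hθ0 _ s1 h4
  -- the orbits
  obtain ⟨c, hc1, hc2⟩ := orbits7 ((H.Phi).comp θ.symm.toMonoidHom) (θ.toMonoidHom.comp (ka ψ)) (by
    intro a i
    change E i a (H.Phi (θ.symm (θ (ka ψ a))) i)
    rw [θ.symm_apply_apply]
    exact ka_E ψ a i) p
  have hPhi : ∀ (g : G) (i : Fin 13), H.Phi (outAct L e g) i = H.pi (act L e g) i := fun g i => rfl
  -- the elements
  set x : Fin 13 → G := fun i => ((e.symm (y i) : L) : G) with hx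
  have hxL : ∀ i, x i ∈ L := fun i => (e.symm (y i)).2
  have hxo : ∀ i, orderOf (x i) = 3 := fun i => by
    rw [hx]
    simp only
    rw [Subgroup.orderOf_coe, MulEquiv.orderOf_eq, H.ord]
  have hex : ∀ i, e ⟨x i, hxL i⟩ = y i := fun i => e.apply_symm_apply (y i)
  have hact : ∀ (g : G) (a : G) (ha : a ∈ L), act L e g (e ⟨a, ha⟩) = e ⟨g * a * g⁻¹, Subgroup.Normal.conj_mem inferInstance a ha g⟩ := by
    intro g a ha
    rw [act_apply, MulEquiv.symm_apply_apply]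
    congr 1
  have hmap : ∀ (g a : G), (Subgroup.zpowers a).map (MulAut.conj g).toMonoidHom
      = Subgroup.zpowers (g * a * g⁻¹) := by
    intro g a
    rw [MonoidHom.map_zpowers]; rfl
  refine ⟨fun k => Subgroup.zpowers (x (c k)), fun k => ⟨?_, ?_⟩, ?_, ?_⟩
  · rw [Subgroup.zpowers_le]; exact hxL _
  · rw [Nat.card_zpowers, hxo]
  · rintro k l ⟨g, hg⟩
    rw [hmap] at hg
    change _ = Subgroup.zpowers (x (c l)) at hg
    have h1 : g * x (c k) * g⁻¹ ∈ Subgroup.zpowers (x (c l)) := by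
      rw [← hg]; exact Subgroup.mem_zpowers _
    have h2 : g * x (c k) * g⁻¹ ≠ 1 := by
      intro h
      rw [mul_inv_eq_one, mul_eq_left] at h
      have := hxo (c k)
      rw [h, orderOf_one] at this
      omega
    have h3 : H.pi (act L e g) (c k) = c l := by
      refine H.pi_eq (g := 1) ?_
      rw [one_mul, inv_one, mul_one, ← hex (c k), hact, ← hex (c l)]
      rcases eq_or_of_mem (hxo (c l)) h1 h2 with h4 | h4
      · left
        congr 1
        exact Subtype.ext h4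
      · right
        rw [← map_inv]
        congr 1
        exact Subtype.ext h4
    refine hc1 k l (θ (outAct L e g)) ((hθ _).1 ⟨g, rfl⟩) ?_
    change H.Phi (θ.symm (θ (outAct L e g))) (c k) = c l
    rw [θ.symm_apply_apply, hPhi, h3]
  · intro X hXL hX
    haveI : Finite X := Nat.finite_of_card_ne_zero (by rw [hX]; norm_num)
    haveI : Fact (Nat.Prime 3) := ⟨Nat.prime_three⟩
    obtain ⟨a, ha⟩ := exists_prime_orderOf_dvd_card' (G := X) 3 (by rw [hX])
    have ha' : orderOf (a : G) = 3 := by rw [Subgroup.orderOf_coe, ha]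
    have haL : (a : G) ∈ L := hXL a.2
    have hXz : Subgroup.zpowers (a : G) = X := by
      refine Subgroup.eq_of_le_of_card_ge ?_ ?_
      · rw [Subgroup.zpowers_le]; exact a.2
      · rw [hX, Nat.card_zpowers, ha']
    obtain ⟨i, d, hd⟩ := H.comp (e ⟨a, haL⟩) (by rw [MulEquiv.orderOf_eq, Subgroup.orderOf_mk, ha'])
    obtain ⟨k, g', hg', hk⟩ := hc2 i
    obtain ⟨g0, hg0⟩ : θ.symm g' ∈ (outAct L e).range := (hθ _).2 (by rw [θ.apply_symm_apply]; exact hg')
    have hk2 : H.pi (act L e g0) i = c k := by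
      rw [← hPhi, hg0]; exact hk
    obtain ⟨d', hd'⟩ := H.pi_spec (act L e g0) i
    rw [hk2] at hd'
    obtain ⟨⟨n, hn⟩, rfl⟩ := e.surjective d
    obtain ⟨⟨n', hn'⟩, rfl⟩ := e.surjective d'
    refine ⟨k, n' * g0 * n, ?_⟩
    change _ = Subgroup.zpowers (x (c k))
    rw [← hXz, hmap]
    congr 1
    -- compute
    have h5 : n * (a : G) * n⁻¹ = x i := by
      have h6 : e (⟨n, hn⟩ * ⟨a, haL⟩ * ⟨n, hn⟩⁻¹) = e ⟨x i, hxL i⟩ := by
        rw [map_mul, map_mul, map_inv, hd, hex]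
      exact congrArg Subtype.val (e.injective h6)
    have h7 : n' * (g0 * x i * g0⁻¹) * n'⁻¹ = x (c k) := by
      rw [← hex i, hact, ← hex (c k), ← map_inv, ← map_mul, ← map_mul] at hd'
      exact congrArg Subtype.val (e.injective hd')
    rw [← h7, ← h5]; group

end Cfsg.Agent.H42.Oct

namespace Cfsg.Agent.H42.OctOut

open Cfsg.Agent.OutD4

theorem theta_D4 (S : Subgroup (Cfsg.Out ↥(Cfsg.Lie.chevD4.group F3))) (h : Nonempty (S ≃* Equiv.Perm (Fin 3)))
    (h4 : 4 ∣ Nat.card (Cfsg.Out ↥(Cfsg.Lie.chevD4.group F3))) :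
    ∃ (θ : Cfsg.Out ↥(Cfsg.Lie.chevD4.group F3) ≃* Equiv.Perm (Fin 4)) (p : Fin 4), ∀ s, s ∈ S ↔ θ s p = p := by
  have : Finite ↥(Cfsg.Lie.chevD4.group F3) := fin_D4
  have : Finite (Cfsg.Out ↥(Cfsg.Lie.chevD4.group F3)) := fin_out
  obtain ⟨e⟩ := h
  exact exists_perm (N := DN) sq_DN index_DN fix_DN card_DN_le h4 e

theorem fin_outD4 : Finite (Cfsg.Out ↥(Cfsg.Lie.chevD4.group F3)) := by
  have : Finite ↥(Cfsg.Lie.chevD4.group F3) := fin_D4
  exact fin_out

end Cfsg.Agent.H42.OctOut
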