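import Mathlib

set_option autoImplicit false
set_option maxHeartbeats 1000000

/-!
Derived length of linear p-groups.
-/

namespace Cfsg.Agent.H42.PDer

open Module

section diag
variable {K V : Type*} [Field K] [IsAlgClosed K] [AddCommGroup V] [Module K V] [FiniteDimensional K V]

theorem iSup_eigenspace {T : End K V} {m : ℕ} (hm : (m : K) ≠ 0) (hT : T ^ m = 1) :
    ⨆ μ : K, T.eigenspace μ = ⊤ := by
  have hs : T.IsSemisimple := by
    apply Module.End.isSemisimple_of_squarefree_aeval_eq_zero (p := (Polynomial.X ^ m - Polynomial.C 1 : Polynomial K))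
    · exact (Polynomial.separable_X_pow_sub_C (1 : K) hm one_ne_zero).squarefree
    · simp [hT]
  exact hs.iSup_eigenspace_eq_top

end diag

/-- restriction to an invariant subspace -/
def restr {K V P : Type*} [Field K] [AddCommGroup V] [Module K V] [Group P] (ρ : P →* End K V)
    (W : Submodule K V) (hW : ∀ g, ∀ w ∈ W, ρ g w ∈ W) : P →* End K W where
  toFun g := (ρ g).restrict (hW g)
  map_one' := by
    ext w
    simp
  map_mul' g h := by
    ext w
    simp

theorem ds_le {P : Type*} [Group P] {M : Subgroup P} (h : commutator P ≤ M) (k : ℕ) :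
    derivedSeries P (k + 1) ≤ (derivedSeries M k).map M.subtype := by
  induction k with
  | zero =>
    rw [derivedSeries_one, derivedSeries_zero, ← MonoidHom.range_eq_map, Subgroup.range_subtype]
    exact h
  | succ n ih =>
    change ⁅derivedSeries P (n + 1), derivedSeries P (n + 1)⁆ ≤ (⁅derivedSeries M n, derivedSeries M n⁆).map M.subtype
    rw [Subgroup.map_commutator]
    exact Subgroup.commutator_mono ih ih

theorem eq_one_of_eigen {K V : Type*} [Field K] [IsAlgClosed K] [AddCommGroup V] [Module K V] [FiniteDimensional K V]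
    {T S : End K V} {m : ℕ} (hm : (m : K) ≠ 0) (hT : T ^ m = 1) (h : ∀ μ : K, ∀ v ∈ T.eigenspace μ, S v = v) : S = 1 := by
  ext v
  have hv : v ∈ ⨆ μ : K, T.eigenspace μ := by rw [iSup_eigenspace hm hT]; trivial
  rw [End.one_apply]
  refine Submodule.iSup_induction (fun μ : K => T.eigenspace μ) (motive := fun v => S v = v) hv h (map_zero _) ?_
  intro x y hx hy
  rw [map_add, hx, hy]

/-- commutators with an element central modulo the centre -/
theorem comm_comm {R : Type*} [Group R] {a : R} (h : ∀ r, r * a * r⁻¹ * a⁻¹ ∈ Subgroup.center R) {x : R}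
    (hx : x ∈ commutator R) : x * a = a * x := by
  let f : R →* Subgroup.center R := MonoidHom.mk' (fun r => ⟨r * a * r⁻¹ * a⁻¹, h r⟩) (by
    intro r s
    apply Subtype.ext
    change r * s * a * (r * s)⁻¹ * a⁻¹ = (r * a * r⁻¹ * a⁻¹) * (s * a * s⁻¹ * a⁻¹)
    have hc := (Subgroup.mem_center_iff.1 (h s))
    calc r * s * a * (r * s)⁻¹ * a⁻¹ = r * ((s * a * s⁻¹ * a⁻¹) * a) * r⁻¹ * a⁻¹ := by group
      _ = r * (a * (s * a * s⁻¹ * a⁻¹)) * r⁻¹ * a⁻¹ := by rw [← hc a]
      _ = r * a * ((s * a * s⁻¹ * a⁻¹) * (r⁻¹ * a⁻¹)) := by group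
      _ = r * a * ((r⁻¹ * a⁻¹) * (s * a * s⁻¹ * a⁻¹)) := by rw [← hc]
      _ = _ := by group)
  have h1 : commutator R ≤ f.ker := by
    rw [commutator_def, Subgroup.commutator_le]
    intro r _ s _
    rw [MonoidHom.mem_ker, map_commutatorElement, commutatorElement_eq_one_iff_mul_comm]
    apply Subtype.ext
    exact ((Subgroup.mem_center_iff.1 (f r).2) (f s : R)).symm
  have h2 := congrArg Subtype.val (MonoidHom.mem_ker.1 (h1 hx))
  change x * a * x⁻¹ * a⁻¹ = 1 at h2
  calc x * a = (x * a * x⁻¹ * a⁻¹) * (a * x) := by group
    _ = a * x := by rw [h2, one_mul]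

/-- the main induction, characteristic prime to p -/
theorem main {K : Type*} [Field K] [IsAlgClosed K] (p : ℕ) [hp : Fact p.Prime] (hK : (p : K) ≠ 0) :
    ∀ (n : ℕ), 1 ≤ n → ∀ (V : Type*) [AddCommGroup V] [Module K V] [FiniteDimensional K V],
      finrank K V ≤ n → ∀ (P : Type*) [Group P] [Finite P], IsPGroup p P → ∀ (ρ : P →* End K V),
      ∀ g ∈ derivedSeries P (Nat.log 2 n + 1), ρ g = 1 := by
  intro n
  induction n using Nat.strong_induction_on with
  | _ n ih =>
    intro hn V _ _ _ hV P _ _ hP ρ g hg
    have hord : ∀ x : P, ρ x ^ orderOf x = 1 := fun x => by rw [← map_pow, pow_orderOf_eq_one, map_one]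
    have hordK : ∀ x : P, ((orderOf x : ℕ) : K) ≠ 0 := by
      intro x
      obtain ⟨k, hk⟩ := (IsPGroup.iff_orderOf.1 hP) x
      rw [hk, Nat.cast_pow]
      exact pow_ne_zero _ hK
    have hinvl : ∀ (x : P) (v : V), ρ x⁻¹ (ρ x v) = v := fun x v => by
      rw [← End.mul_apply, ← map_mul, inv_mul_cancel, map_one, End.one_apply]
    have hinvr : ∀ (x : P) (v : V), ρ x (ρ x⁻¹ v) = v := fun x v => by
      rw [← End.mul_apply, ← map_mul, mul_inv_cancel, map_one, End.one_apply]
    by_cases h1 : ∃ z : P, (∀ h, ρ z * ρ h = ρ h * ρ z) ∧ ∀ μ : K, ρ z ≠ μ • 1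
    · obtain ⟨z, hz, hzs⟩ := h1
      apply eq_one_of_eigen (hordK z) (hord z)
      intro μ v hv
      have hinv : ∀ h, ∀ w ∈ (ρ z).eigenspace μ, ρ h w ∈ (ρ z).eigenspace μ := by
        intro h w hw
        rw [End.mem_eigenspace_iff] at hw ⊢
        rw [← End.mul_apply, hz h, End.mul_apply, hw, map_smul]
      by_cases h0 : v = 0
      · rw [h0, map_zero]
      have hlt : finrank K ((ρ z).eigenspace μ) < n := by
        refine lt_of_lt_of_le (Submodule.finrank_lt ?_) hV
        intro htop
        apply hzs μ
        ext w
        have hw : w ∈ (ρ z).eigenspace μ := by rw [htop]; trivial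
        exact End.mem_eigenspace_iff.1 hw
      have hpos : 1 ≤ finrank K ((ρ z).eigenspace μ) := by
        have : Nontrivial ((ρ z).eigenspace μ) := ⟨⟨⟨v, hv⟩, 0, fun h => h0 (congrArg Subtype.val h)⟩⟩
        exact finrank_pos
      have h2 := ih _ hlt hpos ((ρ z).eigenspace μ) le_rfl P hP (restr ρ _ hinv) g
        (derivedSeries_antitone P (Nat.add_le_add_right (Nat.log_mono_right hlt.le) 1) hg)
      have h3 := congrArg (fun f : End K ((ρ z).eigenspace μ) => ((f ⟨v, hv⟩ : (ρ z).eigenspace μ) : V)) h2
      exact h3
    · push Not at h1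
      by_cases hab : ∀ x y : P, ρ x * ρ y = ρ y * ρ x
      · have hker : commutator P ≤ ρ.ker := by
          rw [commutator_def, Subgroup.commutator_le]
          intro x _ y _
          rw [MonoidHom.mem_ker, commutatorElement_def, map_mul, map_mul, map_mul, hab x y, mul_assoc, mul_assoc,
            ← mul_assoc (ρ x), ← map_mul, mul_inv_cancel, map_one, one_mul, ← map_mul, mul_inv_cancel, map_one]
        have : g ∈ derivedSeries P 1 := derivedSeries_antitone P (Nat.le_add_left 1 _) hg
        rw [derivedSeries_one] at this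
        exact MonoidHom.mem_ker.1 (hker this)
      · have hn2 : 2 ≤ n := by
          by_contra hlt
          have hn1 : n = 1 := by omega
          apply hab
          intro x y
          have hV1 : finrank K V ≤ 1 := by rw [← hn1]; exact hV
          obtain ⟨v, hv⟩ := finrank_le_one_iff.1 hV1
          obtain ⟨c, hc⟩ := hv (ρ x v)
          obtain ⟨d, hd⟩ := hv (ρ y v)
          ext w
          obtain ⟨e, rfl⟩ := hv w
          simp only [End.mul_apply, map_smul, ← hc, ← hd, smul_smul]
          congr 1
          ring
        have hmk : ∀ x y : P, (QuotientGroup.mk x : P ⧸ ρ.ker) = QuotientGroup.mk y ↔ ρ x = ρ y := by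
          intro x y
          rw [QuotientGroup.eq, MonoidHom.mem_ker]
          constructor
          · intro h
            have h2 := congrArg (fun f => ρ x * f) h
            simp only [mul_one] at h2
            rw [← map_mul, mul_inv_cancel_left] at h2
            exact h2.symm
          · intro h
            rw [map_mul, ← h, ← map_mul, inv_mul_cancel, map_one]
        -- the element central modulo the centre
        obtain ⟨a, haZ, hag⟩ : ∃ a : P, (∃ x, ρ x * ρ a ≠ ρ a * ρ x) ∧
            ∀ x, (QuotientGroup.mk (x * a * x⁻¹ * a⁻¹) : P ⧸ ρ.ker) ∈ Subgroup.center (P ⧸ ρ.ker) := by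
          let Z : Subgroup P := (Subgroup.center (P ⧸ ρ.ker)).comap (QuotientGroup.mk' ρ.ker)
          have hZn : Z.Normal := Subgroup.Normal.comap inferInstance _
          have hZt : Z ≠ ⊤ := by
            intro htop
            apply hab
            intro x y
            have hx : x ∈ Z := by rw [htop]; trivial
            have h2 := Subgroup.mem_center_iff.1 (Subgroup.mem_comap.1 hx) (QuotientGroup.mk y)
            have h3 : (QuotientGroup.mk (y * x) : P ⧸ ρ.ker) = QuotientGroup.mk (x * y) := h2
            rw [hmk, map_mul, map_mul] at h3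
            exact h3.symm
          have hnt : Nontrivial (P ⧸ Z) := QuotientGroup.nontrivial_iff.2 hZt
          have hc := (hP.to_quotient Z).center_nontrivial
          obtain ⟨⟨b, hb⟩, hb1⟩ := exists_ne (1 : Subgroup.center (P ⧸ Z))
          obtain ⟨a, rfl⟩ := QuotientGroup.mk_surjective b
          refine ⟨a, ?_, ?_⟩
          · by_contra hcon
            push Not at hcon
            apply hb1
            apply Subtype.ext
            change (QuotientGroup.mk a : P ⧸ Z) = 1
            rw [QuotientGroup.eq_one_iff]
            apply Subgroup.mem_comap.2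
            rw [Subgroup.mem_center_iff]
            intro r
            obtain ⟨r, rfl⟩ := QuotientGroup.mk_surjective r
            change (QuotientGroup.mk (r * a) : P ⧸ ρ.ker) = QuotientGroup.mk (a * r)
            rw [hmk, map_mul, map_mul]
            exact hcon r
          · intro x
            have h2 := Subgroup.mem_center_iff.1 hb (QuotientGroup.mk x)
            have h3 : (QuotientGroup.mk (x * a) : P ⧸ Z) = QuotientGroup.mk (a * x) := h2
            have h4 : x * a * x⁻¹ * a⁻¹ ∈ Z := by
              rw [← QuotientGroup.eq_one_iff]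
              calc (QuotientGroup.mk (x * a * x⁻¹ * a⁻¹) : P ⧸ Z)
                  = QuotientGroup.mk (x * a) * (QuotientGroup.mk (a * x))⁻¹ := by
                    rw [← QuotientGroup.mk_inv, ← QuotientGroup.mk_mul]; congr 1; group
                _ = 1 := by rw [h3, mul_inv_cancel]
            exact h4
        let M : Subgroup P := (Subgroup.centralizer ({(QuotientGroup.mk a : P ⧸ ρ.ker)} : Set (P ⧸ ρ.ker))).comap (QuotientGroup.mk' ρ.ker)
        have hM : ∀ x ∈ M, ρ x * ρ a = ρ a * ρ x := by
          intro x hx
          have h2 := Subgroup.mem_centralizer_singleton_iff.1 (Subgroup.mem_comap.1 hx)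
          have h3 : (QuotientGroup.mk (x * a) : P ⧸ ρ.ker) = QuotientGroup.mk (a * x) := h2
          rw [hmk, map_mul, map_mul] at h3
          exact h3
        have hcM : commutator P ≤ M := by
          have h2 : commutator P ≤ (commutator (P ⧸ ρ.ker)).comap (QuotientGroup.mk' ρ.ker) := by
            rw [← Subgroup.map_le_iff_le_comap, commutator_def, Subgroup.map_commutator, commutator_def]
            exact Subgroup.commutator_mono le_top le_top
          intro x hx
          apply Subgroup.mem_comap.2
          rw [Subgroup.mem_centralizer_singleton_iff]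
          refine comm_comm (fun r => ?_) (h2 hx)
          obtain ⟨r, rfl⟩ := QuotientGroup.mk_surjective r
          exact hag r
        apply eq_one_of_eigen (hordK a) (hord a)
        intro μ v hv
        by_cases h0 : v = 0
        · rw [h0, map_zero]
        have hinv : ∀ h : M, ∀ w ∈ (ρ a).eigenspace μ, (ρ.comp M.subtype) h w ∈ (ρ a).eigenspace μ := by
          intro h w hw
          rw [End.mem_eigenspace_iff] at hw ⊢
          change ρ a (ρ h w) = μ • ρ h w
          rw [← End.mul_apply, ← hM h h.2, End.mul_apply, hw, map_smul]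
        have hpos : 1 ≤ finrank K ((ρ a).eigenspace μ) := by
          have : Nontrivial ((ρ a).eigenspace μ) := ⟨⟨⟨v, hv⟩, 0, fun h => h0 (congrArg Subtype.val h)⟩⟩
          exact finrank_pos
        have hμ0 : μ ≠ 0 := by
          rintro rfl
          rw [End.mem_eigenspace_iff, zero_smul] at hv
          apply h0
          rw [← hinvl a v, hv, map_zero]
        have hhalf : 2 * finrank K ((ρ a).eigenspace μ) ≤ n := by
          obtain ⟨x, hx⟩ := haZ
          -- the scalar
          obtain ⟨c, hc⟩ : ∃ c : K, ρ (x * a * x⁻¹ * a⁻¹) = c • 1 := by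
            apply h1
            intro h
            have h2 := Subgroup.mem_center_iff.1 (hag x) (QuotientGroup.mk h)
            have h3 : (QuotientGroup.mk (h * (x * a * x⁻¹ * a⁻¹)) : P ⧸ ρ.ker) = QuotientGroup.mk ((x * a * x⁻¹ * a⁻¹) * h) := h2
            rw [hmk, map_mul ρ h, map_mul ρ _ h] at h3
            exact h3.symm
          have hxa : ρ x * ρ a = c • (ρ a * ρ x) := by
            rw [← map_mul, ← map_mul, show x * a = (x * a * x⁻¹ * a⁻¹) * (a * x) by group, map_mul, hc,
              smul_mul_assoc, one_mul]
          have hc1 : c ≠ 1 := by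
            rintro rfl
            rw [one_smul] at hxa
            exact hx hxa
          have hc0 : c ≠ 0 := by
            rintro rfl
            rw [zero_smul] at hxa
            apply h0
            have h4 : ρ x (ρ a v) = 0 := by rw [← End.mul_apply, hxa]; rfl
            rw [← hinvl a v, ← hinvl x (ρ a v), h4, map_zero, map_zero]
          have hmap : ((ρ a).eigenspace μ).map (ρ x) ≤ (ρ a).eigenspace (c⁻¹ * μ) := by
            rintro _ ⟨w, hw, rfl⟩
            have hw' := End.mem_eigenspace_iff.1 hw
            rw [End.mem_eigenspace_iff]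
            have h5 : ρ x (ρ a w) = c • ρ a (ρ x w) := by rw [← End.mul_apply, hxa]; rfl
            rw [hw', map_smul] at h5
            rw [mul_smul, h5, smul_smul, inv_mul_cancel₀ hc0, one_smul]
          have hdis : Disjoint ((ρ a).eigenspace μ) ((ρ a).eigenspace (c⁻¹ * μ)) := by
            apply (End.eigenspaces_iSupIndep (ρ a)).pairwiseDisjoint
            intro he
            apply hc1
            have : c * μ = μ := by
              nth_rw 1 [he]
              rw [mul_inv_cancel_left₀ hc0]
            exact mul_right_cancel₀ hμ0 (this.trans (one_mul μ).symm)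
          have hf : finrank K (((ρ a).eigenspace μ).map (ρ x)) = finrank K ((ρ a).eigenspace μ) := by
            have hinj : Function.Injective (ρ x) := fun u w huw => by rw [← hinvl x u, huw, hinvl]
            exact (LinearEquiv.finrank_eq (Submodule.equivMapOfInjective (ρ x) hinj ((ρ a).eigenspace μ))).symm
          have h7 : finrank K ((ρ a).eigenspace μ) + finrank K ((ρ a).eigenspace (c⁻¹ * μ)) ≤ finrank K V :=
            Submodule.finrank_add_finrank_le_of_disjoint hdis
          have h8 := Submodule.finrank_mono hmap
          omega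
        have h2 := ih (finrank K ((ρ a).eigenspace μ)) (by omega) hpos ((ρ a).eigenspace μ) le_rfl M (hP.to_subgroup M) (restr (ρ.comp M.subtype) _ hinv)
        have hlog : Nat.log 2 (finrank K ((ρ a).eigenspace μ)) + 1 ≤ Nat.log 2 n := by
          have h3 : Nat.log 2 (finrank K ((ρ a).eigenspace μ)) ≤ Nat.log 2 (n / 2) := Nat.log_mono_right (by omega)
          have h4 : Nat.log 2 n = Nat.log 2 (n / 2) + 1 := Nat.log_of_one_lt_of_le (by norm_num) hn2
          omega
        have h5 := ds_le hcM _ (derivedSeries_antitone P (Nat.add_le_add_right hlog 1) hg)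
        obtain ⟨x, hx, hxg⟩ := Subgroup.mem_map.1 h5
        have h6 := h2 x hx
        have h7 := congrArg (fun f : End K ((ρ a).eigenspace μ) => ((f ⟨v, hv⟩ : (ρ a).eigenspace μ) : V)) h6
        rw [← hxg]
        exact h7

end Cfsg.Agent.H42.PDer
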