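import Cfsg.Agent.H42.PDerLen

set_option autoImplicit false
set_option maxHeartbeats 1000000

/-!
Derived length of linear p-groups: the defining characteristic.
-/

namespace Cfsg.Agent.H42.PDer

open Module

/-- fixed vectors -/
theorem exists_fixed_aux {V P : Type*} [AddCommGroup V] (p : ℕ) [hp : Fact p.Prime] [Module (ZMod p) V]
    [Group P] [Finite P] (hP : IsPGroup p P) (ρ : P →* AddMonoid.End V) (v : V) (hv : v ≠ 0) :
    ∃ v ≠ (0 : V), ∀ g, ρ g v = v := by
  let S : Submodule (ZMod p) V := Submodule.span (ZMod p) (Set.range fun g => ρ g v)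
  have hSf : Finite S := by
    have : FiniteDimensional (ZMod p) S := FiniteDimensional.span_of_finite _ (Set.finite_range _)
    exact Module.finite_of_finite (ZMod p)
  have hinv : ∀ g, ∀ w ∈ S, ρ g w ∈ S := by
    intro g w hw
    induction hw using Submodule.span_induction with
    | mem x hx =>
      obtain ⟨h, rfl⟩ := hx
      apply Submodule.subset_span
      refine ⟨g * h, ?_⟩
      change ρ (g * h) v = _
      rw [map_mul]; rfl
    | zero => rw [map_zero]; exact zero_mem _
    | add x y _ _ hx hy => rw [map_add]; exact add_mem hx hy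
    | smul a x _ hx =>
      have : ρ g (a • x) = a • ρ g x := by
        exact ZMod.map_smul (ρ g) a x
      rw [this]; exact Submodule.smul_mem _ _ hx
  letI : MulAction P S :=
    { smul := fun g w => ⟨ρ g w, hinv g w w.2⟩
      one_smul := fun w => by apply Subtype.ext; change ρ 1 (w : V) = w; rw [map_one]; rfl
      mul_smul := fun g h w => by apply Subtype.ext; change ρ (g * h) (w : V) = ρ g (ρ h w); rw [map_mul]; rfl }
  have hvS : v ∈ S := Submodule.subset_span ⟨1, by change ρ 1 v = v; rw [map_one]; rfl⟩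
  have hpV : ∀ w : V, p • w = 0 := fun w => by
    rw [← Nat.cast_smul_eq_nsmul (ZMod p), CharP.cast_eq_zero, zero_smul]
  have hdvd : p ∣ Nat.card S := by
    have h1 : addOrderOf (⟨v, hvS⟩ : S) = p := by
      apply addOrderOf_eq_prime
      · apply Subtype.ext; exact hpV v
      · intro h; exact hv (congrArg Subtype.val h)
    have h2 := addOrderOf_dvd_natCard (⟨v, hvS⟩ : S)
    exact (dvd_of_eq h1.symm).trans h2
  obtain ⟨b, hb, hb0⟩ := hP.exists_fixed_point_of_prime_dvd_card_of_fixed_point (α := S) hdvd (a := 0) (by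
    rw [MulAction.mem_fixedPoints]
    intro g
    apply Subtype.ext
    change ρ g (0 : V) = 0
    rw [map_zero])
  refine ⟨b, fun h => hb0 (Subtype.ext h.symm), fun g => ?_⟩
  exact congrArg Subtype.val (MulAction.mem_fixedPoints.1 hb g)

theorem exists_fixed {K V P : Type*} [Field K] [AddCommGroup V] [Module K V] [Nontrivial V] (p : ℕ) [hp : Fact p.Prime]
    [CharP K p] [Group P] [Finite P] (hP : IsPGroup p P) (ρ : P →* End K V) : ∃ v ≠ (0 : V), ∀ g, ρ g v = v := by
  obtain ⟨v, hv⟩ := exists_ne (0 : V)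
  have hpV : ∀ w : V, p • w = 0 := fun w => by
    rw [← Nat.cast_smul_eq_nsmul K, CharP.cast_eq_zero, zero_smul]
  let σ : P →* AddMonoid.End V :=
    { toFun := fun g => (ρ g).toAddMonoidHom
      map_one' := by rw [map_one]; rfl
      map_mul' := fun g h => by rw [map_mul]; rfl }
  exact @exists_fixed_aux V P _ p hp (AddCommGroup.zmodModule hpV) _ _ hP σ v hv

section fil
variable {K V P : Type*} [Field K] [AddCommGroup V] [Module K V] [Group P] (ρ : P →* End K V)

/-- next term -/
def nxt (W : Submodule K V) : Submodule K V where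
  carrier := {v | ∀ g, ρ g v - v ∈ W}
  add_mem' := by
    intro a b ha hb g
    rw [map_add, add_sub_add_comm]
    exact add_mem (ha g) (hb g)
  zero_mem' := by
    intro g
    rw [map_zero, sub_zero]
    exact zero_mem _
  smul_mem' := by
    intro c v hv g
    rw [map_smul, ← smul_sub]
    exact Submodule.smul_mem _ _ (hv g)

/-- the filtration -/
def wf : ℕ → Submodule K V
  | 0 => ⊥
  | n + 1 => nxt ρ (wf n)

theorem wf_inv (n : ℕ) : ∀ g, ∀ v ∈ wf ρ n, ρ g v ∈ wf ρ n := by
  induction n with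
  | zero =>
    intro g v hv
    have : v = 0 := hv
    rw [this, map_zero]; exact zero_mem _
  | succ n ih =>
    intro g v hv h
    have h1 : ρ (h * g) v - v ∈ wf ρ n := hv (h * g)
    have h2 : ρ g v - v ∈ wf ρ n := hv g
    have e : ρ h (ρ g v) - ρ g v = (ρ (h * g) v - v) - (ρ g v - v) := by
      rw [map_mul]
      change ρ h (ρ g v) - ρ g v = (ρ h (ρ g v) - v) - (ρ g v - v)
      abel
    change ρ h (ρ g v) - ρ g v ∈ wf ρ n
    rw [e]
    exact sub_mem h1 h2

theorem wf_le (n : ℕ) : wf ρ n ≤ wf ρ (n + 1) := by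
  intro v hv g
  exact sub_mem (wf_inv ρ n g v hv) hv

theorem wf_top [FiniteDimensional K V] (p : ℕ) [hp : Fact p.Prime] [CharP K p] [Finite P] (hP : IsPGroup p P) (n : ℕ) :
    wf ρ n = ⊤ ∨ n ≤ finrank K (wf ρ n) := by
  induction n with
  | zero => right; exact Nat.zero_le _
  | succ n ih =>
    by_cases htop : wf ρ n = ⊤
    · left
      exact top_le_iff.1 (htop ▸ wf_le ρ n)
    · right
      have h1 : n ≤ finrank K (wf ρ n) := ih.resolve_left htop
      have hnt : Nontrivial (V ⧸ wf ρ n) := Submodule.Quotient.nontrivial_iff.2 htop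
      let σ : P →* End K (V ⧸ wf ρ n) :=
        { toFun := fun g => (wf ρ n).mapQ (wf ρ n) (ρ g) (fun v hv => wf_inv ρ n g v hv)
          map_one' := by
            apply LinearMap.ext
            intro x
            obtain ⟨v, rfl⟩ := Submodule.Quotient.mk_surjective _ x
            rw [Submodule.mapQ_apply, map_one]; rfl
          map_mul' := by
            intro g h
            apply LinearMap.ext
            intro x
            obtain ⟨v, rfl⟩ := Submodule.Quotient.mk_surjective _ x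
            rw [Submodule.mapQ_apply, map_mul]; rfl }
      obtain ⟨x, hx0, hx⟩ := exists_fixed p hP σ
      obtain ⟨v, rfl⟩ := Submodule.Quotient.mk_surjective _ x
      have hv1 : v ∈ wf ρ (n + 1) := by
        intro g
        have h2 := hx g
        change (Submodule.Quotient.mk (ρ g v) : V ⧸ wf ρ n) = Submodule.Quotient.mk v at h2
        exact (Submodule.Quotient.eq _).1 h2
      have hv0 : v ∉ wf ρ n := fun h => hx0 ((Submodule.Quotient.mk_eq_zero _).2 h)
      have hlt : wf ρ n < wf ρ (n + 1) := lt_of_le_of_ne (wf_le ρ n) (fun h => hv0 (h ▸ hv1))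
      have := Submodule.finrank_lt_finrank_of_lt hlt
      omega

/-- filtered endomorphisms -/
def Fil (k : ℕ) (T : End K V) : Prop := ∀ i, ∀ v ∈ wf ρ (i + k), T v ∈ wf ρ i

theorem Fil.mul {a b : ℕ} {T S : End K V} (hT : Fil ρ a T) (hS : Fil ρ b S) : Fil ρ (a + b) (T * S) := by
  intro i v hv
  exact hT i _ (hS (i + a) v (by rw [add_assoc]; exact hv))

theorem Fil.add {a : ℕ} {T S : End K V} (hT : Fil ρ a T) (hS : Fil ρ a S) : Fil ρ a (T + S) :=
  fun i v hv => add_mem (hT i v hv) (hS i v hv)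

theorem Fil.sub {a : ℕ} {T S : End K V} (hT : Fil ρ a T) (hS : Fil ρ a S) : Fil ρ a (T - S) :=
  fun i v hv => sub_mem (hT i v hv) (hS i v hv)

theorem Fil.zero_of (g : P) : Fil ρ 0 (ρ g) := fun i v hv => wf_inv ρ i g v hv

theorem Fil.one_of (g : P) : Fil ρ 1 (ρ g - 1) := fun _ _ hv => hv g

/-- filtration subgroups -/
def FH (m : ℕ) : Subgroup P where
  carrier := {g | Fil ρ m (ρ g - 1) ∧ Fil ρ m (ρ g⁻¹ - 1)}
  one_mem' := by
    have h : ∀ T : End K V, T = 0 → Fil ρ m T := by
      rintro _ rfl i v _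
      exact zero_mem _
    constructor
    · apply h; rw [map_one, sub_self]
    · apply h; rw [inv_one, map_one, sub_self]
  inv_mem' := by
    rintro g ⟨h1, h2⟩
    exact ⟨h2, by rw [inv_inv]; exact h1⟩
  mul_mem' := by
    have key : ∀ x y : P, Fil ρ m (ρ x - 1) → Fil ρ m (ρ y - 1) → Fil ρ m (ρ (x * y) - 1) := by
      intro x y hx hy
      have e : ρ (x * y) - 1 = (ρ x - 1) * ρ y + (ρ y - 1) := by
        rw [map_mul, sub_mul, one_mul, sub_add_sub_cancel]
      rw [e]
      exact (Fil.mul ρ hx (Fil.zero_of ρ y)).add ρ hy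
    rintro x y ⟨h1, h2⟩ ⟨h3, h4⟩
    exact ⟨key x y h1 h3, by rw [mul_inv_rev]; exact key _ _ h4 h2⟩

theorem FH_comm (m : ℕ) : ⁅FH ρ m, FH ρ m⁆ ≤ FH ρ (m + m) := by
  rw [Subgroup.commutator_le]
  have key : ∀ x y : P, Fil ρ m (ρ x - 1) → Fil ρ m (ρ y - 1) → Fil ρ (m + m) (ρ (x * y * x⁻¹ * y⁻¹) - 1) := by
    intro x y hx hy
    have e : ρ (x * y * x⁻¹ * y⁻¹) - 1 = ((ρ x - 1) * (ρ y - 1) - (ρ y - 1) * (ρ x - 1)) * ρ (x⁻¹ * y⁻¹) := by
      have e1 : (ρ x - 1) * (ρ y - 1) - (ρ y - 1) * (ρ x - 1) = ρ (x * y) - ρ (y * x) := by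
        rw [map_mul, map_mul]; noncomm_ring
      rw [e1, sub_mul, ← map_mul, ← map_mul]
      congr 1
      · congr 1; group
      · rw [show y * x * (x⁻¹ * y⁻¹) = 1 by group, map_one]
    rw [e]
    exact Fil.mul ρ (b := 0) ((Fil.mul ρ hx hy).sub ρ (Fil.mul ρ hy hx)) (Fil.zero_of ρ _)
  intro x hx y hy
  rw [commutatorElement_def]
  refine ⟨key x y hx.1 hy.1, ?_⟩
  rw [show (x * y * x⁻¹ * y⁻¹)⁻¹ = y * x * y⁻¹ * x⁻¹ by group]
  exact key y x hy.1 hx.1

theorem ds_FH (k : ℕ) : derivedSeries P k ≤ FH ρ (2 ^ k) := by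
  induction k with
  | zero =>
    intro g _
    exact ⟨Fil.one_of ρ g, Fil.one_of ρ g⁻¹⟩
  | succ n ih =>
    change ⁅derivedSeries P n, derivedSeries P n⁆ ≤ _
    refine (Subgroup.commutator_mono ih ih).trans ?_
    rw [pow_succ, mul_two]
    exact FH_comm ρ _

end fil

theorem main_p {K : Type*} [Field K] (p : ℕ) [hp : Fact p.Prime] [CharP K p] (n : ℕ) (hn : 1 ≤ n) (V : Type*)
    [AddCommGroup V] [Module K V] [FiniteDimensional K V] (hV : finrank K V ≤ n) (P : Type*) [Group P] [Finite P]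
    (hP : IsPGroup p P) (ρ : P →* End K V) : ∀ g ∈ derivedSeries P (Nat.log 2 n + 1), ρ g = 1 := by
  intro g hg
  have h1 := (ds_FH ρ _ hg).1
  have h2 : wf ρ (2 ^ (Nat.log 2 n + 1)) = ⊤ := by
    rcases wf_top ρ p hP (2 ^ (Nat.log 2 n + 1)) with h | h
    · exact h
    · exfalso
      have h3 := Nat.lt_pow_succ_log_self (b := 2) (by norm_num) n
      have h4 := Submodule.finrank_le (wf ρ (2 ^ (Nat.log 2 n + 1)))
      have h5 : 2 ^ (Nat.log 2 n + 1) = 2 ^ (Nat.log 2 n).succ := rfl
      omega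
  rw [← sub_eq_zero]
  ext v
  have h3 := h1 0 v (by rw [zero_add, h2]; trivial)
  exact h3

theorem final {P : Type*} [Group P] [Finite P] (p : ℕ) [hp : Fact p.Prime] (hP : IsPGroup p P) (F : Type*) [Field F]
    (n : ℕ) (hn : 1 ≤ n) (ρ : P →* Matrix.GeneralLinearGroup (Fin n) F) (hρ : Function.Injective ρ) :
    derivedSeries P (Nat.log 2 n + 1) = ⊥ := by
  rw [eq_bot_iff]
  intro g hg
  rw [Subgroup.mem_bot]
  apply hρ
  rw [map_one]
  by_cases hF : (p : F) = 0
  · have : CharP F p := (CharP.charP_iff_prime_eq_zero hp.out).2 hF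
    let σ : P →* End F (Fin n → F) := (Matrix.toLinAlgEquiv' : Matrix (Fin n) (Fin n) F ≃ₐ[F] _).toMonoidHom.comp ((Units.coeHom _).comp ρ)
    have h1 := main_p p n hn (Fin n → F) (by simp) P hP σ g hg
    apply Units.ext
    have h2 : Matrix.toLinAlgEquiv' ((ρ g : Matrix.GeneralLinearGroup (Fin n) F) : Matrix (Fin n) (Fin n) F) = 1 := h1
    rw [Units.val_one]
    apply (Matrix.toLinAlgEquiv' : Matrix (Fin n) (Fin n) F ≃ₐ[F] _).injective
    rw [h2, map_one]
  · let K := AlgebraicClosure F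
    have hK : (p : K) ≠ 0 := by
      intro h
      apply hF
      apply (algebraMap F K).injective
      rw [map_natCast, map_zero]; exact h
    let σ : P →* End K (Fin n → K) := (Matrix.toLinAlgEquiv' : Matrix (Fin n) (Fin n) K ≃ₐ[K] _).toMonoidHom.comp
      ((Units.coeHom _).comp ((Matrix.GeneralLinearGroup.map (algebraMap F K)).comp ρ))
    have h1 := main p hK n hn (Fin n → K) (by simp) P hP σ g hg
    apply Units.ext
    rw [Units.val_one]
    have h2 : Matrix.toLinAlgEquiv' (((ρ g : Matrix.GeneralLinearGroup (Fin n) F) : Matrix (Fin n) (Fin n) F).map (algebraMap F K)) = 1 := h1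
    have h3 : ((ρ g : Matrix.GeneralLinearGroup (Fin n) F) : Matrix (Fin n) (Fin n) F).map (algebraMap F K) = (1 : Matrix (Fin n) (Fin n) K) := by
      apply (Matrix.toLinAlgEquiv' : Matrix (Fin n) (Fin n) K ≃ₐ[K] _).injective
      rw [h2, map_one]
    ext i j
    apply (algebraMap F K).injective
    have h4 := congrFun (congrFun h3 i) j
    rw [Matrix.map_apply] at h4
    rw [h4, Matrix.one_apply, Matrix.one_apply]
    split_ifs <;> simp

end Cfsg.Agent.H42.PDer
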