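import Mathlib

/-!
Quadratic forms over the field with two elements, totally singular subspaces invariant under 2-groups.
-/

set_option autoImplicit false

namespace Cfsg.Agent.H42.QuadTwo

open Module

variable {F : Type*} [Field F] [Fintype F] {V : Type*} [AddCommGroup V] [Module F V] [Finite V] [Module.Finite F V]

theorem eq_zero_or_one (hF : Fintype.card F = 2) (c : F) : c = 0 ∨ c = 1 := by
  by_cases hc : c = 0
  · exact Or.inl hc
  · right
    have h := FiniteField.pow_card_sub_one_eq_one c hc
    rw [hF] at h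
    simpa using h

theorem add_self_eq_zero' (hF : Fintype.card F = 2) (c : F) : c + c = 0 := by
  have h2 : (2 : F) = 0 := by
    have := FiniteField.cast_card_eq_zero F
    rw [hF] at this
    exact_mod_cast this
  rw [← two_mul, h2, zero_mul]

section form

variable (B : LinearMap.BilinForm F V) (Q : V → F) (hQ : ∀ u v, Q (u + v) = Q u + Q v + B u v)

include hQ

theorem Q_zero : Q 0 = 0 := by
  have h := hQ 0 0
  simp only [add_zero, map_zero] at h
  have h1 : Q 0 + 0 = Q 0 + Q 0 := by rw [add_zero]; exact h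
  exact (add_left_cancel h1).symm

theorem B_symm (u v : V) : B u v = B v u := by
  have h1 := hQ u v
  have h2 := hQ v u
  rw [add_comm v u, h1] at h2
  have h3 : Q v + Q u = Q u + Q v := add_comm _ _
  rw [h3] at h2
  exact add_left_cancel h2

theorem B_self (hF : Fintype.card F = 2) (u : V) : B u u = 0 := by
  have h1 := hQ u u
  have h2 : u + u = 0 := by
    have : (1 + 1 : F) • u = 0 := by rw [add_self_eq_zero' hF, zero_smul]
    rwa [add_smul, one_smul] at this
  rw [h2, Q_zero B Q hQ, add_self_eq_zero' hF, zero_add] at h1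
  exact h1.symm

omit hQ in
theorem add_self_vec (hF : Fintype.card F = 2) (u : V) : u + u = 0 := by
  have : (1 + 1 : F) • u = 0 := by rw [add_self_eq_zero' hF, zero_smul]
  rwa [add_smul, one_smul] at this

theorem Q_smul (hF : Fintype.card F = 2) (c : F) (u : V) : Q (c • u) = c * Q u := by
  rcases eq_zero_or_one hF c with rfl | rfl
  · rw [zero_smul, Q_zero B Q hQ, zero_mul]
  · rw [one_smul, one_mul]

/-- number of singular vectors in the perp of `U` -/
noncomputable def sing (U : Submodule F V) : ℕ := Nat.card {w : V // w ∈ B.orthogonal U ∧ Q w = 0}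

omit hQ in
theorem card_sub (hF : Fintype.card F = 2) (U : Submodule F V) : Nat.card U = 2 ^ finrank F U := by
  rw [Module.natCard_eq_pow_finrank (K := F), Nat.card_eq_fintype_card, hF]

theorem sing_step (hF : Fintype.card F = 2) (hB : B.Nondegenerate) (U : Submodule F V) {a : V}
    (ha : a ∈ B.orthogonal U) (haU : a ∉ U) (hUs : ∀ u ∈ U, Q u = 0) (hQa : Q a = 0) {d : ℕ}
    (hd : finrank F V = finrank F U + d + 2) :
    sing B Q U = sing B Q (U ⊔ F ∙ a) + 2 ^ d := by
  classical
  haveI : Fintype V := Fintype.ofFinite V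
  have ha0 : a ≠ 0 := by
    rintro rfl
    exact haU U.zero_mem
  have hmem : ∀ w, w ∈ B.orthogonal (U ⊔ F ∙ a) ↔ w ∈ B.orthogonal U ∧ B a w = 0 := by
    intro w
    constructor
    · intro h
      exact ⟨fun n hn => h n (Submodule.mem_sup_left hn),
        h a (Submodule.mem_sup_right (Submodule.mem_span_singleton_self a))⟩
    · rintro ⟨h1, h2⟩ n hn
      obtain ⟨u, hu, z, hz, rfl⟩ := Submodule.mem_sup.mp hn
      obtain ⟨c, rfl⟩ := Submodule.mem_span_singleton.mp hz
      show B (u + c • a) w = 0
      have h3 : B u w = 0 := h1 u hu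
      rw [map_add, LinearMap.add_apply, map_smul, LinearMap.smul_apply, h3, h2, smul_zero, add_zero]
  set A0 : Finset V := Finset.univ.filter (fun w => (w ∈ B.orthogonal U ∧ Q w = 0) ∧ B a w = 0) with hA0
  set A1 : Finset V := Finset.univ.filter (fun w => (w ∈ B.orthogonal U ∧ Q w = 0) ∧ ¬ B a w = 0) with hA1
  set A2 : Finset V := Finset.univ.filter (fun w => (w ∈ B.orthogonal U ∧ ¬ Q w = 0) ∧ ¬ B a w = 0) with hA2
  have hs1 : sing B Q U = A0.card + A1.card := by
    have h1 : sing B Q U = (Finset.univ.filter (fun w => w ∈ B.orthogonal U ∧ Q w = 0)).card := by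
      rw [sing, Nat.card_eq_fintype_card, Fintype.card_subtype]
    rw [h1, hA0, hA1, ← Finset.card_filter_add_card_filter_not (s := Finset.univ.filter (fun w => w ∈ B.orthogonal U ∧ Q w = 0)) (fun w => B a w = 0),
      Finset.filter_filter, Finset.filter_filter]
  have hs2 : sing B Q (U ⊔ F ∙ a) = A0.card := by
    rw [sing, Nat.card_eq_fintype_card, Fintype.card_subtype, hA0]
    congr 1
    ext w
    simp only [Finset.mem_filter, Finset.mem_univ, true_and, hmem]
    tauto
  have hshift : ∀ w, w ∈ B.orthogonal U → ¬ B a w = 0 → (w + a ∈ B.orthogonal U ∧ ¬ B a (w + a) = 0 ∧ (Q (w + a) = 0 ↔ ¬ Q w = 0)) := by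
    intro w hw hw1
    refine ⟨Submodule.add_mem _ hw ha, ?_, ?_⟩
    · rw [map_add, B_self B Q hQ hF, add_zero]
      exact hw1
    · rw [hQ, hQa, add_zero, B_symm B Q hQ w a]
      have h1 : B a w = 1 := (eq_zero_or_one hF _).resolve_left hw1
      rw [h1]
      rcases eq_zero_or_one hF (Q w) with h | h
      · rw [h]; simp
      · rw [h]
        have := add_self_eq_zero' hF (1 : F)
        simp [this]
  have hc12 : A1.card = A2.card := by
    refine Finset.card_bij (fun w _ => w + a) ?_ ?_ ?_
    · intro w hw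
      simp only [hA1, hA2, Finset.mem_filter, Finset.mem_univ, true_and] at hw ⊢
      obtain ⟨⟨h1, h2⟩, h3⟩ := hw
      obtain ⟨h4, h5, h6⟩ := hshift w h1 h3
      refine ⟨⟨h4, ?_⟩, h5⟩
      rw [h6]
      exact fun h => h h2
    · intro w _ w' _ h
      exact add_right_cancel h
    · intro w hw
      simp only [hA1, hA2, Finset.mem_filter, Finset.mem_univ, true_and] at hw ⊢
      obtain ⟨⟨h1, h2⟩, h3⟩ := hw
      obtain ⟨h4, h5, h6⟩ := hshift w h1 h3
      refine ⟨w + a, ⟨⟨h4, h6.mpr h2⟩, h5⟩, ?_⟩
      rw [add_assoc, add_self_vec hF, add_zero]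
  have hsum : A0.card + 0 = A0.card := rfl
  -- total count of vectors in the perp
  have hfU : finrank F (B.orthogonal U) = d + 2 := by
    rw [LinearMap.BilinForm.finrank_orthogonal hB, hd]; omega
  have hUa : finrank F (U ⊔ F ∙ a : Submodule F V) = finrank F U + 1 := by
    have h1 := Submodule.finrank_sup_add_finrank_inf_eq U (F ∙ a)
    have h2 : U ⊓ (F ∙ a) = ⊥ := by
      rw [eq_bot_iff]
      intro z hz
      obtain ⟨c, hc⟩ := Submodule.mem_span_singleton.mp hz.2
      rcases eq_zero_or_one hF c with h | h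
      · rw [h, zero_smul] at hc
        rw [← hc]
        exact Submodule.zero_mem _
      · rw [h, one_smul] at hc
        exact absurd (hc ▸ hz.1) haU
    rw [h2, finrank_bot, add_zero, finrank_span_singleton ha0] at h1
    exact h1
  have hfUa : finrank F (B.orthogonal (U ⊔ F ∙ a)) = d + 1 := by
    rw [LinearMap.BilinForm.finrank_orthogonal hB, hd, hUa]; omega
  have ht1 : Nat.card (B.orthogonal U) = 2 ^ (d + 2) := by rw [card_sub hF, hfU]
  have ht2 : Nat.card (B.orthogonal (U ⊔ F ∙ a)) = 2 ^ (d + 1) := by rw [card_sub hF, hfUa]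
  have ht3 : Nat.card (B.orthogonal U) = Nat.card (B.orthogonal (U ⊔ F ∙ a)) + (A1.card + A2.card) := by
    have e1 : Nat.card (B.orthogonal U) = (Finset.univ.filter (fun w => w ∈ B.orthogonal U)).card := by
      rw [Nat.card_eq_fintype_card, ← Fintype.card_subtype]
    have e2 : Nat.card (B.orthogonal (U ⊔ F ∙ a)) = (Finset.univ.filter (fun w => w ∈ B.orthogonal U ∧ B a w = 0)).card := by
      rw [Nat.card_eq_fintype_card, ← Fintype.card_subtype]
      exact Fintype.card_congr (Equiv.subtypeEquivRight hmem)
    rw [e1, e2, ← Finset.card_filter_add_card_filter_not (s := Finset.univ.filter (fun w => w ∈ B.orthogonal U)) (fun w => B a w = 0),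
      Finset.filter_filter, Finset.filter_filter]
    congr 1
    rw [← Finset.card_filter_add_card_filter_not (s := Finset.univ.filter (fun w => w ∈ B.orthogonal U ∧ ¬ B a w = 0)) (fun w => Q w = 0),
      Finset.filter_filter, Finset.filter_filter, hA1, hA2]
    congr 1
    · congr 1
      ext w
      simp only [Finset.mem_filter, Finset.mem_univ, true_and]
      tauto
    · congr 1
      ext w
      simp only [Finset.mem_filter, Finset.mem_univ, true_and]
      tauto
  rw [hs1, hs2]
  rw [ht1, ht2, ← hc12] at ht3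
  have : 2 ^ (d + 2) = 2 ^ (d + 1) + (2 ^ d + 2 ^ d) := by rw [pow_succ, pow_succ]; ring
  omega

theorem B_zero_of_ts (U : Submodule F V) (hU : ∀ u ∈ U, Q u = 0) {u w : V} (hu : u ∈ U) (hw : w ∈ U) :
    B u w = 0 := by
  have h := hQ u w
  rw [hU _ (Submodule.add_mem _ hu hw), hU u hu, hU w hw, add_zero, zero_add] at h
  exact h.symm

theorem B_apply_apply {L : V →ₗ[F] V} (hL : ∀ v, Q (L v) = Q v) (u v : V) : B (L u) (L v) = B u v := by
  have h1 := hQ (L u) (L v)
  rw [← map_add, hL, hL, hL, hQ u v] at h1
  exact (add_left_cancel h1).symm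

theorem finrank_sup_span (hF : Fintype.card F = 2) (U : Submodule F V) {a : V} (haU : a ∉ U) :
    finrank F (U ⊔ F ∙ a : Submodule F V) = finrank F U + 1 := by
  have ha0 : a ≠ 0 := by
    rintro rfl
    exact haU U.zero_mem
  have h1 := Submodule.finrank_sup_add_finrank_inf_eq U (F ∙ a)
  have h2 : U ⊓ (F ∙ a) = ⊥ := by
    rw [eq_bot_iff]
    intro z hz
    obtain ⟨c, hc⟩ := Submodule.mem_span_singleton.mp hz.2
    rcases eq_zero_or_one hF c with h | h
    · rw [h, zero_smul] at hc
      rw [← hc]
      exact Submodule.zero_mem _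
    · rw [h, one_smul] at hc
      exact absurd (hc ▸ hz.1) haU
  rw [h2, finrank_bot, add_zero, finrank_span_singleton ha0] at h1
  exact h1

theorem exists_inv (hF : Fintype.card F = 2) (hB : B.Nondegenerate) {P : Type*} [Group P] [Finite P]
    (hP : IsPGroup 2 P) (L : P →* (V →ₗ[F] V)) (hL : ∀ g v, Q (L g v) = Q v) {m : ℕ} (hm : 1 ≤ m)
    (hV : finrank F V = 2 * m) (hsing : sing B Q ⊥ = 2 ^ (2 * m - 1) + 2 ^ (m - 1)) :
    ∀ j, j ≤ m - 1 → ∃ U : Submodule F V, finrank F U = j ∧ (∀ u ∈ U, Q u = 0) ∧
      (∀ g, U.map (L g) = U) ∧ sing B Q U = 2 ^ (m - 1) + 2 ^ (2 * m - j - 1) := by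
  classical
  intro j
  induction j with
  | zero =>
    intro _
    refine ⟨⊥, finrank_bot F V, ?_, fun g => Submodule.map_bot _, ?_⟩
    · intro u hu
      rw [(Submodule.mem_bot F).mp hu]
      exact Q_zero B Q hQ
    · rw [hsing, Nat.sub_zero, add_comm]
  | succ j ih =>
    intro hj
    obtain ⟨U, hUr, hUs, hUL, hUc⟩ := ih (by omega)
    haveI : Finite (Submodule F V) := Finite.of_injective (fun W : Submodule F V => (W : Set V)) SetLike.coe_injective
    let X := {W : Submodule F V // U ≤ W ∧ (∀ w ∈ W, Q w = 0) ∧ finrank F W = j + 1}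
    haveI : Finite X := Subtype.finite
    haveI : Fintype X := Fintype.ofFinite X
    have hLinj : ∀ g, Function.Injective (L g) := by
      intro g v w hvw
      have h1 : ∀ z, L g⁻¹ (L g z) = z := by
        intro z
        rw [← Module.End.mul_apply, ← map_mul, inv_mul_cancel, map_one]
        rfl
      rw [← h1 v, hvw, h1]
    letI act : MulAction P X :=
      { smul := fun g W => ⟨W.1.map (L g), by
          refine ⟨?_, ?_, ?_⟩
          · exact (hUL g).symm.le.trans (Submodule.map_mono W.2.1)
          · rintro _ ⟨w, hw, rfl⟩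
            rw [hL]
            exact W.2.2.1 w hw
          · rw [← (Submodule.equivMapOfInjective (L g) (hLinj g) W.1).finrank_eq]
            exact W.2.2.2⟩
        one_smul := fun W => Subtype.ext (by
          show W.1.map (L 1) = W.1
          rw [map_one]
          exact Submodule.map_id _)
        mul_smul := fun g h W => Subtype.ext (by
          show W.1.map (L (g * h)) = (W.1.map (L h)).map (L g)
          rw [map_mul, ← Submodule.map_comp]
          rfl) }
    have hact : ∀ (g : P) (W : X), ((g • W : X) : Submodule F V) = W.1.map (L g) := fun g W => rfl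
    -- W = U + <w> for every w in W \ U
    have hspan : ∀ (W : X) (w : V), w ∈ W.1 → w ∉ U → U ⊔ F ∙ w = W.1 := by
      intro W w hw hwU
      apply Submodule.eq_of_le_of_finrank_eq
      · exact sup_le W.2.1 (by rw [Submodule.span_singleton_le_iff_mem]; exact hw)
      · rw [finrank_sup_span B Q hQ hF U hwU, hUr, W.2.2.2]
    -- counting
    let S := {w : V // w ∈ B.orthogonal U ∧ Q w = 0}
    let T := {w : V // (w ∈ B.orthogonal U ∧ Q w = 0) ∧ w ∉ U}
    let Y := Σ W : X, {w : V // w ∈ W.1 ∧ w ∉ U}
    have hUin : ∀ u ∈ U, u ∈ B.orthogonal U ∧ Q u = 0 := fun u hu =>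
      ⟨fun n hn => B_zero_of_ts B Q hQ U hUs hn hu, hUs u hu⟩
    haveI : Fintype V := Fintype.ofFinite V
    have hST : Nat.card S = Nat.card T + 2 ^ j := by
      have e1 : Nat.card S = (Finset.univ.filter (fun w => w ∈ B.orthogonal U ∧ Q w = 0)).card := by
        rw [Nat.card_eq_fintype_card, Fintype.card_subtype]
      have e2 : Nat.card T = (Finset.univ.filter (fun w => (w ∈ B.orthogonal U ∧ Q w = 0) ∧ w ∉ U)).card := by
        rw [Nat.card_eq_fintype_card, Fintype.card_subtype]
      have e3 : 2 ^ j = (Finset.univ.filter (fun w => (w ∈ B.orthogonal U ∧ Q w = 0) ∧ w ∈ U)).card := by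
        have h0 := card_sub hF U
        rw [hUr] at h0
        rw [← h0, Nat.card_eq_fintype_card, Fintype.card_subtype]
        congr 1
        ext w
        simp only [Finset.mem_filter, Finset.mem_univ, true_and]
        exact ⟨fun h => ⟨hUin w h, h⟩, fun h => h.2⟩
      rw [e1, e2, e3, ← Finset.card_filter_add_card_filter_not (s := Finset.univ.filter (fun w => w ∈ B.orthogonal U ∧ Q w = 0)) (fun w => w ∈ U),
        Finset.filter_filter, Finset.filter_filter]
      ring
    have hTY : Nat.card T = Nat.card Y := by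
      symm
      have hf : ∀ y : Y, ((y.2.1 ∈ B.orthogonal U ∧ Q y.2.1 = 0) ∧ y.2.1 ∉ U) := by
        rintro ⟨W, w, hw, hwU⟩
        exact ⟨⟨fun n hn => B_zero_of_ts B Q hQ W.1 W.2.2.1 (W.2.1 hn) hw, W.2.2.1 w hw⟩, hwU⟩
      refine Nat.card_congr (Equiv.ofBijective (fun y : Y => (⟨y.2.1, hf y⟩ : T)) ⟨?_, ?_⟩)
      · rintro ⟨W, w, hw, hwU⟩ ⟨W', w', hw', hwU'⟩ h
        have h1 : w = w' := congrArg Subtype.val h
        subst h1
        have h2 : W = W' := Subtype.ext (by rw [← hspan W w hw hwU, ← hspan W' w hw' hwU'])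
        subst h2
        rfl
      · rintro ⟨w, ⟨hw1, hw2⟩, hwU⟩
        refine ⟨⟨⟨U ⊔ F ∙ w, le_sup_left, ?_, ?_⟩, w, ?_, hwU⟩, rfl⟩
        · intro z hz
          obtain ⟨u, hu, y, hy, rfl⟩ := Submodule.mem_sup.mp hz
          obtain ⟨c, rfl⟩ := Submodule.mem_span_singleton.mp hy
          have h3 : B u w = 0 := hw1 u hu
          rw [hQ, hUs u hu, Q_smul B Q hQ hF, hw2, map_smul, h3, smul_zero, mul_zero, add_zero, add_zero]
        · rw [finrank_sup_span B Q hQ hF U hwU, hUr]
        · exact Submodule.mem_sup_right (Submodule.mem_span_singleton_self w)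
    have hfib : ∀ W : X, Nat.card {w : V // w ∈ W.1 ∧ w ∉ U} = 2 ^ j := by
      intro W
      have e1 : Nat.card {w : V // w ∈ W.1 ∧ w ∉ U} = (Finset.univ.filter (fun w => w ∈ W.1 ∧ w ∉ U)).card := by
        rw [Nat.card_eq_fintype_card, Fintype.card_subtype]
      have e2 : 2 ^ (j + 1) = (Finset.univ.filter (fun w => w ∈ W.1)).card := by
        have h0 := card_sub hF W.1
        rw [W.2.2.2] at h0
        rw [← h0, Nat.card_eq_fintype_card, ← Fintype.card_subtype]
      have e3 : 2 ^ j = (Finset.univ.filter (fun w => w ∈ W.1 ∧ w ∈ U)).card := by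
        have h0 := card_sub hF U
        rw [hUr] at h0
        rw [← h0, Nat.card_eq_fintype_card, Fintype.card_subtype]
        congr 1
        ext w
        simp only [Finset.mem_filter, Finset.mem_univ, true_and]
        exact ⟨fun h => ⟨W.2.1 h, h⟩, fun h => h.2⟩
      rw [← Finset.card_filter_add_card_filter_not (s := Finset.univ.filter (fun w => w ∈ W.1)) (fun w => w ∈ U),
        Finset.filter_filter, Finset.filter_filter, ← e3, ← e1] at e2
      rw [pow_succ] at e2
      omega
    have hYc : Nat.card Y = Nat.card X * 2 ^ j := by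
      rw [Nat.card_sigma]
      simp only [hfib]
      rw [Finset.sum_const, Finset.card_univ, smul_eq_mul, Nat.card_eq_fintype_card]
    have hodd : ¬ 2 ∣ Nat.card X := by
      intro h2
      obtain ⟨k, hk⟩ := h2
      have h3 : Nat.card S = 2 ^ (m - 1) + 2 ^ (2 * m - j - 1) := hUc
      rw [hST, hTY, hYc, hk] at h3
      -- divide by 2^j
      obtain ⟨e, he⟩ : ∃ e, m - 1 = j + (e + 1) := ⟨m - 1 - j - 1, by omega⟩
      obtain ⟨f, hf⟩ : ∃ f, 2 * m - j - 1 = j + (f + 1) := ⟨2 * m - j - 1 - j - 1, by omega⟩
      rw [he, hf, pow_add, pow_add 2 j (f + 1), ← mul_add] at h3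
      have h4 : 2 ^ j * (2 * k + 1) = 2 ^ j * (2 ^ (e + 1) + 2 ^ (f + 1)) := by rw [← h3]; ring
      have h5 := Nat.eq_of_mul_eq_mul_left (pow_pos (by norm_num : 0 < 2) j) h4
      rw [pow_succ, pow_succ] at h5
      omega
    obtain ⟨W, hW⟩ := hP.nonempty_fixed_point_of_prime_not_dvd_card X hodd
    have hWinv : ∀ g, W.1.map (L g) = W.1 := by
      intro g
      rw [← hact]
      exact congrArg Subtype.val (hW g)
    -- an element outside U
    obtain ⟨a, haW, haU⟩ : ∃ a ∈ W.1, a ∉ U := by
      by_contra hcon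
      push Not at hcon
      have h1 : finrank F W.1 ≤ finrank F U := Submodule.finrank_mono hcon
      rw [W.2.2.2, hUr] at h1
      omega
    have hstep := sing_step B Q hQ hF hB U (a := a)
      (fun n hn => B_zero_of_ts B Q hQ W.1 W.2.2.1 (W.2.1 hn) haW) haU hUs (W.2.2.1 a haW) (d := 2 * m - j - 2)
      (by rw [hV, hUr]; omega)
    rw [hspan W a haW haU, hUc] at hstep
    refine ⟨W.1, W.2.2.2, W.2.2.1, hWinv, ?_⟩
    have h1 : 2 ^ (2 * m - j - 1) = 2 ^ (2 * m - j - 2) + 2 ^ (2 * m - j - 2) := by
      rw [show 2 * m - j - 1 = (2 * m - j - 2) + 1 by omega, pow_succ]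
      ring
    have h2 : 2 * m - (j + 1) - 1 = 2 * m - j - 2 := by omega
    rw [h2]
    omega

/-- isometries fixing pointwise a totally singular subspace of codimension one in a maximal one (plus type) -/
theorem pow_eight (hF : Fintype.card F = 2) (hB : B.Nondegenerate) {m : ℕ} (hm : 1 ≤ m)
    (hV : finrank F V = 2 * m) (U : Submodule F V) (hUr : finrank F U = m - 1) (hUs : ∀ u ∈ U, Q u = 0)
    (hUc : sing B Q U = 2 ^ (m - 1) + 2 ^ m) (T : V →ₗ[F] V) (hT : ∀ v, Q (T v) = Q v)
    (hTU : ∀ u ∈ U, T u = u) : T ^ 8 = 1 := by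
  classical
  haveI : Fintype V := Fintype.ofFinite V
  have hTperp : ∀ v, T v - v ∈ B.orthogonal U := by
    intro v n hn
    show B n (T v - v) = 0
    rw [map_sub]
    have h1 : B n (T v) = B n v := by
      conv_lhs => rw [← hTU n hn]
      exact B_apply_apply B Q hQ hT n v
    rw [h1, sub_self]
  have hUU : ∀ u ∈ U, u ∈ B.orthogonal U := fun u hu n hn => B_zero_of_ts B Q hQ U hUs hn hu
  have hTmem : ∀ w ∈ B.orthogonal U, T w ∈ B.orthogonal U := by
    intro w hw
    have := Submodule.add_mem _ (hTperp w) hw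
    rwa [sub_add_cancel] at this
  have hQU : ∀ w ∈ B.orthogonal U, ∀ u ∈ U, Q (w + u) = Q w := by
    intro w hw u hu
    have h3 : B u w = 0 := hw u hu
    rw [hQ, hUs u hu, add_zero, B_symm B Q hQ w u, h3, add_zero]
  -- number of nonsingular vectors
  have hns : (Finset.univ.filter (fun w => w ∈ B.orthogonal U ∧ ¬ Q w = 0)).card = 2 ^ (m - 1) := by
    have h1 : (Finset.univ.filter (fun w => w ∈ B.orthogonal U)).card = 2 ^ (m + 1) := by
      rw [← Fintype.card_subtype, ← Nat.card_eq_fintype_card]
      have := card_sub hF (B.orthogonal U)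
      rw [LinearMap.BilinForm.finrank_orthogonal hB, hV, hUr] at this
      rw [show 2 * m - (m - 1) = m + 1 by omega] at this
      exact this
    have h2 : (Finset.univ.filter (fun w => w ∈ B.orthogonal U ∧ Q w = 0)).card = 2 ^ (m - 1) + 2 ^ m := by
      rw [← hUc, sing, Nat.card_eq_fintype_card, Fintype.card_subtype]
    rw [← Finset.card_filter_add_card_filter_not (s := Finset.univ.filter (fun w => w ∈ B.orthogonal U)) (fun w => Q w = 0),
      Finset.filter_filter, Finset.filter_filter, h2] at h1
    obtain ⟨k, rfl⟩ : ∃ k, m = k + 1 := ⟨m - 1, by omega⟩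
    simp only [Nat.add_sub_cancel] at h1 ⊢
    rw [pow_succ, pow_succ] at h1
    omega
  obtain ⟨w0, hw0⟩ : (Finset.univ.filter (fun w => w ∈ B.orthogonal U ∧ ¬ Q w = 0)).Nonempty := by
    rw [← Finset.card_pos, hns]
    exact pow_pos (by norm_num) _
  simp only [Finset.mem_filter, Finset.mem_univ, true_and] at hw0
  obtain ⟨hw01, hw02⟩ := hw0
  -- nonsingular vectors are exactly w0 + U
  have hset : (Finset.univ.filter (fun w => w ∈ U)).image (fun u => w0 + u) =
      Finset.univ.filter (fun w => w ∈ B.orthogonal U ∧ ¬ Q w = 0) := by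
    apply Finset.eq_of_subset_of_card_le
    · intro w hw
      simp only [Finset.mem_image, Finset.mem_filter, Finset.mem_univ, true_and] at hw ⊢
      obtain ⟨u, hu, rfl⟩ := hw
      exact ⟨Submodule.add_mem _ hw01 (hUU u hu), by rw [hQU w0 hw01 u hu]; exact hw02⟩
    · rw [hns, Finset.card_image_of_injective _ (add_right_injective w0)]
      rw [← Fintype.card_subtype, ← Nat.card_eq_fintype_card]
      have := card_sub hF U
      rw [hUr] at this
      exact this.symm.le
  have hns2 : ∀ w, w ∈ B.orthogonal U → Q w ≠ 0 → w - w0 ∈ U := by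
    intro w hw hwQ
    have h1 : w ∈ Finset.univ.filter (fun w => w ∈ B.orthogonal U ∧ ¬ Q w = 0) := by
      simp only [Finset.mem_filter, Finset.mem_univ, true_and]
      exact ⟨hw, hwQ⟩
    rw [← hset] at h1
    simp only [Finset.mem_image, Finset.mem_filter, Finset.mem_univ, true_and] at h1
    obtain ⟨u, hu, rfl⟩ := h1
    rwa [add_sub_cancel_left]
  have hT2 : ∀ w ∈ B.orthogonal U, T (T w) - w ∈ U := by
    have hw0T : T w0 - w0 ∈ U := hns2 _ (hTmem _ hw01) (by rw [hT]; exact hw02)
    -- T u - u = 0 on U, so T z - z for z in w0 + U in U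
    have hns3 : ∀ w, w ∈ B.orthogonal U → Q w ≠ 0 → T w - w ∈ U := by
      intro w hw hwQ
      have h1 := hns2 w hw hwQ
      have h2 := hns2 (T w) (hTmem w hw) (by rw [hT]; exact hwQ)
      have h3 := Submodule.sub_mem _ h2 h1
      rwa [sub_sub_sub_cancel_right] at h3
    -- W-singular vectors
    have hadd : ∀ x, x ∈ B.orthogonal U → T x - x ∈ U → T (T x) - x ∈ U := by
      intro x hx h1
      have h2 : T (T x) = T x + (T x - x) := by
        have h3 := hTU _ h1
        rw [map_sub, sub_eq_iff_eq_add] at h3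
        rw [h3, add_comm]
      rw [h2, add_sub_right_comm]
      exact Submodule.add_mem _ h1 h1
    intro w hw
    by_cases hwQ : Q w = 0
    · -- T w - w is singular-or-not
      have hd : T w - w ∈ B.orthogonal U := Submodule.sub_mem _ (hTmem w hw) hw
      by_cases hdQ : Q (T w - w) = 0
      · by_cases hdU : T w - w ∈ U
        · exact hadd w hw hdU
        · -- impossible: then T w - w + w0 ...; classes: w, T w, T w - w all singular, not in U
          exfalso
          by_cases hwU : w ∈ U
          · rw [hTU w hwU, sub_self] at hdU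
            exact hdU U.zero_mem
          have hTwU : T w ∉ U := by
            intro h
            have h2 := hTU _ h
            apply hwU
            have h3 : ∀ v, T v = 0 → v = 0 := by
              intro v hv
              by_contra hv0
              obtain ⟨z, hz⟩ : ∃ z, B v z ≠ 0 := by
                by_contra hcon
                push Not at hcon
                exact hv0 (hB.1 v hcon)
              rw [← B_apply_apply B Q hQ hT v z, hv, map_zero, LinearMap.zero_apply] at hz
              exact hz rfl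
            have h4 : T w - w = 0 := h3 _ (by rw [map_sub, h2, sub_self])
            rw [sub_eq_zero] at h4
            rwa [← h4]
          -- the four classes 0, w, T w, T w - w exhaust the perp; all singular, contradiction with w0
          -- U + <w, T w> is totally singular of dimension m + 1 > m
          have hBw : B w (T w) = 0 := by
            have h5 := hQ (T w - w) w
            rw [sub_add_cancel, hT, hwQ, hdQ, add_zero, zero_add, map_sub, LinearMap.sub_apply, B_self B Q hQ hF,
              sub_zero] at h5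
            rw [B_symm B Q hQ]
            exact h5.symm
          let W1 := U ⊔ F ∙ w
          have hTwW1 : T w ∉ W1 := by
            intro h
            obtain ⟨u, hu, y, hy, hyw⟩ := Submodule.mem_sup.mp h
            obtain ⟨c, rfl⟩ := Submodule.mem_span_singleton.mp hy
            rcases eq_zero_or_one hF c with rfl | rfl
            · rw [zero_smul, add_zero] at hyw
              exact hTwU (hyw ▸ hu)
            · rw [one_smul] at hyw
              apply hdU
              rw [← hyw, add_sub_cancel_right]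
              exact hu
          have hr1 : finrank F W1 = m := by
            rw [finrank_sup_span B Q hQ hF U hwU, hUr]
            omega
          have hr2 : finrank F (W1 ⊔ F ∙ T w : Submodule F V) = m + 1 := by
            rw [finrank_sup_span B Q hQ hF W1 hTwW1, hr1]
          have hle : (W1 ⊔ F ∙ T w : Submodule F V) ≤ B.orthogonal (W1 ⊔ F ∙ T w : Submodule F V) := by
            have hgen : ∀ x ∈ (W1 ⊔ F ∙ T w : Submodule F V), ∃ u ∈ U, ∃ c d : F, x = u + c • w + d • T w := by
              intro x hx
              obtain ⟨y, hy, z, hz, rfl⟩ := Submodule.mem_sup.mp hx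
              obtain ⟨d, rfl⟩ := Submodule.mem_span_singleton.mp hz
              obtain ⟨u, hu, z', hz', rfl⟩ := Submodule.mem_sup.mp hy
              obtain ⟨c, rfl⟩ := Submodule.mem_span_singleton.mp hz'
              exact ⟨u, hu, c, d, rfl⟩
            intro x hx n hn
            obtain ⟨u, hu, c, d, rfl⟩ := hgen x hx
            obtain ⟨u', hu', c', d', rfl⟩ := hgen n hn
            have e1 : B u' u = 0 := B_zero_of_ts B Q hQ U hUs hu' hu
            have e2 : B u' w = 0 := hw u' hu'
            have e3 : B u' (T w) = 0 := hTmem w hw u' hu'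
            have e4 : B w u = 0 := by rw [B_symm B Q hQ]; exact hw u hu
            have e5 : B (T w) u = 0 := by rw [B_symm B Q hQ]; exact hTmem w hw u hu
            have e6 : B w w = 0 := B_self B Q hQ hF w
            have e7 : B (T w) (T w) = 0 := B_self B Q hQ hF _
            have e8 : B (T w) w = 0 := by rw [B_symm B Q hQ]; exact hBw
            show B (u' + c' • w + d' • T w) (u + c • w + d • T w) = 0
            simp only [map_add, map_smul, LinearMap.add_apply, LinearMap.smul_apply, e1, e2, e3, e4, e5, e6, e7, e8,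
              hBw, smul_zero, add_zero]
          have hr3 := Submodule.finrank_mono hle
          rw [LinearMap.BilinForm.finrank_orthogonal hB, hV, hr2] at hr3
          omega
      · -- T w - w nonsingular: T w = w + w0 + u
        have h1 := hns3 _ hd hdQ
        rw [map_sub] at h1
        -- T (T w) - T w - (T w - w) in U ; 2 T w = 0
        have h2 : T (T w) - T w - (T w - w) = T (T w) + w := by
          have : T (T w) - T w - (T w - w) = T (T w) + w - (T w + T w) := by abel
          rw [this, add_self_vec hF, sub_zero]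
        rw [h2] at h1
        have h3 : T (T w) - w = T (T w) + w := by
          have h4 : w + w = 0 := add_self_vec hF w
          have h5 : -w = w := neg_eq_of_add_eq_zero_left h4
          rw [sub_eq_add_neg, h5]
        rw [h3]
        exact h1
    · exact hadd w hw (hns3 w hw hwQ)
  -- N = T^2 - 1
  set N : V →ₗ[F] V := T ^ 2 - 1 with hN
  have hN1 : ∀ v, N v ∈ B.orthogonal U := by
    intro v
    have h1 := hTperp (T v)
    have h2 := hTperp v
    have h3 := Submodule.add_mem _ h1 h2
    rw [sub_add_sub_cancel] at h3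
    exact h3
  have hN2 : ∀ v ∈ B.orthogonal U, N v ∈ U := fun v hv => hT2 v hv
  have hN3 : ∀ v ∈ U, N v = 0 := by
    intro v hv
    show T (T v) - v = 0
    rw [hTU v hv, hTU v hv, sub_self]
  have hN0 : N ^ 3 = 0 := by
    apply LinearMap.ext
    intro v
    show N (N (N v)) = 0
    exact hN3 _ (hN2 _ (hN1 v))
  have hchar : ∀ X : V →ₗ[F] V, X + X = 0 := fun X => LinearMap.ext fun v => add_self_vec hF _
  have h4 : N ^ 4 = T ^ 8 - 1 := by
    have hc : N ^ 2 = T ^ 4 - 1 := by
      have : N ^ 2 = T ^ 4 - 1 - ((T ^ 2 - 1) + (T ^ 2 - 1)) := by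
        rw [hN]
        noncomm_ring
      rw [this, hchar, sub_zero]
    have : N ^ 4 = (N ^ 2) ^ 2 := by rw [← pow_mul]
    rw [this, hc]
    have : (T ^ 4 - 1) ^ 2 = T ^ 8 - 1 - ((T ^ 4 - 1) + (T ^ 4 - 1)) := by noncomm_ring
    rw [this, hchar, sub_zero]
  have h5 : N ^ 4 = 0 := by rw [pow_succ, hN0, zero_mul]
  rw [h5] at h4
  exact (sub_eq_zero.mp h4.symm)

end form

end Cfsg.Agent.H42.QuadTwo
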