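import Mathlib
import Cfsg.Agent.ClassSp.Order
import Cfsg.Agent.H42.CycGen7

/-!
Generation of `Sp_2n(F)` by regular unipotent elements: calculus of the Siegel radical.
-/

set_option autoImplicit false

namespace Cfsg.Agent.H42.SpGen

open Matrix Cfsg.Agent.ClassSp

variable {F : Type*} [Field F] {n : ℕ}

/-- first half -/
def il (x : Fin n → F) : Fin n ⊕ Fin n → F := Sum.elim x 0
/-- second half -/
def ir (x : Fin n → F) : Fin n ⊕ Fin n → F := Sum.elim 0 x
/-- second component -/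
def rr (x : Fin n ⊕ Fin n → F) : Fin n → F := fun i => x (Sum.inr i)
/-- first component -/
def ll (x : Fin n ⊕ Fin n → F) : Fin n → F := fun i => x (Sum.inl i)

theorem il_add (x y : Fin n → F) : il (x + y) = il x + il y := by
  ext i; rcases i with i | i <;> simp [il]
theorem il_smul (c : F) (x : Fin n → F) : il (c • x) = c • il x := by
  ext i; rcases i with i | i <;> simp [il]
theorem il_neg (x : Fin n → F) : il (-x) = -il x := by
  ext i; rcases i with i | i <;> simp [il]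
theorem il_sub (x y : Fin n → F) : il (x - y) = il x - il y := by
  ext i; rcases i with i | i <;> simp [il]
theorem il_zero : il (0 : Fin n → F) = 0 := by
  ext i; rcases i with i | i <;> simp [il]
theorem rr_il (x : Fin n → F) : rr (il x) = 0 := rfl
theorem rr_ir (x : Fin n → F) : rr (ir x) = x := rfl
theorem ll_il (x : Fin n → F) : ll (il x) = x := rfl
theorem rr_add (x y : Fin n ⊕ Fin n → F) : rr (x + y) = rr x + rr y := rfl
theorem ir_add (x y : Fin n → F) : ir (x + y) = ir x + ir y := by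
  ext i; rcases i with i | i <;> simp [ir]
theorem ir_smul (c : F) (x : Fin n → F) : ir (c • x) = c • ir x := by
  ext i; rcases i with i | i <;> simp [ir]
theorem eq_il_add_ir (x : Fin n ⊕ Fin n → F) : x = il (ll x) + ir (rr x) := by
  ext i; rcases i with i | i <;> simp [il, ir, ll, rr]

theorem sf_il (x : Fin n ⊕ Fin n → F) (w : Fin n → F) : sf x (il w) = -(w ⬝ᵥ rr x) := by
  simp only [sf, il, rr, dotProduct, Sum.elim_inl, Sum.elim_inr, Pi.zero_apply, mul_zero, zero_sub,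
    Finset.sum_neg_distrib]
  congr 1
  exact Finset.sum_congr rfl fun i _ => mul_comm _ _

theorem sf_il_il (x w : Fin n → F) : sf (il x) (il w) = 0 := by
  rw [sf_il, rr_il, dotProduct_zero, neg_zero]

variable {G : Subgroup (symplecticGroup (Fin n) F)}

theorem inv_eq_of_mulVec {g : symplecticGroup (Fin n) F} {x y : Fin n ⊕ Fin n → F}
    (h : (g : Matrix (Fin n ⊕ Fin n) (Fin n ⊕ Fin n) F) *ᵥ y = x) :
    ((g⁻¹ : symplecticGroup (Fin n) F) : Matrix (Fin n ⊕ Fin n) (Fin n ⊕ Fin n) F) *ᵥ x = y := by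
  rw [← h, inv_mulVec_mulVec]

/-- the symmetric matrices `S` such that the element `1 + S` of the Siegel radical is in `G` -/
def MM (G : Subgroup (symplecticGroup (Fin n) F)) : AddSubgroup (Matrix (Fin n) (Fin n) F) where
  carrier := {S | ∃ g ∈ G, ∀ x, (g : Matrix (Fin n ⊕ Fin n) (Fin n ⊕ Fin n) F) *ᵥ x = x + il (-(S *ᵥ rr x))}
  zero_mem' := ⟨1, G.one_mem, fun x => by
    rw [one_mulVec', Matrix.zero_mulVec, neg_zero, il_zero, add_zero]⟩
  add_mem' := by
    rintro S S' ⟨g, hg, h⟩ ⟨g', hg', h'⟩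
    refine ⟨g * g', G.mul_mem hg hg', fun x => ?_⟩
    rw [mul_mulVec, h', h, rr_add, rr_il, add_zero, Matrix.add_mulVec, neg_add, il_add]
    abel
  neg_mem' := by
    rintro S ⟨g, hg, h⟩
    refine ⟨g⁻¹, G.inv_mem hg, fun x => ?_⟩
    apply inv_eq_of_mulVec
    rw [h, rr_add, rr_il, add_zero, Matrix.neg_mulVec, neg_neg, il_neg]
    abel

theorem mem_MM {S : Matrix (Fin n) (Fin n) F} : S ∈ MM G ↔
    ∃ g ∈ G, ∀ x, (g : Matrix (Fin n ⊕ Fin n) (Fin n ⊕ Fin n) F) *ᵥ x = x + il (-(S *ᵥ rr x)) := Iff.rfl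

theorem tv_il (w : Fin n → F) (c : F) (x : Fin n ⊕ Fin n → F) :
    (tv (il w) c : Matrix (Fin n ⊕ Fin n) (Fin n ⊕ Fin n) F) *ᵥ x =
      x + il (-((c • vecMulVec w w) *ᵥ rr x)) := by
  rw [tv_mulVec, sf_il, Matrix.smul_mulVec, vecMulVec_mulVec, il_neg, il_smul]
  have : (MulOpposite.op (w ⬝ᵥ rr x) • w : Fin n → F) = (w ⬝ᵥ rr x) • w := by
    ext i; simp [mul_comm]
  rw [this, il_smul]
  module

theorem mem_MM_tv {w : Fin n → F} {c : F} : c • vecMulVec w w ∈ MM G ↔ tv (il w) c ∈ G := by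
  constructor
  · rintro ⟨g, hg, h⟩
    have : g = tv (il w) c := by
      apply ext_vec
      intro x
      rw [h, tv_il]
    rw [← this]; exact hg
  · intro h
    exact ⟨_, h, tv_il w c⟩

/-- conjugation -/
theorem MM_conj {a : symplecticGroup (Fin n) F} (ha : a ∈ G) {A S : Matrix (Fin n) (Fin n) F} (hS : S ∈ MM G)
    (h1 : ∀ y : Fin n → F, (a : Matrix (Fin n ⊕ Fin n) (Fin n ⊕ Fin n) F) *ᵥ il (S *ᵥ y) = il (A *ᵥ (S *ᵥ y)))
    (h2 : ∀ x, S *ᵥ rr (((a⁻¹ : symplecticGroup (Fin n) F) : Matrix (Fin n ⊕ Fin n) (Fin n ⊕ Fin n) F) *ᵥ x) =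
      S *ᵥ (Aᵀ *ᵥ rr x)) : A * S * Aᵀ ∈ MM G := by
  obtain ⟨g, hg, h⟩ := hS
  refine ⟨a * g * a⁻¹, G.mul_mem (G.mul_mem ha hg) (G.inv_mem ha), fun x => ?_⟩
  rw [mul_mulVec, mul_mulVec, h, Matrix.mulVec_add, mulVec_inv_mulVec, h2, il_neg, Matrix.mulVec_neg, h1,
    ← il_neg, ← Matrix.mulVec_mulVec, ← Matrix.mulVec_mulVec]

/-- vectors with all transvections in `G` -/
def Fu (G : Subgroup (symplecticGroup (Fin n) F)) (w : Fin n ⊕ Fin n → F) : Prop := ∀ c, tv w c ∈ G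

theorem Fu.smul {w : Fin n ⊕ Fin n → F} (h : Fu G w) (a : F) : Fu G (a • w) := by
  intro c
  rw [tv_smul]
  exact h _

theorem Fu.act {w : Fin n ⊕ Fin n → F} (h : Fu G w) {g : symplecticGroup (Fin n) F} (hg : g ∈ G) :
    Fu G ((g : Matrix (Fin n ⊕ Fin n) (Fin n ⊕ Fin n) F) *ᵥ w) := by
  intro c
  rw [← tv_conj]
  exact G.mul_mem (G.mul_mem hg (h c)) (G.inv_mem hg)

theorem Fu.add_of_ne {u w : Fin n ⊕ Fin n → F} (hu : Fu G u) (hw : Fu G w) (h : sf u w ≠ 0) :
    Fu G (u + w) := by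
  have h1 := hu.act (hw (sf u w)⁻¹)
  rw [tv_mulVec, inv_mul_cancel₀ h, one_smul] at h1
  exact h1

theorem top_of_Fu (h : ∀ w, Fu G w) : G = ⊤ := by
  rw [eq_top_iff, ← tvGroup_eq_top, tvGroup, Subgroup.closure_le]
  rintro g ⟨w, c, rfl⟩
  exact h w c

/-- **Lemma B**: extension of a subspace of full vectors containing its perp. -/
theorem lemB {X : Submodule F (Fin n ⊕ Fin n → F)} (hX : ∀ x ∈ X, Fu G x)
    (hperp : ∀ y, (∀ x ∈ X, sf x y = 0) → y ∈ X) {y : Fin n ⊕ Fin n → F} (hy : Fu G y) (hyX : y ∉ X) :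
    ∀ x ∈ X, Fu G (x + y) := by
  intro x hx
  by_cases h7 : sf x y = 0
  swap
  · exact (hX x hx).add_of_ne hy h7
  -- find `x1 ∈ X` with `sf x1 y ≠ 0` and `sf x1 (x + y) ≠ 0`
  have h1 : ∃ a ∈ X, sf a y ≠ 0 := by
    by_contra hcon
    push Not at hcon
    exact hyX (hperp y hcon)
  have h2 : ∃ a ∈ X, sf a (x + y) ≠ 0 := by
    by_contra hcon
    push Not at hcon
    have := hperp _ hcon
    apply hyX
    have h3 := X.sub_mem this hx
    rwa [add_sub_cancel_left] at h3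
  obtain ⟨x1, hx1, h3, h4⟩ : ∃ a ∈ X, sf a y ≠ 0 ∧ sf a (x + y) ≠ 0 := by
    obtain ⟨a, ha, ha1⟩ := h1
    obtain ⟨b, hb, hb1⟩ := h2
    by_cases h5 : sf a (x + y) = 0
    · by_cases h6 : sf b y = 0
      · refine ⟨a + b, X.add_mem ha hb, ?_, ?_⟩
        · rw [sf_add_left, h6, add_zero]; exact ha1
        · rw [sf_add_left, h5, zero_add]; exact hb1
      · exact ⟨b, hb, h6, hb1⟩
    · exact ⟨a, ha, ha1, h5⟩
  -- first `x1 + y` is full
  have h5 : Fu G (x1 + y) := (hX x1 hx1).add_of_ne hy h3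
  have h6 : sf (x - x1) (x1 + y) ≠ 0 := by
    have e : sf (x - x1) (x1 + y) = -sf x1 (x + y) := by
      rw [sf_sub_left, sf_add_right, sf_add_right, sf_add_right, sf_self, sf_swap x x1, h7]
      ring
    rw [e]
    exact neg_ne_zero.mpr h4
  have h8 := (hX _ (X.sub_mem hx hx1)).add_of_ne h5 h6
  have e : x - x1 + (x1 + y) = x + y := by abel
  rwa [e] at h8

/-- the full vectors form a subspace as soon as they contain a subspace containing its perp -/
theorem Fu_submodule {W : Submodule F (Fin n ⊕ Fin n → F)} (hW : ∀ x ∈ W, Fu G x)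
    (hperp : ∀ y, (∀ x ∈ W, sf x y = 0) → y ∈ W) :
    ∃ X : Submodule F (Fin n ⊕ Fin n → F), W ≤ X ∧ ∀ x, x ∈ X ↔ Fu G x := by
  obtain ⟨X, ⟨hWX, hX⟩, hmax⟩ := (wellFounded_gt (α := Submodule F (Fin n ⊕ Fin n → F))).has_min
    {X | W ≤ X ∧ ∀ x ∈ X, Fu G x} ⟨W, le_rfl, hW⟩
  refine ⟨X, hWX, fun x => ⟨hX x, fun hx => ?_⟩⟩
  by_contra hxX
  have hX' : ∀ y ∈ X ⊔ Submodule.span F {x}, Fu G y := by
    intro y hy
    obtain ⟨a, ha, b, hb, rfl⟩ := Submodule.mem_sup.mp hy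
    obtain ⟨c, rfl⟩ := Submodule.mem_span_singleton.mp hb
    by_cases hc : c = 0
    · rw [hc, zero_smul, add_zero]; exact hX a ha
    · refine lemB hX (fun z hz => hWX (hperp z fun w hw => hz w (hWX hw))) (hx.smul c) ?_ a ha
      intro h
      apply hxX
      have := X.smul_mem c⁻¹ h
      rwa [smul_smul, inv_mul_cancel₀ hc, one_smul] at this
  refine hmax (X ⊔ Submodule.span F {x}) ⟨hWX.trans le_sup_left, hX'⟩ ?_
  refine lt_of_le_of_ne le_sup_left ?_
  intro h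
  apply hxX
  rw [h]
  exact Submodule.mem_sup_right (Submodule.mem_span_singleton_self x)

end Cfsg.Agent.H42.SpGen
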