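import Mathlib
import Cfsg.Agent.H42.SpGen1

/-!
Generation of `Sp_2n(F)` by regular unipotent elements: if the highest root group is in `G` then `G = ⊤`.
-/

set_option autoImplicit false

namespace Cfsg.Agent.H42.SpGen

open Matrix Cfsg.Agent.ClassSp Cfsg.Agent.H42.ThreeUnip

variable {F : Type*} [Field F] {n : ℕ}

/-- the elements `u` (upper) and `v` (lower) -/
structure Data (u v : symplecticGroup (Fin n) F) (c : Fin n → F) (s : F) : Prop where
  hu1 : ∀ x, (u : Matrix (Fin n ⊕ Fin n) (Fin n ⊕ Fin n) F) *ᵥ il x = il (Um F n *ᵥ x)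
  hu2 : ∀ x, rr (((u⁻¹ : symplecticGroup (Fin n) F) : Matrix (Fin n ⊕ Fin n) (Fin n ⊕ Fin n) F) *ᵥ x) =
    (Um F n)ᵀ *ᵥ rr x
  hv1 : ∀ x : Fin n → F, (∀ i : Fin n, (i : ℕ) + 1 = n → x i = 0) →
    (v : Matrix (Fin n ⊕ Fin n) (Fin n ⊕ Fin n) F) *ᵥ il x = il (Vm c *ᵥ x)
  hv2 : ∀ x (i : Fin n), (i : ℕ) + 1 ≠ n →
    rr (((v⁻¹ : symplecticGroup (Fin n) F) : Matrix (Fin n ⊕ Fin n) (Fin n ⊕ Fin n) F) *ᵥ x) i =
    ((Vm c)ᵀ *ᵥ rr x) i
  hv3 : ∀ y, ((v⁻¹ : symplecticGroup (Fin n) F) : Matrix (Fin n ⊕ Fin n) (Fin n ⊕ Fin n) F) *ᵥ ir y =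
    ir ((Vm c)ᵀ *ᵥ y)
  hv4 : ∀ i : Fin n, (i : ℕ) + 1 = n →
    ((v⁻¹ : symplecticGroup (Fin n) F) : Matrix (Fin n ⊕ Fin n) (Fin n ⊕ Fin n) F) *ᵥ il (Pi.single i 1) =
      il (Pi.single i 1) - s • ir (Pi.single i 1)

theorem Um_single_zero (i : Fin n) (hi : (i : ℕ) = 0) :
    Um F n *ᵥ (Pi.single i 1 : Fin n → F) = Pi.single i 1 := by
  rw [mulVec_single_one]
  ext j
  simp only [Matrix.col_apply, Um, Pi.single_apply]
  by_cases h : j = i
  · rw [if_pos h.symm, if_pos h]
  · rw [if_neg (fun h' => h h'.symm), if_neg h, if_neg (by omega)]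

theorem Um_single_succ (i j : Fin n) (hi : (i : ℕ) = j + 1) :
    Um F n *ᵥ (Pi.single i 1 : Fin n → F) = Pi.single i 1 + Pi.single j 1 := by
  rw [mulVec_single_one]
  ext k
  simp only [Matrix.col_apply, Um, Pi.single_apply, Pi.add_apply]
  have hne : i ≠ j := by intro h; rw [h] at hi; omega
  by_cases h : k = i
  · rw [if_pos h.symm, if_pos h, if_neg (by rw [h]; exact hne), add_zero]
  · rw [if_neg (fun h' => h h'.symm), if_neg h, zero_add]
    by_cases h2 : k = j
    · rw [if_pos h2, if_pos (by rw [h2]; exact hi)]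
    · rw [if_neg h2, if_neg]
      intro h3
      exact h2 (Fin.ext (by omega))

theorem Vm_single (c : Fin n → F) (i j : Fin n) (hj : (j : ℕ) = i + 1) :
    Vm c *ᵥ (Pi.single i 1 : Fin n → F) = Pi.single i 1 + c i • Pi.single j 1 := by
  rw [mulVec_single_one]
  ext k
  simp only [Matrix.col_apply, Vm, Pi.single_apply, Pi.add_apply, Pi.smul_apply, smul_eq_mul]
  have hne : j ≠ i := by intro h; rw [h] at hj; omega
  by_cases h : k = i
  · rw [if_pos h.symm, if_pos h, if_neg (by rw [h]; exact hne.symm), mul_zero, add_zero]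
  · rw [if_neg (fun h' => h h'.symm), if_neg h, zero_add]
    by_cases h2 : k = j
    · rw [if_pos h2, if_pos (by rw [h2]; exact hj), mul_one]
    · rw [if_neg h2, if_neg, mul_zero]
      intro h3
      exact h2 (Fin.ext (by omega))

theorem VmT_single_zero (c : Fin n → F) (i : Fin n) (hi : (i : ℕ) = 0) :
    (Vm c)ᵀ *ᵥ (Pi.single i 1 : Fin n → F) = Pi.single i 1 := by
  rw [mulVec_single_one]
  ext j
  simp only [Matrix.col_apply, Matrix.transpose_apply, Vm, Pi.single_apply]
  by_cases h : j = i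
  · rw [if_pos h, if_pos h]
  · rw [if_neg h, if_neg h, if_neg (by omega)]

theorem VmT_single_succ (c : Fin n → F) (i j : Fin n) (hi : (i : ℕ) = j + 1) :
    (Vm c)ᵀ *ᵥ (Pi.single i 1 : Fin n → F) = Pi.single i 1 + c j • Pi.single j 1 := by
  rw [mulVec_single_one]
  ext k
  simp only [Matrix.col_apply, Matrix.transpose_apply, Vm, Pi.single_apply, Pi.add_apply, Pi.smul_apply,
    smul_eq_mul]
  have hne : i ≠ j := by intro h; rw [h] at hi; omega
  by_cases h : k = i
  · rw [if_pos h, if_pos h, if_neg (by rw [h]; exact hne), mul_zero, add_zero]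
  · rw [if_neg h, if_neg h, zero_add]
    by_cases h2 : k = j
    · rw [if_pos h2, if_pos (by rw [h2]; exact hi), mul_one, h2]
    · rw [if_neg h2, if_neg, mul_zero]
      intro h3
      exact h2 (Fin.ext (by omega))

variable {G : Subgroup (symplecticGroup (Fin n) F)} {u v : symplecticGroup (Fin n) F} {c : Fin n → F} {s : F}

theorem Data.conj_u (D : Data u v c s) (hu : u ∈ G) {S : Matrix (Fin n) (Fin n) F} (hS : S ∈ MM G) :
    Um F n * S * (Um F n)ᵀ ∈ MM G :=
  MM_conj hu hS (fun y => D.hu1 _) (fun x => by rw [D.hu2])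

/-- the symmetric product -/
def sp (a b : Fin n → F) : Matrix (Fin n) (Fin n) F := vecMulVec a b + vecMulVec b a

theorem conj_sp (A : Matrix (Fin n) (Fin n) F) (a b : Fin n → F) :
    A * sp a b * Aᵀ = sp (A *ᵥ a) (A *ᵥ b) := by
  rw [sp, sp, Matrix.mul_add, Matrix.add_mul, mul_vecMulVec, mul_vecMulVec, vecMulVec_mul, vecMulVec_mul,
    vecMul_transpose, vecMul_transpose]

theorem conj_sq (A : Matrix (Fin n) (Fin n) F) (a : Fin n → F) :
    A * vecMulVec a a * Aᵀ = vecMulVec (A *ᵥ a) (A *ᵥ a) := by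
  rw [mul_vecMulVec, vecMulVec_mul, vecMul_transpose]

theorem sq_add (a b : Fin n → F) :
    vecMulVec (a + b) (a + b) = vecMulVec a a + sp a b + vecMulVec b b := by
  ext i j; simp [sp, vecMulVec_apply]; ring

theorem sp_add_right (a b d : Fin n → F) : sp a (b + d) = sp a b + sp a d := by
  ext i j; simp [sp, vecMulVec_apply]; ring

theorem sp_add_left (a b d : Fin n → F) : sp (a + b) d = sp a d + sp b d := by
  ext i j; simp [sp, vecMulVec_apply]; ring

theorem sp_smul_left (t : F) (a b : Fin n → F) : sp (t • a) b = t • sp a b := by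
  ext i j; simp [sp, vecMulVec_apply]; ring

theorem sp_smul_right (t : F) (a b : Fin n → F) : sp a (t • b) = t • sp a b := by
  ext i j; simp [sp, vecMulVec_apply]; ring

theorem sp_comm (a b : Fin n → F) : sp a b = sp b a := by
  ext i j; simp [sp, vecMulVec_apply]; ring

theorem sq_smul (t : F) (a : Fin n → F) : vecMulVec (t • a) (t • a) = t ^ 2 • vecMulVec a a := by
  ext i j; simp [vecMulVec_apply]; ring

theorem sp_self (a : Fin n → F) : sp a a = (2 : F) • vecMulVec a a := by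
  ext i j; simp [sp, vecMulVec_apply]; ring

/-- `λ • sp a b` in `MM G` if all of `a`, `b`, `a + b` are full -/
theorem sp_mem {a b : Fin n → F} (ha : Fu G (il a)) (hb : Fu G (il b)) (hab : Fu G (il (a + b))) (t : F) :
    t • sp a b ∈ MM G := by
  have e : t • sp a b = t • vecMulVec (a + b) (a + b) + (-t) • vecMulVec a a + (-t) • vecMulVec b b := by
    rw [sq_add]; module
  rw [e]
  exact (MM G).add_mem ((MM G).add_mem (mem_MM_tv.mpr (hab _)) (mem_MM_tv.mpr (ha _))) (mem_MM_tv.mpr (hb _))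

theorem flag_step (D : Data u v c s) (hu : u ∈ G) (hv : v ∈ G) (hc : ∀ i, c i ≠ 0) (k : ℕ) (hk : 0 < k)
    (hkn : k < n) (ih : ∀ a : Fin n → F, (∀ i : Fin n, k ≤ i → a i = 0) → Fu G (il a)) :
    ∀ a : Fin n → F, (∀ i : Fin n, k + 1 ≤ i → a i = 0) → Fu G (il a) := by
  obtain ⟨y, hy⟩ : ∃ y : Fin n → F, y = Pi.single (⟨k - 1, by omega⟩ : Fin n) 1 +
      c ⟨k - 1, by omega⟩ • Pi.single (⟨k, hkn⟩ : Fin n) 1 := ⟨_, rfl⟩
  obtain ⟨c0, hc0⟩ : ∃ c0, c0 = c ⟨k - 1, by omega⟩ := ⟨_, rfl⟩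
  have hc0n : c0 ≠ 0 := by rw [hc0]; exact hc _
  rw [← hc0] at hy
  have hyFu : Fu G (il y) := by
    have h1 := (ih (Pi.single (⟨k - 1, by omega⟩ : Fin n) 1) (by
      intro i hi
      rw [Pi.single_apply, if_neg]
      intro h; rw [h] at hi; simp at hi; omega)).act hv
    rw [D.hv1 _ (by
      intro i hi
      rw [Pi.single_apply, if_neg]
      intro h; rw [h] at hi; simp at hi; omega), Vm_single c ⟨k - 1, by omega⟩ ⟨k, hkn⟩ (by simp; omega),
      ← hc0, ← hy] at h1
    exact h1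
  -- `w0 = u y - y`
  obtain ⟨w0, hw0⟩ : ∃ w0 : Fin n → F, w0 = Um F n *ᵥ y - y := ⟨_, rfl⟩
  have huy : Um F n *ᵥ y = w0 + y := by rw [hw0, sub_add_cancel]
  have hNx : ∀ (x : Fin n → F) (i j : Fin n), (j : ℕ) = i + 1 → (Um F n *ᵥ x - x) i = x j := by
    intro x i j hij
    rw [Pi.sub_apply, mulVec, dotProduct, Finset.sum_eq_add i j (by intro h; rw [h] at hij; omega)]
    · simp [Um, hij]
    · intro l _ hl
      simp only [Um, hl.1, if_false]
      rw [if_neg, zero_mul]
      intro h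
      exact hl.2 (Fin.ext (by omega))
    · simp
    · simp
  have hNx' : ∀ (x : Fin n → F) (i : Fin n), (i : ℕ) + 1 = n → (Um F n *ᵥ x - x) i = 0 := by
    intro x i hi
    rw [Pi.sub_apply, mulVec, dotProduct, Finset.sum_eq_single i]
    · simp [Um]
    · intro l _ hl
      simp only [Um, hl, if_false]
      rw [if_neg (by omega), zero_mul]
    · simp
  have hy_val : ∀ i : Fin n, (k < i → y i = 0) := by
    intro i hi
    rw [hy, Pi.add_apply, Pi.smul_apply, Pi.single_apply, Pi.single_apply, if_neg, if_neg, smul_zero, add_zero]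
    · intro h; rw [h] at hi; simp at hi
    · intro h; rw [h] at hi; simp at hi; omega
  have hyk : y ⟨k, hkn⟩ = c0 := by
    rw [hy, Pi.add_apply, Pi.smul_apply, Pi.single_eq_same, Pi.single_apply, if_neg, zero_add, smul_eq_mul,
      mul_one]
    intro h; have := congrArg Fin.val h; simp at this; omega
  have hw0_supp : ∀ i : Fin n, k ≤ i → w0 i = 0 := by
    intro i hi
    rw [hw0]
    by_cases h : (i : ℕ) + 1 = n
    · exact hNx' y i h
    · rw [hNx y i ⟨i + 1, by have := i.2; omega⟩ rfl]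
      exact hy_val _ (by simp; omega)
  have hw0_top : w0 ⟨k - 1, by omega⟩ = c0 := by
    rw [hw0, hNx y _ ⟨k, hkn⟩ (by simp; omega), hyk]
  -- the submodule `Q`
  let Q : Submodule F (Fin n → F) :=
    { carrier := {a | ∀ t : F, t • sp a y ∈ MM G}
      zero_mem' := by
        intro t
        have : sp (0 : Fin n → F) y = 0 := by ext i j; simp [sp, vecMulVec_apply]
        rw [this, smul_zero]; exact (MM G).zero_mem
      add_mem' := by
        intro a b ha hb t
        rw [sp_add_left, smul_add]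
        exact (MM G).add_mem (ha t) (hb t)
      smul_mem' := by
        intro r a ha t
        rw [sp_smul_left, smul_smul]
        exact ha _ }
  have hQ : ∀ a, a ∈ Q ↔ ∀ t : F, t • sp a y ∈ MM G := fun a => Iff.rfl
  have hw0Q : w0 ∈ Q := by
    rw [hQ]
    intro t
    apply sp_mem (ih _ hw0_supp) hyFu
    rw [← huy, ← D.hu1]
    exact hyFu.act hu
  have hNQ : ∀ a ∈ Q, (∀ i : Fin n, k ≤ i → a i = 0) → Um F n *ᵥ a - a ∈ Q := by
    intro a ha hsupp
    refine Q.sub_mem ?_ ha
    rw [hQ]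
    intro t
    have h1 := D.conj_u hu ((hQ a).mp ha t)
    rw [Matrix.mul_smul, Matrix.smul_mul, conj_sp, huy, sp_add_right, smul_add] at h1
    have hUa : ∀ i : Fin n, k ≤ i → (Um F n *ᵥ a) i = 0 := by
      intro i hi
      have e : (Um F n *ᵥ a) i = (Um F n *ᵥ a - a) i + a i := by rw [Pi.sub_apply]; ring
      rw [e, hsupp i hi, add_zero]
      by_cases h : (i : ℕ) + 1 = n
      · exact hNx' a i h
      · rw [hNx a i ⟨i + 1, by have := i.2; omega⟩ rfl]
        exact hsupp _ (by simp; omega)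
    have h2 : t • sp (Um F n *ᵥ a) w0 ∈ MM G := by
      apply sp_mem (ih _ hUa) (ih _ hw0_supp)
      apply ih
      intro i hi
      rw [Pi.add_apply, hUa i hi, hw0_supp i hi, add_zero]
    have h3 := (MM G).sub_mem h1 h2
    rwa [add_sub_cancel_left] at h3
  -- vectors in `Q` with prescribed top coordinate
  have hz : ∀ m : ℕ, ∀ hm : m < k, ∃ z ∈ Q, (∀ i : Fin n, k - m ≤ i → z i = 0) ∧
      z ⟨k - 1 - m, by omega⟩ ≠ 0 := by
    intro m
    induction m with
    | zero => intro hm; exact ⟨w0, hw0Q, hw0_supp, by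
        have : (⟨k - 1 - 0, by omega⟩ : Fin n) = ⟨k - 1, by omega⟩ := rfl
        rw [this, hw0_top]; exact hc0n⟩
    | succ m ihm =>
      intro hm
      obtain ⟨z, hzQ, hz1, hz2⟩ := ihm (by omega)
      refine ⟨Um F n *ᵥ z - z, hNQ z hzQ (fun i hi => hz1 i (by omega)), ?_, ?_⟩
      · intro i hi
        by_cases h : (i : ℕ) + 1 = n
        · exact hNx' z i h
        · rw [hNx z i ⟨i + 1, by have := i.2; omega⟩ rfl]
          exact hz1 _ (by simp; omega)
      · rw [hNx z ⟨k - 1 - (m + 1), by omega⟩ ⟨k - 1 - m, by omega⟩ (by simp; omega)]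
        exact hz2
  have hQall : ∀ m : ℕ, m ≤ k → ∀ a : Fin n → F, (∀ i : Fin n, m ≤ i → a i = 0) → a ∈ Q := by
    intro m
    induction m with
    | zero =>
      intro _ a ha
      have : a = 0 := funext fun i => ha i (Nat.zero_le _)
      rw [this]; exact Q.zero_mem
    | succ m ihm =>
      intro hm a ha
      obtain ⟨z, hzQ, hz1, hz2⟩ := hz (k - 1 - m) (by omega)
      have e1 : (⟨k - 1 - (k - 1 - m), by omega⟩ : Fin n) = ⟨m, by omega⟩ := Fin.ext (by simp; omega)
      rw [e1] at hz2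
      have h1 : a - (a ⟨m, by omega⟩ * (z ⟨m, by omega⟩)⁻¹) • z ∈ Q := by
        apply ihm (by omega)
        intro i hi
        rw [Pi.sub_apply, Pi.smul_apply, smul_eq_mul]
        by_cases h2 : (i : ℕ) = m
        · have h3 : i = ⟨m, by omega⟩ := Fin.ext h2
          rw [h3, inv_mul_cancel_right₀ hz2, sub_self]
        · rw [ha i (by omega), hz1 i (by omega), mul_zero, sub_zero]
      have h2 := Q.add_mem h1 (Q.smul_mem (a ⟨m, by omega⟩ * (z ⟨m, by omega⟩)⁻¹) hzQ)
      rwa [sub_add_cancel] at h2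
  -- conclusion
  intro a ha t
  obtain ⟨r, hr⟩ : ∃ r, r = a ⟨k, hkn⟩ * c0⁻¹ := ⟨_, rfl⟩
  obtain ⟨a', ha'⟩ : ∃ a', a' = a - r • y := ⟨_, rfl⟩
  have ha's : ∀ i : Fin n, k ≤ i → a' i = 0 := by
    intro i hi
    rw [ha', Pi.sub_apply, Pi.smul_apply, smul_eq_mul]
    by_cases h2 : (i : ℕ) = k
    · have h3 : i = ⟨k, hkn⟩ := Fin.ext h2
      rw [h3, hyk, hr, inv_mul_cancel_right₀ hc0n, sub_self]
    · rw [ha i (by omega), hy_val i (by omega), mul_zero, sub_zero]
  have ea : a = a' + r • y := by rw [ha', sub_add_cancel]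
  rw [← mem_MM_tv, ea, sq_add, sq_smul, sp_smul_right, smul_add, smul_add, smul_smul, smul_smul]
  refine (MM G).add_mem ((MM G).add_mem (mem_MM_tv.mpr (ih a' ha's t)) ?_) (mem_MM_tv.mpr (hyFu _))
  exact (hQ a').mp (hQall k le_rfl a' ha's) _

theorem core (hn : 2 ≤ n) (D : Data u v c s) (hu : u ∈ G) (hv : v ∈ G) (hc : ∀ i, c i ≠ 0) (hs : s ≠ 0)
    (h1 : Fu G (il (Pi.single (⟨0, by omega⟩ : Fin n) 1))) : G = ⊤ := by
  have hflag : ∀ k : ℕ, k + 1 ≤ n → ∀ a : Fin n → F, (∀ i : Fin n, k + 1 ≤ i → a i = 0) → Fu G (il a) := by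
    intro k
    induction k with
    | zero =>
      intro _ a ha
      have e : a = a ⟨0, by omega⟩ • Pi.single (⟨0, by omega⟩ : Fin n) 1 := by
        ext i
        rw [Pi.smul_apply, Pi.single_apply, smul_eq_mul]
        by_cases h : i = ⟨0, by omega⟩
        · rw [if_pos h, mul_one, h]
        · rw [if_neg h, mul_zero]
          apply ha
          have : (i : ℕ) ≠ 0 := fun h' => h (Fin.ext h')
          omega
      rw [e, il_smul]
      exact h1.smul _
    | succ k ih =>
      intro hk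
      exact flag_step D hu hv hc (k + 1) (by omega) (by omega) (ih (by omega))
  have hW : ∀ a : Fin n → F, Fu G (il a) := by
    intro a
    apply hflag (n - 1) (by omega)
    intro i hi
    have := i.2
    omega
  obtain ⟨X, hWX, hX⟩ := Fu_submodule (G := G)
    (W := LinearMap.range ({ toFun := il, map_add' := il_add, map_smul' := il_smul } :
      (Fin n → F) →ₗ[F] (Fin n ⊕ Fin n → F)))
    (by
      rintro x ⟨a, rfl⟩
      exact hW a)
    (by
      intro y hy
      refine ⟨ll y, ?_⟩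
      show il (ll y) = y
      have h2 : rr y = 0 := by
        ext i
        have h3 := hy (il (Pi.single i 1)) ⟨_, rfl⟩
        rw [sf_swap, sf_il, single_dotProduct, one_mul, neg_neg] at h3
        exact h3
      conv_rhs => rw [eq_il_add_ir y, h2]
      have : ir (0 : Fin n → F) = 0 := by ext i; rcases i with i | i <;> simp [ir]
      rw [this, add_zero])
  have hil : ∀ a : Fin n → F, il a ∈ X := fun a => hWX ⟨a, rfl⟩
  have hvX : ∀ x ∈ X, ((v⁻¹ : symplecticGroup (Fin n) F) : Matrix (Fin n ⊕ Fin n) (Fin n ⊕ Fin n) F) *ᵥ x ∈ X := by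
    intro x hx
    rw [hX] at hx ⊢
    exact hx.act (G.inv_mem hv)
  have hir : ∀ k : ℕ, ∀ hk : k < n, ir (Pi.single (⟨n - 1 - k, by omega⟩ : Fin n) 1) ∈ X := by
    intro k
    induction k with
    | zero =>
      intro hk
      have h2 := hvX _ (hil (Pi.single (⟨n - 1, by omega⟩ : Fin n) 1))
      rw [D.hv4 _ (by simp; omega)] at h2
      have h3 := X.sub_mem (hil (Pi.single (⟨n - 1, by omega⟩ : Fin n) 1)) h2
      rw [sub_sub_cancel] at h3
      have h4 := X.smul_mem s⁻¹ h3
      rw [smul_smul, inv_mul_cancel₀ hs, one_smul] at h4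
      exact h4
    | succ k ih =>
      intro hk
      have h2 := hvX _ (ih (by omega))
      rw [D.hv3, VmT_single_succ c ⟨n - 1 - k, by omega⟩ ⟨n - 1 - (k + 1), by omega⟩ (by simp; omega), ir_add,
        ir_smul] at h2
      have h3 := X.sub_mem h2 (ih (by omega))
      rw [add_sub_cancel_left] at h3
      have h4 := X.smul_mem (c ⟨n - 1 - (k + 1), by omega⟩)⁻¹ h3
      rw [smul_smul, inv_mul_cancel₀ (hc _), one_smul] at h4
      exact h4
  have hir' : ∀ i : Fin n, ir (Pi.single i 1) ∈ X := by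
    intro i
    have h2 := hir (n - 1 - i) (by have := i.2; omega)
    have e : (⟨n - 1 - (n - 1 - i), by omega⟩ : Fin n) = i := Fin.ext (by have := i.2; simp; omega)
    rw [e] at h2
    exact h2
  have hirall : ∀ b : Fin n → F, ir b ∈ X := by
    intro b
    have e : b = ∑ i, b i • (Pi.single i (1 : F) : Fin n → F) := by
      ext j
      simp [Finset.sum_apply, Pi.single_apply]
    have e2 : ir b = ∑ i, b i • ir (Pi.single i (1 : F) : Fin n → F) := by
      conv_lhs => rw [e]
      have := map_sum ({ toFun := ir, map_add' := ir_add, map_smul' := ir_smul } :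
        (Fin n → F) →ₗ[F] (Fin n ⊕ Fin n → F)) (fun i => b i • (Pi.single i (1 : F) : Fin n → F)) Finset.univ
      simp only [map_smul] at this
      exact this
    rw [e2]
    exact X.sum_mem fun i _ => X.smul_mem _ (hir' i)
  apply top_of_Fu
  intro w
  rw [← hX, eq_il_add_ir w]
  exact X.add_mem (hil _) (hirall _)

end Cfsg.Agent.H42.SpGen
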