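import Mathlib
import Cfsg.Agent.H42.SpGen2

/-!
Generation of `Sp_2n(F)` by regular unipotent elements: the highest root group, odd characteristic, or
characteristic two and `n ≥ 3`.
-/

set_option autoImplicit false

namespace Cfsg.Agent.H42.SpGen

open Matrix Cfsg.Agent.ClassSp Cfsg.Agent.H42.ThreeUnip Cfsg.Agent.H42.CycGen

variable {F : Type*} [Field F] {n : ℕ}

variable {G : Subgroup (symplecticGroup (Fin n) F)} {u v : symplecticGroup (Fin n) F} {c : Fin n → F} {s : F}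

theorem Data.conj_v (D : Data u v c s) (hv : v ∈ G) {S : Matrix (Fin n) (Fin n) F} (hS : S ∈ MM G)
    (h1 : ∀ i j : Fin n, (i : ℕ) + 1 = n → S i j = 0) (h2 : ∀ i j : Fin n, (j : ℕ) + 1 = n → S i j = 0) :
    Vm c * S * (Vm c)ᵀ ∈ MM G := by
  apply MM_conj hv hS
  · intro y
    apply D.hv1
    intro i hi
    rw [mulVec, dotProduct]
    exact Finset.sum_eq_zero fun j _ => by rw [h1 i j hi, zero_mul]
  · intro x
    ext i
    rw [mulVec, mulVec, dotProduct, dotProduct]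
    apply Finset.sum_congr rfl
    intro j _
    by_cases hj : (j : ℕ) + 1 = n
    · rw [h2 i j hj, zero_mul, zero_mul]
    · rw [D.hv2 x j hj]

/-- scalars of the highest root subgroup -/
def AR (G : Subgroup (symplecticGroup (Fin n) F)) (S : Matrix (Fin n) (Fin n) F) (μ : F) : AddSubgroup F where
  carrier := {t | (t * μ) • S ∈ MM G}
  zero_mem' := by
    show ((0 : F) * μ) • S ∈ MM G
    rw [zero_mul, zero_smul]; exact (MM G).zero_mem
  add_mem' := by
    intro a b ha hb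
    show ((a + b) * μ) • S ∈ MM G
    rw [add_mul, add_smul]
    exact (MM G).add_mem ha hb
  neg_mem' := by
    intro a ha
    show ((-a) * μ) • S ∈ MM G
    rw [neg_mul, neg_smul]
    exact (MM G).neg_mem ha

theorem mem_AR {S : Matrix (Fin n) (Fin n) F} {μ t : F} : t ∈ AR G S μ ↔ (t * μ) • S ∈ MM G := Iff.rfl

theorem full_of_AR [Finite F] {S : Matrix (Fin n) (Fin n) F} {μ κ : F} (hμ : μ ≠ 0) (h1 : μ • S ∈ MM G)
    (hκ : Subfield.closure ({κ} : Set F) = ⊤) (h : ∀ t : F, t • S ∈ MM G → (κ * t) • S ∈ MM G) (t : F) :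
    t • S ∈ MM G := by
  have h2 : AR G S μ = ⊤ := by
    apply S_closure hκ
    · rw [mem_AR, one_mul]; exact h1
    · intro x hx
      rw [mem_AR] at hx ⊢
      rw [mul_assoc]
      exact h _ hx
  have h3 : t * μ⁻¹ ∈ AR G S μ := by rw [h2]; trivial
  rw [mem_AR, inv_mul_cancel_right₀ hμ] at h3
  exact h3

theorem act_v (D : Data u v c s) (hn : 2 ≤ n) (hv : v ∈ G) {t : F}
    (h : t • vecMulVec (Pi.single (⟨0, by omega⟩ : Fin n) (1 : F) : Fin n → F) (Pi.single (⟨0, by omega⟩ : Fin n) 1) ∈ MM G) :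
    t • vecMulVec (Pi.single (⟨0, by omega⟩ : Fin n) (1 : F) + c ⟨0, by omega⟩ • Pi.single (⟨1, by omega⟩ : Fin n) 1 : Fin n → F)
      (Pi.single (⟨0, by omega⟩ : Fin n) 1 + c ⟨0, by omega⟩ • Pi.single (⟨1, by omega⟩ : Fin n) 1) ∈ MM G := by
  rw [mem_MM_tv] at h ⊢
  have h1 := G.mul_mem (G.mul_mem hv h) (G.inv_mem hv)
  rw [tv_conj, D.hv1 _ (by
    intro i hi
    rw [Pi.single_apply, if_neg]
    intro h; rw [h] at hi; simp at hi; omega), Vm_single c ⟨0, by omega⟩ ⟨1, by omega⟩ (by simp)] at h1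
  exact h1

/-- odd characteristic -/
theorem full_odd [Finite F] (h2 : (2 : F) ≠ 0) (hn : 2 ≤ n) (D : Data u v c s) (hu : u ∈ G) (hv : v ∈ G)
    (hc : Subfield.closure ({2 * c ⟨0, by omega⟩ ^ 2} : Set F) = ⊤) {μ : F} (hμ : μ ≠ 0)
    (h : tv (il (Pi.single (⟨0, by omega⟩ : Fin n) (1 : F))) μ ∈ G) :
    Fu G (il (Pi.single (⟨0, by omega⟩ : Fin n) 1)) := by
  intro t
  rw [← mem_MM_tv] at h ⊢
  refine full_of_AR hμ h hc ?_ t
  intro t ht
  have h1 := act_v D hn hv ht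
  obtain ⟨a, ha⟩ : ∃ a : Fin n → F, a = Pi.single (⟨0, by omega⟩ : Fin n) (1 : F) := ⟨_, rfl⟩
  obtain ⟨b, hb⟩ : ∃ b : Fin n → F, b = Pi.single (⟨1, by omega⟩ : Fin n) (1 : F) := ⟨_, rfl⟩
  obtain ⟨c0, hc0⟩ : ∃ c0, c0 = c ⟨0, by omega⟩ := ⟨_, rfl⟩
  rw [← ha, ← hb, ← hc0] at h1
  rw [← ha, ← hc0]
  have ua : Um F n *ᵥ a = a := by rw [ha]; exact Um_single_zero _ rfl
  have ub : Um F n *ᵥ b = b + a := by rw [hb, ha]; exact Um_single_succ _ _ rfl
  obtain ⟨y, hy⟩ : ∃ y, y = a + c0 • b := ⟨_, rfl⟩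
  rw [← hy] at h1
  have uy : Um F n *ᵥ y = y + c0 • a := by
    rw [hy, mulVec_add, mulVec_smul, ua, ub]; module
  have h3 := D.conj_u hu h1
  rw [Matrix.mul_smul, Matrix.smul_mul, conj_sq, uy] at h3
  have h4 := D.conj_u hu h3
  rw [Matrix.mul_smul, Matrix.smul_mul, conj_sq, mulVec_add, mulVec_smul, uy, ua] at h4
  have e : (2 * c0 ^ 2 * t) • vecMulVec a a = t • vecMulVec (y + c0 • a + c0 • a) (y + c0 • a + c0 • a) -
      t • vecMulVec (y + c0 • a) (y + c0 • a) - t • vecMulVec (y + c0 • a) (y + c0 • a) +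
      t • vecMulVec y y := by
    ext i j; simp [vecMulVec_apply]; ring
  rw [e]
  exact (MM G).add_mem ((MM G).sub_mem ((MM G).sub_mem h4 h3) h3) h1

/-- characteristic two, `3 ≤ n` -/
theorem full_even [Finite F] (h2 : (2 : F) = 0) (hn : 3 ≤ n) (D : Data u v c s) (hu : u ∈ G) (hv : v ∈ G)
    (hc0 : Subfield.closure ({c ⟨0, by omega⟩ ^ 2} : Set F) = ⊤)
    (hc1 : Subfield.closure ({c ⟨0, by omega⟩ * c ⟨1, by omega⟩} : Set F) = ⊤)
    (hne : c ⟨0, by omega⟩ * c ⟨1, by omega⟩ ≠ 0) {μ : F} (hμ : μ ≠ 0)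
    (h : tv (il (Pi.single (⟨0, by omega⟩ : Fin n) (1 : F))) μ ∈ G) :
    Fu G (il (Pi.single (⟨0, by omega⟩ : Fin n) 1)) := by
  obtain ⟨a, ha⟩ : ∃ a : Fin n → F, a = Pi.single (⟨0, by omega⟩ : Fin n) (1 : F) := ⟨_, rfl⟩
  obtain ⟨b, hb⟩ : ∃ b : Fin n → F, b = Pi.single (⟨1, by omega⟩ : Fin n) (1 : F) := ⟨_, rfl⟩
  obtain ⟨d, hd⟩ : ∃ d : Fin n → F, d = Pi.single (⟨2, by omega⟩ : Fin n) (1 : F) := ⟨_, rfl⟩
  obtain ⟨x0, hx0⟩ : ∃ x0, x0 = c ⟨0, by omega⟩ := ⟨_, rfl⟩
  obtain ⟨x1, hx1⟩ : ∃ x1, x1 = c ⟨1, by omega⟩ := ⟨_, rfl⟩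
  rw [← hx0] at hc0 hc1 hne
  rw [← hx1] at hc1 hne
  rw [← ha] at h ⊢
  have ua : Um F n *ᵥ a = a := by rw [ha]; exact Um_single_zero _ rfl
  have ub : Um F n *ᵥ b = b + a := by rw [hb, ha]; exact Um_single_succ _ _ rfl
  have ud : Um F n *ᵥ d = d + b := by rw [hd, hb]; exact Um_single_succ _ _ rfl
  have va : Vm c *ᵥ a = a + x0 • b := by rw [hb, ha, hx0]; exact Vm_single c _ _ rfl
  have vb : Vm c *ᵥ b = b + x1 • d := by rw [hb, hd, hx1]; exact Vm_single c _ _ rfl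
  have hlast : ∀ i : Fin n, (i : ℕ) + 1 = n → a i = 0 ∧ b i = 0 := by
    intro i hi
    constructor
    · rw [ha, Pi.single_apply, if_neg]
      intro h; rw [h] at hi; simp at hi; omega
    · rw [hb, Pi.single_apply, if_neg]
      intro h; rw [h] at hi; simp at hi; omega
  -- a trick to kill even multiples
  have two : ∀ S : Matrix (Fin n) (Fin n) F, S + S = 0 := by
    intro S; rw [← two_smul F, h2, zero_smul]
  have twov : ∀ S : Fin n → F, S + S = 0 := by
    intro S; rw [← two_smul F, h2, zero_smul]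
  have htv : ∀ t : F, t • vecMulVec a a ∈ MM G →
      t • vecMulVec (a + x0 • b) (a + x0 • b) ∈ MM G := by
    intro t ht
    rw [ha, hb, hx0]
    rw [ha] at ht
    exact act_v D (by omega) hv ht
  -- (i)
  have step1 : ∀ t : F, t • vecMulVec a a ∈ MM G → (t * (x0 * x1) ^ 2) • sp a b ∈ MM G := by
    intro t ht
    have h1 : t • vecMulVec (a + (x0 * x1) • d) (a + (x0 * x1) • d) ∈ MM G := by
      have h3 := htv t ht
      rw [mem_MM_tv] at h3
      have h4 := G.mul_mem (G.mul_mem hv h3) (G.inv_mem hv)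
      rw [tv_conj, D.hv1 _ (by
        intro i hi
        rw [Pi.add_apply, Pi.smul_apply, (hlast i hi).1, (hlast i hi).2, smul_zero, add_zero]), mulVec_add,
        mulVec_smul, va, vb] at h4
      rw [mem_MM_tv]
      have e : a + x0 • b + x0 • (b + x1 • d) = a + (x0 * x1) • d := by
        rw [smul_add, smul_smul]
        have := twov (x0 • b)
        calc a + x0 • b + (x0 • b + (x0 * x1) • d) = a + (x0 • b + x0 • b) + (x0 * x1) • d := by abel
          _ = _ := by rw [this, add_zero]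
      rw [e] at h4
      exact h4
    obtain ⟨δ, hδ⟩ : ∃ δ, δ = x0 * x1 := ⟨_, rfl⟩
    rw [← hδ] at h1 ⊢
    obtain ⟨y, hy⟩ : ∃ y, y = a + δ • d := ⟨_, rfl⟩
    rw [← hy] at h1
    have uy : Um F n *ᵥ (Um F n *ᵥ y) = y + δ • a := by
      rw [hy, mulVec_add, mulVec_smul, ua, ud, mulVec_add, mulVec_smul, mulVec_add, ua, ud, ub]
      have := twov (δ • b)
      calc a + δ • (d + b + (b + a)) = a + δ • d + (δ • b + δ • b) + δ • a := by
            simp only [smul_add]; abel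
        _ = _ := by rw [this, add_zero]
    have h3 := D.conj_u hu (D.conj_u hu h1)
    rw [Matrix.mul_smul, Matrix.smul_mul, conj_sq, Matrix.mul_smul, Matrix.smul_mul, conj_sq, uy] at h3
    have h4 := (MM G).sub_mem h3 h1
    have e4 : t • vecMulVec (y + δ • a) (y + δ • a) - t • vecMulVec y y =
        (t * δ ^ 2) • sp a d + (t * δ ^ 2) • vecMulVec a a := by
      have e5 : t • vecMulVec (y + δ • a) (y + δ • a) - t • vecMulVec y y =
        (t * δ ^ 2) • sp a d + (t * δ ^ 2) • vecMulVec a a +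
          ((t * δ) • vecMulVec a a + (t * δ) • vecMulVec a a) := by
        rw [hy]
        ext i j; simp [vecMulVec_apply, sp]; ring
      rw [e5, two, add_zero]
    rw [e4] at h4
    have h5 := D.conj_u hu h4
    rw [Matrix.mul_add, Matrix.add_mul, Matrix.mul_smul, Matrix.smul_mul, conj_sp, Matrix.mul_smul,
      Matrix.smul_mul, conj_sq, ua, ud, sp_add_right, smul_add] at h5
    have h6 := (MM G).sub_mem h5 h4
    have e6 : (t * δ ^ 2) • sp a d + (t * δ ^ 2) • sp a b + (t * δ ^ 2) • vecMulVec a a -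
        ((t * δ ^ 2) • sp a d + (t * δ ^ 2) • vecMulVec a a) = (t * δ ^ 2) • sp a b := by abel
    rw [e6] at h6
    exact h6
  -- (ii)
  have step2 : ∀ t : F, t • sp a b ∈ MM G → ((x0 * x1) * t) • sp a b ∈ MM G := by
    intro t ht
    have h1 := D.conj_v hv ht (by
      intro i j hi
      simp [sp, vecMulVec_apply, (hlast i hi).1, (hlast i hi).2]) (by
      intro i j hj
      simp [sp, vecMulVec_apply, (hlast j hj).1, (hlast j hj).2])
    rw [Matrix.mul_smul, Matrix.smul_mul, conj_sp, va, vb] at h1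
    have h3 := D.conj_u hu (D.conj_u hu h1)
    rw [Matrix.mul_smul, Matrix.smul_mul, conj_sp, Matrix.mul_smul, Matrix.smul_mul, conj_sp] at h3
    have e1 : Um F n *ᵥ (Um F n *ᵥ (a + x0 • b)) = a + x0 • b := by
      rw [mulVec_add, mulVec_smul, ua, ub, mulVec_add, mulVec_smul, mulVec_add, ua, ub]
      have := twov (x0 • a)
      calc a + x0 • (b + a + a) = a + x0 • b + (x0 • a + x0 • a) := by simp only [smul_add]; abel
        _ = _ := by rw [this, add_zero]
    have e2 : Um F n *ᵥ (Um F n *ᵥ (b + x1 • d)) = b + x1 • d + x1 • a := by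
      rw [mulVec_add, mulVec_smul, ub, ud, mulVec_add, mulVec_smul, mulVec_add, mulVec_add, ua, ub, ud]
      have h7 := twov a
      have h8 := twov (x1 • b)
      calc b + a + a + x1 • (d + b + (b + a)) = b + (a + a) + x1 • d + (x1 • b + x1 • b) + x1 • a := by
            simp only [smul_add]; abel
        _ = _ := by rw [h7, h8, add_zero, add_zero]
    rw [e1, e2] at h3
    have h4 := (MM G).sub_mem h3 h1
    have e4 : t • sp (a + x0 • b) (b + x1 • d + x1 • a) - t • sp (a + x0 • b) (b + x1 • d) =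
        ((x0 * x1) * t) • sp a b := by
      have e5 : t • sp (a + x0 • b) (b + x1 • d + x1 • a) - t • sp (a + x0 • b) (b + x1 • d) =
        ((x0 * x1) * t) • sp a b + ((t * x1) • vecMulVec a a + (t * x1) • vecMulVec a a) := by
        ext i j; simp [vecMulVec_apply, sp]; ring
      rw [e5, two, add_zero]
    rw [e4] at h4
    exact h4
  rw [← mem_MM_tv] at h
  have step3 : ∀ t : F, t • sp a b ∈ MM G :=
    full_of_AR (mul_ne_zero hμ (pow_ne_zero 2 hne)) (step1 μ h) hc1 step2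
  intro t
  rw [← mem_MM_tv]
  refine full_of_AR hμ h hc0 ?_ t
  intro t ht
  have h1 := htv t ht
  have h3 := D.conj_u hu h1
  rw [Matrix.mul_smul, Matrix.smul_mul, conj_sq, mulVec_add, mulVec_smul, ua, ub] at h3
  have h4 := (MM G).sub_mem ((MM G).sub_mem h3 h1) (step3 (t * x0 ^ 2))
  have e4 : t • vecMulVec (a + x0 • (b + a)) (a + x0 • (b + a)) - t • vecMulVec (a + x0 • b) (a + x0 • b) -
      (t * x0 ^ 2) • sp a b = (x0 ^ 2 * t) • vecMulVec a a := by
    have e5 : t • vecMulVec (a + x0 • (b + a)) (a + x0 • (b + a)) - t • vecMulVec (a + x0 • b) (a + x0 • b) -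
      (t * x0 ^ 2) • sp a b = (x0 ^ 2 * t) • vecMulVec a a +
        ((t * x0) • vecMulVec a a + (t * x0) • vecMulVec a a) := by
      ext i j; simp [vecMulVec_apply, sp]; ring
    rw [e5, two, add_zero]
  rw [e4] at h4
  exact h4

end Cfsg.Agent.H42.SpGen
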