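import Mathlib
import Cfsg.Agent.H42.SpGen3

/-!
Generation of `Sp_4(F)` by regular unipotent elements, characteristic two.
-/

set_option autoImplicit false

namespace Cfsg.Agent.H42.SpGen

open Matrix Cfsg.Agent.ClassSp Cfsg.Agent.H42.ThreeUnip Cfsg.Agent.H42.CycGen

variable {F : Type*} [Field F] {n : ℕ}

variable {G : Subgroup (symplecticGroup (Fin n) F)}

/-- elements of the unipotent radical of the stabilizer of `e` -/
def RG (G : Subgroup (symplecticGroup (Fin n) F)) (e w : Fin n ⊕ Fin n → F) (t : F) : Prop :=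
  ∃ g ∈ G, ∀ x, (g : Matrix (Fin n ⊕ Fin n) (Fin n ⊕ Fin n) F) *ᵥ x =
    x + (sf x e • w + sf x w • e + (t * sf x e) • e)

theorem RG.add {e w w' : Fin n ⊕ Fin n → F} {t t' : F} (h1 : sf w e = 0) (h0 : sf w' e = 0)
    (h : RG G e w t) (h' : RG G e w' t') : RG G e (w + w') (t + t' + sf w' w) := by
  obtain ⟨g, hg, h⟩ := h
  obtain ⟨g', hg', h'⟩ := h'
  refine ⟨g * g', G.mul_mem hg hg', fun x => ?_⟩
  have h3 : sf e w = 0 := by rw [sf_swap, h1, neg_zero]
  rw [mul_mulVec, h', h]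
  simp only [sf_add_left, sf_add_right, sf_smul_left, sf_self, h0, h3, mul_zero, add_zero]
  module

theorem RG.conj {e w : Fin n ⊕ Fin n → F} {t : F} {d : symplecticGroup (Fin n) F} (hd : d ∈ G)
    (h : RG G e w t) : RG G ((d : Matrix (Fin n ⊕ Fin n) (Fin n ⊕ Fin n) F) *ᵥ e)
      ((d : Matrix (Fin n ⊕ Fin n) (Fin n ⊕ Fin n) F) *ᵥ w) t := by
  obtain ⟨g, hg, h⟩ := h
  refine ⟨d * g * d⁻¹, G.mul_mem (G.mul_mem hd hg) (G.inv_mem hd), fun x => ?_⟩
  have key : ∀ y, sf (((d⁻¹ : symplecticGroup (Fin n) F) : Matrix (Fin n ⊕ Fin n) (Fin n ⊕ Fin n) F) *ᵥ x) y =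
      sf x ((d : Matrix (Fin n ⊕ Fin n) (Fin n ⊕ Fin n) F) *ᵥ y) := by
    intro y
    rw [← sf_mulVec d, mulVec_inv_mulVec]
  rw [mul_mulVec, mul_mulVec, h, key, key, Matrix.mulVec_add, mulVec_inv_mulVec, Matrix.mulVec_add,
    Matrix.mulVec_add, Matrix.mulVec_smul, Matrix.mulVec_smul, Matrix.mulVec_smul]

theorem RG.zero_iff {e : Fin n ⊕ Fin n → F} {t : F} : RG G e 0 t ↔ tv e t ∈ G := by
  constructor
  · rintro ⟨g, hg, h⟩
    have : g = tv e t := by
      apply ext_vec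
      intro x
      rw [h, tv_mulVec, sf_zero_right, smul_zero, zero_smul, zero_add, zero_add]
    rw [← this]; exact hg
  · intro h
    refine ⟨_, h, fun x => ?_⟩
    rw [tv_mulVec, sf_zero_right, smul_zero, zero_smul, zero_add, zero_add]

theorem full_two [Finite F] {G : Subgroup (symplecticGroup (Fin 2) F)} {u v : symplecticGroup (Fin 2) F}
    {c : Fin 2 → F} {s : F} (h2 : (2 : F) = 0) (D : Data u v c s) (hu : u ∈ G) (hv : v ∈ G)
    (hc0 : c 0 = 1) (hs : s ≠ 0) {μ : F} (hμ : μ ≠ 0)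
    (hτ : Subfield.closure ({(μ * s) ^ 2} : Set F) = ⊤) {l : F} (hl0 : l ≠ 0) (hlμ : l ≠ μ)
    (h : tv (il (Pi.single (0 : Fin 2) (1 : F))) μ ∈ G) :
    Fu G (il (Pi.single (0 : Fin 2) 1)) := by
  obtain ⟨a, ha⟩ : ∃ a : Fin 2 → F, a = Pi.single (0 : Fin 2) (1 : F) := ⟨_, rfl⟩
  obtain ⟨b, hb⟩ : ∃ b : Fin 2 → F, b = Pi.single (1 : Fin 2) (1 : F) := ⟨_, rfl⟩
  rw [← ha] at h ⊢
  have ua : Um F 2 *ᵥ a = a := by rw [ha]; exact Um_single_zero _ rfl
  have ub : Um F 2 *ᵥ b = b + a := by rw [hb, ha]; exact Um_single_succ _ _ rfl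
  have aa : a ⬝ᵥ a = 1 := by rw [ha]; simp [dotProduct, Fin.sum_univ_two]
  have bb : b ⬝ᵥ b = 1 := by rw [hb]; simp [dotProduct, Fin.sum_univ_two]
  have ab : a ⬝ᵥ b = 0 := by rw [ha, hb]; simp [dotProduct, Fin.sum_univ_two]
  have ba : b ⬝ᵥ a = 0 := by rw [ha, hb]; simp [dotProduct, Fin.sum_univ_two]
  have two : ∀ S : Matrix (Fin 2) (Fin 2) F, S + S = 0 := by
    intro S; rw [← two_smul F, h2, zero_smul]
  have twov : ∀ S : Fin 2 → F, S + S = 0 := by
    intro S; rw [← two_smul F, h2, zero_smul]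
  have twoV : ∀ S : Fin 2 ⊕ Fin 2 → F, S + S = 0 := by
    intro S; rw [← two_smul F, h2, zero_smul]
  have twoF : ∀ S : F, S + S = 0 := by
    intro S; rw [← two_mul, h2, zero_mul]
  have negF : ∀ S : F, -S = S := fun S => (eq_neg_of_add_eq_zero_left (twoF S)).symm
  -- the actions of `v`
  have vinj : ∀ x y : Fin 2 ⊕ Fin 2 → F, ((v⁻¹ : symplecticGroup (Fin 2) F) : Matrix (Fin 2 ⊕ Fin 2) (Fin 2 ⊕ Fin 2) F) *ᵥ x = y →
      (v : Matrix (Fin 2 ⊕ Fin 2) (Fin 2 ⊕ Fin 2) F) *ᵥ y = x := by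
    intro x y h; rw [← h, mulVec_inv_mulVec]
  have vf0 : (v : Matrix (Fin 2 ⊕ Fin 2) (Fin 2 ⊕ Fin 2) F) *ᵥ ir a = ir a := by
    apply vinj
    rw [D.hv3, ha, VmT_single_zero c _ rfl]
  have vf1 : (v : Matrix (Fin 2 ⊕ Fin 2) (Fin 2 ⊕ Fin 2) F) *ᵥ ir b = ir (b + a) := by
    apply vinj
    rw [D.hv3, mulVec_add, hb, VmT_single_succ c 1 0 rfl, hc0, ha, VmT_single_zero c _ rfl, one_smul, add_assoc,
      twov, add_zero]
  have va : (v : Matrix (Fin 2 ⊕ Fin 2) (Fin 2 ⊕ Fin 2) F) *ᵥ il a = il (a + b) := by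
    rw [D.hv1 _ (by
      intro i hi
      have : i = 1 := Fin.ext (by simp; omega)
      rw [this, ha]; simp), ha, hb, Vm_single c 0 1 rfl, hc0, one_smul]
  have vb : (v : Matrix (Fin 2 ⊕ Fin 2) (Fin 2 ⊕ Fin 2) F) *ᵥ il b = il b + s • ir (b + a) := by
    have h1 : (v : Matrix (Fin 2 ⊕ Fin 2) (Fin 2 ⊕ Fin 2) F) *ᵥ (il b - s • ir b) = il b := by
      apply vinj
      rw [hb]; exact D.hv4 1 rfl
    rw [Matrix.mulVec_sub, Matrix.mulVec_smul, vf1] at h1
    rwa [sub_eq_iff_eq_add] at h1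
  obtain ⟨A, hA⟩ : ∃ A : Fin 2 ⊕ Fin 2 → F, A = il a := ⟨_, rfl⟩
  obtain ⟨E, hE⟩ : ∃ E : Fin 2 ⊕ Fin 2 → F, E = il (a + b) := ⟨_, rfl⟩
  obtain ⟨f, hf⟩ : ∃ f : Fin 2 ⊕ Fin 2 → F, f = il a + s • ir (b + a) := ⟨_, rfl⟩
  have vA : (v : Matrix (Fin 2 ⊕ Fin 2) (Fin 2 ⊕ Fin 2) F) *ᵥ A = E := by rw [hA, hE]; exact va
  have vE : (v : Matrix (Fin 2 ⊕ Fin 2) (Fin 2 ⊕ Fin 2) F) *ᵥ E = f := by
    rw [hE, il_add, Matrix.mulVec_add, va, vb, hf, il_add]
    have := twoV (il b)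
    calc il a + il b + (il b + s • ir (b + a)) = il a + (il b + il b) + s • ir (b + a) := by abel
      _ = _ := by rw [this, add_zero]
  have viE : ((v⁻¹ : symplecticGroup (Fin 2) F) : Matrix (Fin 2 ⊕ Fin 2) (Fin 2 ⊕ Fin 2) F) *ᵥ E = A :=
    inv_eq_of_mulVec vA
  have vif : ((v⁻¹ : symplecticGroup (Fin 2) F) : Matrix (Fin 2 ⊕ Fin 2) (Fin 2 ⊕ Fin 2) F) *ᵥ f = E :=
    inv_eq_of_mulVec vE
  -- the form
  have rf : rr f = s • (b + a) := by
    rw [hf]; ext i; simp [rr, il, ir]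
  have sfx : ∀ (x : Fin 2 ⊕ Fin 2 → F) (w : Fin 2 → F), sf x (il w) = w ⬝ᵥ rr x := by
    intro x w; rw [sf_il, negF]
  have sfA : ∀ x, sf x A = a ⬝ᵥ rr x := by intro x; rw [hA, sfx]
  have sfE : ∀ x, sf x E = (a + b) ⬝ᵥ rr x := by intro x; rw [hE, sfx]
  have sEA : sf E A = 0 := by rw [hE, hA, sf_il_il]
  have sAE : sf A E = 0 := by rw [hE, hA, sf_il_il]
  have sfAf : sf f A = s := by
    rw [sfA, rf, dotProduct_smul, dotProduct_add, aa, ab, zero_add, smul_eq_mul, mul_one]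
  have sAf : sf A f = s := by rw [sf_swap, sfAf, negF]
  have sfEf : sf f E = 0 := by
    rw [sfE, rf, dotProduct_smul, dotProduct_add, add_dotProduct, add_dotProduct, aa, ab, bb, ba]
    simp [twoF]
  have sEf : sf E f = 0 := by rw [sf_swap, sfEf, neg_zero]
  -- conversions
  have conv : ∀ t r : F, t • sp a b + r • vecMulVec (a + b) (a + b) ∈ MM G ↔ RG G E (t • A) r := by
    intro t r
    have key : ∀ x : Fin 2 ⊕ Fin 2 → F,
        il (-((t • sp a b + r • vecMulVec (a + b) (a + b)) *ᵥ rr x)) =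
          sf x E • (t • A) + sf x (t • A) • E + (r * sf x E) • E := by
      intro x
      rw [sf_smul_right, sfE, sfA, add_dotProduct, hA, hE, ← il_smul, ← il_smul, ← il_smul, ← il_smul,
        ← il_add, ← il_add]
      congr 1
      have h5 : ∀ w : Fin 2 → F, -w = w := fun w => (eq_neg_of_add_eq_zero_left (twov w)).symm
      rw [h5, Matrix.add_mulVec, Matrix.smul_mulVec, Matrix.smul_mulVec, sp, Matrix.add_mulVec,
        vecMulVec_mulVec, vecMulVec_mulVec, vecMulVec_mulVec, add_dotProduct]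
      have h6 := twov ((t * (a ⬝ᵥ rr x)) • a)
      simp only [op_smul_eq_smul]
      calc t • ((b ⬝ᵥ rr x) • a + (a ⬝ᵥ rr x) • b) + r • (a ⬝ᵥ rr x + b ⬝ᵥ rr x) • (a + b)
          = t • ((b ⬝ᵥ rr x) • a + (a ⬝ᵥ rr x) • b) + r • (a ⬝ᵥ rr x + b ⬝ᵥ rr x) • (a + b) + 0 := by
            rw [add_zero]
        _ = _ := by rw [← h6]; module
    constructor
    · rintro ⟨g, hg, h⟩
      exact ⟨g, hg, fun x => by rw [h, key]⟩
    · rintro ⟨g, hg, h⟩
      exact ⟨g, hg, fun x => by rw [h, key]⟩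
  have conv' : ∀ t r : F, RG G A (t • E) r → t • sp a b + r • vecMulVec a a ∈ MM G := by
    intro t r
    have key : ∀ x : Fin 2 ⊕ Fin 2 → F,
        il (-((t • sp a b + r • vecMulVec a a) *ᵥ rr x)) =
          sf x A • (t • E) + sf x (t • E) • A + (r * sf x A) • A := by
      intro x
      rw [sf_smul_right, sfE, sfA, add_dotProduct, hA, hE, ← il_smul, ← il_smul, ← il_smul, ← il_smul,
        ← il_add, ← il_add]
      congr 1
      have h5 : ∀ w : Fin 2 → F, -w = w := fun w => (eq_neg_of_add_eq_zero_left (twov w)).symm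
      rw [h5, Matrix.add_mulVec, Matrix.smul_mulVec, Matrix.smul_mulVec, sp, Matrix.add_mulVec,
        vecMulVec_mulVec, vecMulVec_mulVec, vecMulVec_mulVec]
      have h6 := twov ((t * (a ⬝ᵥ rr x)) • a)
      simp only [op_smul_eq_smul]
      calc t • ((b ⬝ᵥ rr x) • a + (a ⬝ᵥ rr x) • b) + r • (a ⬝ᵥ rr x) • a
          = t • ((b ⬝ᵥ rr x) • a + (a ⬝ᵥ rr x) • b) + r • (a ⬝ᵥ rr x) • a + 0 := by
            rw [add_zero]
        _ = _ := by rw [← h6]; module
    rintro ⟨g, hg, h⟩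
    exact ⟨g, hg, fun x => by rw [h, key]⟩
  -- transvections in `G`
  have tA : tv A μ ∈ G := by rw [hA]; exact h
  have tE : tv E μ ∈ G := by
    have := G.mul_mem (G.mul_mem hv tA) (G.inv_mem hv)
    rwa [tv_conj, vA] at this
  have tf : tv f μ ∈ G := by
    have := G.mul_mem (G.mul_mem hv tE) (G.inv_mem hv)
    rwa [tv_conj, vE] at this
  have uab : Um F 2 *ᵥ (a + b) = b := by
    rw [mulVec_add, ua, ub]
    have := twov a
    calc a + (b + a) = b + (a + a) := by abel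
      _ = b := by rw [this, add_zero]
  have tB : tv (il b) μ ∈ G := by
    have := G.mul_mem (G.mul_mem hu tE) (G.inv_mem hu)
    rwa [tv_conj, hE, D.hu1, uab] at this
  have step1 : RG G E (μ • A) 0 := by
    rw [← conv, zero_smul, add_zero]
    have e : μ • sp a b = μ • vecMulVec (a + b) (a + b) - μ • vecMulVec a a - μ • vecMulVec b b := by
      rw [sq_add]; module
    rw [e]
    refine (MM G).sub_mem ((MM G).sub_mem (mem_MM_tv.mpr ?_) (mem_MM_tv.mpr h)) (mem_MM_tv.mpr tB)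
    rw [← hE]; exact tE
  -- the predicate
  obtain ⟨RQ, hRQ⟩ : ∃ RQ : F → F → Prop, ∀ x y, RQ x y ↔
      RG G E (x • A + y • f) (μ⁻¹ * (x ^ 2 + y ^ 2) + s * x * y) := ⟨_, fun _ _ => Iff.rfl⟩
  have sfQ : ∀ x y : F, sf (x • A + y • f) E = 0 := by
    intro x y
    rw [sf_add_left, sf_smul_left, sf_smul_left, sAE, sfEf]; ring
  have RQ_add : ∀ x y x' y' : F, RQ x y → RQ x' y' → RQ (x + x') (y + y') := by
    intro x y x' y' h1 h3
    rw [hRQ] at h1 h3 ⊢
    have h4 := h1.add (sfQ _ _) (sfQ _ _) h3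
    have e1 : x • A + y • f + (x' • A + y' • f) = (x + x') • A + (y + y') • f := by module
    have e2 : μ⁻¹ * (x ^ 2 + y ^ 2) + s * x * y + (μ⁻¹ * (x' ^ 2 + y' ^ 2) + s * x' * y') +
        sf (x' • A + y' • f) (x • A + y • f) =
        μ⁻¹ * ((x + x') ^ 2 + (y + y') ^ 2) + s * (x + x') * (y + y') := by
      simp only [sf_add_left, sf_add_right, sf_smul_left, sf_smul_right, sf_self, sfAf, sAf]
      linear_combination (- μ⁻¹ * x * x' - μ⁻¹ * y * y') * h2
    rw [e1, e2] at h4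
    exact h4
  have RQ_tA : ∀ x y : F, RQ x y → RQ (x + μ * s * y) y := by
    intro x y h1
    rw [hRQ] at h1 ⊢
    have h3 := h1.conj tA
    rw [tv_mulVec, tv_mulVec, sEA, mul_zero, zero_smul, add_zero] at h3
    have e1 : x • A + y • f + (μ * sf (x • A + y • f) A) • A = (x + μ * s * y) • A + y • f := by
      rw [sf_add_left, sf_smul_left, sf_smul_left, sf_self, sfAf]; module
    have e2 : μ⁻¹ * ((x + μ * s * y) ^ 2 + y ^ 2) + s * (x + μ * s * y) * y =
        μ⁻¹ * (x ^ 2 + y ^ 2) + s * x * y := by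
      have h5 : μ⁻¹ * ((x + μ * s * y) ^ 2 + y ^ 2) + s * (x + μ * s * y) * y =
        μ⁻¹ * (x ^ 2 + y ^ 2) + s * x * y + 2 * (s * x * y + μ * s ^ 2 * y ^ 2) := by
        field_simp; ring
      rw [h5, h2, zero_mul, add_zero]
    rw [e1] at h3
    rw [e2]; exact h3
  have RQ_tf : ∀ x y : F, RQ x y → RQ x (y + μ * s * x) := by
    intro x y h1
    rw [hRQ] at h1 ⊢
    have h3 := h1.conj tf
    rw [tv_mulVec, tv_mulVec, sEf, mul_zero, zero_smul, add_zero] at h3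
    have e1 : x • A + y • f + (μ * sf (x • A + y • f) f) • f = x • A + (y + μ * s * x) • f := by
      rw [sf_add_left, sf_smul_left, sf_smul_left, sf_self, sAf]; module
    have e2 : μ⁻¹ * (x ^ 2 + (y + μ * s * x) ^ 2) + s * x * (y + μ * s * x) =
        μ⁻¹ * (x ^ 2 + y ^ 2) + s * x * y := by
      have h5 : μ⁻¹ * (x ^ 2 + (y + μ * s * x) ^ 2) + s * x * (y + μ * s * x) =
        μ⁻¹ * (x ^ 2 + y ^ 2) + s * x * y + 2 * (s * x * y + μ * s ^ 2 * x ^ 2) := by
        field_simp; ring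
      rw [h5, h2, zero_mul, add_zero]
    rw [e1] at h3
    rw [e2]; exact h3
  have step2 : RQ 0 (μ ^ 2 * s) := by
    have h3 := step1.conj tf
    rw [tv_mulVec, tv_mulVec, sEf, mul_zero, zero_smul, add_zero, sf_smul_left, sAf] at h3
    have hs1 : sf (μ • A + (μ * (μ * s)) • f) E = 0 := sfQ _ _
    have hs2 : sf (μ • A) E = 0 := by rw [sf_smul_left, sAE, mul_zero]
    have h4 := h3.add hs1 hs2 step1
    have e1 : μ • A + (μ * (μ * s)) • f + μ • A = (0 : F) • A + (μ ^ 2 * s) • f := by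
      have := twoV (μ • A)
      calc μ • A + (μ * (μ * s)) • f + μ • A = (μ • A + μ • A) + (μ * (μ * s)) • f := by abel
        _ = _ := by rw [this]; module
    have e2 : (0 : F) + 0 + sf (μ • A) (μ • A + (μ * (μ * s)) • f) =
        μ⁻¹ * (0 ^ 2 + (μ ^ 2 * s) ^ 2) + s * 0 * (μ ^ 2 * s) := by
      simp only [sf_add_right, sf_smul_left, sf_smul_right, sf_self, sAf]
      field_simp
      ring
    rw [e1, e2] at h4
    rw [hRQ]; exact h4
  have step3 : ∀ y : F, RQ 0 y → RQ (μ * s * y) 0 := by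
    intro y h1
    have h3 := RQ_add _ _ _ _ (RQ_tA _ _ h1) h1
    rwa [twoF, add_zero, zero_add] at h3
  have step4 : ∀ y : F, RQ 0 y → RQ 0 ((μ * s) ^ 2 * y) := by
    intro y h1
    have h3 := step3 y h1
    have h4 := RQ_add _ _ _ _ (RQ_tf _ _ h3) h3
    rw [twoF, add_zero, zero_add] at h4
    have e : (μ * s) ^ 2 * y = μ * s * (μ * s * y) := by ring
    rw [e]; exact h4
  have hms : μ * s ≠ 0 := mul_ne_zero hμ hs
  have step5 : ∀ y : F, RQ 0 y := by
    let Y : AddSubgroup F :=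
      { carrier := {t | RQ 0 (t * (μ ^ 2 * s))}
        zero_mem' := by
          show RQ 0 (0 * (μ ^ 2 * s))
          rw [zero_mul]
          have := RQ_add _ _ _ _ step2 step2
          rwa [add_zero, twoF] at this
        add_mem' := by
          intro x y h1 h3
          show RQ 0 ((x + y) * (μ ^ 2 * s))
          have := RQ_add _ _ _ _ h1 h3
          rwa [add_zero, ← add_mul] at this
        neg_mem' := by
          intro x h1
          show RQ 0 (-x * (μ ^ 2 * s))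
          rw [negF]; exact h1 }
    have hY : Y = ⊤ := by
      apply S_closure hτ
      · show RQ 0 (1 * (μ ^ 2 * s))
        rw [one_mul]; exact step2
      · intro x hx
        show RQ 0 ((μ * s) ^ 2 * x * (μ ^ 2 * s))
        rw [mul_assoc]
        exact step4 _ hx
    intro y
    have h1 : y * (μ ^ 2 * s)⁻¹ ∈ Y := by rw [hY]; trivial
    have h3 : RQ 0 (y * (μ ^ 2 * s)⁻¹ * (μ ^ 2 * s)) := h1
    rwa [inv_mul_cancel_right₀ (mul_ne_zero (pow_ne_zero 2 hμ) hs)] at h3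
  have step6 : ∀ x y : F, RQ x y := by
    intro x y
    have h1 := step3 (x * (μ * s)⁻¹) (step5 _)
    have e : μ * s * (x * (μ * s)⁻¹) = x := by field_simp
    rw [e] at h1
    have h3 := RQ_add _ _ _ _ h1 (step5 y)
    rwa [add_zero, zero_add] at h3
  -- squares
  have hsq : ∀ r : F, ∃ t : F, t ^ 2 = r := by
    intro r
    haveI : CharP F 2 := CharTwo.of_one_ne_zero_of_two_eq_zero one_ne_zero h2
    haveI := Fintype.ofFinite F
    obtain ⟨t, ht⟩ := (isSquare_iff_exists_sq r).mp (FiniteField.isSquare_of_char_two (by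
      exact (CharP.ringChar_of_prime_eq_zero Nat.prime_two (by exact_mod_cast h2))) r)
    exact ⟨t, ht.symm⟩
  have stepα : ∀ t : F, t • sp a b + (μ⁻¹ * t ^ 2) • vecMulVec (a + b) (a + b) ∈ MM G := by
    intro t
    rw [conv]
    have h1 := (hRQ t 0).mp (step6 t 0)
    have e1 : t • A + (0 : F) • f = t • A := by module
    have e2 : μ⁻¹ * (t ^ 2 + 0 ^ 2) + s * t * 0 = μ⁻¹ * t ^ 2 := by ring
    rwa [e1, e2] at h1
  have stepβ : ∀ t : F, t • sp a b + (μ⁻¹ * t ^ 2) • vecMulVec a a ∈ MM G := by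
    intro t
    apply conv'
    have h1 := ((hRQ 0 t).mp (step6 0 t)).conj (G.inv_mem hv)
    rw [viE, Matrix.mulVec_add, Matrix.mulVec_smul, Matrix.mulVec_smul, vif] at h1
    have e1 : (0 : F) • (((v⁻¹ : symplecticGroup (Fin 2) F) : Matrix (Fin 2 ⊕ Fin 2) (Fin 2 ⊕ Fin 2) F) *ᵥ A) +
      t • E = t • E := by module
    have e2 : μ⁻¹ * (0 ^ 2 + t ^ 2) + s * 0 * t = μ⁻¹ * t ^ 2 := by ring
    rwa [e1, e2] at h1
  have stepγ : ∀ r : F, r • vecMulVec (a + b) (a + b) - r • vecMulVec a a ∈ MM G := by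
    intro r
    obtain ⟨t, ht⟩ := hsq (μ * r)
    have h1 := (MM G).sub_mem (stepα t) (stepβ t)
    rw [ht, inv_mul_cancel_left₀ hμ, add_sub_add_left_eq_sub] at h1
    exact h1
  have stepδ : ∀ r : F, r • vecMulVec b b - r • vecMulVec a a ∈ MM G := by
    intro r
    have h1 := D.conj_u hu (stepγ r)
    rw [Matrix.mul_sub, Matrix.sub_mul, Matrix.mul_smul, Matrix.smul_mul, conj_sq, Matrix.mul_smul,
      Matrix.smul_mul, conj_sq, uab, ua] at h1
    exact h1
  have stepε : l • (sp a b + vecMulVec a a) ∈ MM G := by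
    have h1 := (MM G).sub_mem (stepγ l) (stepδ l)
    have e : l • vecMulVec (a + b) (a + b) - l • vecMulVec a a - (l • vecMulVec b b - l • vecMulVec a a) =
        l • (sp a b + vecMulVec a a) := by rw [sq_add]; module
    rwa [e] at h1
  -- the last step
  have hfin : ∀ t : F, tv E (s ^ 2 * t ^ 2 * (μ⁻¹ * l ^ 2 + l)) ∈ G := by
    intro t
    obtain ⟨g, hg, hgx⟩ := stepε
    have gE : (g : Matrix (Fin 2 ⊕ Fin 2) (Fin 2 ⊕ Fin 2) F) *ᵥ E = E := by
      rw [hgx, hE, rr_il, Matrix.mulVec_zero, neg_zero, il_zero, add_zero]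
    have gf : (g : Matrix (Fin 2 ⊕ Fin 2) (Fin 2 ⊕ Fin 2) F) *ᵥ f = f + (l * s) • il b := by
      rw [hgx, rf, ← il_smul]
      congr 2
      have h5 : ∀ w : Fin 2 → F, -w = w := fun w => (eq_neg_of_add_eq_zero_left (twov w)).symm
      rw [h5, Matrix.smul_mulVec, Matrix.mulVec_smul, sp, Matrix.add_mulVec, Matrix.add_mulVec,
        vecMulVec_mulVec, vecMulVec_mulVec, vecMulVec_mulVec, dotProduct_add, dotProduct_add, aa, ab, ba, bb]
      simp only [op_smul_eq_smul, add_zero, zero_add, one_smul]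
      have := twov a
      calc l • s • (a + b + a) = (l * s) • (b + (a + a)) := by rw [smul_smul]; congr 1; abel
        _ = _ := by rw [this, add_zero]
    have h1 := ((hRQ 0 t).mp (step6 0 t)).conj hg
    have e1 : (0 : F) • A + t • f = t • f := by module
    rw [gE, e1, Matrix.mulVec_smul, gf] at h1
    have h3 := (hRQ (l * s * t) t).mp (step6 (l * s * t) t)
    have hs1 : sf (t • (f + (l * s) • il b)) E = 0 := by
      rw [sf_smul_left, sf_add_left, sf_smul_left, sfEf, hE, sf_il_il]; ring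
    have h4 := h1.add hs1 (sfQ _ _) h3
    have sfb : sf f (il b) = s := by
      rw [sfx, rf, dotProduct_smul, dotProduct_add, bb, ba, add_zero, smul_eq_mul, mul_one]
    have sAb : sf A (il b) = 0 := by rw [hA, sf_il_il]
    have e2 : t • (f + (l * s) • il b) + ((l * s * t) • A + t • f) = (l * s * t) • E := by
      have := twoV (t • f)
      calc t • (f + (l * s) • il b) + ((l * s * t) • A + t • f) =
            (t • f + t • f) + (l * s * t) • (A + il b) := by module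
        _ = _ := by rw [this, zero_add, hA, hE, il_add]
    have e3 : μ⁻¹ * (0 ^ 2 + t ^ 2) + s * 0 * t + (μ⁻¹ * ((l * s * t) ^ 2 + t ^ 2) + s * (l * s * t) * t) +
        sf ((l * s * t) • A + t • f) (t • (f + (l * s) • il b)) = s ^ 2 * t ^ 2 * (μ⁻¹ * l ^ 2 + l) := by
      simp only [sf_add_left, sf_add_right, sf_smul_left, sf_smul_right, sf_self, sAf, sfb, sAb]
      linear_combination (μ⁻¹ * t ^ 2 + l * s ^ 2 * t ^ 2) * h2
    rw [e2, e3] at h4
    obtain ⟨g', hg', hgx'⟩ := h4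
    have : g' = tv E (s ^ 2 * t ^ 2 * (μ⁻¹ * l ^ 2 + l)) := by
      apply ext_vec
      intro x
      rw [hgx', tv_mulVec]
      congr 1
      have := twoV ((l * s * t * sf x E) • E)
      rw [sf_smul_right]
      calc sf x E • (l * s * t) • E + (l * s * t * sf x E) • E +
            (s ^ 2 * t ^ 2 * (μ⁻¹ * l ^ 2 + l) * sf x E) • E
          = ((l * s * t * sf x E) • E + (l * s * t * sf x E) • E) +
            (s ^ 2 * t ^ 2 * (μ⁻¹ * l ^ 2 + l) * sf x E) • E := by module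
        _ = _ := by rw [this, zero_add]
    rw [← this]; exact hg'
  have hne : μ⁻¹ * l ^ 2 + l ≠ 0 := by
    have e : μ⁻¹ * l ^ 2 + l = μ⁻¹ * l * (l + μ) := by field_simp
    rw [e]
    refine mul_ne_zero (mul_ne_zero (inv_ne_zero hμ) hl0) ?_
    intro h5
    apply hlμ
    have := eq_neg_of_add_eq_zero_left h5
    rwa [negF] at this
  have FuE : Fu G E := by
    intro r
    obtain ⟨t, ht⟩ := hsq (r * (s ^ 2 * (μ⁻¹ * l ^ 2 + l))⁻¹)
    have h1 := hfin t
    obtain ⟨K, hK⟩ : ∃ K, K = μ⁻¹ * l ^ 2 + l := ⟨_, rfl⟩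
    rw [← hK] at h1 ht hne
    have hne2 : s ^ 2 * K ≠ 0 := mul_ne_zero (pow_ne_zero 2 hs) hne
    have e : s ^ 2 * t ^ 2 * K = r := by
      rw [ht]
      calc s ^ 2 * (r * (s ^ 2 * K)⁻¹) * K = r * ((s ^ 2 * K) * (s ^ 2 * K)⁻¹) := by ring
        _ = r := by rw [mul_inv_cancel₀ hne2, mul_one]
    rwa [e] at h1
  have := FuE.act (G.inv_mem hv)
  rw [viE, hA] at this
  exact this

end Cfsg.Agent.H42.SpGen
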