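import Mathlib
import Cfsg.Agent.H42.SpGen4
import Cfsg.Agent.H42.CycGen9

/-!
Generation of `Sp_2n(F)` by regular unipotent elements: construction of the elements.
-/

set_option autoImplicit false

namespace Cfsg.Agent.H42.SpGen

open Matrix Cfsg.Agent.ClassSp Cfsg.Agent.H42.ThreeUnip Cfsg.Agent.H42.CycGen

variable {F : Type*} [Field F]

section Strict

variable {ι : Type*} [Fintype ι] [DecidableEq ι]

theorem pow_strict (pos : ι → ℕ) (A : Matrix ι ι F) (h0 : ∀ i j, pos j ≤ pos i → A i j = 0) (k : ℕ) :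
    ∀ i j, pos j < pos i + k → (A ^ k) i j = 0 := by
  induction k with
  | zero =>
    intro i j h
    rw [pow_zero, Matrix.one_apply, if_neg]
    rintro rfl
    omega
  | succ k ih =>
    intro i j h
    rw [pow_succ, Matrix.mul_apply]
    apply Finset.sum_eq_zero
    intro l _
    by_cases hl : pos l < pos i + k
    · rw [ih i l hl, zero_mul]
    · rw [h0 l j (by omega), mul_zero]

theorem pow_top (pos : ι → ℕ) (hinj : Function.Injective pos) (A : Matrix ι ι F)
    (h0 : ∀ i j, pos j ≤ pos i → A i j = 0) (h1 : ∀ i j, pos j = pos i + 1 → A i j ≠ 0)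
    (hsurj : ∀ i m, pos i ≤ m → (∃ j, m ≤ pos j) → ∃ l, pos l = m) (k : ℕ) :
    ∀ i j, pos j = pos i + k → (A ^ k) i j ≠ 0 := by
  induction k with
  | zero =>
    intro i j h
    rw [pow_zero, Matrix.one_apply, if_pos (hinj (by omega))]
    exact one_ne_zero
  | succ k ih =>
    intro i j h
    obtain ⟨l0, hl0⟩ := hsurj i (pos i + k) (by omega) ⟨j, by omega⟩
    rw [pow_succ, Matrix.mul_apply, Finset.sum_eq_single l0]
    · exact mul_ne_zero (ih i l0 hl0) (h1 l0 j (by omega))
    · intro l _ hl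
      by_cases h2 : pos l < pos i + k
      · rw [pow_strict pos A h0 k i l h2, zero_mul]
      · have h3 : pos l ≠ pos i + k := fun h' => hl (hinj (by omega))
        rw [h0 l j (by omega), mul_zero]
    · simp

end Strict

section Blocks

variable {n : ℕ}

/-- the inverse of the Jordan block -/
def Mi (F : Type*) [Field F] (n : ℕ) : Matrix (Fin n) (Fin n) F :=
  fun i j => if (i : ℕ) ≤ j then (-1) ^ ((j : ℕ) - i) else 0

theorem Um_mul_Mi : Um F n * Mi F n = 1 := by
  ext i j
  have hi := i.2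
  have hj := j.2
  rw [Matrix.mul_apply, Matrix.one_apply]
  by_cases hl : (i : ℕ) + 1 = n
  · rw [Finset.sum_eq_single i]
    · simp only [Um, Mi, if_true, one_mul]
      by_cases h : i = j
      · subst h; simp
      · rw [if_neg h, if_neg]
        intro h'
        exact h (Fin.ext (by omega))
    · intro l _ hli
      simp only [Um, hli, if_false]
      rw [if_neg (by omega), zero_mul]
    · simp
  · rw [Finset.sum_eq_add i (⟨i + 1, by omega⟩ : Fin n) (by intro h; have := congrArg Fin.val h; simp at this)]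
    · have e1 : Um F n i i = 1 := by simp [Um]
      have e2 : Um F n i ⟨i + 1, by omega⟩ = 1 := by simp [Um]
      rw [e1, e2, one_mul, one_mul]
      simp only [Mi]
      by_cases h : i = j
      · subst h; simp
      · rw [if_neg h]
        by_cases h2 : (i : ℕ) ≤ j
        · have h3 : (i : ℕ) + 1 ≤ j := by
            rcases Nat.eq_or_lt_of_le h2 with h4 | h4
            · exact absurd (Fin.ext h4) h
            · exact h4
          rw [if_pos h2, if_pos h3]
          have : (j : ℕ) - i = ((j : ℕ) - (i + 1)) + 1 := by omega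
          rw [this, pow_succ]; ring
        · rw [if_neg h2, if_neg (by omega), add_zero]
    · intro l _ hl
      simp only [Um, hl.1, if_false]
      rw [if_neg, zero_mul]
      intro h
      exact hl.2 (Fin.ext h)
    · simp
    · simp

theorem Mi_mul_Um : Mi F n * Um F n = 1 := _root_.mul_eq_one_comm.mp Um_mul_Mi

theorem MiT_mul_UmT : (Mi F n)ᵀ * (Um F n)ᵀ = 1 := by
  rw [← Matrix.transpose_mul, Um_mul_Mi, Matrix.transpose_one]

theorem UmT_mul_MiT : (Um F n)ᵀ * (Mi F n)ᵀ = 1 := by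
  rw [← Matrix.transpose_mul, Mi_mul_Um, Matrix.transpose_one]

/-- the matrix unit in the last corner -/
def SS (F : Type*) [Field F] (n : ℕ) : Matrix (Fin n) (Fin n) F :=
  fun i j => if (i : ℕ) + 1 = n ∧ (j : ℕ) + 1 = n then 1 else 0

theorem SS_T : (SS F n)ᵀ = SS F n := by
  ext i j; simp [SS, and_comm]

theorem mem_blocks {a b d : Matrix (Fin n) (Fin n) F} (h1 : b * aᵀ = a * bᵀ) (h2 : a * dᵀ = 1)
    (h3 : d * aᵀ = 1) : fromBlocks a b 0 d ∈ symplecticGroup (Fin n) F := by
  rw [SymplecticGroup.mem_iff, J, fromBlocks_transpose, fromBlocks_multiply, fromBlocks_multiply]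
  simp [h1, h2, h3]

/-- the regular unipotent element -/
def uE (F : Type*) [Field F] (n : ℕ) : symplecticGroup (Fin n) F :=
  ⟨fromBlocks (Um F n) (SS F n * (Mi F n)ᵀ) 0 (Mi F n)ᵀ, mem_blocks
    (by rw [Matrix.mul_assoc, MiT_mul_UmT, Matrix.transpose_mul, Matrix.transpose_transpose, ← Matrix.mul_assoc,
      Um_mul_Mi, SS_T, Matrix.mul_one, Matrix.one_mul])
    (by rw [Matrix.transpose_transpose, Um_mul_Mi]) MiT_mul_UmT⟩

def uE' (F : Type*) [Field F] (n : ℕ) : symplecticGroup (Fin n) F :=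
  ⟨fromBlocks (Mi F n) (-(Mi F n * SS F n)) 0 (Um F n)ᵀ, mem_blocks
    (by rw [Matrix.transpose_neg, Matrix.transpose_mul, SS_T, Matrix.neg_mul, Matrix.mul_neg, Matrix.mul_assoc])
    (by rw [Matrix.transpose_transpose, Mi_mul_Um]) UmT_mul_MiT⟩

theorem coe_uE : ((uE F n : symplecticGroup (Fin n) F) : Matrix (Fin n ⊕ Fin n) (Fin n ⊕ Fin n) F) =
    fromBlocks (Um F n) (SS F n * (Mi F n)ᵀ) 0 (Mi F n)ᵀ := rfl

theorem uE_inv : (uE F n)⁻¹ = uE' F n := by
  rw [inv_eq_iff_mul_eq_one]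
  apply Subtype.ext
  show fromBlocks (Um F n) (SS F n * (Mi F n)ᵀ) 0 (Mi F n)ᵀ *
    fromBlocks (Mi F n) (-(Mi F n * SS F n)) 0 (Um F n)ᵀ = 1
  rw [fromBlocks_multiply, ← fromBlocks_one]
  congr 1
  · rw [Matrix.mul_zero, add_zero, Um_mul_Mi]
  · rw [Matrix.mul_neg, ← Matrix.mul_assoc, Um_mul_Mi, Matrix.one_mul, Matrix.mul_assoc, MiT_mul_UmT,
      Matrix.mul_one, neg_add_cancel]
  · rw [Matrix.zero_mul, Matrix.mul_zero, add_zero]
  · rw [Matrix.zero_mul, zero_add, MiT_mul_UmT]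

/-- position -/
def pos (n : ℕ) : Fin n ⊕ Fin n → ℕ := Sum.elim (fun i => (i : ℕ)) (fun j => 2 * n - 1 - j)

theorem uE_reg (hn : 0 < n) :
    IsNilpotent (((uE F n : symplecticGroup (Fin n) F) : Matrix (Fin n ⊕ Fin n) (Fin n ⊕ Fin n) F) - 1) ∧
    (((uE F n : symplecticGroup (Fin n) F) : Matrix (Fin n ⊕ Fin n) (Fin n ⊕ Fin n) F) - 1) ^ (2 * n - 1) ≠ 0 := by
  obtain ⟨A, hA⟩ : ∃ A, A = ((uE F n : symplecticGroup (Fin n) F) :
    Matrix (Fin n ⊕ Fin n) (Fin n ⊕ Fin n) F) - 1 := ⟨_, rfl⟩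
  rw [← hA]
  have hSM : ∀ i j : Fin n, (SS F n * (Mi F n)ᵀ) i j = if (i : ℕ) + 1 = n then (-1) ^ (n - 1 - (j : ℕ)) else 0 := by
    intro i j
    have hj := j.2
    rw [Matrix.mul_apply, Finset.sum_eq_single (⟨n - 1, by omega⟩ : Fin n)]
    · simp only [SS, Matrix.transpose_apply, Mi]
      by_cases h : (i : ℕ) + 1 = n
      · rw [if_pos ⟨h, by omega⟩, if_pos (by omega), if_pos h, one_mul]
      · rw [if_neg (fun h' => h h'.1), if_neg h, zero_mul]
    · intro l _ hl
      simp only [SS]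
      rw [if_neg, zero_mul]
      rintro ⟨_, h⟩
      exact hl (Fin.ext (by simp; omega))
    · simp
  have hA11 : ∀ i j : Fin n, A (Sum.inl i) (Sum.inl j) = if (j : ℕ) = i + 1 then 1 else 0 := by
    intro i j
    rw [hA, coe_uE, Matrix.sub_apply, fromBlocks_apply₁₁, Matrix.one_apply]
    have := N_apply (F := F) i j
    rw [Matrix.sub_apply, Matrix.one_apply] at this
    simpa using this
  have hA12 : ∀ i j : Fin n, A (Sum.inl i) (Sum.inr j) =
      if (i : ℕ) + 1 = n then (-1) ^ (n - 1 - (j : ℕ)) else 0 := by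
    intro i j
    rw [hA, coe_uE, Matrix.sub_apply, fromBlocks_apply₁₂, hSM]
    simp
  have hA21 : ∀ i j : Fin n, A (Sum.inr i) (Sum.inl j) = 0 := by
    intro i j
    rw [hA, coe_uE, Matrix.sub_apply, fromBlocks_apply₂₁]
    simp
  have hA22 : ∀ i j : Fin n, A (Sum.inr i) (Sum.inr j) = if (j : ℕ) < i then (-1) ^ ((i : ℕ) - j) else 0 := by
    intro i j
    rw [hA, coe_uE, Matrix.sub_apply, fromBlocks_apply₂₂, Matrix.transpose_apply, Mi, Matrix.one_apply]
    by_cases h : i = j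
    · subst h; simp
    · by_cases h2 : (j : ℕ) < i
      · rw [if_pos (by omega), if_pos h2]
        simp [h]
      · have h3 : (i : ℕ) ≠ j := fun h' => h (Fin.ext h')
        rw [if_neg (by omega), if_neg h2]
        simp [h]
  have h0 : ∀ i j, pos n j ≤ pos n i → A i j = 0 := by
    rintro (i | i) (j | j) h
    · simp only [pos, Sum.elim_inl] at h
      rw [hA11, if_neg (by omega)]
    · simp only [pos, Sum.elim_inl, Sum.elim_inr] at h
      have := i.2; have := j.2
      omega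
    · exact hA21 i j
    · simp only [pos, Sum.elim_inr] at h
      have := i.2; have := j.2
      rw [hA22, if_neg (by omega)]
  have h1 : ∀ i j, pos n j = pos n i + 1 → A i j ≠ 0 := by
    rintro (i | i) (j | j) h
    · simp only [pos, Sum.elim_inl] at h
      rw [hA11, if_pos h]
      exact one_ne_zero
    · simp only [pos, Sum.elim_inl, Sum.elim_inr] at h
      have := i.2; have := j.2
      rw [hA12, if_pos (by omega)]
      exact pow_ne_zero _ (neg_ne_zero.mpr one_ne_zero)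
    · simp only [pos, Sum.elim_inl, Sum.elim_inr] at h
      have := i.2; have := j.2
      omega
    · simp only [pos, Sum.elim_inr] at h
      have := i.2; have := j.2
      rw [hA22, if_pos (by omega)]
      exact pow_ne_zero _ (neg_ne_zero.mpr one_ne_zero)
  have hinj : Function.Injective (pos n) := by
    rintro (i | i) (j | j) h
    · simp only [pos, Sum.elim_inl] at h
      rw [Fin.ext h]
    · simp only [pos, Sum.elim_inl, Sum.elim_inr] at h
      have := i.2; have := j.2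
      omega
    · simp only [pos, Sum.elim_inl, Sum.elim_inr] at h
      have := i.2; have := j.2
      omega
    · simp only [pos, Sum.elim_inr] at h
      have := i.2; have := j.2
      have : i = j := Fin.ext (by omega)
      rw [this]
  have hlt : ∀ i, pos n i < 2 * n := by
    rintro (i | i)
    · simp only [pos, Sum.elim_inl]; have := i.2; omega
    · simp only [pos, Sum.elim_inr]; have := i.2; omega
  refine ⟨⟨2 * n, ?_⟩, ?_⟩
  · ext i j
    rw [pow_strict (pos n) A h0 (2 * n) i j (by have := hlt j; omega)]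
    rfl
  · intro h
    have h2 := pow_top (pos n) hinj A h0 h1 (by
      intro i m _ hm
      obtain ⟨j, hj⟩ := hm
      have := hlt j
      by_cases h3 : m < n
      · exact ⟨Sum.inl ⟨m, h3⟩, rfl⟩
      · refine ⟨Sum.inr ⟨2 * n - 1 - m, by omega⟩, ?_⟩
        simp only [pos, Sum.elim_inr]
        omega) (2 * n - 1) (Sum.inl ⟨0, hn⟩) (Sum.inr ⟨0, hn⟩) (by simp [pos])
    rw [h] at h2
    exact h2 rfl

theorem blocks_mulVec (a b e d : Matrix (Fin n) (Fin n) F) (x : Fin n ⊕ Fin n → F) :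
    fromBlocks a b e d *ᵥ x = il (a *ᵥ ll x + b *ᵥ rr x) + ir (e *ᵥ ll x + d *ᵥ rr x) := by
  rw [fromBlocks_mulVec]
  ext i
  rcases i with i | i
  · simp only [il, ir, Sum.elim_inl, Pi.add_apply, Pi.zero_apply, add_zero]; rfl
  · simp only [il, ir, Sum.elim_inr, Pi.add_apply, Pi.zero_apply, zero_add]; rfl

theorem ll_add (x y : Fin n ⊕ Fin n → F) : ll (x + y) = ll x + ll y := rfl
theorem ll_ir (x : Fin n → F) : ll (ir x) = 0 := rfl
theorem ir_zero : ir (0 : Fin n → F) = 0 := by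
  ext i; rcases i with i | i <;> simp [ir]
theorem ir_neg (x : Fin n → F) : ir (-x) = -ir x := by
  ext i; rcases i with i | i <;> simp [ir]

/-- torus elements -/
def tE (D : Fin n → F) (hD : ∀ i, D i ≠ 0) : symplecticGroup (Fin n) F :=
  ⟨fromBlocks (diagonal D) 0 0 (diagonal fun i => (D i)⁻¹), mem_blocks (by simp)
    (by rw [diagonal_transpose, diagonal_mul_diagonal, ← diagonal_one]; congr 1; ext i; exact mul_inv_cancel₀ (hD i))
    (by rw [diagonal_transpose, diagonal_mul_diagonal, ← diagonal_one]; congr 1; ext i; exact inv_mul_cancel₀ (hD i))⟩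

def tE' (D : Fin n → F) (hD : ∀ i, D i ≠ 0) : symplecticGroup (Fin n) F :=
  ⟨fromBlocks (diagonal fun i => (D i)⁻¹) 0 0 (diagonal D), mem_blocks (by simp)
    (by rw [diagonal_transpose, diagonal_mul_diagonal, ← diagonal_one]; congr 1; ext i; exact inv_mul_cancel₀ (hD i))
    (by rw [diagonal_transpose, diagonal_mul_diagonal, ← diagonal_one]; congr 1; ext i; exact mul_inv_cancel₀ (hD i))⟩

theorem tE_inv (D : Fin n → F) (hD : ∀ i, D i ≠ 0) : (tE D hD)⁻¹ = tE' D hD := by
  rw [inv_eq_iff_mul_eq_one]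
  apply Subtype.ext
  show fromBlocks (diagonal D) 0 0 (diagonal fun i => (D i)⁻¹) *
    fromBlocks (diagonal fun i => (D i)⁻¹) 0 0 (diagonal D) = 1
  rw [fromBlocks_multiply, ← fromBlocks_one]
  congr 1
  · rw [Matrix.mul_zero, add_zero, diagonal_mul_diagonal, ← diagonal_one]
    congr 1; ext i; exact mul_inv_cancel₀ (hD i)
  · rw [Matrix.mul_zero, Matrix.zero_mul, add_zero]
  · rw [Matrix.mul_zero, Matrix.zero_mul, add_zero]
  · rw [Matrix.mul_zero, zero_add, diagonal_mul_diagonal, ← diagonal_one]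
    congr 1; ext i; exact inv_mul_cancel₀ (hD i)

/-- the conjugating element -/
def hE (D : Fin n → F) (hD : ∀ i, D i ≠ 0) : symplecticGroup (Fin n) F :=
  SymplecticGroup.symJ (Fin n) F * (tE D hD)⁻¹

/-- the lower element and its inverse -/
def vM (D : Fin n → F) : Matrix (Fin n ⊕ Fin n) (Fin n ⊕ Fin n) F :=
  fromBlocks (diagonal D * (Um F n)ᵀ * diagonal fun i => (D i)⁻¹) 0
    ((diagonal fun i => (D i)⁻¹) * (Mi F n * SS F n) * diagonal fun i => (D i)⁻¹)
    ((diagonal fun i => (D i)⁻¹) * Mi F n * diagonal D)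

def vM' (D : Fin n → F) : Matrix (Fin n ⊕ Fin n) (Fin n ⊕ Fin n) F :=
  fromBlocks (diagonal D * (Mi F n)ᵀ * diagonal fun i => (D i)⁻¹) 0
    (-((diagonal fun i => (D i)⁻¹) * (SS F n * (Mi F n)ᵀ) * diagonal fun i => (D i)⁻¹))
    ((diagonal fun i => (D i)⁻¹) * Um F n * diagonal D)

theorem symJ_inv_coe : (((SymplecticGroup.symJ (Fin n) F)⁻¹ : symplecticGroup (Fin n) F) :
    Matrix (Fin n ⊕ Fin n) (Fin n ⊕ Fin n) F) = fromBlocks 0 1 (-1) 0 := by
  rw [SymplecticGroup.coe_inv, SymplecticGroup.coe_J, J, fromBlocks_transpose, fromBlocks_neg, fromBlocks_multiply,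
    fromBlocks_multiply]
  simp

theorem conj_block (D : Fin n → F) (hD : ∀ i, D i ≠ 0) (w : symplecticGroup (Fin n) F)
    (a b d : Matrix (Fin n) (Fin n) F)
    (hw : (w : Matrix (Fin n ⊕ Fin n) (Fin n ⊕ Fin n) F) = fromBlocks a b 0 d) :
    ((hE D hD * w * (hE D hD)⁻¹ : symplecticGroup (Fin n) F) : Matrix (Fin n ⊕ Fin n) (Fin n ⊕ Fin n) F) =
      fromBlocks (diagonal D * d * diagonal fun i => (D i)⁻¹) 0
        (-((diagonal fun i => (D i)⁻¹) * b * diagonal fun i => (D i)⁻¹))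
        ((diagonal fun i => (D i)⁻¹) * a * diagonal D) := by
  have e1 : ((hE D hD * w * (hE D hD)⁻¹ : symplecticGroup (Fin n) F) : Matrix (Fin n ⊕ Fin n) (Fin n ⊕ Fin n) F) =
      J (Fin n) F * (tE' D hD : Matrix (Fin n ⊕ Fin n) (Fin n ⊕ Fin n) F) *
        (w : Matrix (Fin n ⊕ Fin n) (Fin n ⊕ Fin n) F) *
        ((tE D hD : Matrix (Fin n ⊕ Fin n) (Fin n ⊕ Fin n) F) *
        (((SymplecticGroup.symJ (Fin n) F)⁻¹ : symplecticGroup (Fin n) F) :
          Matrix (Fin n ⊕ Fin n) (Fin n ⊕ Fin n) F)) := by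
    have e2 : hE D hD * w * (hE D hD)⁻¹ = SymplecticGroup.symJ (Fin n) F * tE' D hD * w *
        (tE D hD * (SymplecticGroup.symJ (Fin n) F)⁻¹) := by
      rw [hE, _root_.mul_inv_rev, inv_inv, tE_inv]
    rw [e2]; rfl
  rw [e1, hw, symJ_inv_coe]
  show J (Fin n) F * (fromBlocks (diagonal fun i => (D i)⁻¹) 0 0 (diagonal D)) * fromBlocks a b 0 d *
    (fromBlocks (diagonal D) 0 0 (diagonal fun i => (D i)⁻¹) * fromBlocks 0 1 (-1) 0) = _
  rw [J, fromBlocks_multiply, fromBlocks_multiply, fromBlocks_multiply, fromBlocks_multiply]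
  simp
  constructor
  · ext i j
    simp only [Matrix.mul_diagonal, Matrix.diagonal_mul]
    ring
  · ext i j
    simp only [Matrix.mul_diagonal, Matrix.diagonal_mul, Matrix.neg_apply]
    ring

theorem hE_conj (D : Fin n → F) (hD : ∀ i, D i ≠ 0) :
    ((hE D hD * uE F n * (hE D hD)⁻¹ : symplecticGroup (Fin n) F) : Matrix (Fin n ⊕ Fin n) (Fin n ⊕ Fin n) F) =
      vM' D := by
  rw [conj_block D hD (uE F n) _ _ _ rfl]; rfl

theorem hE_conj' (D : Fin n → F) (hD : ∀ i, D i ≠ 0) :
    ((hE D hD * (uE F n)⁻¹ * (hE D hD)⁻¹ : symplecticGroup (Fin n) F) : Matrix (Fin n ⊕ Fin n) (Fin n ⊕ Fin n) F) =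
      vM D := by
  rw [conj_block D hD _ _ _ _ (by rw [uE_inv]; rfl), vM]
  congr 1
  rw [Matrix.mul_neg, Matrix.neg_mul, neg_neg]

end Blocks

end Cfsg.Agent.H42.SpGen
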