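import Mathlib
import Cfsg.Agent.H42.SpGen5

/-!
Generation of `Sp_2n(F)` by three conjugate regular unipotent elements.
-/

set_option autoImplicit false

namespace Cfsg.Agent.H42.SpGen

open Matrix Cfsg.Agent.ClassSp Cfsg.Agent.H42.ThreeUnip Cfsg.Agent.H42.CycGen

variable {F : Type*} [Field F] {n : ℕ}

/-- the coefficients of the lower element -/
def cD (D : Fin n → F) : Fin n → F := fun i => if h : (i : ℕ) + 1 < n then D ⟨i + 1, h⟩ * (D i)⁻¹ else 1

theorem Vm_cD (D : Fin n → F) (hD : ∀ i, D i ≠ 0) :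
    (diagonal D * (Um F n)ᵀ * diagonal fun i => (D i)⁻¹) = Vm (cD D) := by
  ext i j
  rw [Matrix.mul_diagonal, Matrix.diagonal_mul, Matrix.transpose_apply]
  simp only [Um, Vm]
  by_cases h : i = j
  · subst h; simp [hD i]
  · rw [if_neg h, if_neg (show ¬ j = i from fun h' => h h'.symm)]
    by_cases h2 : (i : ℕ) = j + 1
    · rw [if_pos h2, if_pos h2, mul_one, cD, dif_pos (by have := i.2; omega)]
      congr 2
      exact Fin.ext h2
    · rw [if_neg h2, if_neg h2, mul_zero, zero_mul]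

theorem VmT_cD (D : Fin n → F) (hD : ∀ i, D i ≠ 0) :
    ((diagonal fun i => (D i)⁻¹) * Um F n * diagonal D) = (Vm (cD D))ᵀ := by
  rw [← Vm_cD D hD, Matrix.transpose_mul, Matrix.transpose_mul, diagonal_transpose, diagonal_transpose,
    Matrix.transpose_transpose, Matrix.mul_assoc]

theorem ll_vec (x : Fin n → F) : ll (il x) = x := rfl

theorem data (D : Fin n → F) (hD : ∀ i, D i ≠ 0) (l : Fin n) (hl : (l : ℕ) + 1 = n) :
    Data (uE F n) (hE D hD * (uE F n)⁻¹ * (hE D hD)⁻¹) (cD D) ((D l)⁻¹ * (D l)⁻¹) := by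
  have hvi : (hE D hD * (uE F n)⁻¹ * (hE D hD)⁻¹)⁻¹ = hE D hD * uE F n * (hE D hD)⁻¹ := by group
  have hlast : ∀ i : Fin n, (i : ℕ) + 1 = n → i = l := fun i hi => Fin.ext (by omega)
  refine ⟨?_, ?_, ?_, ?_, ?_, ?_⟩
  · intro x
    rw [coe_uE, blocks_mulVec, ll_vec, rr_il, Matrix.mulVec_zero, Matrix.mulVec_zero, Matrix.zero_mulVec,
      add_zero, add_zero, ir_zero, add_zero]
  · intro x
    rw [uE_inv]
    show rr (fromBlocks (Mi F n) (-(Mi F n * SS F n)) 0 (Um F n)ᵀ *ᵥ x) = _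
    rw [blocks_mulVec, rr_add, rr_il, rr_ir, Matrix.zero_mulVec, zero_add, zero_add]
  · intro x hx
    rw [hE_conj', vM, blocks_mulVec, ll_vec, rr_il, Matrix.mulVec_zero, Matrix.mulVec_zero, add_zero,
      add_zero, Vm_cD D hD]
    have h1 : ((diagonal fun i => (D i)⁻¹) * (Mi F n * SS F n) * diagonal fun i => (D i)⁻¹) *ᵥ x = 0 := by
      have h2 : SS F n *ᵥ ((diagonal fun i => (D i)⁻¹) *ᵥ x) = 0 := by
        ext i
        rw [mulVec, dotProduct]
        apply Finset.sum_eq_zero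
        intro j _
        by_cases hj : (j : ℕ) + 1 = n
        · rw [Matrix.mulVec_diagonal, hx j hj, mul_zero, mul_zero]
        · simp only [SS]
          rw [if_neg (fun h => hj h.2), zero_mul]
      rw [← Matrix.mulVec_mulVec, ← Matrix.mulVec_mulVec, ← Matrix.mulVec_mulVec, h2, Matrix.mulVec_zero,
        Matrix.mulVec_zero]
    rw [h1, ir_zero, add_zero]
  · intro x i hi
    rw [hvi, hE_conj, vM', blocks_mulVec, rr_add, rr_il, rr_ir, zero_add, Pi.add_apply, VmT_cD D hD]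
    have h1 : ((-((diagonal fun i => (D i)⁻¹) * (SS F n * (Mi F n)ᵀ) * diagonal fun i => (D i)⁻¹)) *ᵥ ll x) i
        = 0 := by
      rw [mulVec, dotProduct]
      apply Finset.sum_eq_zero
      intro j _
      rw [Matrix.neg_apply, Matrix.mul_diagonal, Matrix.diagonal_mul]
      have h2 : (SS F n * (Mi F n)ᵀ) i j = 0 := by
        rw [Matrix.mul_apply]
        apply Finset.sum_eq_zero
        intro k _
        simp only [SS]
        rw [if_neg (fun h => hi h.1), zero_mul]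
      rw [h2]; ring
    rw [h1, zero_add]
  · intro y
    rw [hvi, hE_conj, vM', blocks_mulVec, rr_ir, ll_ir, Matrix.mulVec_zero, Matrix.mulVec_zero,
      Matrix.zero_mulVec, add_zero, zero_add, il_zero, zero_add, VmT_cD D hD]
  · intro i hi
    have := hlast i hi
    subst this
    rw [hvi, hE_conj, vM', blocks_mulVec, ll_vec, rr_il, Matrix.mulVec_zero, Matrix.mulVec_zero, add_zero,
      add_zero]
    have hd : (diagonal fun i => (D i)⁻¹) *ᵥ (Pi.single i 1 : Fin n → F) = (D i)⁻¹ • Pi.single i 1 := by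
      ext k
      rw [Matrix.mulVec_diagonal, Pi.smul_apply, smul_eq_mul, Pi.single_apply]
      by_cases h : k = i
      · rw [if_pos h, h]
      · rw [if_neg h, mul_zero, mul_zero]
    have hm : (Mi F n)ᵀ *ᵥ (Pi.single i 1 : Fin n → F) = Pi.single i 1 := by
      rw [mulVec_single_one]
      ext k
      rw [Matrix.col_apply, Matrix.transpose_apply, Pi.single_apply]
      simp only [Mi]
      by_cases h : k = i
      · rw [h]; simp
      · rw [if_neg h, if_neg]
        intro h3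
        exact h (Fin.ext (by have := k.2; omega))
    have hss : SS F n *ᵥ (Pi.single i 1 : Fin n → F) = Pi.single i 1 := by
      rw [mulVec_single_one]
      ext k
      rw [Matrix.col_apply, Pi.single_apply]
      simp only [SS]
      by_cases h : k = i
      · rw [if_pos h, if_pos ⟨by rw [h]; exact hi, hi⟩]
      · rw [if_neg h, if_neg]
        rintro ⟨h3, _⟩
        exact h (Fin.ext (by omega))
    have h1 : (diagonal D * (Mi F n)ᵀ * diagonal fun i => (D i)⁻¹) *ᵥ (Pi.single i 1 : Fin n → F) =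
        Pi.single i 1 := by
      rw [← Matrix.mulVec_mulVec, ← Matrix.mulVec_mulVec, hd, Matrix.mulVec_smul, Matrix.mulVec_smul, hm]
      ext k
      rw [Pi.smul_apply, Matrix.mulVec_diagonal, Pi.single_apply, smul_eq_mul]
      by_cases h : k = i
      · rw [if_pos h, h, mul_one, inv_mul_cancel₀ (hD i)]
      · rw [if_neg h, mul_zero, mul_zero]
    have h3 : (-((diagonal fun i => (D i)⁻¹) * (SS F n * (Mi F n)ᵀ) * diagonal fun i => (D i)⁻¹)) *ᵥ
        (Pi.single i 1 : Fin n → F) = -(((D i)⁻¹ * (D i)⁻¹) • Pi.single i 1) := by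
      rw [Matrix.neg_mulVec, ← Matrix.mulVec_mulVec, ← Matrix.mulVec_mulVec, ← Matrix.mulVec_mulVec, hd,
        Matrix.mulVec_smul, Matrix.mulVec_smul, Matrix.mulVec_smul, hm, hss, hd, smul_smul]
    rw [h1, h3, ir_neg, ir_smul, ← sub_eq_add_neg]

/-- element of the Siegel radical -/
def gS (S : Matrix (Fin n) (Fin n) F) (hS : Sᵀ = S) : symplecticGroup (Fin n) F :=
  ⟨fromBlocks 1 (-S) 0 1, mem_blocks (by rw [Matrix.transpose_one, Matrix.transpose_neg, hS]; simp)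
    (by simp) (by simp)⟩

theorem gS_mulVec (S : Matrix (Fin n) (Fin n) F) (hS : Sᵀ = S) (x : Fin n ⊕ Fin n → F) :
    (gS S hS : Matrix (Fin n ⊕ Fin n) (Fin n ⊕ Fin n) F) *ᵥ x = x + il (-(S *ᵥ rr x)) := by
  show fromBlocks 1 (-S) 0 1 *ᵥ x = _
  rw [blocks_mulVec, Matrix.one_mulVec, Matrix.one_mulVec, Matrix.zero_mulVec, zero_add, Matrix.neg_mulVec,
    il_add]
  conv_rhs => rw [eq_il_add_ir x, rr_add, rr_il, rr_ir, zero_add]
  abel

theorem gS_conj (S : Matrix (Fin n) (Fin n) F) (hS : Sᵀ = S) {u v : symplecticGroup (Fin n) F} {c : Fin n → F}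
    {s : F} (D : Data u v c s) {w : Fin n → F} {μ : F}
    (h : S - Um F n * S * (Um F n)ᵀ = μ • vecMulVec w w) :
    gS S hS * u * (gS S hS)⁻¹ = tv (il w) μ * u := by
  rw [mul_inv_eq_iff_eq_mul]
  apply ext_vec
  intro x
  rw [mul_mulVec, mul_mulVec, mul_mulVec, gS_mulVec, gS_mulVec, tv_il, Matrix.mulVec_add, D.hu1, rr_add, rr_il,
    add_zero, ← h, Matrix.mulVec_neg]
  have h1 : rr x = (Um F n)ᵀ *ᵥ rr ((u : Matrix (Fin n ⊕ Fin n) (Fin n ⊕ Fin n) F) *ᵥ x) := by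
    rw [← D.hu2, inv_mulVec_mulVec]
  conv_rhs => rw [h1]
  rw [Matrix.sub_mulVec, ← Matrix.mulVec_mulVec, ← Matrix.mulVec_mulVec, neg_sub, il_sub, il_neg, il_neg]
  abel

theorem closure_sq [Finite F] {θ : F} (hθ0 : θ ≠ 0) (hθ : ∀ x : F, x ≠ 0 → ∃ k : ℕ, θ ^ k = x) :
    Subfield.closure ({θ ^ 2} : Set F) = ⊤ := by
  haveI := Fintype.ofFinite F
  by_contra hK
  obtain ⟨K, hKd⟩ : ∃ K, K = Subfield.closure ({θ ^ 2} : Set F) := ⟨_, rfl⟩
  rw [← hKd] at hK
  have h1 := subfield_sq K hK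
  have hm : θ ^ 2 ∈ K := by rw [hKd]; exact Subfield.subset_closure rfl
  haveI := Fintype.ofFinite K
  have h2 : (θ ^ 2) ^ (Nat.card K - 1) = 1 := by
    have h3 := FiniteField.pow_card_sub_one_eq_one (⟨θ ^ 2, hm⟩ : K) (by
      intro h; exact pow_ne_zero 2 hθ0 (congrArg Subtype.val h))
    rw [Nat.card_eq_fintype_card]
    exact congrArg Subtype.val h3
  have h7 : Nat.card F - 1 ∣ 2 * (Nat.card K - 1) := by
    rw [← order_gen hθ0 hθ]
    apply orderOf_dvd_of_pow_eq_one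
    rw [pow_mul, h2]
  have h8 : 2 ≤ Nat.card K := Finite.one_lt_card
  have h9 := Nat.le_of_dvd (by omega) h7
  have h12 : 2 ≤ Nat.card F := Finite.one_lt_card
  obtain ⟨a, ha⟩ : ∃ a, Nat.card K = a + 1 := ⟨Nat.card K - 1, by omega⟩
  rw [ha] at h1 h9 h8
  rw [Nat.add_sub_cancel] at h9
  have h13 : (a + 1) ^ 2 ≤ 2 * a + 1 := by omega
  nlinarith

theorem closure_gen [Finite F] {θ : F} (hθ0 : θ ≠ 0) (hθ : ∀ x : F, x ≠ 0 → ∃ k : ℕ, θ ^ k = x) :
    Subfield.closure ({θ} : Set F) = ⊤ := by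
  rw [eq_top_iff, ← closure_sq hθ0 hθ, Subfield.closure_le]
  rintro x (rfl : x = θ ^ 2)
  exact (Subfield.closure ({θ} : Set F)).pow_mem (Subfield.subset_closure rfl) 2

theorem closure_two_sq [Finite F] (h2 : (2 : F) ≠ 0) {θ : F} (hθ0 : θ ≠ 0)
    (hθ : ∀ x : F, x ≠ 0 → ∃ k : ℕ, θ ^ k = x) :
    Subfield.closure ({2 * θ ^ 2} : Set F) = ⊤ := by
  rw [eq_top_iff, ← closure_sq hθ0 hθ, Subfield.closure_le]
  rintro x (rfl : x = θ ^ 2)
  have h3 : (2 : F) ∈ Subfield.closure ({2 * θ ^ 2} : Set F) := by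
    have := (Subfield.closure ({2 * θ ^ 2} : Set F)).add_mem (Subfield.one_mem _) (Subfield.one_mem _)
    rwa [one_add_one_eq_two] at this
  have h6 : 2 * θ ^ 2 ∈ Subfield.closure ({2 * θ ^ 2} : Set F) := Subfield.subset_closure rfl
  have h5 := Subfield.mul_mem _ (Subfield.inv_mem _ h3) h6
  rw [inv_mul_cancel_left₀ h2] at h5
  exact h5

/-- the statement, up to the form of `u` -/
def Three (F : Type*) [Field F] (n : ℕ) : Prop :=
  ∃ g h : symplecticGroup (Fin n) F,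
    Subgroup.closure ({uE F n, g * uE F n * g⁻¹, h * uE F n * h⁻¹} : Set (symplecticGroup (Fin n) F)) = ⊤

theorem three_of (D : Fin n → F) (hD : ∀ i, D i ≠ 0) (hn : 2 ≤ n) (g : symplecticGroup (Fin n) F) {μ : F}
    (hg : g * uE F n * g⁻¹ = tv (il (Pi.single (⟨0, by omega⟩ : Fin n) 1)) μ * uE F n)
    (H : ∀ G : Subgroup (symplecticGroup (Fin n) F), uE F n ∈ G → hE D hD * (uE F n)⁻¹ * (hE D hD)⁻¹ ∈ G →
      tv (il (Pi.single (⟨0, by omega⟩ : Fin n) (1 : F))) μ ∈ G →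
      Fu G (il (Pi.single (⟨0, by omega⟩ : Fin n) 1))) : Three F n := by
  refine ⟨g, hE D hD, ?_⟩
  obtain ⟨G, hG⟩ : ∃ G, G = Subgroup.closure ({uE F n, g * uE F n * g⁻¹, hE D hD * uE F n * (hE D hD)⁻¹} :
    Set (symplecticGroup (Fin n) F)) := ⟨_, rfl⟩
  rw [← hG]
  have h1 : uE F n ∈ G := by rw [hG]; exact Subgroup.subset_closure (by simp)
  have h2 : g * uE F n * g⁻¹ ∈ G := by rw [hG]; exact Subgroup.subset_closure (by simp)
  have h3 : hE D hD * uE F n * (hE D hD)⁻¹ ∈ G := by rw [hG]; exact Subgroup.subset_closure (by simp)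
  have h4 : hE D hD * (uE F n)⁻¹ * (hE D hD)⁻¹ ∈ G := by
    have := G.inv_mem h3
    have e : (hE D hD * uE F n * (hE D hD)⁻¹)⁻¹ = hE D hD * (uE F n)⁻¹ * (hE D hD)⁻¹ := by group
    rwa [e] at this
  have h5 : tv (il (Pi.single (⟨0, by omega⟩ : Fin n) (1 : F))) μ ∈ G := by
    rw [hg] at h2
    have := G.mul_mem h2 (G.inv_mem h1)
    rwa [mul_inv_cancel_right] at this
  refine core hn (data D hD ⟨n - 1, by omega⟩ (by simp; omega)) h1 h4 ?_ ?_ (H G h1 h4 h5)
  · intro i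
    simp only [cD]
    by_cases h : (i : ℕ) + 1 < n
    · rw [dif_pos h]; exact mul_ne_zero (hD _) (inv_ne_zero (hD _))
    · rw [dif_neg h]; exact one_ne_zero
  · exact mul_ne_zero (inv_ne_zero (hD _)) (inv_ne_zero (hD _))

theorem sp_T (a b : Fin n → F) : (sp a b)ᵀ = sp a b := by
  ext i j; simp [sp, vecMulVec_apply]; ring

theorem sq_T (a : Fin n → F) : (vecMulVec a a)ᵀ = vecMulVec a a := by
  ext i j; simp [vecMulVec_apply]; ring

theorem three_odd' [Finite F] (h2 : (2 : F) ≠ 0) (hn : 2 ≤ n) : Three F n := by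
  obtain ⟨θ, hθ0, hθ⟩ := exists_gen (F := F)
  obtain ⟨D, hD⟩ : ∃ D : Fin n → F, D = fun i : Fin n => if (i : ℕ) = 0 then θ⁻¹ else 1 := ⟨_, rfl⟩
  have hD0 : ∀ i, D i ≠ 0 := by
    intro i
    rw [hD]
    by_cases h : (i : ℕ) = 0
    · simp only [h, if_true]; exact inv_ne_zero hθ0
    · simp only [h, if_false]; exact one_ne_zero
  obtain ⟨a, ha⟩ : ∃ a : Fin n → F, a = Pi.single (⟨0, by omega⟩ : Fin n) (1 : F) := ⟨_, rfl⟩
  obtain ⟨b, hb⟩ : ∃ b : Fin n → F, b = Pi.single (⟨1, by omega⟩ : Fin n) (1 : F) := ⟨_, rfl⟩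
  have ua : Um F n *ᵥ a = a := by rw [ha]; exact Um_single_zero _ rfl
  have ub : Um F n *ᵥ b = b + a := by rw [hb, ha]; exact Um_single_succ _ _ rfl
  have hda := data D hD0 (⟨n - 1, by omega⟩ : Fin n) (by simp; omega)
  have hST : ((-2⁻¹ : F) • sp a b)ᵀ = (-2⁻¹ : F) • sp a b := by rw [Matrix.transpose_smul, sp_T]
  refine three_of D hD0 hn (gS ((-2⁻¹ : F) • sp a b) hST) (μ := 1) ?_ ?_
  · rw [← ha]
    apply gS_conj _ _ hda
    rw [Matrix.mul_smul, Matrix.smul_mul, conj_sp, ua, ub]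
    ext i j
    simp [sp, vecMulVec_apply]
    field_simp
    ring
  · intro G h1 h3 h4
    refine full_odd h2 hn hda h1 h3 ?_ one_ne_zero h4
    have e : cD D ⟨0, by omega⟩ = θ := by
      simp only [cD]
      rw [dif_pos (by simp; omega), hD]
      simp
    rw [e]
    exact closure_two_sq h2 hθ0 hθ

theorem three_even' [Finite F] (h2 : (2 : F) = 0) (hn : 3 ≤ n) : Three F n := by
  obtain ⟨θ, hθ0, hθ⟩ := exists_gen (F := F)
  obtain ⟨D, hD⟩ : ∃ D : Fin n → F, D = fun i : Fin n => if (i : ℕ) = 0 then θ⁻¹ else 1 := ⟨_, rfl⟩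
  have hD0 : ∀ i, D i ≠ 0 := by
    intro i
    rw [hD]
    by_cases h : (i : ℕ) = 0
    · simp only [h, if_true]; exact inv_ne_zero hθ0
    · simp only [h, if_false]; exact one_ne_zero
  obtain ⟨a, ha⟩ : ∃ a : Fin n → F, a = Pi.single (⟨0, by omega⟩ : Fin n) (1 : F) := ⟨_, rfl⟩
  obtain ⟨b, hb⟩ : ∃ b : Fin n → F, b = Pi.single (⟨1, by omega⟩ : Fin n) (1 : F) := ⟨_, rfl⟩
  obtain ⟨d, hd⟩ : ∃ d : Fin n → F, d = Pi.single (⟨2, by omega⟩ : Fin n) (1 : F) := ⟨_, rfl⟩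
  have ua : Um F n *ᵥ a = a := by rw [ha]; exact Um_single_zero _ rfl
  have ub : Um F n *ᵥ b = b + a := by rw [hb, ha]; exact Um_single_succ _ _ rfl
  have ud : Um F n *ᵥ d = d + b := by rw [hd, hb]; exact Um_single_succ _ _ rfl
  have hda := data D hD0 (⟨n - 1, by omega⟩ : Fin n) (by simp; omega)
  have hST : (vecMulVec b b + sp a d)ᵀ = vecMulVec b b + sp a d := by
    rw [Matrix.transpose_add, sp_T, sq_T]
  refine three_of D hD0 (by omega) (gS _ hST) (μ := 1) ?_ ?_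
  · rw [← ha]
    apply gS_conj _ _ hda
    rw [Matrix.mul_add, Matrix.add_mul, conj_sp, conj_sq, ua, ub, ud]
    ext i j
    simp [sp, vecMulVec_apply]
    linear_combination (- b i * a j - a i * b j - a i * a j) * h2
  · intro G h1 h3 h4
    have e : cD D ⟨0, by omega⟩ = θ := by
      simp only [cD]
      rw [dif_pos (by simp; omega), hD]
      simp
    have e1 : cD D ⟨1, by omega⟩ = 1 := by
      simp only [cD]
      rw [dif_pos (by simp; omega), hD]
      simp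
    refine full_even h2 hn hda h1 h3 ?_ ?_ ?_ one_ne_zero h4
    · rw [e]; exact closure_sq hθ0 hθ
    · rw [e, e1, mul_one]; exact closure_gen hθ0 hθ
    · rw [e, e1, mul_one]; exact hθ0

end Cfsg.Agent.H42.SpGen
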