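import Mathlib
import Cfsg.Agent.H42.SpGen6

/-!
Generation of `Sp_4(F)` by three conjugate regular unipotent elements, characteristic two.
-/

set_option autoImplicit false

namespace Cfsg.Agent.H42.SpGen

open Matrix Cfsg.Agent.ClassSp Cfsg.Agent.H42.ThreeUnip Cfsg.Agent.H42.CycGen

variable {F : Type*} [Field F]

theorem Um2 : Um F 2 = !![1, 1; 0, 1] := by
  ext i j; fin_cases i <;> fin_cases j <;> simp [Um]

theorem Mi2 : Mi F 2 = !![1, -1; 0, 1] := by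
  ext i j; fin_cases i <;> fin_cases j <;> simp [Mi]

theorem SS2 : SS F 2 = !![0, 0; 0, 1] := by
  ext i j; fin_cases i <;> fin_cases j <;> simp [SS]

theorem Mi2T : (Mi F 2)ᵀ = !![1, 0; -1, 1] := by
  rw [Mi2]; ext i j; fin_cases i <;> fin_cases j <;> simp

theorem SSMi2 : SS F 2 * (Mi F 2)ᵀ = !![0, 0; -1, 1] := by
  rw [Mi2T, SS2]
  ext i j; fin_cases i <;> fin_cases j <;> simp [Matrix.mul_apply, Fin.sum_univ_two]

/-- the conjugating element -/
def gT (t : F) : symplecticGroup (Fin 2) F :=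
  ⟨fromBlocks !![1, t; 0, 1] !![0, 0; t ^ 2, -t] 0 !![1, 0; -t, 1], mem_blocks
    (by ext i j; fin_cases i <;> fin_cases j <;> simp [Matrix.mul_apply, Fin.sum_univ_two] <;> ring)
    (by ext i j; fin_cases i <;> fin_cases j <;> simp [Matrix.mul_apply, Fin.sum_univ_two])
    (by ext i j; fin_cases i <;> fin_cases j <;> simp [Matrix.mul_apply, Fin.sum_univ_two])⟩

theorem tv_il_coe {n : ℕ} (w : Fin n → F) (c : F) :
    ((tv (il w) c : symplecticGroup (Fin n) F) : Matrix (Fin n ⊕ Fin n) (Fin n ⊕ Fin n) F) =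
      fromBlocks 1 (-(c • vecMulVec w w)) 0 1 := by
  have h : tv (il w) c = gS (c • vecMulVec w w) (by rw [Matrix.transpose_smul, sq_T]) := by
    apply ext_vec
    intro x
    rw [gS_mulVec, tv_il]
  rw [h]; rfl

theorem gT_conj (h2 : (2 : F) = 0) (t : F) :
    gT t * uE F 2 * (gT t)⁻¹ = tv (il (Pi.single (0 : Fin 2) 1)) (t ^ 2 + t) * uE F 2 := by
  rw [mul_inv_eq_iff_eq_mul]
  apply Subtype.ext
  have e1 : ((tv (il (Pi.single (0 : Fin 2) 1)) (t ^ 2 + t) * uE F 2 * gT t : symplecticGroup (Fin 2) F) :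
      Matrix (Fin 2 ⊕ Fin 2) (Fin 2 ⊕ Fin 2) F) =
      fromBlocks 1 (-((t ^ 2 + t) • vecMulVec (Pi.single (0 : Fin 2) 1) (Pi.single (0 : Fin 2) 1))) 0 1 *
      fromBlocks (Um F 2) (SS F 2 * (Mi F 2)ᵀ) 0 (Mi F 2)ᵀ *
      fromBlocks !![1, t; 0, 1] !![0, 0; t ^ 2, -t] 0 !![1, 0; -t, 1] := by
    rw [← tv_il_coe]; rfl
  rw [e1]
  show fromBlocks !![1, t; 0, 1] !![0, 0; t ^ 2, -t] 0 !![1, 0; -t, 1] *
    fromBlocks (Um F 2) (SS F 2 * (Mi F 2)ᵀ) 0 (Mi F 2)ᵀ = _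
  rw [SSMi2, Mi2T, Um2, fromBlocks_multiply, fromBlocks_multiply, fromBlocks_multiply]
  congr 1
  · ext i j; fin_cases i <;> fin_cases j <;> simp [Matrix.mul_apply, Fin.sum_univ_two] <;> ring
  · ext i j
    fin_cases i <;> fin_cases j <;>
      simp [Matrix.mul_apply, Fin.sum_univ_two, vecMulVec_apply, Pi.single_apply]
    · linear_combination t * h2
    · linear_combination t * h2
    · ring
  · ext i j; fin_cases i <;> fin_cases j <;> simp [Matrix.mul_apply, Fin.sum_univ_two]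
  · ext i j; fin_cases i <;> fin_cases j <;> simp [Matrix.mul_apply, Fin.sum_univ_two] <;> ring

theorem three_two [Finite F] (h2 : (2 : F) = 0) (hq : Nat.card F ≠ 2) : Three F 2 := by
  haveI := Fintype.ofFinite F
  obtain ⟨θ, hθ0, hθ⟩ := exists_gen (F := F)
  have hd2 : 2 ∣ Nat.card F := prime_dvd_card Nat.prime_two (by exact_mod_cast h2)
  have hge : 4 ≤ Nat.card F := by
    have : 2 ≤ Nat.card F := Finite.one_lt_card
    omega
  have hord := order_gen hθ0 hθ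
  have hθ1 : θ ≠ 1 := by
    intro h
    rw [h, orderOf_one] at hord
    omega
  have hsq : ∀ r : F, ∃ t : F, t ^ 2 = r := by
    intro r
    obtain ⟨t, ht⟩ := (isSquare_iff_exists_sq r).mp (FiniteField.isSquare_of_char_two (by
      exact (CharP.ringChar_of_prime_eq_zero Nat.prime_two (by exact_mod_cast h2))) r)
    exact ⟨t, ht.symm⟩
  have negF : ∀ S : F, -S = S := fun S => (eq_neg_of_add_eq_zero_left (by rw [← two_mul, h2, zero_mul])).symm
  obtain ⟨μ, hμ⟩ : ∃ μ, μ = θ ^ 2 + θ := ⟨_, rfl⟩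
  have hμ0 : μ ≠ 0 := by
    have : μ = θ * (θ + 1) := by rw [hμ]; ring
    rw [this]
    refine mul_ne_zero hθ0 ?_
    intro h
    apply hθ1
    have := eq_neg_of_add_eq_zero_left h
    rwa [negF] at this
  obtain ⟨δ, hδ⟩ := hsq (μ * θ⁻¹)
  have hδ0 : δ ≠ 0 := by
    intro h
    rw [h, zero_pow two_ne_zero] at hδ
    exact mul_ne_zero hμ0 (inv_ne_zero hθ0) hδ.symm
  obtain ⟨l, hl0, hlμ⟩ : ∃ l : F, l ≠ 0 ∧ l ≠ μ := by
    by_cases h : (1 : F) = μ
    · exact ⟨θ, hθ0, by rw [← h]; exact hθ1⟩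
    · exact ⟨1, one_ne_zero, h⟩
  refine three_of (fun _ : Fin 2 => δ) (fun _ => hδ0) le_rfl (gT θ) (μ := μ) ?_ ?_
  · rw [hμ]; exact gT_conj h2 θ
  · intro G h1 h3 h4
    have hda := data (fun _ : Fin 2 => δ) (fun _ => hδ0) 1 rfl
    refine full_two h2 hda h1 h3 ?_ (mul_ne_zero (inv_ne_zero hδ0) (inv_ne_zero hδ0)) hμ0 ?_ hl0 hlμ h4
    · simp [cD, hδ0]
    · have e : (μ * (δ⁻¹ * δ⁻¹)) = θ := by
        rw [← mul_inv, ← pow_two, hδ, mul_inv, inv_inv, mul_inv_cancel_left₀ hμ0]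
      rw [e]
      exact closure_sq hθ0 hθ

end Cfsg.Agent.H42.SpGen
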