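import Mathlib

/-!
Abstract bookkeeping for statements `ω(L × L × L × (ℤ/r)^m) = ω(L × L × L)` and the two-fold analogue.
-/

set_option autoImplicit false

namespace Cfsg.Agent.H42.SpecMerge

theorem dvd_iff_of_coprime {a b d : ℕ} (h : Nat.Coprime a b) : a * b ∣ d ↔ a ∣ d ∧ b ∣ d :=
  ⟨fun hd => ⟨(Dvd.intro _ rfl).trans hd, (Dvd.intro_left _ rfl).trans hd⟩,
    fun hd => h.mul_dvd_of_dvd_of_dvd hd.1 hd.2⟩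

theorem orderOf_eq_of_dvd {G H : Type*} [Monoid G] [Monoid H] {x : G} {y : H}
    (h : ∀ d : ℕ, orderOf x ∣ d ↔ orderOf y ∣ d) : orderOf x = orderOf y :=
  Nat.dvd_antisymm ((h _).mpr dvd_rfl) ((h _).mp dvd_rfl)

section

variable {L : Type*} [Group L] [Finite L]

theorem exists_orderOf_part {p : ℕ} (hp : p.Prime) (x : L) {j σ : ℕ} (hx : orderOf x = p ^ j * σ) :
    orderOf (x ^ p ^ j) = σ := by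
  have hd : p ^ j ∣ orderOf x := by rw [hx]; exact Dvd.intro _ rfl
  rw [orderOf_pow_of_dvd (pow_pos hp.pos j).ne' hd, hx]
  exact Nat.mul_div_cancel_left _ (pow_pos hp.pos j)

theorem three (p r : ℕ) (hp : p.Prime) (hr : r.Prime) (Bad : ℕ → Prop)
    (hA : ∀ x : L, ¬ p ∣ orderOf x → ¬ r ∣ orderOf x → (∃ y : L, orderOf y = r * orderOf x) ∨ Bad (orderOf x))
    (hB : ∀ σ τ, Bad σ → Bad τ → ∃ y : L, orderOf y = Nat.lcm σ τ)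
    (hC : ∃ y : L, orderOf y = r)
    (x₁ x₂ x₃ : L) {j₁ σ₁ j₂ σ₂ j₃ σ₃ : ℕ}
    (h₁ : orderOf x₁ = p ^ j₁ * σ₁) (h₂ : orderOf x₂ = p ^ j₂ * σ₂) (h₃ : orderOf x₃ = p ^ j₃ * σ₃)
    (hσ₁ : ¬ p ∣ σ₁) (hσ₂ : ¬ p ∣ σ₂) (hσ₃ : ¬ p ∣ σ₃)
    (hr₂ : ¬ r ∣ orderOf x₂) (hr₃ : ¬ r ∣ orderOf x₃) (hj₂ : j₂ ≤ j₁) (hj₃ : j₃ ≤ j₁) :
    ∃ y₁ y₂ y₃ : L, ∀ d : ℕ,
      (orderOf y₁ ∣ d ∧ orderOf y₂ ∣ d ∧ orderOf y₃ ∣ d) ↔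
        (r ∣ d ∧ orderOf x₁ ∣ d ∧ orderOf x₂ ∣ d ∧ orderOf x₃ ∣ d) := by
  have hcop : ∀ {j σ : ℕ}, ¬ p ∣ σ → Nat.Coprime (p ^ j) σ := fun {j σ} h =>
    Nat.Coprime.pow_left j ((Nat.Prime.coprime_iff_not_dvd hp).mpr h)
  have part : ∀ (x : L) {j σ : ℕ}, orderOf x = p ^ j * σ → ¬ p ∣ σ →
      ¬ r ∣ orderOf x → (∃ y : L, orderOf y = r * σ) ∨ Bad σ := by
    intro x j σ hx hσ hrx
    have hxp : orderOf (x ^ p ^ j) = σ := exists_orderOf_part hp x hx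
    have := hA (x ^ p ^ j) (by rw [hxp]; exact hσ) (by rw [hxp]; exact fun h => hrx (hx ▸ Dvd.dvd.mul_left h _))
    rwa [hxp] at this
  have hcr : ∀ {σ : ℕ} {x : L} {j : ℕ}, orderOf x = p ^ j * σ →
      ¬ r ∣ orderOf x → Nat.Coprime r σ := by
    intro σ x j hx hrx
    exact (Nat.Prime.coprime_iff_not_dvd hr).mpr (fun h => hrx (hx ▸ Dvd.dvd.mul_left h _))
  have key : ∀ d : ℕ, (orderOf x₁ ∣ d ∧ orderOf x₂ ∣ d ∧ orderOf x₃ ∣ d) ↔ (orderOf x₁ ∣ d ∧ σ₂ ∣ d ∧ σ₃ ∣ d) := by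
    intro d
    rw [h₁, h₂, h₃, dvd_iff_of_coprime (hcop hσ₁), dvd_iff_of_coprime (hcop hσ₂), dvd_iff_of_coprime (hcop hσ₃)]
    constructor
    · rintro ⟨⟨a, b⟩, ⟨-, c⟩, -, e⟩
      exact ⟨⟨a, b⟩, c, e⟩
    · rintro ⟨⟨a, b⟩, c, e⟩
      exact ⟨⟨a, b⟩, ⟨(pow_dvd_pow p hj₂).trans a, c⟩, (pow_dvd_pow p hj₃).trans a, e⟩
  have hσ2e := exists_orderOf_part hp x₂ h₂
  have hσ3e := exists_orderOf_part hp x₃ h₃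
  rcases part x₂ h₂ hσ₂ hr₂ with ⟨y, hy⟩ | hs₂
  · refine ⟨x₁, y, x₃ ^ p ^ j₃, fun d => ?_⟩
    rw [hy, hσ3e, key, dvd_iff_of_coprime (hcr h₂ hr₂)]
    tauto
  rcases part x₃ h₃ hσ₃ hr₃ with ⟨y, hy⟩ | hs₃
  · refine ⟨x₁, x₂ ^ p ^ j₂, y, fun d => ?_⟩
    rw [hy, hσ2e, key, dvd_iff_of_coprime (hcr h₃ hr₃)]
    tauto
  obtain ⟨z, hz⟩ := hB _ _ hs₂ hs₃
  obtain ⟨y, hy⟩ := hC
  refine ⟨x₁, z, y, fun d => ?_⟩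
  rw [hy, hz, key, Nat.lcm_dvd_iff]
  tauto

theorem two (p r : ℕ) (hp : p.Prime) (hr : r.Prime) (hrp : r ≠ p) (Bad : ℕ → Prop)
    (hA : ∀ x : L, ¬ p ∣ orderOf x → ¬ r ∣ orderOf x → (∃ y : L, orderOf y = r * orderOf x) ∨ Bad (orderOf x))
    (hB : ∀ σ τ, Bad σ → Bad τ → ∃ y : L, orderOf y = Nat.lcm σ τ)
    (hC : ∃ y : L, orderOf y = r)
    (hD : ∀ (x : L) (j σ : ℕ), orderOf x = p ^ (j + 1) * σ → ¬ p ∣ σ → ¬ r ∣ orderOf x →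
      (∃ y : L, orderOf y = r * orderOf x) ∨ (Bad σ ∧ ∃ y : L, orderOf y = r * p ^ (j + 1)))
    (x₁ x₂ : L) {j₁ σ₁ j₂ σ₂ : ℕ}
    (h₁ : orderOf x₁ = p ^ j₁ * σ₁) (h₂ : orderOf x₂ = p ^ j₂ * σ₂)
    (hσ₁ : ¬ p ∣ σ₁) (hσ₂ : ¬ p ∣ σ₂)
    (hr₁ : ¬ r ∣ orderOf x₁) (hr₂ : ¬ r ∣ orderOf x₂) (hj₂ : j₂ ≤ j₁) :
    ∃ y₁ y₂ : L, ∀ d : ℕ,
      (orderOf y₁ ∣ d ∧ orderOf y₂ ∣ d) ↔
        (r ∣ d ∧ orderOf x₁ ∣ d ∧ orderOf x₂ ∣ d) := by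
  have hcop : ∀ {j σ : ℕ}, ¬ p ∣ σ → Nat.Coprime (p ^ j) σ := fun {j σ} h =>
    Nat.Coprime.pow_left j ((Nat.Prime.coprime_iff_not_dvd hp).mpr h)
  have hrx : ∀ {x : L}, ¬ r ∣ orderOf x → Nat.Coprime r (orderOf x) := by
    intro x hrx
    exact (Nat.Prime.coprime_iff_not_dvd hr).mpr hrx
  have hcr : ∀ {σ : ℕ} {x : L} {j : ℕ}, orderOf x = p ^ j * σ →
      ¬ r ∣ orderOf x → Nat.Coprime r σ := by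
    intro σ x j hx hrx
    exact (Nat.Prime.coprime_iff_not_dvd hr).mpr (fun h => hrx (hx ▸ Dvd.dvd.mul_left h _))
  have part : ∀ (x : L) {j σ : ℕ}, orderOf x = p ^ j * σ → ¬ p ∣ σ →
      ¬ r ∣ orderOf x → (∃ y : L, orderOf y = r * σ) ∨ Bad σ := by
    intro x j σ hx hσ hrx
    have hxp : orderOf (x ^ p ^ j) = σ := exists_orderOf_part hp x hx
    have := hA (x ^ p ^ j) (by rw [hxp]; exact hσ) (by rw [hxp]; exact fun h => hrx (hx ▸ Dvd.dvd.mul_left h _))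
    rwa [hxp] at this
  have fin : ∀ y : L, orderOf y = r * p ^ j₁ → Bad σ₁ → Bad σ₂ → ∃ y₁ y₂ : L, ∀ d : ℕ,
      (orderOf y₁ ∣ d ∧ orderOf y₂ ∣ d) ↔ (r ∣ d ∧ orderOf x₁ ∣ d ∧ orderOf x₂ ∣ d) := by
    intro y hy hb1 hb2
    obtain ⟨z, hz⟩ := hB _ _ hb1 hb2
    refine ⟨z, y, fun d => ?_⟩
    have hcr : Nat.Coprime r (p ^ j₁) := Nat.Coprime.pow_right _ ((Nat.coprime_primes hr hp).mpr hrp)
    rw [hy, hz, Nat.lcm_dvd_iff, dvd_iff_of_coprime hcr, h₁, h₂, dvd_iff_of_coprime (hcop hσ₁),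
      dvd_iff_of_coprime (hcop hσ₂)]
    constructor
    · rintro ⟨⟨a, b⟩, c, e⟩
      exact ⟨c, ⟨e, a⟩, (pow_dvd_pow p hj₂).trans e, b⟩
    · rintro ⟨c, ⟨e, a⟩, -, b⟩
      exact ⟨⟨a, b⟩, c, e⟩
  rcases part x₂ h₂ hσ₂ hr₂ with ⟨y, hy⟩ | hs₂
  · refine ⟨x₁, y, fun d => ?_⟩
    rw [hy, h₁, h₂, dvd_iff_of_coprime (hcop hσ₁), dvd_iff_of_coprime (hcop hσ₂), dvd_iff_of_coprime (hcr h₂ hr₂)]
    constructor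
    · rintro ⟨⟨a, b⟩, c, e⟩
      exact ⟨c, ⟨a, b⟩, (pow_dvd_pow p hj₂).trans a, e⟩
    · rintro ⟨c, ⟨e, a⟩, -, b⟩
      exact ⟨⟨e, a⟩, c, b⟩
  rcases Nat.eq_zero_or_pos j₁ with h | h
  · subst h
    rw [pow_zero, one_mul] at h₁
    rcases hA x₁ (by rw [h₁]; exact hσ₁) hr₁ with ⟨y, hy⟩ | hs₁
    · refine ⟨y, x₂, fun d => ?_⟩
      rw [hy, dvd_iff_of_coprime (hrx hr₁)]
      tauto
    obtain ⟨y, hy⟩ := hC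
    rw [h₁] at hs₁
    exact fin y (by rw [hy, pow_zero, mul_one]) hs₁ hs₂
  · obtain ⟨j, rfl⟩ : ∃ j, j₁ = j + 1 := ⟨j₁ - 1, by omega⟩
    rcases hD x₁ j σ₁ h₁ hσ₁ hr₁ with ⟨y, hy⟩ | ⟨hs₁, y, hy⟩
    · refine ⟨y, x₂, fun d => ?_⟩
      rw [hy, dvd_iff_of_coprime (hrx hr₁)]
      tauto
    · exact fin y hy hs₁ hs₂

theorem orderOf_dvd_of_pi {r m : ℕ} (e : Multiplicative (Fin m → ZMod r)) : orderOf e ∣ r := by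
  rw [orderOf_dvd_iff_pow_eq_one]
  have h1 : r • (Multiplicative.toAdd e) = 0 := by
    funext i
    simp
  exact congrArg Multiplicative.ofAdd h1

theorem spec_three (p r m : ℕ) (hp : p.Prime) (hr : r.Prime) (Bad : ℕ → Prop)
    (hA : ∀ x : L, ¬ p ∣ orderOf x → ¬ r ∣ orderOf x → (∃ y : L, orderOf y = r * orderOf x) ∨ Bad (orderOf x))
    (hB : ∀ σ τ, Bad σ → Bad τ → ∃ y : L, orderOf y = Nat.lcm σ τ)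
    (hC : ∃ y : L, orderOf y = r) :
    Set.range (orderOf : L × L × L × Multiplicative (Fin m → ZMod r) → ℕ) =
      Set.range (orderOf : L × L × L → ℕ) := by
  have hdec : ∀ x : L, ∃ j σ, ¬ p ∣ σ ∧ orderOf x = p ^ j * σ := fun x =>
    Nat.exists_eq_pow_mul_and_not_dvd (orderOf_pos x).ne' p hp.ne_one
  refine Set.Subset.antisymm ?_ ?_
  · rintro _ ⟨⟨x₁, x₂, x₃, e⟩, rfl⟩
    have hd3 : ∀ (y₁ y₂ y₃ : L) (d : ℕ), orderOf (y₁, y₂, y₃) ∣ d ↔ (orderOf y₁ ∣ d ∧ orderOf y₂ ∣ d ∧ orderOf y₃ ∣ d) := by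
      intro y₁ y₂ y₃ d
      rw [Prod.orderOf_mk, Prod.orderOf_mk, Nat.lcm_dvd_iff, Nat.lcm_dvd_iff]
    have hd4 : ∀ (y₁ y₂ y₃ : L) (e : Multiplicative (Fin m → ZMod r)) (d : ℕ), orderOf (y₁, y₂, y₃, e) ∣ d ↔
        (orderOf y₁ ∣ d ∧ orderOf y₂ ∣ d ∧ orderOf y₃ ∣ d ∧ orderOf e ∣ d) := by
      intro y₁ y₂ y₃ e d
      rw [Prod.orderOf_mk, Prod.orderOf_mk, Prod.orderOf_mk, Nat.lcm_dvd_iff, Nat.lcm_dvd_iff, Nat.lcm_dvd_iff]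
    suffices hsuff : ∃ y₁ y₂ y₃ : L, ∀ d : ℕ, (orderOf y₁ ∣ d ∧ orderOf y₂ ∣ d ∧ orderOf y₃ ∣ d) ↔
        (orderOf x₁ ∣ d ∧ orderOf x₂ ∣ d ∧ orderOf x₃ ∣ d ∧ orderOf e ∣ d) by
      obtain ⟨y₁, y₂, y₃, hy⟩ := hsuff
      refine ⟨(y₁, y₂, y₃), orderOf_eq_of_dvd fun d => ?_⟩
      rw [hd3, hd4, hy]
    rcases (Nat.dvd_prime hr).mp (orderOf_dvd_of_pi e) with he | he
    · exact ⟨x₁, x₂, x₃, fun d => by rw [he]; simp⟩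
    by_cases hall : r ∣ orderOf x₁ ∨ r ∣ orderOf x₂ ∨ r ∣ orderOf x₃
    · refine ⟨x₁, x₂, x₃, fun d => ?_⟩
      rw [he]
      constructor
      · rintro ⟨a, b, c⟩
        refine ⟨a, b, c, ?_⟩
        rcases hall with h | h | h
        · exact h.trans a
        · exact h.trans b
        · exact h.trans c
      · rintro ⟨a, b, c, -⟩
        exact ⟨a, b, c⟩
    push Not at hall
    obtain ⟨hr₁, hr₂, hr₃⟩ := hall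
    obtain ⟨j₁, σ₁, hσ₁, h₁⟩ := hdec x₁
    obtain ⟨j₂, σ₂, hσ₂, h₂⟩ := hdec x₂
    obtain ⟨j₃, σ₃, hσ₃, h₃⟩ := hdec x₃
    rw [he]
    by_cases hc1 : j₂ ≤ j₁ ∧ j₃ ≤ j₁
    · obtain ⟨y₁, y₂, y₃, hy⟩ := three p r hp hr Bad hA hB hC x₁ x₂ x₃ h₁ h₂ h₃ hσ₁ hσ₂ hσ₃ hr₂ hr₃ hc1.1 hc1.2
      exact ⟨y₁, y₂, y₃, fun d => by rw [hy]; tauto⟩
    by_cases hc2 : j₁ ≤ j₂ ∧ j₃ ≤ j₂
    · obtain ⟨y₁, y₂, y₃, hy⟩ := three p r hp hr Bad hA hB hC x₂ x₁ x₃ h₂ h₁ h₃ hσ₂ hσ₁ hσ₃ hr₁ hr₃ hc2.1 hc2.2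
      exact ⟨y₁, y₂, y₃, fun d => by rw [hy]; tauto⟩
    obtain ⟨y₁, y₂, y₃, hy⟩ := three p r hp hr Bad hA hB hC x₃ x₁ x₂ h₃ h₁ h₂ hσ₃ hσ₁ hσ₂ hr₁ hr₂
      (by omega) (by omega)
    exact ⟨y₁, y₂, y₃, fun d => by rw [hy]; tauto⟩
  · rintro _ ⟨⟨x₁, x₂, x₃⟩, rfl⟩
    refine ⟨(x₁, x₂, x₃, 1), orderOf_eq_of_dvd fun d => ?_⟩
    simp only [Prod.orderOf_mk, Nat.lcm_dvd_iff, orderOf_one, isUnit_one, IsUnit.dvd, and_true, one_dvd]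

theorem spec_two (p r m : ℕ) (hp : p.Prime) (hr : r.Prime) (hrp : r ≠ p) (Bad : ℕ → Prop)
    (hA : ∀ x : L, ¬ p ∣ orderOf x → ¬ r ∣ orderOf x → (∃ y : L, orderOf y = r * orderOf x) ∨ Bad (orderOf x))
    (hB : ∀ σ τ, Bad σ → Bad τ → ∃ y : L, orderOf y = Nat.lcm σ τ)
    (hC : ∃ y : L, orderOf y = r)
    (hD : ∀ (x : L) (j σ : ℕ), orderOf x = p ^ (j + 1) * σ → ¬ p ∣ σ → ¬ r ∣ orderOf x →
      (∃ y : L, orderOf y = r * orderOf x) ∨ (Bad σ ∧ ∃ y : L, orderOf y = r * p ^ (j + 1))) :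
    Set.range (orderOf : L × L × Multiplicative (Fin m → ZMod r) → ℕ) =
      Set.range (orderOf : L × L → ℕ) := by
  have hdec : ∀ x : L, ∃ j σ, ¬ p ∣ σ ∧ orderOf x = p ^ j * σ := fun x =>
    Nat.exists_eq_pow_mul_and_not_dvd (orderOf_pos x).ne' p hp.ne_one
  refine Set.Subset.antisymm ?_ ?_
  · rintro _ ⟨⟨x₁, x₂, e⟩, rfl⟩
    have hd2 : ∀ (y₁ y₂ : L) (d : ℕ), orderOf (y₁, y₂) ∣ d ↔ (orderOf y₁ ∣ d ∧ orderOf y₂ ∣ d) := by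
      intro y₁ y₂ d
      rw [Prod.orderOf_mk, Nat.lcm_dvd_iff]
    have hd3 : ∀ (y₁ y₂ : L) (e : Multiplicative (Fin m → ZMod r)) (d : ℕ), orderOf (y₁, y₂, e) ∣ d ↔
        (orderOf y₁ ∣ d ∧ orderOf y₂ ∣ d ∧ orderOf e ∣ d) := by
      intro y₁ y₂ e d
      rw [Prod.orderOf_mk, Prod.orderOf_mk, Nat.lcm_dvd_iff, Nat.lcm_dvd_iff]
    suffices hsuff : ∃ y₁ y₂ : L, ∀ d : ℕ, (orderOf y₁ ∣ d ∧ orderOf y₂ ∣ d) ↔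
        (orderOf x₁ ∣ d ∧ orderOf x₂ ∣ d ∧ orderOf e ∣ d) by
      obtain ⟨y₁, y₂, hy⟩ := hsuff
      refine ⟨(y₁, y₂), orderOf_eq_of_dvd fun d => ?_⟩
      rw [hd2, hd3, hy]
    rcases (Nat.dvd_prime hr).mp (orderOf_dvd_of_pi e) with he | he
    · exact ⟨x₁, x₂, fun d => by rw [he]; simp⟩
    by_cases hall : r ∣ orderOf x₁ ∨ r ∣ orderOf x₂
    · refine ⟨x₁, x₂, fun d => ?_⟩
      rw [he]
      constructor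
      · rintro ⟨a, b⟩
        refine ⟨a, b, ?_⟩
        rcases hall with h | h
        · exact h.trans a
        · exact h.trans b
      · rintro ⟨a, b, -⟩
        exact ⟨a, b⟩
    push Not at hall
    obtain ⟨hr₁, hr₂⟩ := hall
    obtain ⟨j₁, σ₁, hσ₁, h₁⟩ := hdec x₁
    obtain ⟨j₂, σ₂, hσ₂, h₂⟩ := hdec x₂
    rw [he]
    rcases le_total j₂ j₁ with hc | hc
    · obtain ⟨y₁, y₂, hy⟩ := two p r hp hr hrp Bad hA hB hC hD x₁ x₂ h₁ h₂ hσ₁ hσ₂ hr₁ hr₂ hc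
      exact ⟨y₁, y₂, fun d => by rw [hy]; tauto⟩
    · obtain ⟨y₁, y₂, hy⟩ := two p r hp hr hrp Bad hA hB hC hD x₂ x₁ h₂ h₁ hσ₂ hσ₁ hr₂ hr₁ hc
      exact ⟨y₁, y₂, fun d => by rw [hy]; tauto⟩
  · rintro _ ⟨⟨x₁, x₂⟩, rfl⟩
    refine ⟨(x₁, x₂, 1), orderOf_eq_of_dvd fun d => ?_⟩
    simp only [Prod.orderOf_mk, Nat.lcm_dvd_iff, orderOf_one, isUnit_one, IsUnit.dvd, and_true, one_dvd]

end

end Cfsg.Agent.H42.SpecMerge
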