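import Mathlib
import Cfsg.Agent.H42.Herm
import Cfsg.Agent.Uni.Gen2

/-!
Generation of `SU_n(q)`, `n` odd, by regular unipotent elements: hyperbolic coordinates.
-/

set_option autoImplicit false

namespace Cfsg.Agent.H42.SuGen

open Matrix Cfsg.Agent.H42.Herm Cfsg.Agent.Uni

/-- the space: maximal isotropic, unit vector, maximal isotropic -/
abbrev VV (m : ℕ) (F : Type*) := (Fin m → F) × F × (Fin m → F)

section basics

variable {F : Type*} [Field F] {q m n : ℕ}

/-- the Frobenius on vectors -/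
def sg (q : ℕ) (v : Fin m → F) : Fin m → F := fun i => v i ^ q

/-- the form -/
def HH (q : ℕ) (x y : VV m F) : F := x.1 ⬝ᵥ sg q y.2.2 + x.2.1 * y.2.1 ^ q + x.2.2 ⬝ᵥ sg q y.1

variable [Fintype F]

theorem sg_add (hF : Fintype.card F = q ^ 2) (v w : Fin m → F) : sg q (v + w) = sg q v + sg q w := by
  ext i; exact add_pow_q hF _ _
theorem sg_smul (c : F) (v : Fin m → F) : sg q (c • v) = c ^ q • sg q v := by
  ext i; exact mul_pow _ _ _
theorem sg_sg (hF : Fintype.card F = q ^ 2) (v : Fin m → F) : sg q (sg q v) = v := by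
  ext i; exact pow_q_pow_q hF _
theorem sg_neg (hF : Fintype.card F = q ^ 2) (v : Fin m → F) : sg q (-v) = -sg q v := by
  ext i; exact neg_pow_q hF _
theorem sg_sub (hF : Fintype.card F = q ^ 2) (v w : Fin m → F) : sg q (v - w) = sg q v - sg q w := by
  ext i; exact sub_pow_q hF _ _
theorem sg_zero (hF : Fintype.card F = q ^ 2) : sg q (0 : Fin m → F) = 0 := by
  ext i; exact zero_pow_q hF
theorem dot_pow (hF : Fintype.card F = q ^ 2) (v w : Fin m → F) : (v ⬝ᵥ w) ^ q = sg q v ⬝ᵥ sg q w := by
  rw [dotProduct, sum_pow_q hF]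
  exact Finset.sum_congr rfl fun i _ => mul_pow _ _ _
theorem dot_sg_pow (hF : Fintype.card F = q ^ 2) (v w : Fin m → F) : (v ⬝ᵥ sg q w) ^ q = w ⬝ᵥ sg q v := by
  rw [dot_pow hF, sg_sg hF, dotProduct_comm]

theorem HH_isH (hF : Fintype.card F = q ^ 2) : IsH q (HH q : VV m F → VV m F → F) where
  add_left u v w := by
    simp only [HH, Prod.fst_add, Prod.snd_add, add_dotProduct]; ring
  smul_left c u w := by
    simp only [HH, Prod.smul_fst, Prod.smul_snd, smul_dotProduct, smul_eq_mul]; ring
  symm u v := by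
    simp only [HH]
    rw [add_pow_q hF, add_pow_q hF, mul_pow, pow_q_pow_q hF, dot_sg_pow hF, dot_sg_pow hF]
    ring
  nondeg u hu := by
    have h1 : u.1 = 0 := by
      ext i
      have := hu ((0 : Fin m → F), (0 : F), (Pi.single i 1 : Fin m → F))
      simp only [HH] at this
      have e : sg q (Pi.single i 1 : Fin m → F) = Pi.single i 1 := by
        ext j
        by_cases h : j = i
        · subst h; simp [sg]
        · simp [sg, Pi.single_apply, h, zero_pow_q hF]
      rw [e, sg_zero hF, zero_pow_q hF] at this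
      simpa using this
    have h2 : u.2.1 = 0 := by
      have := hu ((0 : Fin m → F), (1 : F), (0 : Fin m → F))
      simp only [HH] at this
      rw [sg_zero hF, one_pow] at this
      simpa using this
    have h3 : u.2.2 = 0 := by
      ext i
      have := hu ((Pi.single i 1 : Fin m → F), (0 : F), (0 : Fin m → F))
      simp only [HH] at this
      have e : sg q (Pi.single i 1 : Fin m → F) = Pi.single i 1 := by
        ext j
        by_cases h : j = i
        · subst h; simp [sg]
        · simp [sg, Pi.single_apply, h, zero_pow_q hF]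
      rw [e, sg_zero hF, zero_pow_q hF] at this
      simpa using this
    exact Prod.ext h1 (Prod.ext h2 h3)

theorem exists_iso (hF : Fintype.card F = q ^ 2) (hn : n = 2 * m + 1) :
    ∃ e : VV m F ≃ₗ[F] (Fin n → F), ∀ x y, HH q x y = Cfsg.hermForm n F q (e x) (e y) := by
  have hV : Module.finrank F (VV m F) = n := by
    rw [Module.finrank_prod, Module.finrank_prod, Module.finrank_fin_fun, Module.finrank_self, hn]
    ring
  obtain ⟨b, hb⟩ := exists_basis (HH_isH hF) hF hV
  exact ⟨b.equivFun, fun x y => herm_coord (HH_isH hF) hF b hb x y⟩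

end basics

section action

variable {F : Type*} [Field F] [Fintype F] {q m n : ℕ}

/-- the action on the hyperbolic coordinates -/
def ac (e : VV m F ≃ₗ[F] (Fin n → F)) (g : Cfsg.SU n F q) (x : VV m F) : VV m F := e.symm (act g (e x))

variable (e : VV m F ≃ₗ[F] (Fin n → F))

theorem ac_mul (g h : Cfsg.SU n F q) (x : VV m F) : ac e (g * h) x = ac e g (ac e h x) := by
  rw [ac, ac, ac, act_mul, LinearEquiv.apply_symm_apply]

theorem ac_one (x : VV m F) : ac e (1 : Cfsg.SU n F q) x = x := by
  rw [ac, act_one, LinearEquiv.symm_apply_apply]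

theorem ac_inv_ac (g : Cfsg.SU n F q) (x : VV m F) : ac e g⁻¹ (ac e g x) = x := by
  rw [← ac_mul, inv_mul_cancel, ac_one]

theorem ac_ac_inv (g : Cfsg.SU n F q) (x : VV m F) : ac e g (ac e g⁻¹ x) = x := by
  rw [← ac_mul, mul_inv_cancel, ac_one]

theorem ac_add (g : Cfsg.SU n F q) (x y : VV m F) : ac e g (x + y) = ac e g x + ac e g y := by
  rw [ac, map_add, act_add, map_add]; rfl

theorem ac_sub (g : Cfsg.SU n F q) (x y : VV m F) : ac e g (x - y) = ac e g x - ac e g y := by
  rw [ac, map_sub, act_sub, map_sub]; rfl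

theorem ac_smul (g : Cfsg.SU n F q) (c : F) (x : VV m F) : ac e g (c • x) = c • ac e g x := by
  rw [ac, map_smul, act_smul, map_smul]; rfl

theorem ac_zero (g : Cfsg.SU n F q) : ac e g 0 = 0 := by
  rw [ac, map_zero, act_zero, map_zero]

theorem ac_ext {g h : Cfsg.SU n F q} (H : ∀ x, ac e g x = ac e h x) : g = h := by
  apply act_ext
  intro x
  have := H (e.symm x)
  rw [ac, ac, LinearEquiv.apply_symm_apply] at this
  exact e.symm.injective this

theorem ac_inj {g : Cfsg.SU n F q} {x y : VV m F} : ac e g x = ac e g y ↔ x = y :=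
  ⟨fun h => by rw [← ac_inv_ac e g x, h, ac_inv_ac], fun h => by rw [h]⟩

theorem ac_inv_eq {g : Cfsg.SU n F q} {x y : VV m F} (h : ac e g y = x) : ac e g⁻¹ x = y := by
  rw [← h, ac_inv_ac]

variable {e}

theorem ac_form (he : ∀ x y, HH q x y = Cfsg.hermForm n F q (e x) (e y)) (g : Cfsg.SU n F q) (x y : VV m F) :
    HH q (ac e g x) (ac e g y) = HH q x y := by
  rw [he, ac, ac, LinearEquiv.apply_symm_apply, LinearEquiv.apply_symm_apply, act_form, ← he]

theorem ac_form_left (he : ∀ x y, HH q x y = Cfsg.hermForm n F q (e x) (e y)) (g : Cfsg.SU n F q) (x y : VV m F) :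
    HH q (ac e g x) y = HH q x (ac e g⁻¹ y) := by
  rw [← ac_form he g⁻¹, ac_inv_ac]

/-- isometries of determinant one -/
theorem exists_ac (he : ∀ x y, HH q x y = Cfsg.hermForm n F q (e x) (e y))
    (T : VV m F →ₗ[F] VV m F) (hdet : LinearMap.det T = 1) (hT : ∀ x y, HH q (T x) (T y) = HH q x y) :
    ∃ g : Cfsg.SU n F q, ∀ x, ac e g x = T x := by
  obtain ⟨S, hS⟩ : ∃ S : (Fin n → F) →ₗ[F] (Fin n → F), S = (e : VV m F →ₗ[F] (Fin n → F)) ∘ₗ T ∘ₗ
    (e.symm : (Fin n → F) →ₗ[F] VV m F) := ⟨_, rfl⟩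
  have hSe : ∀ x, S (e x) = e (T x) := by
    intro x
    rw [hS, LinearMap.comp_apply, LinearMap.comp_apply]
    simp
  have hdet' : (LinearMap.toMatrix' S).det = 1 := by
    rw [LinearMap.det_toMatrix', hS, LinearMap.det_conj, hdet]
  have hpres : Pres q (LinearMap.toMatrix' S) := by
    intro x y
    obtain ⟨x', rfl⟩ := e.surjective x
    obtain ⟨y', rfl⟩ := e.surjective y
    rw [LinearMap.toMatrix'_mulVec, LinearMap.toMatrix'_mulVec, hSe, hSe, ← he, ← he, hT]
  refine ⟨mkSU _ hpres hdet', fun x => ?_⟩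
  rw [ac, act_def, mkSU_coe, LinearMap.toMatrix'_mulVec, hSe, LinearEquiv.symm_apply_apply]

end action

end Cfsg.Agent.H42.SuGen
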