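import Mathlib
import Cfsg.Agent.H42.SuGen1

/-!
Generation of `SU_n(q)`, `n` odd: the maximal parabolic argument.
-/

set_option autoImplicit false

namespace Cfsg.Agent.H42.SuGen

open Matrix Cfsg.Agent.H42.Herm Cfsg.Agent.Uni

variable {F : Type*} [Field F] [Fintype F] {q m n : ℕ} (e : VV m F ≃ₗ[F] (Fin n → F))

/-- `g` stabilizes `W` and is trivial on `W^⊥ / W` -/
def PP (g : Cfsg.SU n F q) (A : Matrix (Fin m) (Fin m) F) (b : Fin m → F) : Prop :=
  ∀ (w : Fin m → F) (a : F), ac e g (w, a, (0 : Fin m → F)) = (A *ᵥ w + a • b, a, (0 : Fin m → F))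

/-- elements of the unipotent radical -/
def IsQ (g : Cfsg.SU n F q) (x : Fin m → F) (S : (Fin m → F) → (Fin m → F)) : Prop :=
  ∀ z : VV m F, ac e g z = (z.1 + z.2.1 • x + S z.2.2, z.2.1 - sg q x ⬝ᵥ z.2.2, z.2.2)

/-- `z` is full -/
def Fu (G : Subgroup (Cfsg.SU n F q)) (z : VV m F) : Prop :=
  ∀ (g : Cfsg.SU n F q) (c : F), (∀ x, ac e g x = x + (c * HH q x z) • z) → g ∈ G

variable {e} {g g' : Cfsg.SU n F q} {A A' : Matrix (Fin m) (Fin m) F} {b b' : Fin m → F}

theorem PP.mul (h : PP e g A b) (h' : PP e g' A' b') : PP e (g * g') (A * A') (A *ᵥ b' + b) := by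
  intro w a
  rw [ac_mul, h', h, Matrix.mulVec_add, Matrix.mulVec_mulVec, Matrix.mulVec_smul, smul_add, add_assoc]

theorem PP.one : PP e (1 : Cfsg.SU n F q) 1 0 := by
  intro w a
  rw [ac_one, Matrix.one_mulVec, smul_zero, add_zero]

theorem PP.inv (h : PP e g A b) (hA : A * A' = 1) : PP e g⁻¹ A' (-(A' *ᵥ b)) := by
  intro w a
  apply ac_inv_eq
  rw [h, Matrix.mulVec_add, Matrix.mulVec_mulVec, hA, Matrix.one_mulVec, Matrix.mulVec_smul,
    Matrix.mulVec_neg, Matrix.mulVec_mulVec, hA, Matrix.one_mulVec, smul_neg, neg_add_cancel_right]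

variable (hF : Fintype.card F = q ^ 2) (he : ∀ x y, HH q x y = Cfsg.hermForm n F q (e x) (e y))

include hF in
theorem eq_of_dot {x y : Fin m → F} (h : ∀ w, x ⬝ᵥ sg q w = y ⬝ᵥ sg q w) : x = y := by
  ext i
  have := h (Pi.single i 1)
  have e : sg q (Pi.single i 1 : Fin m → F) = Pi.single i 1 := by
    ext j
    by_cases h : j = i
    · subst h; simp [sg]
    · simp [sg, Pi.single_apply, h, zero_pow_q hF]
  rw [e] at this
  simpa using this

include hF he in
theorem PP.isQ (h : PP e g 1 b) : ∃ S, IsQ e g b S := by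
  have h1 : ∀ f : Fin m → F, (ac e g ((0 : Fin m → F), (0 : F), f)).2.2 = f := by
    intro f
    apply eq_of_dot hF
    intro w
    have h2 := ac_form he g ((0 : Fin m → F), (0 : F), f) (w, (0 : F), (0 : Fin m → F))
    rw [h w 0] at h2
    simpa [HH, sg_zero hF, zero_pow_q hF] using h2
  have h2 : ∀ f : Fin m → F, (ac e g ((0 : Fin m → F), (0 : F), f)).2.1 = -(sg q b ⬝ᵥ f) := by
    intro f
    have h3 := ac_form he g ((0 : Fin m → F), (0 : F), f) ((0 : Fin m → F), (1 : F), (0 : Fin m → F))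
    rw [h 0 1] at h3
    simp only [HH, sg_zero hF, one_pow, mul_one, dotProduct_zero, zero_add, Matrix.mulVec_zero, one_smul, h1,
      add_zero] at h3
    rw [dotProduct_comm (sg q b)]
    linear_combination h3
  refine ⟨fun f => (ac e g ((0 : Fin m → F), (0 : F), f)).1, ?_⟩
  rintro ⟨w, a, f⟩
  have e1 : ((w, a, f) : VV m F) = (w, a, (0 : Fin m → F)) + ((0 : Fin m → F), (0 : F), f) := by
    simp
  rw [e1, ac_add, h, Matrix.one_mulVec]
  refine Prod.ext ?_ (Prod.ext ?_ ?_)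
  · simp
  · simp only [Prod.snd_add, Prod.fst_add, h2]
    simp [sub_eq_add_neg]
  · simp only [Prod.snd_add, h1]

theorem IsQ.comm {x y : Fin m → F} {S T : (Fin m → F) → (Fin m → F)} (h : IsQ e g x S) (h' : IsQ e g' y T)
    (z : VV m F) : ac e (g * g' * (g' * g)⁻¹) z =
      z + ((sg q x ⬝ᵥ z.2.2) • y - (sg q y ⬝ᵥ z.2.2) • x, (0 : F), (0 : Fin m → F)) := by
  obtain ⟨z', hz⟩ : ∃ z', ac e (g' * g) z' = z := ⟨ac e (g' * g)⁻¹ z, ac_ac_inv e _ _⟩
  rw [ac_mul, ac_inv_eq e hz, ac_mul, h', h, ← hz, ac_mul, h, h']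
  refine Prod.ext ?_ (Prod.ext ?_ ?_)
  · simp only [Prod.fst_add]
    module
  · simp only [Prod.fst_add, Prod.snd_add, add_zero]
    ring
  · simp only [Prod.snd_add, add_zero]

theorem Fu.act {G : Subgroup (Cfsg.SU n F q)} (he : ∀ x y, HH q x y = Cfsg.hermForm n F q (e x) (e y))
    {z : VV m F} (h : Fu e G z) (hg : g ∈ G) : Fu e G (ac e g z) := by
  intro k c hk
  have h1 : g⁻¹ * k * g ∈ G := by
    apply h _ c
    intro x
    rw [ac_mul, ac_mul, hk, ac_add, ac_smul, ac_inv_ac, ac_inv_ac, ac_form he]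
  have h2 := G.mul_mem (G.mul_mem hg h1) (G.inv_mem hg)
  have e1 : g * (g⁻¹ * k * g) * g⁻¹ = k := by group
  rwa [e1] at h2

include hF in
theorem Fu.smul {G : Subgroup (Cfsg.SU n F q)} {z : VV m F} (h : Fu e G z) (r : F) : Fu e G (r • z) := by
  intro k c hk
  apply h _ (c * r ^ q * r)
  intro x
  rw [hk, (HH_isH hF).smul_right, smul_smul]
  congr 2
  ring

include hF he in
theorem exists_tv {z : VV m F} (hz : HH q z z = 0) {a : F} (ha : a ^ q = -a) :
    ∃ g : Cfsg.SU n F q, ∀ x, ac e g x = x + (a * HH q x z) • z := by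
  obtain ⟨g, -, hg⟩ := exists_transv (n := n) hF (u := e z) (by rw [← he, hz]) ha
  refine ⟨g, fun x => ?_⟩
  rw [ac, hg, map_add, LinearEquiv.symm_apply_apply, map_smul, LinearEquiv.symm_apply_apply, ← he]

include hF he in
/-- addition of full vectors -/
theorem Fu.add {G : Subgroup (Cfsg.SU n F q)} {y z : VV m F} (hy : Fu e G y) (hz : Fu e G z)
    (hyy : HH q y y = 0) (h0 : HH q z y ≠ 0) (h1 : (HH q z y) ^ q = -HH q z y) : Fu e G (z + y) := by
  obtain ⟨t, ht⟩ := exists_tv hF he hyy (a := (HH q z y)⁻¹) (by rw [inv_pow, h1, inv_neg])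
  have h2 := hz.act he (hy t _ ht)
  rw [ht, inv_mul_cancel₀ h0, one_smul] at h2
  exact h2

include hF he in
theorem top_of_Fu (hn : 2 ≤ n) (h32 : ¬ (n = 3 ∧ q = 2)) {G : Subgroup (Cfsg.SU n F q)}
    (h : ∀ z, HH q z z = 0 → Fu e G z) : G = ⊤ := by
  rw [eq_top_iff, ← TT_eq_top hF hn h32, TT, Subgroup.closure_le]
  rintro g ⟨v, c, hv, hg⟩
  refine h (e.symm v) (by rw [he, LinearEquiv.apply_symm_apply, hv]) g c ?_
  intro x
  rw [ac, act_def, hg, unitaryTransvection_mulVec, map_add, LinearEquiv.symm_apply_apply, map_smul, he,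
    LinearEquiv.apply_symm_apply]

end Cfsg.Agent.H42.SuGen
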