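import Mathlib
import Cfsg.Agent.H42.SuGen2
import Cfsg.Agent.H42.CycGen

/-!
Generation of `SU_n(q)`, `n` odd: the maximal parabolic argument, main step.
-/

set_option autoImplicit false

namespace Cfsg.Agent.H42.SuGen

open Matrix Cfsg.Agent.H42.Herm Cfsg.Agent.Uni

variable {F : Type*} [Field F] [Fintype F] {q m n : ℕ} {e : VV m F ≃ₗ[F] (Fin n → F)}

section

variable (hF : Fintype.card F = q ^ 2) (he : ∀ x y, HH q x y = Cfsg.hermForm n F q (e x) (e y))
  {G : Subgroup (Cfsg.SU n F q)}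
  (hB : ∀ b : Fin m → F, ∃ g ∈ G, ∃ S, IsQ e g b S)

include hF he in
theorem skew_of_tv {g : Cfsg.SU n F q} {z : VV m F} {c : F} (hz : HH q z z = 0) (hz0 : z ≠ 0)
    (h : ∀ x, ac e g x = x + (c * HH q x z) • z) : c ^ q = -c := by
  have hI := HH_isH (m := m) hF
  obtain ⟨x, hx⟩ : ∃ x, HH q z x ≠ 0 := by
    by_contra hcon
    push Not at hcon
    exact hz0 (hI.nondeg z hcon)
  have h1 := ac_form he g x x
  rw [h, hI.add_left, hI.add_right hF, hI.add_right hF, hI.smul_left, hI.smul_left, hI.smul_right,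
    hI.smul_right, hz, mul_zero, mul_zero, add_zero, mul_pow, ← hI.symm z x, pow_q_pow_q hF] at h1
  have h2 : (HH q z x) ^ q ≠ 0 := pow_ne_zero _ hx
  have h3 : (c ^ q + c) * (HH q z x * (HH q z x) ^ q) = 0 := by linear_combination h1
  rcases mul_eq_zero.mp h3 with h4 | h4
  · linear_combination h4
  · exact absurd h4 (mul_ne_zero hx h2)

theorem HH_w (z : VV m F) (w : Fin m → F) (hF : Fintype.card F = q ^ 2) :
    HH q z (w, (0 : F), (0 : Fin m → F)) = z.2.2 ⬝ᵥ sg q w := by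
  simp only [HH, sg_zero hF, zero_pow_q hF, dotProduct_zero, mul_zero, zero_add]

theorem w_HH (z : VV m F) (w : Fin m → F) :
    HH q (w, (0 : F), (0 : Fin m → F)) z = w ⬝ᵥ sg q z.2.2 := by
  simp only [HH, zero_dotProduct, zero_mul, add_zero]

include hF he hB in
theorem fu_W (w : Fin m → F) : Fu e G (w, (0 : F), (0 : Fin m → F)) := by
  intro g c hg
  by_cases hw : w = 0
  · have : g = 1 := by
      apply ac_ext e
      intro x
      rw [hg, ac_one, hw]
      have : ((0 : Fin m → F), (0 : F), (0 : Fin m → F)) = (0 : VV m F) := rfl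
      rw [this, smul_zero, add_zero]
    rw [this]; exact G.one_mem
  have hc : c ^ q = -c := by
    refine skew_of_tv hF he ?_ ?_ hg
    · rw [HH_w _ _ hF, zero_dotProduct]
    · intro h
      exact hw (congrArg Prod.fst h)
  obtain ⟨t, ht⟩ := exists_trace_eq hF (c := (1 : F)) (one_pow q)
  obtain ⟨g1, hg1, S, hS⟩ := hB ((-c * t) • w)
  obtain ⟨g2, hg2, T, hT⟩ := hB w
  have : g = g1 * g2 * (g2 * g1)⁻¹ := by
    apply ac_ext e
    intro x
    rw [hg, hS.comm hT, HH_w _ _ hF, sg_smul, smul_dotProduct]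
    refine Prod.ext ?_ (Prod.ext ?_ ?_)
    · simp only [Prod.fst_add, Prod.smul_fst]
      rw [dotProduct_comm (sg q w)]
      have e1 : (-c * t) ^ q = c * t ^ q := by rw [mul_pow, neg_pow_q hF, hc, neg_neg]
      rw [e1, smul_smul, ← sub_smul, smul_eq_mul]
      congr 2
      linear_combination (-c * (x.2.2 ⬝ᵥ sg q w)) * ht
    · simp
    · simp
  rw [this]
  exact G.mul_mem (G.mul_mem hg1 hg2) (G.inv_mem (G.mul_mem hg2 hg1))

theorem exists_dot {f : Fin m → F} (hf : f ≠ 0) (c : F) : ∃ y : Fin m → F, y ⬝ᵥ f = c := by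
  obtain ⟨i, hi⟩ := Function.ne_iff.mp hf
  refine ⟨Pi.single i (c / f i), ?_⟩
  rw [single_dotProduct, div_mul_cancel₀ _ hi]

include hF he hB in
/-- `Q`-transitivity -/
theorem fu_trans {f : Fin m → F} (hf : f ≠ 0) {w w' : Fin m → F} {a a' : F}
    (hz : HH q (w, a, f) (w, a, f) = 0) (hz' : HH q (w', a', f) (w', a', f) = 0) (h : Fu e G (w, a, f)) :
    Fu e G (w', a', f) := by
  obtain ⟨y, hy⟩ := exists_dot hf (a - a')
  obtain ⟨g, hg, S, hS⟩ := hB (sg q y)
  obtain ⟨w1, hw1⟩ : ∃ w1, w1 = w + a • sg q y + S f := ⟨_, rfl⟩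
  have e1 : ac e g (w, a, f) = (w1, a', f) := by
    rw [hS, hw1]
    simp only [sg_sg hF, hy]
    rw [sub_sub_cancel]
  have h1 : Fu e G (w1, a', f) := by rw [← e1]; exact h.act he hg
  have hz1 : HH q (w1, a', f) (w1, a', f) = 0 := by rw [← e1, ac_form he, hz]
  obtain ⟨r, hr⟩ : ∃ r, r = w' - w1 := ⟨_, rfl⟩
  have hw' : ((w', a', f) : VV m F) = (w1, a', f) + (r, (0 : F), (0 : Fin m → F)) := by
    rw [hr]; simp
  have hrf : r ⬝ᵥ sg q f + f ⬝ᵥ sg q r = 0 := by
    rw [hr, sub_dotProduct, sg_sub hF, dotProduct_sub]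
    simp only [HH] at hz1 hz'
    linear_combination hz' - hz1
  obtain ⟨c, hc⟩ : ∃ c, c = f ⬝ᵥ sg q r := ⟨_, rfl⟩
  have hcq : c ^ q = -c := by
    rw [hc, dot_sg_pow hF]
    linear_combination hrf
  by_cases hc0 : c = 0
  · obtain ⟨y0, hy0⟩ := exists_dot hf 1
    obtain ⟨g1, hg1, S1, hS1⟩ := hB (sg q y0)
    obtain ⟨g2, hg2, S2, hS2⟩ := hB r
    have h2 := h1.act he (G.mul_mem (G.mul_mem hg1 hg2) (G.inv_mem (G.mul_mem hg2 hg1)))
    rw [hS1.comm hS2] at h2
    simp only [sg_sg hF, hy0, one_smul] at h2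
    rw [dotProduct_comm (sg q r), ← hc, hc0, zero_smul, sub_zero, ← hw'] at h2
    exact h2
  · obtain ⟨t, ht⟩ := exists_tv hF he (z := (r, (0 : F), (0 : Fin m → F)))
      (by rw [HH_w _ _ hF, zero_dotProduct]) (a := c⁻¹) (by rw [inv_pow, hcq, inv_neg])
    have h2 := h1.act he (fu_W hF he hB r t _ ht)
    rw [ht, HH_w _ _ hF] at h2
    simp only [← hc] at h2
    rw [inv_mul_cancel₀ hc0, one_smul, ← hw'] at h2
    exact h2

/-- all isotropic vectors over `f` are full -/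
def Good (q : ℕ) (e : VV m F ≃ₗ[F] (Fin n → F)) (G : Subgroup (Cfsg.SU n F q)) (f : Fin m → F) : Prop :=
  ∀ w a, HH q (w, a, f) (w, a, f) = 0 → Fu e G (w, a, f)

include hF he hB in
theorem good_zero : Good q e G 0 := by
  intro w a h
  have h1 : a * a ^ q = 0 := by
    simpa [HH, sg_zero hF] using h
  have h2 : a = 0 := by
    rcases mul_eq_zero.mp h1 with h3 | h3
    · exact h3
    · exact (pow_q_eq_zero hF).mp h3
  rw [h2]
  exact fu_W hF he hB w

include hF he hB in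
theorem good_smul {f : Fin m → F} (h : Good q e G f) (c : F) : Good q e G (c • f) := by
  by_cases hc : c = 0
  · rw [hc, zero_smul]; exact good_zero hF he hB
  intro w a hz
  have e1 : ((w, a, c • f) : VV m F) = c • (c⁻¹ • w, c⁻¹ * a, f) := by
    refine Prod.ext ?_ (Prod.ext ?_ ?_)
    · simp [smul_smul, mul_inv_cancel₀ hc]
    · simp [mul_inv_cancel_left₀ hc]
    · simp
  rw [e1] at hz ⊢
  apply Fu.smul hF
  apply h
  rw [(HH_isH hF).smul_left, (HH_isH hF).smul_right] at hz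
  rcases mul_eq_zero.mp hz with h1 | h1
  · exact absurd h1 hc
  · rcases mul_eq_zero.mp h1 with h2 | h2
    · exact absurd h2 (pow_ne_zero _ hc)
    · exact h2

theorem exists_sep {f1 f2 : Fin m → F} (hf1 : f1 ≠ 0) (h : ∀ c : F, f2 ≠ c • f1) :
    ∃ y : Fin m → F, y ⬝ᵥ f1 = 0 ∧ y ⬝ᵥ f2 = 1 := by
  obtain ⟨i, hi⟩ := Function.ne_iff.mp hf1
  have hi' : f1 i ≠ 0 := hi
  obtain ⟨j, hj⟩ := Function.ne_iff.mp (h (f2 i / f1 i))
  have hj' : f2 j - f2 i / f1 i * f1 j ≠ 0 := by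
    intro h'
    apply hj
    rw [Pi.smul_apply, smul_eq_mul]
    exact sub_eq_zero.mp h'
  obtain ⟨D, hD⟩ : ∃ D, D = f2 j - f2 i / f1 i * f1 j := ⟨_, rfl⟩
  rw [← hD] at hj'
  refine ⟨D⁻¹ • (Pi.single j 1 - (f1 j / f1 i) • Pi.single i 1), ?_, ?_⟩
  · rw [smul_dotProduct, sub_dotProduct, smul_dotProduct, single_dotProduct, single_dotProduct, one_mul,
      one_mul, smul_eq_mul, smul_eq_mul, div_mul_cancel₀ _ hi', sub_self, mul_zero]
  · rw [smul_dotProduct, sub_dotProduct, smul_dotProduct, single_dotProduct, single_dotProduct, one_mul,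
      one_mul, smul_eq_mul, smul_eq_mul]
    have : f2 j - f1 j / f1 i * f2 i = D := by rw [hD]; ring
    rw [this, inv_mul_cancel₀ hj']

include hF he hB in
theorem good_add {f1 f2 : Fin m → F} (h1 : Good q e G f1) (h2 : Good q e G f2) : Good q e G (f1 + f2) := by
  by_cases h0 : f1 + f2 = 0
  · rw [h0]; exact good_zero hF he hB
  by_cases hf1 : f1 = 0
  · rw [hf1, zero_add]; exact h2
  by_cases hdep : ∃ c : F, f2 = c • f1
  · obtain ⟨c, rfl⟩ := hdep
    have : f1 + c • f1 = (1 + c) • f1 := by module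
    rw [this]
    exact good_smul hF he hB h1 _
  push Not at hdep
  obtain ⟨y, hy1, hy2⟩ := exists_sep hf1 hdep
  obtain ⟨κ, hκ0, hκ⟩ := exists_skew hF
  obtain ⟨w1, hw1⟩ : ∃ w1, w1 = κ • sg q y := ⟨_, rfl⟩
  have e1 : w1 ⬝ᵥ sg q f1 = 0 := by
    rw [hw1, smul_dotProduct, ← dot_pow hF, hy1, zero_pow_q hF, smul_zero]
  have e2 : w1 ⬝ᵥ sg q f2 = κ := by
    rw [hw1, smul_dotProduct, ← dot_pow hF, hy2, one_pow, smul_eq_mul, mul_one]
  have e1' : f1 ⬝ᵥ sg q w1 = 0 := by rw [← dot_sg_pow hF, e1, zero_pow_q hF]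
  have e2' : f2 ⬝ᵥ sg q w1 = -κ := by rw [← dot_sg_pow hF, e2, hκ]
  have z1 : HH q (w1, (0 : F), f1) (w1, (0 : F), f1) = 0 := by
    simp only [HH]; rw [e1, e1', zero_mul]; ring
  have z2 : HH q ((0 : Fin m → F), (0 : F), f2) ((0 : Fin m → F), (0 : F), f2) = 0 := by
    simp only [HH]; rw [sg_zero hF, zero_dotProduct, dotProduct_zero, zero_mul]; ring
  have z21 : HH q ((0 : Fin m → F), (0 : F), f2) (w1, (0 : F), f1) = -κ := by
    simp only [HH]; rw [e2', zero_dotProduct, zero_mul]; ring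
  have z12 : HH q (w1, (0 : F), f1) ((0 : Fin m → F), (0 : F), f2) = κ := by
    rw [← (HH_isH hF).symm, z21, neg_pow_q hF, hκ, neg_neg]
  have h3 := Fu.add hF he (h1 _ _ z1) (h2 _ _ z2) z1 (by rw [z21]; exact neg_ne_zero.mpr hκ0)
    (by rw [z21, neg_pow_q hF, hκ])
  have e3 : (((0 : Fin m → F), (0 : F), f2) + (w1, (0 : F), f1) : VV m F) = (w1, (0 : F), f1 + f2) := by
    simp [add_comm]
  have h4 : HH q (((0 : Fin m → F), (0 : F), f2) + (w1, (0 : F), f1)) (((0 : Fin m → F), (0 : F), f2) +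
      (w1, (0 : F), f1)) = 0 := by
    rw [(HH_isH hF).add_left, (HH_isH hF).add_right hF, (HH_isH hF).add_right hF, z1, z2, z12, z21]
    ring
  rw [e3] at h3 h4
  intro w a hz
  exact fu_trans hF he hB h0 h4 hz h3

end

/-- **Main step**. -/
theorem partA (hF : Fintype.card F = q ^ 2) (he : ∀ x y, HH q x y = Cfsg.hermForm n F q (e x) (e y))
    (hn : 5 ≤ n) {G : Subgroup (Cfsg.SU n F q)} {u v k : Cfsg.SU n F q} (huG : u ∈ G) (hvG : v ∈ G)
    (hkG : k ∈ G) {U V : SpecialLinearGroup (Fin m) F} {bu bv : Fin m → F}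
    (hu : PP e u (U : Matrix (Fin m) (Fin m) F) bu) (hv : PP e v (V : Matrix (Fin m) (Fin m) F) bv)
    (hirr : ∀ B : AddSubgroup (Fin m → F), (∀ x ∈ B, (U : Matrix (Fin m) (Fin m) F) *ᵥ x ∈ B) →
      (∀ x ∈ B, (V : Matrix (Fin m) (Fin m) F) *ᵥ x ∈ B) → (∃ x ∈ B, x ≠ 0) → B = ⊤)
    (h1 : ∃ g ∈ G, ∃ b, PP e g 1 b ∧ b ≠ 0)
    (hk : ∃ w : Fin m → F, (ac e k (w, (0 : F), (0 : Fin m → F))).2.2 ≠ 0) : G = ⊤ := by
  -- the radical is in `G`
  let B : AddSubgroup (Fin m → F) :=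
    { carrier := {b | ∃ g ∈ G, PP e g 1 b}
      zero_mem' := ⟨1, G.one_mem, PP.one⟩
      add_mem' := by
        rintro a b ⟨g, hg, h⟩ ⟨g', hg', h'⟩
        refine ⟨g' * g, G.mul_mem hg' hg, ?_⟩
        have := h'.mul h
        rwa [Matrix.mul_one, Matrix.one_mulVec] at this
      neg_mem' := by
        rintro a ⟨g, hg, h⟩
        refine ⟨g⁻¹, G.inv_mem hg, ?_⟩
        have := h.inv (A' := 1) (Matrix.mul_one 1)
        rwa [Matrix.one_mulVec] at this }
  have hinv : ∀ {u : Cfsg.SU n F q} {U : SpecialLinearGroup (Fin m) F} {bu : Fin m → F}, u ∈ G →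
      PP e u (U : Matrix (Fin m) (Fin m) F) bu → ∀ x ∈ B, (U : Matrix (Fin m) (Fin m) F) *ᵥ x ∈ B := by
    rintro u U bu huG hu x ⟨g, hg, h⟩
    refine ⟨u * g * u⁻¹, G.mul_mem (G.mul_mem huG hg) (G.inv_mem huG), ?_⟩
    have h2 := (hu.mul h).mul (hu.inv (CycGen.mul_inv_coe U))
    rw [Matrix.mul_one, CycGen.mul_inv_coe, Matrix.mulVec_neg, Matrix.mulVec_mulVec, CycGen.mul_inv_coe,
      Matrix.one_mulVec] at h2
    have e1 : -bu + ((U : Matrix (Fin m) (Fin m) F) *ᵥ x + bu) = (U : Matrix (Fin m) (Fin m) F) *ᵥ x := by abel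
    rwa [e1] at h2
  have hBtop : B = ⊤ := by
    apply hirr B (hinv huG hu) (hinv hvG hv)
    obtain ⟨g, hg, b, hb, hb0⟩ := h1
    exact ⟨b, ⟨g, hg, hb⟩, hb0⟩
  have hB : ∀ b : Fin m → F, ∃ g ∈ G, ∃ S, IsQ e g b S := by
    intro b
    have : b ∈ B := by rw [hBtop]; trivial
    obtain ⟨g, hg, h⟩ := this
    exact ⟨g, hg, h.isQ hF he⟩
  -- the good vectors
  let Fm : Submodule F (Fin m → F) :=
    { carrier := {f | Good q e G f}
      zero_mem' := good_zero hF he hB
      add_mem' := fun h1 h2 => good_add hF he hB h1 h2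
      smul_mem' := fun c _ h => good_smul hF he hB h c }
  have hFmtop : Fm = ⊤ := by
    by_contra hne
    obtain ⟨φ, hφ0, hφ⟩ := Submodule.exists_le_ker_of_lt_top Fm (lt_top_iff_ne_top.mpr hne)
    obtain ⟨y, hy⟩ : ∃ y : Fin m → F, ∀ f, φ f = y ⬝ᵥ f := by
      refine ⟨fun i => φ (Pi.single i 1), fun f => ?_⟩
      conv_lhs => rw [← Finset.univ_sum_single f]
      rw [map_sum, dotProduct]
      refine Finset.sum_congr rfl fun i _ => ?_
      have : (Pi.single i (f i) : Fin m → F) = f i • Pi.single i 1 := by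
        ext j; simp [Pi.single_apply]
      rw [this, map_smul, smul_eq_mul, mul_comm]
    have hy0 : y ≠ 0 := by
      rintro rfl
      apply hφ0
      apply LinearMap.ext
      intro f
      rw [hy, zero_dotProduct]; rfl
    have hyF : ∀ f ∈ Fm, sg q y ⬝ᵥ sg q f = 0 := by
      intro f hf
      rw [← dot_pow hF, ← hy]
      have : φ f = 0 := hφ hf
      rw [this, zero_pow_q hF]
    let A : AddSubgroup (Fin m → F) :=
      { carrier := {w | ∀ z, HH q z z = 0 → Fu e G z → HH q (w, (0 : F), (0 : Fin m → F)) z = 0}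
        zero_mem' := by
          intro z _ _
          rw [w_HH, zero_dotProduct]
        add_mem' := by
          intro a b ha hb z hz hfz
          have h1 := ha z hz hfz
          have h2 := hb z hz hfz
          rw [w_HH] at h1 h2 ⊢
          rw [add_dotProduct, h1, h2, add_zero]
        neg_mem' := by
          intro a ha z hz hfz
          have h1 := ha z hz hfz
          rw [w_HH] at h1 ⊢
          rw [neg_dotProduct, h1, neg_zero] }
    have hAinv : ∀ {u : Cfsg.SU n F q} {U : SpecialLinearGroup (Fin m) F} {bu : Fin m → F}, u ∈ G →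
        PP e u (U : Matrix (Fin m) (Fin m) F) bu → ∀ x ∈ A, (U : Matrix (Fin m) (Fin m) F) *ᵥ x ∈ A := by
      intro u U bu huG hu x hx z hz hfz
      have h2 := hu x 0
      rw [zero_smul, add_zero] at h2
      rw [← h2, ac_form_left he]
      apply hx
      · rw [ac_form he, hz]
      · exact hfz.act he (G.inv_mem huG)
    have hAtop : A = ⊤ := by
      apply hirr A (hAinv huG hu) (hAinv hvG hv)
      refine ⟨sg q y, ?_, ?_⟩
      · rintro ⟨w, a, f⟩ hz hfz
        rw [w_HH]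
        by_cases hf : f = 0
        · rw [hf, sg_zero hF, dotProduct_zero]
        · apply hyF
          intro w' a' hz'
          exact fu_trans hF he hB hf hz hz' hfz
      · intro h
        apply hy0
        rw [← sg_sg hF y, h, sg_zero hF]
    obtain ⟨w0, hw0⟩ := hk
    apply hw0
    apply eq_of_dot hF
    intro w
    have hwA : w ∈ A := by rw [hAtop]; trivial
    have h2 := hwA (ac e k (w0, (0 : F), (0 : Fin m → F)))
      (by rw [ac_form he, HH_w _ _ hF, zero_dotProduct]) ((fu_W hF he hB w0).act he hkG)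
    rw [w_HH] at h2
    rw [← dot_sg_pow hF, h2, zero_pow_q hF, zero_dotProduct]
  apply top_of_Fu hF he (by omega) (by omega)
  rintro ⟨w, a, f⟩ hz
  have : f ∈ Fm := by rw [hFmtop]; trivial
  exact this w a hz

end Cfsg.Agent.H42.SuGen
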