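import Mathlib
import Cfsg.Agent.H42.SuGen3
import Cfsg.Agent.ClassBase.SL

/-!
Generation of `SU_n(q)`, `n` odd: a non-splitting argument.
-/

set_option autoImplicit false

namespace Cfsg.Agent.H42.SuGen

open Matrix Cfsg.Agent.H42.Herm Cfsg.Agent.Uni

section cocycle

variable {F : Type*} [Field F] {m : ℕ}

theorem mulVec_coe_mul (A B : SpecialLinearGroup (Fin m) F) (x : Fin m → F) :
    ((A * B : SpecialLinearGroup (Fin m) F) : Matrix (Fin m) (Fin m) F) *ᵥ x =
      (A : Matrix (Fin m) (Fin m) F) *ᵥ ((B : Matrix (Fin m) (Fin m) F) *ᵥ x) :=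
  (mulVec_mulVec _ _ _).symm

/-- diagonal elements of `SL` -/
def dg (a : Fin m → F) (h : ∏ i, a i = 1) : SpecialLinearGroup (Fin m) F :=
  ⟨diagonal a, by rw [det_diagonal, h]⟩

theorem dg_mulVec (a : Fin m → F) (h : ∏ i, a i = 1) (x : Fin m → F) (k : Fin m) :
    (((dg a h : SpecialLinearGroup (Fin m) F) : Matrix (Fin m) (Fin m) F) *ᵥ x) k = a k * x k :=
  mulVec_diagonal _ _ _

theorem cocycle_fix (hm : 2 ≤ m) (β : SpecialLinearGroup (Fin m) F → (Fin m → F))
    (hβ : ∀ A B, β (A * B) = (A : Matrix (Fin m) (Fin m) F) *ᵥ β B + β A)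
    (hd : ∀ i j : Fin m, i ≠ j → ∃ a : Fin m → F, (∏ k, a k = 1) ∧ (∀ k, a k ≠ 1) ∧ a i = a j) :
    ∃ d : Fin m → F, ∀ A : SpecialLinearGroup (Fin m) F, (A : Matrix (Fin m) (Fin m) F) *ᵥ d + β A = d := by
  haveI : Nontrivial (Fin m) := Fin.nontrivial_iff_two_le.mpr hm
  have huniq : ∀ (a : Fin m → F) (h : ∏ k, a k = 1), (∀ k, a k ≠ 1) → ∀ x y : Fin m → F,
      ((dg a h : SpecialLinearGroup (Fin m) F) : Matrix (Fin m) (Fin m) F) *ᵥ x + β (dg a h) = x →
      ((dg a h : SpecialLinearGroup (Fin m) F) : Matrix (Fin m) (Fin m) F) *ᵥ y + β (dg a h) = y → x = y := by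
    intro a h h1 x y hx hy
    ext k
    have e1 := congrFun hx k
    have e2 := congrFun hy k
    rw [Pi.add_apply, dg_mulVec] at e1 e2
    have e3 : (a k - 1) * (x k - y k) = 0 := by linear_combination e1 - e2
    rcases mul_eq_zero.mp e3 with h4 | h4
    · exact absurd (sub_eq_zero.mp h4) (h1 k)
    · exact sub_eq_zero.mp h4
  have hcomm : ∀ (a : Fin m → F) (h : ∏ k, a k = 1), (∀ k, a k ≠ 1) → ∀ x : Fin m → F,
      ((dg a h : SpecialLinearGroup (Fin m) F) : Matrix (Fin m) (Fin m) F) *ᵥ x + β (dg a h) = x →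
      ∀ B : SpecialLinearGroup (Fin m) F, dg a h * B = B * dg a h →
      (B : Matrix (Fin m) (Fin m) F) *ᵥ x + β B = x := by
    intro a h h1 x hx B hB
    apply huniq a h h1 _ _ ?_ hx
    have e1 := hβ (dg a h) B
    have e2 := hβ B (dg a h)
    rw [hB, e2] at e1
    calc ((dg a h : SpecialLinearGroup (Fin m) F) : Matrix (Fin m) (Fin m) F) *ᵥ
          ((B : Matrix (Fin m) (Fin m) F) *ᵥ x + β B) + β (dg a h)
        = ((dg a h * B : SpecialLinearGroup (Fin m) F) : Matrix (Fin m) (Fin m) F) *ᵥ x +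
          (((dg a h : SpecialLinearGroup (Fin m) F) : Matrix (Fin m) (Fin m) F) *ᵥ β B + β (dg a h)) := by
          rw [mulVec_coe_mul, mulVec_add]; abel
      _ = ((B * dg a h : SpecialLinearGroup (Fin m) F) : Matrix (Fin m) (Fin m) F) *ᵥ x +
          ((B : Matrix (Fin m) (Fin m) F) *ᵥ β (dg a h) + β B) := by rw [hB, e1]
      _ = (B : Matrix (Fin m) (Fin m) F) *ᵥ
          (((dg a h : SpecialLinearGroup (Fin m) F) : Matrix (Fin m) (Fin m) F) *ᵥ x + β (dg a h)) + β B := by
          rw [mulVec_coe_mul, mulVec_add]; abel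
      _ = _ := by rw [hx]
  obtain ⟨i0, j0, h0⟩ := exists_pair_ne (Fin m)
  obtain ⟨a0, ha0, ha1, -⟩ := hd i0 j0 h0
  obtain ⟨d, hdd⟩ : ∃ d : Fin m → F, ((dg a0 ha0 : SpecialLinearGroup (Fin m) F) : Matrix (Fin m) (Fin m) F) *ᵥ d +
      β (dg a0 ha0) = d := by
    refine ⟨fun k => β (dg a0 ha0) k / (1 - a0 k), ?_⟩
    ext k
    rw [Pi.add_apply, dg_mulVec]
    have : 1 - a0 k ≠ 0 := sub_ne_zero.mpr (ha1 k).symm
    field_simp
    ring
  refine ⟨d, fun A => ?_⟩
  refine Cfsg.Agent.ClassBase.transvection_induction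
    (fun A : SpecialLinearGroup (Fin m) F => (A : Matrix (Fin m) (Fin m) F) *ᵥ d + β A = d) ?_ ?_ A
  · intro i j hij t
    obtain ⟨a, ha, ha1', haij⟩ := hd i j hij
    have h1 := hcomm a0 ha0 ha1 d hdd (dg a ha) (by
      apply Subtype.ext
      show diagonal a0 * diagonal a = diagonal a * diagonal a0
      rw [diagonal_mul_diagonal, diagonal_mul_diagonal]
      congr 1
      ext k
      exact mul_comm _ _)
    refine hcomm a ha ha1' d h1 _ ?_
    apply Subtype.ext
    show diagonal a * Matrix.transvection i j t = Matrix.transvection i j t * diagonal a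
    ext k l
    rw [diagonal_mul, mul_diagonal]
    simp only [Matrix.transvection, Matrix.add_apply, Matrix.one_apply, Matrix.single_apply]
    by_cases h2 : k = l
    · subst h2; ring
    · rw [if_neg h2]
      by_cases h3 : i = k ∧ j = l
      · rw [if_pos h3, ← h3.1, ← h3.2, haij]; ring
      · rw [if_neg h3]; ring
  · intro A B hA hB
    rw [hβ]
    calc ((A * B : SpecialLinearGroup (Fin m) F) : Matrix (Fin m) (Fin m) F) *ᵥ d +
          ((A : Matrix (Fin m) (Fin m) F) *ᵥ β B + β A)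
        = (A : Matrix (Fin m) (Fin m) F) *ᵥ ((B : Matrix (Fin m) (Fin m) F) *ᵥ d + β B) + β A := by
          rw [mulVec_coe_mul, mulVec_add]; abel
      _ = d := by rw [hB, hA]

theorem exists_diag (hm : 3 ≤ m) {θ : F} (hθ0 : θ ≠ 0) (hθ1 : θ ≠ 1) (hθ2 : θ ^ 2 ≠ 1) (i j : Fin m) :
    ∃ a : Fin m → F, (∏ k, a k = 1) ∧ (∀ k, a k ≠ 1) ∧ a i = a j := by
  classical
  have hex : ∀ s : Finset (Fin m), s.card < m → ∃ r, r ∉ s := by
    intro s hs
    by_contra hcon
    push Not at hcon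
    have : s = Finset.univ := Finset.eq_univ_iff_forall.mpr hcon
    rw [this, Finset.card_univ, Fintype.card_fin] at hs
    omega
  have hc2 : ({i, j} : Finset (Fin m)).card ≤ 2 := Finset.card_le_two
  obtain ⟨r, hr⟩ := hex {i, j} (by omega)
  have hri : i ≠ r := by rintro rfl; exact hr (by simp)
  have hrj : j ≠ r := by rintro rfl; exact hr (by simp)
  have hprod : ∀ c : F, ∏ k, Function.update (fun _ : Fin m => θ) r c k = c * θ ^ (m - 1) := by
    intro c
    rw [Finset.prod_update_of_mem (Finset.mem_univ r), Finset.prod_const, ← Finset.erase_eq,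
      Finset.card_erase_of_mem (Finset.mem_univ r), Finset.card_univ, Fintype.card_fin]
  by_cases h1 : θ ^ (m - 1) = 1
  · have hm4 : 4 ≤ m := by
      by_contra hlt
      have : m - 1 = 2 := by omega
      rw [this] at h1
      exact hθ2 h1
    have hc3 : ({i, j, r} : Finset (Fin m)).card ≤ 3 := Finset.card_le_three
    obtain ⟨s, hs⟩ := hex {i, j, r} (by omega)
    have hsi : i ≠ s := by rintro rfl; exact hs (by simp)
    have hsj : j ≠ s := by rintro rfl; exact hs (by simp)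
    have hsr : r ≠ s := by rintro rfl; exact hs (by simp)
    refine ⟨Function.update (Function.update (fun _ => θ) r θ⁻¹) s (θ ^ 2), ?_, ?_, ?_⟩
    · have h2 := hprod θ⁻¹
      rw [← Finset.mul_prod_erase _ _ (Finset.mem_univ s), Function.update_of_ne hsr.symm, h1, mul_one] at h2
      rw [Finset.prod_update_of_mem (Finset.mem_univ s), ← Finset.erase_eq]
      generalize ∏ x ∈ Finset.univ.erase s, Function.update (fun _ : Fin m => θ) r θ⁻¹ x = P at h2 ⊢
      have h3 : P = θ⁻¹ * (θ * P) := by rw [inv_mul_cancel_left₀ hθ0]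
      rw [h3, h2]
      field_simp
    · intro k
      by_cases hk : k = s
      · rw [hk, Function.update_self]; exact hθ2
      · rw [Function.update_of_ne hk]
        by_cases hk2 : k = r
        · rw [hk2, Function.update_self]
          intro h
          exact hθ1 (inv_eq_one.mp h)
        · rw [Function.update_of_ne hk2]; exact hθ1
    · rw [Function.update_of_ne hsi, Function.update_of_ne hsj, Function.update_of_ne hri,
        Function.update_of_ne hrj]
  · refine ⟨Function.update (fun _ => θ) r (θ ^ (m - 1))⁻¹, ?_, ?_, ?_⟩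
    · rw [hprod, inv_mul_cancel₀ (pow_ne_zero _ hθ0)]
    · intro k
      by_cases hk : k = r
      · rw [hk, Function.update_self]
        intro h
        exact h1 (inv_eq_one.mp h)
      · rw [Function.update_of_ne hk]; exact hθ1
    · rw [Function.update_of_ne hri, Function.update_of_ne hrj]

end cocycle

variable {F : Type*} [Field F] [Fintype F] {q m n : ℕ} {e : VV m F ≃ₗ[F] (Fin n → F)}

theorem exists_b (hm : 2 ≤ m) {G : Subgroup (Cfsg.SU n F q)} {u v : Cfsg.SU n F q} (huG : u ∈ G) (hvG : v ∈ G)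
    {U V : SpecialLinearGroup (Fin m) F} {bu bv : Fin m → F}
    (hu : PP e u (U : Matrix (Fin m) (Fin m) F) bu) (hv : PP e v (V : Matrix (Fin m) (Fin m) F) bv)
    (htop : Subgroup.closure ({U, V} : Set (SpecialLinearGroup (Fin m) F)) = ⊤)
    (hd : ∀ i j : Fin m, i ≠ j → ∃ a : Fin m → F, (∏ k, a k = 1) ∧ (∀ k, a k ≠ 1) ∧ a i = a j)
    (hfix : ∀ d : Fin m → F, ac e u (d, (1 : F), (0 : Fin m → F)) ≠ (d, (1 : F), (0 : Fin m → F))) :
    ∃ g ∈ G, ∃ b, PP e g 1 b ∧ b ≠ 0 := by
  by_contra hcon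
  push Not at hcon
  have hsurj : ∀ A : SpecialLinearGroup (Fin m) F, ∃ g ∈ G, ∃ b, PP e g (A : Matrix (Fin m) (Fin m) F) b := by
    intro A
    have hA : A ∈ Subgroup.closure ({U, V} : Set (SpecialLinearGroup (Fin m) F)) := by rw [htop]; trivial
    induction hA using Subgroup.closure_induction with
    | mem x hx =>
      rcases hx with rfl | rfl
      · exact ⟨u, huG, bu, hu⟩
      · exact ⟨v, hvG, bv, hv⟩
    | one => exact ⟨1, G.one_mem, 0, PP.one⟩
    | mul x y _ _ hx hy =>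
      obtain ⟨g, hg, b, h⟩ := hx
      obtain ⟨g', hg', b', h'⟩ := hy
      exact ⟨g * g', G.mul_mem hg hg', _, h.mul h'⟩
    | inv x _ hx =>
      obtain ⟨g, hg, b, h⟩ := hx
      exact ⟨g⁻¹, G.inv_mem hg, _, h.inv (CycGen.mul_inv_coe x)⟩
  have huniq : ∀ (A : SpecialLinearGroup (Fin m) F) (g g' : Cfsg.SU n F q) (b b' : Fin m → F), g ∈ G → g' ∈ G →
      PP e g (A : Matrix (Fin m) (Fin m) F) b → PP e g' (A : Matrix (Fin m) (Fin m) F) b' → b = b' := by
    intro A g g' b b' hg hg' h h'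
    have h1 := h.mul (h'.inv (CycGen.mul_inv_coe A))
    rw [CycGen.mul_inv_coe, Matrix.mulVec_neg, Matrix.mulVec_mulVec, CycGen.mul_inv_coe, Matrix.one_mulVec] at h1
    have h2 := hcon _ (G.mul_mem hg (G.inv_mem hg')) _ h1
    have h3 : b - b' = 0 := by rw [← h2]; abel
    exact sub_eq_zero.mp h3
  choose g hg β hgβ using hsurj
  obtain ⟨d, hdd⟩ := cocycle_fix hm β (fun A B =>
    huniq (A * B) _ _ _ _ (hg _) (G.mul_mem (hg A) (hg B)) (hgβ _) ((hgβ A).mul (hgβ B))) hd
  apply hfix d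
  rw [hu, one_smul]
  have h1 : bu = β U := huniq U _ _ _ _ huG (hg U) hu (hgβ U)
  rw [h1, hdd]

end Cfsg.Agent.H42.SuGen
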