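import Mathlib
import Cfsg.Agent.H42.SuGen4
import Cfsg.Agent.H42.SpGen5

/-!
Generation of `SU_n(q)`, `n` odd: Levi elements, the regular unipotent element.
-/

set_option autoImplicit false

namespace Cfsg.Agent.H42.SuGen

open Matrix Cfsg.Agent.H42.Herm Cfsg.Agent.Uni Cfsg.Agent.H42.ThreeUnip

variable {F : Type*} [Field F] [Fintype F] {q m n : ℕ} {e : VV m F ≃ₗ[F] (Fin n → F)}
  (hF : Fintype.card F = q ^ 2) (he : ∀ x y, HH q x y = Cfsg.hermForm n F q (e x) (e y))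

include hF in
theorem sg_mulVec (M : Matrix (Fin m) (Fin m) F) (f : Fin m → F) :
    sg q (M *ᵥ f) = (M.map (fun x => x ^ q)) *ᵥ sg q f := by
  ext i
  simp only [sg, mulVec, dotProduct, Matrix.map_apply]
  rw [sum_pow_q hF]
  exact Finset.sum_congr rfl fun j _ => mul_pow _ _ _

include hF in
theorem map_mul_q (A B : Matrix (Fin m) (Fin m) F) :
    (A * B).map (fun x => x ^ q) = A.map (fun x => x ^ q) * B.map (fun x => x ^ q) := by
  ext i j
  simp only [Matrix.map_apply, Matrix.mul_apply]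
  rw [sum_pow_q hF]
  exact Finset.sum_congr rfl fun j _ => mul_pow _ _ _

include hF in
theorem map_one_q : (1 : Matrix (Fin m) (Fin m) F).map (fun x => x ^ q) = 1 := by
  ext i j
  simp only [Matrix.map_apply, Matrix.one_apply]
  by_cases h : i = j
  · rw [if_pos h, one_pow]
  · rw [if_neg h, zero_pow_q hF]

include hF in
theorem det_map_q (A : Matrix (Fin m) (Fin m) F) : (A.map (fun x => x ^ q)).det = A.det ^ q := by
  have := (conjHom hF).map_det A
  rw [conjHom_apply] at this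
  rw [this]
  rfl

include hF he in
theorem exists_levi {B B' : Matrix (Fin m) (Fin m) F} (h : B * B' = 1) :
    ∃ g : Cfsg.SU n F q, ∀ z, ac e g z = (B *ᵥ z.1, (B.det ^ q * B.det⁻¹) * z.2.1,
      (B'.map (fun x => x ^ q))ᵀ *ᵥ z.2.2) := by
  have h' : B' * B = 1 := _root_.mul_eq_one_comm.mp h
  have hd0 : B.det ≠ 0 := by
    intro h0
    have := congrArg Matrix.det h
    rw [det_mul, h0, zero_mul, det_one] at this
    exact zero_ne_one this
  have hd1 : B'.det = B.det⁻¹ := by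
    have := congrArg Matrix.det h
    rw [det_mul, det_one] at this
    exact eq_inv_of_mul_eq_one_right this
  obtain ⟨δ, hδ⟩ : ∃ δ, δ = B.det ^ q * B.det⁻¹ := ⟨_, rfl⟩
  have hδ1 : δ * δ ^ q = 1 := by
    rw [hδ, mul_pow, inv_pow, pow_q_pow_q hF]
    field_simp
  let T : VV m F →ₗ[F] VV m F := LinearMap.prodMap (toLin' B)
    (LinearMap.prodMap (δ • (LinearMap.id : F →ₗ[F] F)) (toLin' (B'.map (fun x => x ^ q))ᵀ))
  have hT : ∀ z, T z = (B *ᵥ z.1, δ * z.2.1, (B'.map (fun x => x ^ q))ᵀ *ᵥ z.2.2) := by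
    intro z
    rfl
  have hdot : ∀ w f : Fin m → F, (B *ᵥ w) ⬝ᵥ sg q ((B'.map (fun x => x ^ q))ᵀ *ᵥ f) = w ⬝ᵥ sg q f := by
    intro w f
    have e1 : ((B'.map (fun x => x ^ q))ᵀ).map (fun x => x ^ q) = B'ᵀ := by
      ext i j
      simp only [Matrix.map_apply, Matrix.transpose_apply, pow_q_pow_q hF]
    rw [sg_mulVec hF, e1, mulVec_transpose, dotProduct_comm, ← dotProduct_mulVec, mulVec_mulVec, h',
      one_mulVec, dotProduct_comm]
  have hdetT : LinearMap.det (LinearMap.prodMap (toLin' B) (LinearMap.prodMap (δ • (LinearMap.id : F →ₗ[F] F))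
      (toLin' (B'.map (fun x => x ^ q))ᵀ))) = 1 := by
    rw [LinearMap.det_prodMap, LinearMap.det_prodMap, LinearMap.det_toLin', LinearMap.det_toLin',
      det_transpose, det_map_q hF, hd1, LinearMap.det_smul, LinearMap.det_id, Module.finrank_self, pow_one,
      mul_one, hδ, inv_pow]
    field_simp
  obtain ⟨g, hg⟩ := exists_ac he T hdetT (by
    intro x y
    rw [hT, hT]
    simp only [HH]
    rw [hdot, ← dot_sg_pow hF (B *ᵥ y.1), hdot, dot_sg_pow hF, mul_pow]
    linear_combination (x.2.1 * y.2.1 ^ q) * hδ1)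
  refine ⟨g, fun z => ?_⟩
  rw [hg, hT, hδ]

include hF in
theorem Mi_map_q : (SpGen.Mi F m).map (fun x => x ^ q) = SpGen.Mi F m := by
  ext i j
  simp only [Matrix.map_apply, SpGen.Mi]
  by_cases h : (i : ℕ) ≤ j
  · rw [if_pos h, ← pow_mul, mul_comm, pow_mul, neg_pow_q hF, one_pow]
  · rw [if_neg h, zero_pow_q hF]

include hF he in
/-- the regular unipotent element -/
theorem exists_u0 (hm : 0 < m) {s : F} (hs : s + s ^ q = -1) : ∃ g : Cfsg.SU n F q, ∀ z, ac e g z =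
    (Um F m *ᵥ (z.1 + (-z.2.1 + s * z.2.2 ⟨m - 1, by omega⟩) • Pi.single (⟨m - 1, by omega⟩ : Fin m) 1),
      z.2.1 + z.2.2 ⟨m - 1, by omega⟩, (SpGen.Mi F m)ᵀ *ᵥ z.2.2) := by
  obtain ⟨l, hl⟩ : ∃ l : Fin m, l = ⟨m - 1, by omega⟩ := ⟨_, rfl⟩
  rw [← hl]
  obtain ⟨g1, hg1⟩ := exists_levi hF he (SpGen.Um_mul_Mi (F := F) (n := m))
  have hsl : sg q (Pi.single l 1 : Fin m → F) = Pi.single l 1 := by
    ext j
    by_cases h : j = l
    · subst h; simp [sg]
    · simp [sg, Pi.single_apply, h, zero_pow_q hF]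
  obtain ⟨g2, hg2⟩ := exists_eich (n := n) hF (e (Pi.single l 1, (0 : F), (0 : Fin m → F)))
    (e ((0 : Fin m → F), (1 : F), (0 : Fin m → F))) s
    (by rw [← he, HH_w _ _ hF, zero_dotProduct])
    (by rw [← he, w_HH, sg_zero hF, dotProduct_zero])
    (by rw [← he, hs]; simp [HH, sg_zero hF])
  refine ⟨g1 * g2, fun z => ?_⟩
  have e2 : ac e g2 z = (z.1 + (-z.2.1 + s * z.2.2 l) • Pi.single l 1, z.2.1 + z.2.2 l, z.2.2) := by
    rw [ac, hg2, map_add, map_sub, map_add, LinearEquiv.symm_apply_apply, map_smul, map_smul, map_smul,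
      LinearEquiv.symm_apply_apply, LinearEquiv.symm_apply_apply, ← he, ← he, HH_w _ _ hF, hsl,
      dotProduct_single, mul_one]
    have e3 : HH q z ((0 : Fin m → F), (1 : F), (0 : Fin m → F)) = z.2.1 := by
      simp [HH, sg_zero hF]
    rw [e3]
    refine Prod.ext ?_ (Prod.ext ?_ ?_)
    · simp only [Prod.fst_add, Prod.fst_sub, Prod.smul_fst]
      module
    · simp
    · simp
  rw [ac_mul, e2, hg1, Mi_map_q hF]
  have hd : (Um F m).det = 1 := Um_det
  rw [hd]
  simp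

include hF he in
/-- the swap -/
theorem exists_J : ∃ (g : Cfsg.SU n F q) (ε : F), ∀ z, ac e g z = (z.2.2, ε * z.2.1, z.1) := by
  let T : VV m F →ₗ[F] VV m F :=
    { toFun := fun z => (z.2.2, z.2.1, z.1)
      map_add' := fun x y => rfl
      map_smul' := fun c x => rfl }
  have hT2 : T ∘ₗ T = LinearMap.id := by
    apply LinearMap.ext
    intro z
    rfl
  obtain ⟨ε, hε⟩ : ∃ ε, ε = LinearMap.det T := ⟨_, rfl⟩
  have hε2 : ε * ε = 1 := by
    rw [hε, ← LinearMap.det_comp, hT2, LinearMap.det_id]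
  have hεq : ε * ε ^ q = 1 := by
    rcases mul_self_eq_one_iff.mp hε2 with h | h
    · rw [h, one_pow, one_mul]
    · rw [h, neg_pow_q hF, one_pow]; ring
  let S : VV m F →ₗ[F] VV m F := LinearMap.prodMap LinearMap.id
    (LinearMap.prodMap (ε • (LinearMap.id : F →ₗ[F] F)) LinearMap.id)
  have hST : ∀ z, (S ∘ₗ T) z = (z.2.2, ε * z.2.1, z.1) := by
    intro z
    rfl
  have hdetS : LinearMap.det (LinearMap.prodMap (LinearMap.id : (Fin m → F) →ₗ[F] (Fin m → F))
      (LinearMap.prodMap (ε • (LinearMap.id : F →ₗ[F] F)) (LinearMap.id : (Fin m → F) →ₗ[F] (Fin m → F)))) = ε := by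
    rw [LinearMap.det_prodMap, LinearMap.det_prodMap, LinearMap.det_id, LinearMap.det_smul, LinearMap.det_id,
      Module.finrank_self]
    ring
  obtain ⟨g, hg⟩ := exists_ac he (S ∘ₗ T) (by
    rw [LinearMap.det_comp, ← hε]
    have : LinearMap.det S = ε := hdetS
    rw [this, hε2]) (by
    intro x y
    rw [hST, hST]
    simp only [HH, mul_pow]
    linear_combination (x.2.1 * y.2.1 ^ q) * hεq)
  exact ⟨g, ε, fun z => by rw [hg, hST]⟩

/-- a criterion for regular nilpotency -/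
theorem nil_crit {V : Type*} [Zero V] (N : V → V) (cd : V → ℕ → F) (L : ℕ) (hc0 : cd 0 0 = 0)
    (h0 : ∀ z, (∀ i, i < L → cd z i = 0) → z = 0)
    (h1 : ∀ z k, (∀ i, k + 1 ≤ i → i < L → cd z i = 0) → ∀ i, k ≤ i → i < L → cd (N z) i = 0)
    (h2 : ∀ z k, k + 1 < L → (∀ i, k + 2 ≤ i → i < L → cd z i = 0) → cd z (k + 1) ≠ 0 → cd (N z) k ≠ 0) :
    (∀ z, N^[L] z = 0) ∧ ∀ z, cd z (L - 1) ≠ 0 → N^[L - 1] z ≠ 0 := by
  have key : ∀ j, j ≤ L → ∀ z, ∀ i, L - j ≤ i → i < L → cd (N^[j] z) i = 0 := by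
    intro j
    induction j with
    | zero => intro _ z i h3 h4; omega
    | succ j ih =>
      intro hj z
      rw [Function.iterate_succ_apply']
      apply h1
      intro i h3 h4
      exact ih (by omega) z i (by omega) h4
  have key2 : ∀ z, cd z (L - 1) ≠ 0 → ∀ j, j ≤ L - 1 → cd (N^[j] z) (L - 1 - j) ≠ 0 := by
    intro z hz j
    induction j with
    | zero => intro _; exact hz
    | succ j ih =>
      intro hj
      rw [Function.iterate_succ_apply']
      apply h2 _ _ (by omega)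
      · intro i h3 h4
        exact key j (by omega) z i (by omega) h4
      · have e1 : L - 1 - (j + 1) + 1 = L - 1 - j := by omega
        rw [e1]
        exact ih (by omega)
  refine ⟨fun z => h0 _ fun i hi => key L le_rfl z i (by omega) hi, fun z hz => ?_⟩
  have h3 := key2 z hz (L - 1) le_rfl
  rw [Nat.sub_self] at h3
  intro h4
  rw [h4, hc0] at h3
  exact h3 rfl

/-- transfer of powers of `u - 1` -/
theorem pow_sub_one (u : Cfsg.SU n F q) (k : ℕ) (z : VV m F) :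
    ((((u : Matrix.SpecialLinearGroup (Fin n) F) : Matrix (Fin n) (Fin n) F) - 1) ^ k) *ᵥ (e z) =
      e ((fun z => ac e u z - z)^[k] z) := by
  induction k with
  | zero => rw [pow_zero, Matrix.one_mulVec]; rfl
  | succ k ih =>
    rw [pow_succ', ← mulVec_mulVec, ih, Function.iterate_succ_apply', sub_mulVec, one_mulVec, map_sub]
    congr 1
    rw [ac, LinearEquiv.apply_symm_apply]
    rfl

theorem Mi_sum (f : Fin m → F) (j : Fin m) (h : ∀ i : Fin m, (i : ℕ) < j → f i = 0) :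
    ((SpGen.Mi F m)ᵀ *ᵥ f) j = f j := by
  rw [mulVec, dotProduct, Finset.sum_eq_single j]
  · simp [SpGen.Mi]
  · intro i _ hi
    rw [Matrix.transpose_apply, SpGen.Mi]
    by_cases h2 : (i : ℕ) ≤ j
    · have h3 : (i : ℕ) < j := lt_of_le_of_ne h2 fun h' => hi (Fin.ext h')
      rw [h i h3, mul_zero]
    · rw [if_neg h2, zero_mul]
  · simp

theorem Mi_rec (f : Fin m → F) (i j : Fin m) (hij : (j : ℕ) = i + 1) :
    ((SpGen.Mi F m)ᵀ *ᵥ f) j - f j = -((SpGen.Mi F m)ᵀ *ᵥ f) i := by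
  have h1 : (Um F m)ᵀ *ᵥ ((SpGen.Mi F m)ᵀ *ᵥ f) = f := by
    rw [mulVec_mulVec, SpGen.UmT_mul_MiT, one_mulVec]
  have h2 := congrFun h1 j
  have h3 : ((Um F m)ᵀ *ᵥ ((SpGen.Mi F m)ᵀ *ᵥ f)) j = ((SpGen.Mi F m)ᵀ *ᵥ f) j + ((SpGen.Mi F m)ᵀ *ᵥ f) i := by
    generalize (SpGen.Mi F m)ᵀ *ᵥ f = y
    rw [mulVec_transpose]
    exact Cfsg.Agent.H42.CycGen.vecMul_Um_succ y i j hij
  rw [h3] at h2
  rw [← h2]
  ring

theorem Mi_zero (f : Fin m → F) (j : Fin m) (hj : (j : ℕ) = 0) :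
    ((SpGen.Mi F m)ᵀ *ᵥ f) j = f j := Mi_sum f j fun i hi => by omega

end Cfsg.Agent.H42.SuGen
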