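import Mathlib
import Cfsg.Agent.H42.SuGen5

/-!
Generation of `SU_n(q)`, `n` odd: regularity, assembly of the case `n ≥ 5`.
-/

set_option autoImplicit false

namespace Cfsg.Agent.H42.SuGen

open Matrix Cfsg.Agent.H42.Herm Cfsg.Agent.Uni Cfsg.Agent.H42.ThreeUnip

section lin

variable {F : Type*} [Field F] {m : ℕ}

theorem Um_sub_succ (x : Fin m → F) (i j : Fin m) (hij : (j : ℕ) = i + 1) : (Um F m *ᵥ x) i = x i + x j := by
  rw [mulVec, dotProduct, Finset.sum_eq_add i j (by intro h; rw [h] at hij; omega)]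
  · simp [Um, hij]
  · intro l _ hl
    simp only [Um, hl.1, if_false]
    rw [if_neg, zero_mul]
    intro h
    exact hl.2 (Fin.ext (by omega))
  · simp
  · simp

theorem Um_sub_last (x : Fin m → F) (i : Fin m) (hi : (i : ℕ) + 1 = m) : (Um F m *ᵥ x) i = x i := by
  rw [mulVec, dotProduct, Finset.sum_eq_single i]
  · simp [Um]
  · intro l _ hl
    simp only [Um, hl, if_false]
    rw [if_neg (by omega), zero_mul]
  · simp

/-- coordinates -/
def cd (z : VV m F) (i : ℕ) : F :=
  if h : i < m then z.1 ⟨i, h⟩ else if i = m then z.2.1 else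
    if h : i ≤ 2 * m ∧ m < i then z.2.2 ⟨2 * m - i, by omega⟩ else 0

theorem cd_lt (z : VV m F) (i : Fin m) : cd z i = z.1 i := by
  rw [cd, dif_pos i.2]

theorem cd_mid (z : VV m F) : cd z m = z.2.1 := by
  rw [cd, dif_neg (lt_irrefl m), if_pos rfl]

theorem cd_gt (z : VV m F) (j : Fin m) : cd z (2 * m - j) = z.2.2 j := by
  have := j.2
  rw [cd, dif_neg (by omega), if_neg (by omega), dif_pos (by omega)]
  exact congrArg z.2.2 (Fin.ext (by show 2 * m - (2 * m - (j : ℕ)) = j; omega))

/-- regular nilpotency of the map of `exists_u0` -/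
theorem reg_crit [Fintype F] (hm : 0 < m) (s : F) (U : VV m F → VV m F) (hU : ∀ z, U z =
    (Um F m *ᵥ (z.1 + (-z.2.1 + s * z.2.2 ⟨m - 1, by omega⟩) • Pi.single (⟨m - 1, by omega⟩ : Fin m) 1),
      z.2.1 + z.2.2 ⟨m - 1, by omega⟩, (SpGen.Mi F m)ᵀ *ᵥ z.2.2)) :
    (∀ z : VV m F, (fun z => U z - z)^[2 * m + 1] z = 0) ∧
      ∀ z : VV m F, z.2.2 ⟨0, hm⟩ ≠ 0 → (fun z => U z - z)^[2 * m] z ≠ 0 := by
  obtain ⟨l, hl⟩ : ∃ l : Fin m, l = ⟨m - 1, by omega⟩ := ⟨_, rfl⟩
  rw [← hl] at hU
  have hlv : (l : ℕ) + 1 = m := by rw [hl]; simp; omega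
  have hfl : ∀ z : VV m F, z.2.2 l = cd z (m + 1) := by
    intro z
    rw [← cd_gt z l]
    congr 1
    omega
  have c1 : ∀ (z : VV m F) (i j : Fin m), (j : ℕ) = i + 1 → cd (U z - z) i = cd z j +
      (-cd z m + s * cd z (m + 1)) * (Pi.single l 1 : Fin m → F) j := by
    intro z i j hij
    rw [cd_lt, hU, Prod.fst_sub, Pi.sub_apply]
    show (Um F m *ᵥ _) i - _ = _
    rw [Um_sub_succ _ i j hij, Pi.add_apply, Pi.add_apply, Pi.smul_apply,
      Pi.smul_apply, ← hfl, cd_mid, cd_lt, Pi.single_apply, if_neg (by intro h; rw [h] at hij; have := j.2; omega)]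
    simp only [smul_eq_mul]
    ring
  have c2 : ∀ z : VV m F, cd (U z - z) l = -cd z m + s * cd z (m + 1) := by
    intro z
    rw [cd_lt, hU, Prod.fst_sub, Pi.sub_apply]
    show (Um F m *ᵥ _) l - _ = _
    rw [Um_sub_last _ l hlv, Pi.add_apply, Pi.smul_apply, ← hfl, cd_mid,
      Pi.single_eq_same]
    simp only [smul_eq_mul]
    ring
  have c3 : ∀ z : VV m F, cd (U z - z) m = cd z (m + 1) := by
    intro z
    rw [cd_mid, hU, ← hfl]
    simp
  have c4 : ∀ (z : VV m F) (i j : Fin m), (j : ℕ) = i + 1 → cd (U z - z) (2 * m - j) =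
      -((SpGen.Mi F m)ᵀ *ᵥ z.2.2) i := by
    intro z i j hij
    rw [cd_gt, hU]
    exact Mi_rec _ i j hij
  have c5 : ∀ (z : VV m F) (j : Fin m), (j : ℕ) = 0 → cd (U z - z) (2 * m - j) = 0 := by
    intro z j hj
    rw [cd_gt, hU]
    show ((SpGen.Mi F m)ᵀ *ᵥ z.2.2) j - z.2.2 j = 0
    rw [Mi_zero _ j hj, sub_self]
  have h := nil_crit (F := F) (fun z : VV m F => U z - z) cd (2 * m + 1) (by
      have := cd_lt (0 : VV m F) ⟨0, hm⟩
      simpa using this) (by
      intro z hz
      refine Prod.ext ?_ (Prod.ext ?_ ?_)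
      · ext i
        rw [← cd_lt]; exact hz i (by have := i.2; omega)
      · rw [← cd_mid]; exact hz m (by omega)
      · ext i
        rw [← cd_gt]; exact hz _ (by omega)) (by
      intro z k hz i hki hi
      show cd (U z - z) i = 0
      rcases Nat.lt_trichotomy i m with h1 | h1 | h1
      · by_cases h2 : i + 1 < m
        · have := c1 z ⟨i, h1⟩ ⟨i + 1, h2⟩ rfl
          simp only at this
          rw [this, hz (i + 1) (by omega) (by omega), hz m (by omega) (by omega), hz (m + 1) (by omega) (by omega)]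
          ring
        · have h3 : i = l := by omega
          rw [h3, c2, hz m (by omega) (by omega), hz (m + 1) (by omega) (by omega)]
          ring
      · rw [h1, c3]
        exact hz (m + 1) (by omega) (by omega)
      · obtain ⟨j, hj⟩ : ∃ j : Fin m, i = 2 * m - j := ⟨⟨2 * m - i, by omega⟩, by simp; omega⟩
        have hj' := j.2
        rw [hj]
        by_cases h2 : (j : ℕ) = 0
        · exact c5 z j h2
        · rw [c4 z ⟨j - 1, by omega⟩ j (by simp; omega), Mi_sum, ← cd_gt,
            hz _ (by show k + 1 ≤ 2 * m - ((j : ℕ) - 1); omega)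
              (by show 2 * m - ((j : ℕ) - 1) < 2 * m + 1; omega), neg_zero]
          intro i' hi'
          simp only at hi'
          rw [← cd_gt]
          exact hz _ (by omega) (by omega)) (by
      intro z k hk hz hzk
      show cd (U z - z) k ≠ 0
      rcases Nat.lt_trichotomy k m with h1 | h1 | h1
      · by_cases h2 : k + 1 < m
        · have := c1 z ⟨k, h1⟩ ⟨k + 1, h2⟩ rfl
          simp only at this
          rw [this, hz m (by omega) (by omega), hz (m + 1) (by omega) (by omega)]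
          rw [neg_zero, mul_zero, add_zero, zero_mul, add_zero]
          exact hzk
        · have h3 : k = l := by omega
          rw [h3, c2, hz (m + 1) (by omega) (by omega), mul_zero, add_zero]
          have h4 : k + 1 = m := by omega
          rw [h4] at hzk
          exact neg_ne_zero.mpr hzk
      · rw [h1, c3]
        rw [h1] at hzk
        exact hzk
      · obtain ⟨j, hj⟩ : ∃ j : Fin m, k = 2 * m - j := ⟨⟨2 * m - k, by omega⟩, by simp; omega⟩
        have hj' := j.2
        rw [hj]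
        have h2 : (j : ℕ) ≠ 0 := by omega
        rw [c4 z ⟨j - 1, by omega⟩ j (by simp; omega), Mi_sum, ← cd_gt]
        · apply neg_ne_zero.mpr
          have h3 : 2 * m - ((⟨j - 1, by omega⟩ : Fin m) : ℕ) = k + 1 := by simp; omega
          rw [h3]
          exact hzk
        · intro i' hi'
          simp only at hi'
          rw [← cd_gt]
          exact hz _ (by omega) (by omega))
  refine ⟨h.1, fun z hz => h.2 z ?_⟩
  have h3 := cd_gt z ⟨0, hm⟩
  have h4 : 2 * m + 1 - 1 = 2 * m - ((⟨0, hm⟩ : Fin m) : ℕ) := by simp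
  rw [h4, h3]
  exact hz

end lin

variable {F : Type*} [Field F] [Fintype F] {q m n : ℕ} {e : VV m F ≃ₗ[F] (Fin n → F)}
  (hF : Fintype.card F = q ^ 2) (he : ∀ x y, HH q x y = Cfsg.hermForm n F q (e x) (e y))

/-- regular unipotent element of `SU` -/
def RU (u : Cfsg.SU n F q) : Prop :=
  IsNilpotent (((u : Matrix.SpecialLinearGroup (Fin n) F) : Matrix (Fin n) (Fin n) F) - 1) ∧
    (((u : Matrix.SpecialLinearGroup (Fin n) F) : Matrix (Fin n) (Fin n) F) - 1) ^ (n - 1) ≠ 0

theorem RU.conj {u : Cfsg.SU n F q} (h : RU u) (g : Cfsg.SU n F q) : RU (g * u * g⁻¹) := by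
  have h1 := Cfsg.Agent.H42.CycGen.sig_reg (CycGen.mul_inv_coe (g : Matrix.SpecialLinearGroup (Fin n) F)) h
  exact h1

theorem RU_u0 (hm : 0 < m) (hn : n = 2 * m + 1) (s : F) (u : Cfsg.SU n F q) (hU : ∀ z, ac e u z =
    (Um F m *ᵥ (z.1 + (-z.2.1 + s * z.2.2 ⟨m - 1, by omega⟩) • Pi.single (⟨m - 1, by omega⟩ : Fin m) 1),
      z.2.1 + z.2.2 ⟨m - 1, by omega⟩, (SpGen.Mi F m)ᵀ *ᵥ z.2.2)) : RU u := by
  obtain ⟨h1, h2⟩ := reg_crit hm s (ac e u) hU
  refine ⟨⟨2 * m + 1, ?_⟩, ?_⟩
  · apply Matrix.ext_of_mulVec_single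
    intro i
    obtain ⟨z, hz⟩ := e.surjective (Pi.single i 1)
    rw [← hz, pow_sub_one, h1, map_zero, Matrix.zero_mulVec]
  · intro h3
    have h4 := h2 ((0 : Fin m → F), (0 : F), (Pi.single ⟨0, hm⟩ 1 : Fin m → F)) (by simp)
    apply h4
    apply e.injective
    rw [← pow_sub_one, map_zero]
    have : n - 1 = 2 * m := by omega
    rw [← this, h3, Matrix.zero_mulVec]

/-- regular unipotent matrices are conjugate to the Jordan block -/
theorem exists_conj_Um [DecidableEq F] (hm : 0 < m) {U : Matrix (Fin m) (Fin m) F} (h1 : IsNilpotent (U - 1))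
    (h2 : (U - 1) ^ (m - 1) ≠ 0) : ∃ B B' : Matrix (Fin m) (Fin m) F, B * B' = 1 ∧ U = B * Um F m * B' := by
  have h0 : (U - 1) ^ m = 0 := by
    obtain ⟨k, hk⟩ := h1
    have h3 : IsNilpotent (U - 1) := ⟨k, hk⟩
    have h4 := Matrix.isNilpotent_charpoly_sub_pow_of_isNilpotent h3
    have h5 := h4.eq_zero
    rw [sub_eq_zero] at h5
    have h6 := Matrix.aeval_self_charpoly (U - 1)
    rw [h5] at h6
    simpa using h6
  obtain ⟨x, hx⟩ : ∃ x, (U - 1) ^ (m - 1) *ᵥ x ≠ 0 := by
    by_contra hcon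
    push Not at hcon
    apply h2
    apply Matrix.ext_of_mulVec_single
    intro i
    rw [hcon, Matrix.zero_mulVec]
  let B : Matrix (Fin m) (Fin m) F := Matrix.of fun i j => ((U - 1) ^ (m - 1 - (j : ℕ)) *ᵥ x) i
  have hB : ∀ j, B *ᵥ (Pi.single j 1) = (U - 1) ^ (m - 1 - (j : ℕ)) *ᵥ x := by
    intro j
    rw [mulVec_single_one]
    ext i
    rfl
  have hUB : U * B = B * Um F m := by
    apply Matrix.ext_of_mulVec_single
    intro j
    rw [← mulVec_mulVec, ← mulVec_mulVec, hB]
    have e1 : U *ᵥ ((U - 1) ^ (m - 1 - (j : ℕ)) *ᵥ x) = (U - 1) ^ (m - 1 - (j : ℕ)) *ᵥ x +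
        (U - 1) ^ (m - 1 - (j : ℕ) + 1) *ᵥ x := by
      rw [pow_succ', ← mulVec_mulVec, sub_mulVec, one_mulVec]; abel
    rw [e1]
    by_cases hj : (j : ℕ) = 0
    · rw [SpGen.Um_single_zero j hj, hB, hj]
      have : m - 1 - 0 + 1 = m := by omega
      rw [this, h0, zero_mulVec, add_zero]
    · have hj2 := j.2
      rw [SpGen.Um_single_succ j ⟨j - 1, by omega⟩ (by simp; omega), mulVec_add, hB, hB]
      have : m - 1 - (j : ℕ) + 1 = m - 1 - (j - 1) := by omega
      rw [this]
  have hker : ∀ y, B *ᵥ y = 0 → y = 0 := by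
    intro y hy
    by_contra hy0
    have hinv : ∀ k : ℕ, B *ᵥ ((Um F m - 1) ^ k *ᵥ y) = 0 := by
      intro k
      induction k with
      | zero => rw [pow_zero, one_mulVec, hy]
      | succ k ih =>
        rw [pow_succ', ← mulVec_mulVec, sub_mulVec, one_mulVec, mulVec_sub, mulVec_mulVec _ B, ← hUB,
          ← mulVec_mulVec, ih, mulVec_zero, sub_zero]
    -- largest non-zero index
    obtain ⟨k, hk, hmax⟩ : ∃ k : Fin m, y k ≠ 0 ∧ ∀ j : Fin m, k < j → y j = 0 := by
      have hne : (Finset.univ.filter fun k => y k ≠ 0).Nonempty := by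
        obtain ⟨i, hi⟩ := Function.ne_iff.mp hy0
        exact ⟨i, by simpa using hi⟩
      refine ⟨(Finset.univ.filter fun k => y k ≠ 0).max' hne, ?_, ?_⟩
      · have := Finset.max'_mem _ hne
        simpa using this
      · intro j hj
        by_contra h
        have := Finset.le_max' (Finset.univ.filter fun k => y k ≠ 0) j (by simpa using h)
        exact absurd hj (not_lt.mpr this)
    have e1 : (Um F m - 1) ^ (k : ℕ) *ᵥ y = y k • Pi.single ⟨0, hm⟩ 1 := by
      ext i
      rw [mulVec, dotProduct, Pi.smul_apply, Pi.single_apply, smul_eq_mul]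
      by_cases hi : i = ⟨0, hm⟩
      · rw [if_pos hi, mul_one, Finset.sum_eq_single k]
        · rw [CycGen.N_pow, if_pos (by rw [hi]; simp), one_mul]
        · intro j _ hj
          rw [CycGen.N_pow, if_neg, zero_mul]
          intro h
          apply hj
          apply Fin.ext
          rw [hi] at h
          simpa using h
        · simp
      · rw [if_neg hi, mul_zero]
        apply Finset.sum_eq_zero
        intro j _
        rw [CycGen.N_pow]
        by_cases hj : (j : ℕ) = i + k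
        · rw [if_pos hj, hmax j, mul_zero]
          have : (i : ℕ) ≠ 0 := fun h => hi (Fin.ext h)
          exact Fin.lt_def.mpr (by omega)
        · rw [if_neg hj, zero_mul]
    have e2 := hinv k
    rw [e1, mulVec_smul, hB] at e2
    rcases smul_eq_zero.mp e2 with h | h
    · exact hk h
    · apply hx
      simpa using h
  have hunit : IsUnit B := by
    rw [← Matrix.mulVec_injective_iff_isUnit]
    intro a b hab
    have := hker (a - b) (by rw [mulVec_sub]; exact sub_eq_zero.mpr hab)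
    exact sub_eq_zero.mp this
  have hdet : IsUnit B.det := (Matrix.isUnit_iff_isUnit_det B).mp hunit
  refine ⟨B, B⁻¹, Matrix.mul_nonsing_inv B hdet, ?_⟩
  rw [← hUB, Matrix.mul_assoc, Matrix.mul_nonsing_inv B hdet, Matrix.mul_one]

end Cfsg.Agent.H42.SuGen
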