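import Mathlib
import Cfsg.Agent.H42.SuGen6
import Cfsg.Agent.S2278
import Cfsg.Agent.S2279
import Cfsg.Agent.S0801

/-!
Generation of `SU_n(q)`, `n ≥ 5` odd, by three conjugate regular unipotent elements.
-/

set_option autoImplicit false

namespace Cfsg.Agent.H42.SuGen

open Matrix Cfsg.Agent.H42.Herm Cfsg.Agent.Uni Cfsg.Agent.H42.ThreeUnip

/-- the conclusion -/
def Three (n : ℕ) (F : Type*) [Field F] (q : ℕ) : Prop :=
  ∃ u g h : Cfsg.SU n F q, RU u ∧ Subgroup.closure ({u, g * u * g⁻¹, h * u * h⁻¹} : Set (Cfsg.SU n F q)) = ⊤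

section lin

variable {F : Type*} [Field F] [Fintype F] {m : ℕ}

/-- irreducibility over the prime field -/
def Irr (U V : Matrix (Fin m) (Fin m) F) : Prop :=
  ∀ B : AddSubgroup (Fin m → F), (∀ x ∈ B, U *ᵥ x ∈ B) → (∀ x ∈ B, V *ᵥ x ∈ B) → (∃ x ∈ B, x ≠ 0) → B = ⊤

theorem irr_top (hm : 2 ≤ m) {U V : SpecialLinearGroup (Fin m) F}
    (h : Subgroup.closure ({U, V} : Set (SpecialLinearGroup (Fin m) F)) = ⊤) :
    Irr (U : Matrix (Fin m) (Fin m) F) (V : Matrix (Fin m) (Fin m) F) := by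
  classical
  intro B hU hV hB0
  haveI : Nontrivial (Fin m) := Fin.nontrivial_iff_two_le.mpr hm
  have hall : ∀ A : SpecialLinearGroup (Fin m) F, ∀ x ∈ B, (A : Matrix (Fin m) (Fin m) F) *ᵥ x ∈ B := by
    intro A
    have hA : A ∈ Subgroup.closure ({U, V} : Set (SpecialLinearGroup (Fin m) F)) := by rw [h]; trivial
    induction hA using Subgroup.closure_induction with
    | mem y hy =>
      rcases hy with rfl | rfl
      · exact hU
      · exact hV
    | one =>
      intro x hx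
      have : ((1 : SpecialLinearGroup (Fin m) F) : Matrix (Fin m) (Fin m) F) *ᵥ x = x := one_mulVec x
      rw [this]; exact hx
    | mul y z _ _ hy hz =>
      intro x hx
      rw [mulVec_coe_mul]
      exact hy _ (hz _ hx)
    | inv y _ hy =>
      have hpow : ∀ k : ℕ, ∀ x ∈ B, ((y ^ k : SpecialLinearGroup (Fin m) F) : Matrix (Fin m) (Fin m) F) *ᵥ x ∈ B := by
        intro k
        induction k with
        | zero =>
          intro x hx
          have : ((y ^ 0 : SpecialLinearGroup (Fin m) F) : Matrix (Fin m) (Fin m) F) *ᵥ x = x := by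
            rw [pow_zero]; exact one_mulVec x
          rw [this]; exact hx
        | succ k ih =>
          intro x hx
          rw [pow_succ', mulVec_coe_mul]
          exact hy _ (ih _ hx)
      have hinv : y⁻¹ = y ^ (orderOf y - 1) := by
        symm
        apply eq_inv_of_mul_eq_one_left
        rw [← pow_succ, Nat.sub_add_cancel (orderOf_pos y), pow_orderOf_eq_one]
      rw [hinv]
      exact hpow _
  obtain ⟨x, hx, hx0⟩ := hB0
  obtain ⟨j, hj⟩ := Function.ne_iff.mp hx0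
  have hj' : x j ≠ 0 := hj
  have htr : ∀ (i j : Fin m) (hij : i ≠ j) (t : F), ∀ x ∈ B, (Pi.single i (t * x j) : Fin m → F) ∈ B := by
    intro i j hij t x hx
    have h1 := hall (SpecialLinearGroup.transvection hij t) x hx
    rw [Cfsg.Agent.ClassBase.transvection_mulVec_apply] at h1
    have h2 := B.sub_mem h1 hx
    rwa [add_sub_cancel_left] at h2
  have hne : ∀ i : Fin m, i ≠ j → ∀ c : F, (Pi.single i c : Fin m → F) ∈ B := by
    intro i hij c
    have := htr i j hij (c / x j) x hx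
    rwa [div_mul_cancel₀ _ hj'] at this
  have hjj : ∀ c : F, (Pi.single j c : Fin m → F) ∈ B := by
    intro c
    obtain ⟨i, hi⟩ := exists_ne j
    have := htr j i hi.symm c _ (hne i hi 1)
    rwa [Pi.single_eq_same, mul_one] at this
  rw [eq_top_iff]
  intro y _
  rw [← Finset.univ_sum_single y]
  apply B.sum_mem
  intro i _
  by_cases hi : i = j
  · rw [hi]; exact hjj _
  · exact hne i hi _

theorem irr_two {θ : F} (hθ0 : θ ≠ 0) (hθ : ∀ x : F, x ≠ 0 → ∃ k : ℕ, θ ^ k = x) :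
    Irr (!![1, θ; 0, 1] : Matrix (Fin 2) (Fin 2) F) !![1, 0; 1, 1] := by
  intro B hU hV hB0
  have h1 : ∀ x ∈ B, ![θ * x 1, 0] ∈ B := by
    intro x hx
    have := B.sub_mem (hU x hx) hx
    have e : !![1, θ; 0, 1] *ᵥ x - x = ![θ * x 1, 0] := by
      ext i; fin_cases i <;> simp [mulVec, dotProduct, Fin.sum_univ_two]
    rwa [e] at this
  have h2 : ∀ x ∈ B, ![0, x 0] ∈ B := by
    intro x hx
    have := B.sub_mem (hV x hx) hx
    have e : !![1, 0; 1, 1] *ᵥ x - x = ![0, x 0] := by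
      ext i; fin_cases i <;> simp [mulVec, dotProduct, Fin.sum_univ_two]
    rwa [e] at this
  obtain ⟨β, hβ0, hβ⟩ : ∃ β : F, β ≠ 0 ∧ (![β, 0] : Fin 2 → F) ∈ B := by
    obtain ⟨x, hx, hx0⟩ := hB0
    by_cases hx1 : x 1 = 0
    · have hx2 : x 0 ≠ 0 := by
        intro h
        apply hx0
        ext i; fin_cases i
        · exact h
        · exact hx1
      refine ⟨x 0, hx2, ?_⟩
      have : x = ![x 0, 0] := by
        ext i; fin_cases i
        · rfl
        · exact hx1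
      rw [← this]; exact hx
    · exact ⟨θ * x 1, mul_ne_zero hθ0 hx1, h1 x hx⟩
  let S : AddSubgroup F :=
    { carrier := {c | (![c * β, 0] : Fin 2 → F) ∈ B}
      zero_mem' := by
        show (![0 * β, 0] : Fin 2 → F) ∈ B
        have : (![0 * β, 0] : Fin 2 → F) = 0 := by ext i; fin_cases i <;> simp
        rw [this]; exact B.zero_mem
      add_mem' := by
        intro a b ha hb
        show (![(a + b) * β, 0] : Fin 2 → F) ∈ B
        have : (![(a + b) * β, 0] : Fin 2 → F) = ![a * β, 0] + ![b * β, 0] := by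
          ext i; fin_cases i <;> simp [add_mul]
        rw [this]; exact B.add_mem ha hb
      neg_mem' := by
        intro a ha
        show (![(-a) * β, 0] : Fin 2 → F) ∈ B
        have : (![(-a) * β, 0] : Fin 2 → F) = -![a * β, 0] := by
          ext i; fin_cases i <;> simp
        rw [this]; exact B.neg_mem ha }
  have hS : S = ⊤ := by
    apply CycGen.S_pow hθ S
    · show (![1 * β, 0] : Fin 2 → F) ∈ B
      rw [one_mul]; exact hβ
    · intro c hc
      show (![(θ * c) * β, 0] : Fin 2 → F) ∈ B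
      have h3 := h1 _ (h2 _ hc)
      simpa [mul_assoc] using h3
  have hc : ∀ c : F, (![c, 0] : Fin 2 → F) ∈ B := by
    intro c
    have : c * β⁻¹ ∈ S := by rw [hS]; trivial
    have h3 : (![c * β⁻¹ * β, 0] : Fin 2 → F) ∈ B := this
    rwa [inv_mul_cancel_right₀ hβ0] at h3
  rw [eq_top_iff]
  intro x _
  have : x = ![x 0, 0] + ![0, x 1] := by
    ext i; fin_cases i <;> simp
  rw [this]
  refine B.add_mem (hc _) ?_
  have := h2 _ (hc (x 1))
  simpa using this

end lin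

variable {F : Type*} [Field F] [Fintype F] {q m n : ℕ} {e : VV m F ≃ₗ[F] (Fin n → F)}
  (hF : Fintype.card F = q ^ 2) (he : ∀ x y, HH q x y = Cfsg.hermForm n F q (e x) (e y))

theorem levi_inv {h : Cfsg.SU n F q} {B B' D : Matrix (Fin m) (Fin m) F} (hBB : B * B' = 1) {δ : F} (hδ : δ ≠ 0)
    (hh : ∀ z, ac e h z = (B *ᵥ z.1, δ * z.2.1, D *ᵥ z.2.2)) (w : Fin m → F) (a : F) :
    ac e h⁻¹ (w, a, (0 : Fin m → F)) = (B' *ᵥ w, δ⁻¹ * a, (0 : Fin m → F)) := by
  apply ac_inv_eq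
  rw [hh]
  simp only [mulVec_mulVec, hBB, one_mulVec, mul_inv_cancel_left₀ hδ, mulVec_zero]

theorem PP_levi {u h : Cfsg.SU n F q} {A B B' D : Matrix (Fin m) (Fin m) F} {b : Fin m → F} (hBB : B * B' = 1)
    {δ : F} (hδ : δ ≠ 0) (hh : ∀ z, ac e h z = (B *ᵥ z.1, δ * z.2.1, D *ᵥ z.2.2)) (hu : PP e u A b) :
    PP e (h * u * h⁻¹) (B * A * B') (δ⁻¹ • (B *ᵥ b)) := by
  intro w a
  rw [ac_mul, ac_mul, levi_inv hBB hδ hh, hu, hh]
  simp only [mulVec_zero]
  refine Prod.ext ?_ (Prod.ext ?_ rfl)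
  · simp only [mulVec_add, mulVec_smul, mulVec_mulVec, Matrix.mul_assoc, smul_smul]
    rw [mul_comm]
  · simp only [mul_inv_cancel_left₀ hδ]

include hF he in
/-- the assembly -/
theorem assemble (hm : 2 ≤ m) (hn : n = 2 * m + 1) (U V : SpecialLinearGroup (Fin m) F)
    (hU : IsNilpotent ((U : Matrix (Fin m) (Fin m) F) - 1) ∧ ((U : Matrix (Fin m) (Fin m) F) - 1) ^ (m - 1) ≠ 0)
    (hV : IsNilpotent ((V : Matrix (Fin m) (Fin m) F) - 1) ∧ ((V : Matrix (Fin m) (Fin m) F) - 1) ^ (m - 1) ≠ 0)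
    (hirr : Irr (U : Matrix (Fin m) (Fin m) F) (V : Matrix (Fin m) (Fin m) F))
    (hA1 : ∀ (G : Subgroup (Cfsg.SU n F q)) (u v : Cfsg.SU n F q) (bu bv : Fin m → F), u ∈ G → v ∈ G →
      PP e u (U : Matrix (Fin m) (Fin m) F) bu → PP e v (V : Matrix (Fin m) (Fin m) F) bv →
      (∀ d : Fin m → F, ac e u (d, (1 : F), (0 : Fin m → F)) ≠ (d, (1 : F), (0 : Fin m → F))) →
      ∃ g ∈ G, ∃ b, PP e g 1 b ∧ b ≠ 0) : Three n F q := by
  classical
  obtain ⟨l, hl⟩ : ∃ l : Fin m, l = ⟨m - 1, by omega⟩ := ⟨_, rfl⟩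
  have hlv : (l : ℕ) + 1 = m := by rw [hl]; simp; omega
  obtain ⟨s, hs⟩ := exists_trace_eq hF (c := (-1 : F)) (by rw [neg_pow_q hF, one_pow])
  have hs0 : s ≠ 0 := by
    rintro rfl
    rw [zero_pow_q hF, add_zero] at hs
    exact neg_ne_zero.mpr one_ne_zero hs.symm
  obtain ⟨u0, hu0⟩ := exists_u0 hF he (m := m) (by omega) hs
  have hreg := RU_u0 (by omega) hn s u0 hu0
  rw [← hl] at hu0
  have hPP0 : PP e u0 (Um F m) (-(Um F m *ᵥ Pi.single l 1)) := by
    intro w a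
    rw [hu0]
    refine Prod.ext ?_ (Prod.ext ?_ ?_)
    · simp only [mulVec_add, mulVec_smul, Pi.zero_apply, mul_zero, add_zero]
      module
    · simp
    · simp
  obtain ⟨B1, B1', hB1, hU1⟩ := exists_conj_Um (by omega) hU.1 hU.2
  obtain ⟨B2, B2', hB2, hV1⟩ := exists_conj_Um (by omega) hV.1 hV.2
  obtain ⟨h1, hh1⟩ := exists_levi hF he hB1
  obtain ⟨h2, hh2⟩ := exists_levi hF he hB2
  have hdet : ∀ {B B' : Matrix (Fin m) (Fin m) F}, B * B' = 1 → B.det ^ q * B.det⁻¹ ≠ 0 := by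
    intro B B' h
    have hd0 : B.det ≠ 0 := by
      intro h0
      have := congrArg Matrix.det h
      rw [det_mul, h0, zero_mul, det_one] at this
      exact zero_ne_one this
    exact mul_ne_zero (pow_ne_zero _ hd0) (inv_ne_zero hd0)
  obtain ⟨J, ε, hJ⟩ := exists_J (m := m) hF he
  have hPPu := PP_levi hB1 (hdet hB1) hh1 hPP0
  have hPPv := PP_levi hB2 (hdet hB2) hh2 hPP0
  rw [← hU1] at hPPu
  rw [← hV1] at hPPv
  obtain ⟨u, hu⟩ : ∃ u, u = h1 * u0 * h1⁻¹ := ⟨_, rfl⟩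
  obtain ⟨v, hv⟩ : ∃ v, v = h2 * u0 * h2⁻¹ := ⟨_, rfl⟩
  obtain ⟨k, hk⟩ : ∃ k, k = J * u0 * J⁻¹ := ⟨_, rfl⟩
  rw [← hu] at hPPu
  rw [← hv] at hPPv
  refine ⟨u, h2 * h1⁻¹, J * h1⁻¹, by rw [hu]; exact hreg.conj h1, ?_⟩
  have e1 : h2 * h1⁻¹ * u * (h2 * h1⁻¹)⁻¹ = v := by rw [hu, hv]; group
  have e2 : J * h1⁻¹ * u * (J * h1⁻¹)⁻¹ = k := by rw [hu, hk]; group
  rw [e1, e2]
  obtain ⟨G, hG⟩ : ∃ G, G = Subgroup.closure ({u, v, k} : Set (Cfsg.SU n F q)) := ⟨_, rfl⟩
  rw [← hG]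
  have huG : u ∈ G := by rw [hG]; exact Subgroup.subset_closure (by simp)
  have hvG : v ∈ G := by rw [hG]; exact Subgroup.subset_closure (by simp)
  have hkG : k ∈ G := by rw [hG]; exact Subgroup.subset_closure (by simp)
  have hfix : ∀ d : Fin m → F, ac e u (d, (1 : F), (0 : Fin m → F)) ≠ (d, (1 : F), (0 : Fin m → F)) := by
    intro d hd
    rw [hu, ac_mul, ac_mul, levi_inv hB1 (hdet hB1) hh1] at hd
    have h3 := ac_inv_eq e hd
    rw [levi_inv hB1 (hdet hB1) hh1, hPP0] at h3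
    have h4 := congrFun (congrArg Prod.fst h3) l
    simp only [Pi.add_apply, Pi.smul_apply, Pi.neg_apply] at h4
    rw [Um_sub_last _ l hlv, Um_sub_last _ l hlv, Pi.single_eq_same, mul_one] at h4
    have h5 : (B1.det ^ q * B1.det⁻¹)⁻¹ = 0 := by
      simp only [smul_eq_mul] at h4
      linear_combination h4
    exact inv_ne_zero (hdet hB1) h5
  refine partA hF he (by omega) huG hvG hkG hPPu hPPv hirr
    (hA1 G u v _ _ huG hvG hPPu hPPv hfix) ⟨Pi.single l 1, ?_⟩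
  have hJi : ac e J⁻¹ (Pi.single l 1, (0 : F), (0 : Fin m → F)) = ((0 : Fin m → F), (0 : F), Pi.single l 1) := by
    apply ac_inv_eq
    rw [hJ]
    simp
  rw [hk, ac_mul, ac_mul, hJi, hu0, hJ]
  intro h3
  have h4 := congrFun h3 l
  simp only at h4
  rw [Um_sub_last _ l hlv] at h4
  simp at h4
  exact hs0 h4

end Cfsg.Agent.H42.SuGen
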