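import Mathlib
import Cfsg.Agent.H42.SuGen7
import Cfsg.Agent.H42.CycGen9
import Cfsg.Agent.H42.SpGen6

/-!
Generation of `SU_n(q)`, `n ≥ 5` odd, by three conjugate regular unipotent elements: the three cases.
-/

set_option autoImplicit false

namespace Cfsg.Agent.H42.SuGen

open Matrix Cfsg.Agent.H42.Herm Cfsg.Agent.Uni Cfsg.Agent.H42.ThreeUnip

variable {F : Type*} [Field F] [Fintype F] {q m n : ℕ}

theorem card_ge_four (hF : Fintype.card F = q ^ 2) : 4 ≤ Nat.card F := by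
  have := two_le_q hF
  rw [Nat.card_eq_fintype_card, hF]
  nlinarith

theorem gen_facts (hF : Fintype.card F = q ^ 2) {θ : F} (hθ0 : θ ≠ 0)
    (hθ : ∀ x : F, x ≠ 0 → ∃ k : ℕ, θ ^ k = x) : θ ≠ 1 ∧ θ ^ 2 ≠ 1 := by
  have h1 := CycGen.order_gen hθ0 hθ
  have h2 := card_ge_four hF
  constructor
  · rintro rfl
    rw [orderOf_one] at h1
    omega
  · intro h
    have h3 := orderOf_dvd_of_pow_eq_one h
    have h4 := Nat.le_of_dvd (by omega) h3
    omega

/-- `SL_m` is generated by two regular unipotent elements -/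
theorem sl_two_gen (hm : 2 ≤ m) (h2 : m = 2 → (2 : F) ≠ 0) :
    ∃ U V : SpecialLinearGroup (Fin m) F,
      (IsNilpotent ((U : Matrix (Fin m) (Fin m) F) - 1) ∧ ((U : Matrix (Fin m) (Fin m) F) - 1) ^ (m - 1) ≠ 0) ∧
      (IsNilpotent ((V : Matrix (Fin m) (Fin m) F) - 1) ∧ ((V : Matrix (Fin m) (Fin m) F) - 1) ^ (m - 1) ≠ 0) ∧
      Subgroup.closure ({U, V} : Set (SpecialLinearGroup (Fin m) F)) = ⊤ := by
  rcases Nat.lt_trichotomy m 3 with h | h | h
  · have hm2 : m = 2 := by omega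
    subst hm2
    have h2' := h2 rfl
    obtain ⟨θ, hθ0, hθ⟩ := CycGen.exists_gen (F := F)
    have hord := CycGen.order_gen hθ0 hθ
    have hcl := SpGen.closure_gen hθ0 hθ
    have h9 : ¬ (Fintype.card F = 9 ∧ θ ^ 2 = -1) := by
      rintro ⟨h9, h3⟩
      have h4 : θ ^ 4 = 1 := by
        have : θ ^ 4 = (θ ^ 2) ^ 2 := by ring
        rw [this, h3]; ring
      have h5 := orderOf_dvd_of_pow_eq_one h4
      rw [hord, Nat.card_eq_fintype_card, h9] at h5
      omega
    have hD := ((Cfsg.Agent.S0801.result h2' θ hθ0 hcl).resolve_right (fun h => h9 ⟨h.1, h.2.1⟩)).1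
    let U : SpecialLinearGroup (Fin 2) F := ⟨!![1, 0; 1, 1], by simp [det_fin_two]⟩
    let V : SpecialLinearGroup (Fin 2) F := ⟨!![1, θ; 0, 1], by simp [det_fin_two]⟩
    have hU : (U : Matrix (Fin 2) (Fin 2) F) = !![1, 0; 1, 1] := rfl
    have hV : (V : Matrix (Fin 2) (Fin 2) F) = !![1, θ; 0, 1] := rfl
    refine ⟨U, V, ⟨⟨2, ?_⟩, ?_⟩, ⟨⟨2, ?_⟩, ?_⟩, ?_⟩
    · rw [hU, pow_two]
      ext i j; fin_cases i <;> fin_cases j <;> simp [Matrix.mul_apply, Fin.sum_univ_two]
    · rw [hU]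
      intro h3
      have := congrFun (congrFun h3 1) 0
      simp at this
    · rw [hV, pow_two]
      ext i j; fin_cases i <;> fin_cases j <;> simp [Matrix.mul_apply, Fin.sum_univ_two]
    · rw [hV]
      intro h3
      have := congrFun (congrFun h3 0) 1
      simp at this
      exact hθ0 this
    · rw [eq_top_iff, ← hD, Subgroup.closure_le]
      rintro g (hg | hg)
      · apply Subgroup.subset_closure
        left
        exact Subtype.ext hg
      · apply Subgroup.subset_closure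
        right
        exact Subtype.ext hg
  · subst h
    obtain ⟨u, g, hu1, hu2, hg⟩ := Cfsg.Agent.S2278.result (F := F)
    exact ⟨u, g * u * g⁻¹, ⟨hu1, hu2⟩, CycGen.sig_reg (CycGen.mul_inv_coe g) ⟨hu1, hu2⟩, hg⟩
  · obtain ⟨⟨u, v, hu, hv, h1⟩, -⟩ := Cfsg.Agent.S2279.result (F := F) m (by omega)
    exact ⟨u, v, hu, hv, h1⟩

theorem three_main (hF : Fintype.card F = q ^ 2) (hm : 2 ≤ m) (hn : n = 2 * m + 1)
    (h2 : m = 2 → (2 : F) ≠ 0) : Three n F q := by
  obtain ⟨e, he⟩ := exists_iso (m := m) hF hn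
  obtain ⟨U, V, hU, hV, htop⟩ := sl_two_gen (F := F) hm h2
  refine assemble hF he hm hn U V hU hV (irr_top hm htop) ?_
  intro G u v bu bv huG hvG hu hv hfix
  refine exists_b hm huG hvG hu hv htop ?_ hfix
  intro i j hij
  by_cases h3 : 3 ≤ m
  · obtain ⟨θ, hθ0, hθ⟩ := CycGen.exists_gen (F := F)
    obtain ⟨h4, h5⟩ := gen_facts hF hθ0 hθ
    exact exists_diag h3 hθ0 h4 h5 i j
  · have hm2 : m = 2 := by omega
    subst hm2
    refine ⟨fun _ => -1, ?_, ?_, rfl⟩
    · simp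
    · intro k h
      apply h2 rfl
      linear_combination -h

theorem three_even5 (hF : Fintype.card F = q ^ 2) (h2 : (2 : F) = 0) (hn : n = 5) : Three n F q := by
  obtain ⟨e, he⟩ := exists_iso (m := 2) hF (show n = 2 * 2 + 1 from hn)
  obtain ⟨θ, hθ0, hθ⟩ := CycGen.exists_gen (F := F)
  let U : SpecialLinearGroup (Fin 2) F := ⟨!![1, θ; 0, 1], by simp [det_fin_two]⟩
  let V : SpecialLinearGroup (Fin 2) F := ⟨!![1, 0; 1, 1], by simp [det_fin_two]⟩
  have hU : (U : Matrix (Fin 2) (Fin 2) F) = !![1, θ; 0, 1] := rfl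
  have hV : (V : Matrix (Fin 2) (Fin 2) F) = !![1, 0; 1, 1] := rfl
  refine assemble hF he le_rfl hn U V ⟨⟨2, ?_⟩, ?_⟩ ⟨⟨2, ?_⟩, ?_⟩ ?_ ?_
  · rw [hU, pow_two]
    ext i j; fin_cases i <;> fin_cases j <;> simp [Matrix.mul_apply, Fin.sum_univ_two]
  · rw [hU]
    intro h3
    have := congrFun (congrFun h3 0) 1
    simp at this
    exact hθ0 this
  · rw [hV, pow_two]
    ext i j; fin_cases i <;> fin_cases j <;> simp [Matrix.mul_apply, Fin.sum_univ_two]
  · rw [hV]
    intro h3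
    have := congrFun (congrFun h3 1) 0
    simp at this
  · rw [hU, hV]
    exact irr_two hθ0 hθ
  · intro G u v bu bv huG hvG hu hv hfix
    rw [hU] at hu
    have h3 := hu.mul hu
    have e1 : (!![1, θ; 0, 1] : Matrix (Fin 2) (Fin 2) F) * !![1, θ; 0, 1] = 1 := by
      ext i j; fin_cases i <;> fin_cases j <;> simp [Matrix.mul_apply, Fin.sum_univ_two]
      rw [← two_mul, h2, zero_mul]
    rw [e1] at h3
    refine ⟨u * u, G.mul_mem huG huG, _, h3, ?_⟩
    intro h4
    have h5 := congrFun h4 0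
    simp [mulVec, dotProduct, Fin.sum_univ_two] at h5
    -- `θ * bu 1 = 0`
    have h6 : θ * bu 1 = 0 := by linear_combination h5 - bu 0 * h2
    have h7 : bu 1 = 0 := by
      rcases mul_eq_zero.mp h6 with h | h
      · exact absurd h hθ0
      · exact h
    apply hfix ![0, -(bu 0) / θ]
    rw [hu, one_smul]
    refine Prod.ext ?_ rfl
    ext i
    fin_cases i
    · simp [mulVec, dotProduct, Fin.sum_univ_two]
      field_simp
      ring
    · simp [mulVec, dotProduct, Fin.sum_univ_two, h7]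

/-- **odd `n ≥ 5`** -/
theorem three_ge5 (hF : Fintype.card F = q ^ 2) (hn : 5 ≤ n) (hodd : Odd n) : Three n F q := by
  obtain ⟨m, hm⟩ := hodd
  by_cases h : m = 2 ∧ (2 : F) = 0
  · exact three_even5 hF h.2 (by omega)
  · exact three_main hF (by omega) hm (fun h1 h2 => h ⟨h1, h2⟩)

end Cfsg.Agent.H42.SuGen
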