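import Mathlib
import Cfsg.Agent.H42.SuGen6

/-!
Generation of `SU_3(q)`: hyperbolic coordinates, the finishing lemma.
-/

set_option autoImplicit false

namespace Cfsg.Agent.H42.SuGen

open Matrix Cfsg.Agent.H42.Herm Cfsg.Agent.Uni Cfsg.Agent.H42.ThreeUnip

section basics

variable {F : Type*} [Field F] {q : ℕ}

/-- vectors of the three dimensional space -/
def v3 (w a f : F) : VV 1 F := (fun _ => w, a, fun _ => f)

theorem eq_v3 (z : VV 1 F) : z = v3 (z.1 0) z.2.1 (z.2.2 0) := by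
  refine Prod.ext ?_ (Prod.ext rfl ?_)
  · ext i; fin_cases i; rfl
  · ext i; fin_cases i; rfl

theorem HH_v3 (w a f w' a' f' : F) : HH q (v3 w a f) (v3 w' a' f') = w * f' ^ q + a * a' ^ q + f * w' ^ q := by
  simp [HH, v3, sg, dotProduct]

theorem v3_add (w a f w' a' f' : F) : v3 w a f + v3 w' a' f' = v3 (w + w') (a + a') (f + f') := rfl

theorem v3_smul (c w a f : F) : c • v3 w a f = v3 (c * w) (c * a) (c * f) := rfl

theorem v3_inj {w a f w' a' f' : F} : v3 w a f = v3 w' a' f' ↔ w = w' ∧ a = a' ∧ f = f' := by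
  constructor
  · intro h
    exact ⟨congrFun (congrArg Prod.fst h) 0, congrArg (fun z => z.2.1) h,
      congrFun (congrArg (fun z : VV 1 F => z.2.2) h) 0⟩
  · rintro ⟨rfl, rfl, rfl⟩; rfl

end basics

variable {F : Type*} [Field F] [Fintype F] {q n : ℕ} {e : VV 1 F ≃ₗ[F] (Fin n → F)}
  (hF : Fintype.card F = q ^ 2) (he : ∀ x y, HH q x y = Cfsg.hermForm n F q (e x) (e y))

include hF he in
theorem exists_u3 (hn : n = 3) {s : F} (hs : s + s ^ q = -1) : ∃ u : Cfsg.SU n F q, RU u ∧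
    ∀ w a f, ac e u (v3 w a f) = v3 (w - a + s * f) (a + f) f := by
  obtain ⟨u, hu⟩ := exists_u0 hF he (m := 1) one_pos hs
  refine ⟨u, RU_u0 one_pos (by omega) s u hu, fun w a f => ?_⟩
  rw [hu]
  have e1 : Um F 1 = 1 := by
    ext i j; fin_cases i; fin_cases j; simp [Um]
  have e2 : (SpGen.Mi F 1)ᵀ = 1 := by
    ext i j; fin_cases i; fin_cases j; simp [SpGen.Mi]
  rw [e1, e2, one_mulVec, one_mulVec]
  refine Prod.ext ?_ (Prod.ext ?_ ?_)
  · ext i; fin_cases i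
    simp [v3]; ring
  · simp [v3]
  · rfl

section finish

variable {G : Subgroup (Cfsg.SU n F q)}

include hF he in
theorem move_e (h1 : Fu e G (v3 1 0 0)) {a a' b : F} (hb : b ≠ 0)
    (hab : a * b ^ q + a ^ q * b = a' * b ^ q + a' ^ q * b) :
    ∃ t ∈ G, ac e t (v3 a 0 b) = v3 a' 0 b ∧ ac e t (v3 0 1 0) = v3 0 1 0 := by
  have hbq : b ^ q ≠ 0 := pow_ne_zero _ hb
  obtain ⟨t, ht⟩ := exists_tv hF he (z := v3 1 0 0) (a := (a' - a) / b)
    (by rw [HH_v3, zero_pow_q hF]; ring) (by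
      rw [div_pow, sub_pow_q hF]
      field_simp
      linear_combination -hab)
  refine ⟨t, h1 t _ ht, ?_, ?_⟩
  · rw [ht, HH_v3, v3_smul, v3_add, v3_inj]
    simp only [zero_pow_q hF, one_pow]
    refine ⟨?_, ?_, ?_⟩
    · field_simp; ring
    · ring
    · ring
  · rw [ht, HH_v3, v3_smul, v3_add, v3_inj]
    simp only [zero_pow_q hF, one_pow]
    refine ⟨?_, ?_, ?_⟩ <;> ring

include hF he in
theorem move_f (h1 : Fu e G (v3 0 0 1)) {a b b' : F} (ha : a ≠ 0)
    (hab : b * a ^ q + b ^ q * a = b' * a ^ q + b' ^ q * a) :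
    ∃ t ∈ G, ac e t (v3 a 0 b) = v3 a 0 b' ∧ ac e t (v3 0 1 0) = v3 0 1 0 := by
  have hbq : a ^ q ≠ 0 := pow_ne_zero _ ha
  obtain ⟨t, ht⟩ := exists_tv hF he (z := v3 0 0 1) (a := (b' - b) / a)
    (by rw [HH_v3, zero_pow_q hF]; ring) (by
      rw [div_pow, sub_pow_q hF]
      field_simp
      linear_combination -hab)
  refine ⟨t, h1 t _ ht, ?_, ?_⟩
  · rw [ht, HH_v3, v3_smul, v3_add, v3_inj]
    simp only [zero_pow_q hF, one_pow]
    refine ⟨?_, ?_, ?_⟩
    · ring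
    · ring
    · field_simp; ring
  · rw [ht, HH_v3, v3_smul, v3_add, v3_inj]
    simp only [zero_pow_q hF, one_pow]
    refine ⟨?_, ?_, ?_⟩ <;> ring

include hF he in
theorem plane (h1 : Fu e G (v3 1 0 0)) (h2 : Fu e G (v3 0 0 1)) {a b a' b' : F}
    (hab : a * b ^ q + a ^ q * b = a' * b' ^ q + a' ^ q * b') (h0 : a * b ^ q + a ^ q * b ≠ 0) :
    ∃ t ∈ G, ac e t (v3 a 0 b) = v3 a' 0 b' ∧ ac e t (v3 0 1 0) = v3 0 1 0 := by
  obtain ⟨c, hc⟩ : ∃ c, c = a * b ^ q + a ^ q * b := ⟨_, rfl⟩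
  have hcq : c ^ q = c := by
    rw [hc, add_pow_q hF, mul_pow, mul_pow, pow_q_pow_q hF, pow_q_pow_q hF]; ring
  rw [← hc] at h0 hab
  have nz : ∀ x y : F, x * y ^ q + x ^ q * y ≠ 0 → x ≠ 0 ∧ y ≠ 0 := by
    intro x y hxy
    constructor
    · rintro rfl
      apply hxy; rw [zero_pow_q hF]; ring
    · rintro rfl
      apply hxy; rw [zero_pow_q hF]; ring
  have step : ∀ a b a' b' : F, a * b ^ q + a ^ q * b = c → a' * b' ^ q + a' ^ q * b' = c →
      b ^ q * b' - b * b' ^ q ≠ 0 →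
      ∃ t ∈ G, ac e t (v3 a 0 b) = v3 a' 0 b' ∧ ac e t (v3 0 1 0) = v3 0 1 0 := by
    intro a b a' b' h4 h5 h3
    obtain ⟨d, hd1, hd2⟩ := exists_two_trace hF hcq h3
    obtain ⟨ha, hb⟩ := nz a b (by rw [h4]; exact h0)
    obtain ⟨ha', hb'⟩ := nz a' b' (by rw [h5]; exact h0)
    obtain ⟨hd, -⟩ := nz d b (by rw [hd1]; exact h0)
    obtain ⟨t1, ht1, e1, f1⟩ := move_e hF he h1 hb (h4.trans hd1.symm)
    obtain ⟨t2, ht2, e2, f2⟩ := move_f hF he h2 (b := b) (b' := b') (a := d) hd (by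
      linear_combination hd1 - hd2)
    obtain ⟨t3, ht3, e3, f3⟩ := move_e hF he h1 hb' (hd2.trans h5.symm)
    refine ⟨t3 * t2 * t1, G.mul_mem (G.mul_mem ht3 ht2) ht1, ?_, ?_⟩
    · rw [ac_mul, ac_mul, e1, e2, e3]
    · rw [ac_mul, ac_mul, f1, f2, f3]
  by_cases hbb : b ^ q * b' - b * b' ^ q = 0
  · obtain ⟨ha, hb⟩ := nz a b (by rw [← hc]; exact h0)
    obtain ⟨ha', hb'⟩ := nz a' b' (by rw [← hab]; exact h0)
    obtain ⟨y, hy⟩ := exists_pow_q_ne hF
    have h3 : b ^ q * (b * y) - b * (b * y) ^ q ≠ 0 := by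
      rw [mul_pow]
      have : b ^ q * (b * y) - b * (b ^ q * y ^ q) = b ^ q * b * (y - y ^ q) := by ring
      rw [this]
      exact mul_ne_zero (mul_ne_zero (pow_ne_zero _ hb) hb) (sub_ne_zero.2 hy.symm)
    have h4 : (b * y) ^ q * b' - (b * y) * b' ^ q ≠ 0 := by
      rw [mul_pow]
      have hbb' : b * b' ^ q = b ^ q * b' := (sub_eq_zero.1 hbb).symm
      have : b ^ q * y ^ q * b' - b * y * b' ^ q = b ^ q * b' * (y ^ q - y) := by
        linear_combination (-y) * hbb'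
      rw [this]
      exact mul_ne_zero (mul_ne_zero (pow_ne_zero _ hb) hb') (sub_ne_zero.2 hy)
    obtain ⟨d, hd1, -⟩ := exists_two_trace hF hcq h4
    obtain ⟨t1, ht1, e1, f1⟩ := step a b d (b * y) hc.symm hd1 h3
    obtain ⟨t2, ht2, e2, f2⟩ := step d (b * y) a' b' hd1 hab.symm h4
    refine ⟨t2 * t1, G.mul_mem ht2 ht1, ?_, ?_⟩
    · rw [ac_mul, e1, e2]
    · rw [ac_mul, f1, f2]
  · exact step a b a' b' hc.symm hab.symm hbb

include hF he in
/-- if the two points of a hyperbolic plane are full and the plane is moved, then `G = ⊤` -/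
theorem finish3 (hn : n = 3) (hq : q ≠ 2) (h1 : Fu e G (v3 1 0 0)) (h2 : Fu e G (v3 0 0 1)) {g : Cfsg.SU n F q}
    (hg : g ∈ G) {w0 a0 f0 : F} (hz : ac e g (v3 0 0 1) = v3 w0 a0 f0) (ha0 : a0 ≠ 0) : G = ⊤ := by
  have hz0 : HH q (v3 w0 a0 f0) (v3 w0 a0 f0) = 0 := by
    rw [← hz, ac_form he, HH_v3, zero_pow_q hF]; ring
  have hfz : Fu e G (v3 w0 a0 f0) := by rw [← hz]; exact h2.act he hg
  have hfz' : Fu e G (v3 (a0⁻¹ * w0) 1 (a0⁻¹ * f0)) := by
    have := hfz.smul hF a0⁻¹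
    rwa [v3_smul, inv_mul_cancel₀ ha0] at this
  have hz0' : HH q (v3 (a0⁻¹ * w0) 1 (a0⁻¹ * f0)) (v3 (a0⁻¹ * w0) 1 (a0⁻¹ * f0)) = 0 := by
    have h3 : v3 (a0⁻¹ * w0) 1 (a0⁻¹ * f0) = a0⁻¹ • v3 w0 a0 f0 := by
      rw [v3_smul, inv_mul_cancel₀ ha0]
    rw [h3, (HH_isH hF).smul_left, (HH_isH hF).smul_right, hz0]; ring
  apply top_of_Fu hF he (by omega) (by rintro ⟨_, h⟩; exact hq h)
  intro z
  rw [eq_v3 z]
  generalize z.1 0 = w
  generalize z.2.1 = a
  generalize z.2.2 0 = f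
  intro hzz
  by_cases ha : a = 0
  · subst ha
    rw [HH_v3, zero_mul, add_zero] at hzz
    by_cases hf : f = 0
    · subst hf
      have := h1.smul hF w
      rw [v3_smul] at this
      simpa using this
    · have hfq : f ^ q ≠ 0 := pow_ne_zero _ hf
      obtain ⟨t, ht, e1, -⟩ := move_e hF he h1 (a := 0) (a' := w / f) (b := 1) one_ne_zero (by
        rw [one_pow, zero_pow_q hF, div_pow]
        field_simp
        linear_combination -hzz)
      have h3 := (h2.act he ht).smul hF f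
      rw [e1, v3_smul] at h3
      have e2 : f * (w / f) = w := by field_simp
      rwa [e2, mul_zero, mul_one] at h3
  · have haq : a ^ q ≠ 0 := pow_ne_zero _ ha
    rw [HH_v3] at hzz hz0'
    rw [one_pow, mul_one] at hz0'
    have hz1 : (w / a) * (f / a) ^ q + (w / a) ^ q * (f / a) = -1 := by
      rw [div_pow, div_pow]
      field_simp
      linear_combination hzz
    obtain ⟨t, ht, e1, e2⟩ := plane hF he h1 h2 (a := a0⁻¹ * w0) (b := a0⁻¹ * f0) (a' := w / a) (b' := f / a)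
      (by rw [hz1]; linear_combination hz0') (by
        intro h
        have : (1 : F) = 0 := by linear_combination hz0' - h
        exact one_ne_zero this)
    have h3 := (hfz'.act he ht).smul hF a
    have e3 : v3 (a0⁻¹ * w0) 1 (a0⁻¹ * f0) = v3 (a0⁻¹ * w0) 0 (a0⁻¹ * f0) + v3 0 1 0 := by
      rw [v3_add, zero_add, add_zero, add_zero]
    rw [e3, ac_add, e1, e2, v3_add, v3_smul] at h3
    have e4 : a * (w / a + 0) = w := by field_simp; ring
    have e5 : a * (0 + 1) = a := by ring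
    have e6 : a * (f / a + 0) = f := by field_simp; ring
    rwa [e4, e5, e6] at h3

end finish

include hF he in
/-- conjugation by an element of the radical -/
theorem exists_comm {u : Cfsg.SU n F q} {s : F}
    (hu : ∀ w a f, ac e u (v3 w a f) = v3 (w - a + s * f) (a + f) f) {μ : F} (hμ : μ ^ q = -μ) :
    ∃ g t : Cfsg.SU n F q, g * u * g⁻¹ = t * u ∧ ∀ z, ac e t z = z + (μ * HH q z (v3 1 0 0)) • v3 1 0 0 := by
  obtain ⟨r, hr⟩ := exists_trace_eq hF (c := (1 : F)) (one_pow q)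
  obtain ⟨x, hx⟩ : ∃ x, x = μ * r := ⟨_, rfl⟩
  have hxμ : x - x ^ q = μ := by rw [hx, mul_pow, hμ]; linear_combination μ * hr
  obtain ⟨s', hs'⟩ := exists_trace_eq hF (c := -(x * x ^ q)) (by
    rw [neg_pow_q hF, mul_pow, pow_q_pow_q hF]; ring)
  obtain ⟨g, hg⟩ := exists_eich (n := n) hF (e (v3 1 0 0)) (e (v3 0 (-(x ^ q)) 0)) s'
    (by rw [← he, HH_v3, zero_pow_q hF]; ring)
    (by rw [← he, HH_v3, zero_pow_q hF]; ring)
    (by rw [← he, HH_v3, zero_pow_q hF, neg_pow_q hF, pow_q_pow_q hF, hs']; ring)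
  have hg' : IsQ e g (fun _ => x) (fun f => fun _ => s' * f 0) := by
    intro z
    rw [eq_v3 z]
    generalize z.1 0 = w
    generalize z.2.1 = a
    generalize z.2.2 0 = f
    rw [ac, hg, map_add, map_sub, map_add, LinearEquiv.symm_apply_apply, map_smul, map_smul, map_smul,
      LinearEquiv.symm_apply_apply, LinearEquiv.symm_apply_apply, ← he, ← he, HH_v3, HH_v3]
    simp only [zero_pow_q hF, one_pow, neg_pow_q hF, pow_q_pow_q hF]
    refine Prod.ext ?_ (Prod.ext ?_ ?_)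
    · ext i; fin_cases i
      simp [v3]
    · simp [v3, sg, dotProduct]; ring
    · ext i; fin_cases i
      simp [v3]
  have hu' : IsQ e u (fun _ => -1) (fun f => fun _ => s * f 0) := by
    intro z
    rw [eq_v3 z]
    generalize z.1 0 = w
    generalize z.2.1 = a
    generalize z.2.2 0 = f
    rw [hu]
    refine Prod.ext ?_ (Prod.ext ?_ ?_)
    · ext i; fin_cases i
      simp [v3]; ring
    · simp [v3, sg, dotProduct, neg_pow_q hF]
    · rfl
  refine ⟨g, g * u * (u * g)⁻¹, by group, fun z => ?_⟩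
  rw [hg'.comm hu']
  congr 1
  rw [eq_v3 z]
  generalize z.1 0 = w
  generalize z.2.1 = a
  generalize z.2.2 0 = f
  rw [HH_v3, v3_smul]
  simp only [zero_pow_q hF, one_pow]
  refine Prod.ext ?_ (Prod.ext ?_ ?_)
  · ext i; fin_cases i
    simp [v3, sg, dotProduct, neg_pow_q hF]
    linear_combination f * hxμ
  · simp [v3]
  · ext i; fin_cases i
    simp [v3]

end Cfsg.Agent.H42.SuGen
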