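import Mathlib
import Cfsg.Agent.H42.SuGen9
import Cfsg.Agent.H42.SuGen8
import Cfsg.Agent.S0801

/-!
Generation of `SU_3(q)`, `q` odd.
-/

set_option autoImplicit false

namespace Cfsg.Agent.H42.SuGen

open Matrix Cfsg.Agent.H42.Herm Cfsg.Agent.Uni Cfsg.Agent.H42.ThreeUnip

section more

variable {F : Type*} [Field F] [Fintype F] {q n : ℕ} {e : VV 1 F ≃ₗ[F] (Fin n → F)}
  (hF : Fintype.card F = q ^ 2) (he : ∀ x y, HH q x y = Cfsg.hermForm n F q (e x) (e y))

include hF he in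
theorem exists_h3 {c : F} (hc : c ≠ 0) : ∃ h : Cfsg.SU n F q, ∀ w a f,
    ac e h (v3 w a f) = v3 (c * w) (c ^ q * c⁻¹ * a) ((c ^ q)⁻¹ * f) := by
  obtain ⟨h, hh⟩ := exists_levi hF he (B := !![c]) (B' := !![c⁻¹]) (by
    ext i j; fin_cases i; fin_cases j; simp [hc])
  refine ⟨h, fun w a f => ?_⟩
  rw [hh]
  refine Prod.ext ?_ (Prod.ext ?_ ?_)
  · ext i; fin_cases i; simp [v3, mulVec, dotProduct]
  · simp [v3]
  · ext i; fin_cases i; simp [v3, mulVec, dotProduct]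

theorem v3_decomp (w a f : F) : v3 w a f = w • v3 1 0 0 + a • v3 0 1 0 + f • v3 0 0 1 := by
  rw [v3_smul, v3_smul, v3_smul, v3_add, v3_add, v3_inj]
  refine ⟨?_, ?_, ?_⟩ <;> ring

include hF he in
theorem exists_Jm : ∃ h : Cfsg.SU n F q, ∀ w a f, ac e h (v3 w a f) = v3 f (-a) w := by
  obtain ⟨a0, ha0, ha⟩ := exists_skew hF
  have hH : Hyp q (e (v3 1 0 0)) (e (v3 0 0 1)) := by
    refine ⟨?_, ?_, ?_⟩
    · rw [← he, HH_v3, zero_pow_q hF]; ring
    · rw [← he, HH_v3, zero_pow_q hF]; ring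
    · rw [← he, HH_v3, zero_pow_q hF, one_pow]; ring
  obtain ⟨t, -, ht1, ht2, ht3⟩ := exists_flip hF hH ha0 ha
  obtain ⟨h, hh⟩ := exists_h3 hF he (c := -a0) (neg_ne_zero.mpr ha0)
  have e1 : ac e t (v3 1 0 0) = (-a0⁻¹) • v3 0 0 1 := by
    rw [ac, ht1, map_smul, LinearEquiv.symm_apply_apply]
  have e2 : ac e t (v3 0 0 1) = a0 • v3 1 0 0 := by
    rw [ac, ht2, map_smul, LinearEquiv.symm_apply_apply]
  have e3 : ac e t (v3 0 1 0) = v3 0 1 0 := by
    rw [ac, ht3 _ (by rw [← he, HH_v3, zero_pow_q hF]; ring) (by rw [← he, HH_v3, zero_pow_q hF]; ring),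
      LinearEquiv.symm_apply_apply]
  refine ⟨t * h, fun w a f => ?_⟩
  rw [ac_mul, hh, v3_decomp, ac_add, ac_add, ac_smul, ac_smul, ac_smul, e1, e2, e3, v3_smul, v3_smul, v3_smul,
    v3_smul, v3_smul, v3_add, v3_add, v3_inj, neg_pow_q hF, ha]
  refine ⟨?_, ?_, ?_⟩
  · field_simp; ring
  · field_simp; ring
  · field_simp; ring

include hF he in
/-- elements of the radical -/
theorem exists_q3 {x s : F} (hs : s + s ^ q = -(x * x ^ q)) : ∃ h : Cfsg.SU n F q, ∀ w a f,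
    ac e h (v3 w a f) = v3 (w + a * x + s * f) (a - x ^ q * f) f := by
  obtain ⟨g, hg⟩ := exists_eich (n := n) hF (e (v3 1 0 0)) (e (v3 0 (-(x ^ q)) 0)) s
    (by rw [← he, HH_v3, zero_pow_q hF]; ring)
    (by rw [← he, HH_v3, zero_pow_q hF]; ring)
    (by rw [← he, HH_v3, zero_pow_q hF, neg_pow_q hF, pow_q_pow_q hF, hs]; ring)
  refine ⟨g, fun w a f => ?_⟩
  rw [ac, hg, map_add, map_sub, map_add, LinearEquiv.symm_apply_apply, map_smul, map_smul, map_smul,
    LinearEquiv.symm_apply_apply, LinearEquiv.symm_apply_apply, ← he, ← he, HH_v3, HH_v3]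
  simp only [zero_pow_q hF, one_pow, neg_pow_q hF, pow_q_pow_q hF]
  refine Prod.ext ?_ (Prod.ext ?_ ?_)
  · ext i; fin_cases i
    simp [v3]
  · simp [v3]; ring
  · ext i; fin_cases i
    simp [v3]

theorem two_pow_q (hF : Fintype.card F = q ^ 2) : (2 : F) ^ q = 2 := by
  have := map_ofNat (conjHom hF) 2
  exact this

/-- the fixed field -/
def KK (hF : Fintype.card F = q ^ 2) : Subfield F := (conjHom hF).eqLocusField (RingHom.id F)

theorem mem_KK (hF : Fintype.card F = q ^ 2) {x : F} : x ∈ KK hF ↔ x ^ q = x := Iff.rfl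

theorem card_KK (hF : Fintype.card F = q ^ 2) : Nat.card (KK hF) = q := card_fixed hF

theorem q_odd (hF : Fintype.card F = q ^ 2) (h2 : (2 : F) ≠ 0) : Odd q := by
  by_contra h
  rw [Nat.not_odd_iff_even] at h
  apply h2
  have : (2 : ℕ) ∣ Nat.card F := by
    rw [Nat.card_eq_fintype_card, hF]
    exact dvd_pow h.two_dvd two_ne_zero
  exact_mod_cast CycGen.cast_eq_zero_of_dvd_card Nat.prime_two this

/-- the square root of a generator of the fixed field -/
theorem exists_rho (hF : Fintype.card F = q ^ 2) (h2 : (2 : F) ≠ 0) {θ : KK hF} (hθ0 : θ ≠ 0)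
    (hθ : ∀ x : KK hF, x ≠ 0 → ∃ k : ℕ, θ ^ k = x) : ∃ ρ : F, ρ ≠ 0 ∧ ρ ^ 2 = (θ : F) ∧ ρ ^ q = -ρ := by
  have hodd := q_odd hF h2
  obtain ⟨k, hk⟩ := hodd
  have hθF : (θ : F) ≠ 0 := fun h => hθ0 (Subtype.ext h)
  have hord := CycGen.order_gen hθ0 hθ
  rw [card_KK hF] at hord
  have h1 : θ ^ (q - 1) = 1 := by rw [← hord, pow_orderOf_eq_one]
  have hsq : IsSquare (θ : F) := by
    have hc : ringChar F ≠ 2 := by
      intro h
      apply h2
      haveI := ringChar.charP F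
      rw [h] at this
      exact CharP.ofNat_eq_zero F 2
    rw [FiniteField.isSquare_iff hc hθF, hF]
    have h3 : q ^ 2 / 2 = (q - 1) * (k + 1) := by
      have h4 : q ^ 2 = 2 * ((q - 1) * (k + 1)) + 1 := by
        rw [hk, Nat.add_sub_cancel]
        ring
      omega
    rw [h3, pow_mul]
    have h4 : (θ : F) ^ (q - 1) = 1 := by
      have := congrArg (Subtype.val) h1
      simpa using this
    rw [h4, one_pow]
  obtain ⟨ρ, hρ⟩ := hsq
  have hρ0 : ρ ≠ 0 := by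
    rintro rfl
    rw [mul_zero] at hρ
    exact hθF hρ
  refine ⟨ρ, hρ0, by rw [hρ]; ring, ?_⟩
  have h5 : (ρ ^ q - ρ) * (ρ ^ q + ρ) = 0 := by
    have h6 : (θ : F) ^ q = θ := (mem_KK hF).mp θ.2
    rw [hρ, mul_pow] at h6
    linear_combination h6
  rcases mul_eq_zero.mp h5 with h6 | h6
  · exfalso
    have hmem : ρ ∈ KK hF := (mem_KK hF).mpr (sub_eq_zero.mp h6)
    obtain ⟨j, hj⟩ := hθ ⟨ρ, hmem⟩ (fun h => hρ0 (congrArg Subtype.val h))
    have h7 : θ ^ (2 * j) = θ := by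
      rw [mul_comm, pow_mul, hj]
      apply Subtype.ext
      show ρ ^ 2 = (θ : F)
      rw [hρ]; ring
    rcases Nat.eq_zero_or_pos j with hj0 | hj0
    · rw [hj0, mul_zero, pow_zero] at h7
      rw [← h7, orderOf_one] at hord
      omega
    · have h8 : θ ^ (2 * j - 1) = 1 := by
        have e1 : 2 * j = (2 * j - 1) + 1 := by omega
        rw [e1, pow_succ] at h7
        exact mul_right_cancel₀ hθ0 (h7.trans (one_mul θ).symm)
      have h9 := orderOf_dvd_of_pow_eq_one h8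
      rw [hord, hk, Nat.add_sub_cancel] at h9
      have h10 : 2 ∣ 2 * j - 1 := (Dvd.intro k rfl).trans h9
      omega
  · linear_combination h6

end more

variable {F : Type*} [Field F] [Fintype F] {q n : ℕ} {e : VV 1 F ≃ₗ[F] (Fin n → F)}
  (hF : Fintype.card F = q ^ 2) (he : ∀ x y, HH q x y = Cfsg.hermForm n F q (e x) (e y))

include hF he in
/-- full points from two transvections -/
theorem dick3 (h2 : (2 : F) ≠ 0) {θ : KK hF} (hθ0 : θ ≠ 0)
    (hθ : ∀ x : KK hF, x ≠ 0 → ∃ k : ℕ, θ ^ k = x) {ρ : F} (hρ0 : ρ ≠ 0) (hρ2 : ρ ^ 2 = (θ : F)) (hρq : ρ ^ q = -ρ)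
    {G : Subgroup (Cfsg.SU n F q)} {t1 t2 : Cfsg.SU n F q} (ht1 : t1 ∈ G) (ht2 : t2 ∈ G)
    (h1 : ∀ z, ac e t1 z = z + ((2 * ρ) * HH q z (v3 1 0 0)) • v3 1 0 0)
    (h3 : ∀ z, ac e t2 z = z + ((ρ / 2) * HH q z (v3 0 0 1)) • v3 0 0 1) :
    Fu e G (v3 1 0 0) ∧ Fu e G (v3 0 0 1) := by
  haveI := Fintype.ofFinite (KK hF)
  have hord := CycGen.order_gen hθ0 hθ
  have hcl := SpGen.closure_gen hθ0 hθ
  have h2K : (2 : KK hF) ≠ 0 := by
    intro h
    exact h2 (congrArg Subtype.val h)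
  have h9 : ¬ (Fintype.card (KK hF) = 9 ∧ θ ^ 2 = -1) := by
    rintro ⟨h9, h3⟩
    have h4 : θ ^ 4 = 1 := by
      have : θ ^ 4 = (θ ^ 2) ^ 2 := by ring
      rw [this, h3]; ring
    have h5 := orderOf_dvd_of_pow_eq_one h4
    rw [hord, Nat.card_eq_fintype_card, h9] at h5
    omega
  have hD := ((Cfsg.Agent.S0801.result h2K θ hθ0 hcl).resolve_right (fun h => h9 ⟨h.1, h.2.1⟩)).1
  have key : ∀ M : SpecialLinearGroup (Fin 2) (KK hF), ∃ g ∈ G, ∀ w a f : F, ac e g (v3 w a f) =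
      v3 ((M.1 0 0 : F) * w + (2 * (M.1 0 1 : F) / ρ) * f) a ((ρ * (M.1 1 0 : F) / 2) * w + (M.1 1 1 : F) * f) := by
    intro M
    have hM : M ∈ (⊤ : Subgroup (SpecialLinearGroup (Fin 2) (KK hF))) := trivial
    rw [← hD] at hM
    induction hM using Subgroup.closure_induction with
    | mem M hM =>
      rcases hM with hM | hM
      · refine ⟨t2, ht2, fun w a f => ?_⟩
        have hM' : M.1 = !![1, 0; 1, 1] := hM
        rw [hM', h3, HH_v3, v3_smul, v3_add, v3_inj]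
        simp only [zero_pow_q hF, one_pow]
        refine ⟨?_, ?_, ?_⟩
        · simp
        · simp
        · simp; ring
      · refine ⟨t1, ht1, fun w a f => ?_⟩
        have hM' : M.1 = !![1, θ; 0, 1] := hM
        rw [hM', h1, HH_v3, v3_smul, v3_add, v3_inj]
        simp only [zero_pow_q hF, one_pow]
        refine ⟨?_, ?_, ?_⟩
        · simp
          rw [← hρ2]; field_simp
          simp
        · simp
        · simp
    | one =>
      refine ⟨1, G.one_mem, fun w a f => ?_⟩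
      have : (1 : SpecialLinearGroup (Fin 2) (KK hF)).1 = 1 := rfl
      rw [ac_one, this]
      simp
    | mul M N _ _ hM hN =>
      obtain ⟨g, hg, h⟩ := hM
      obtain ⟨g', hg', h'⟩ := hN
      refine ⟨g * g', G.mul_mem hg hg', fun w a f => ?_⟩
      have e1 : ∀ i j, ((M * N).1 i j) = M.1 i 0 * N.1 0 j + M.1 i 1 * N.1 1 j := by
        intro i j
        have : (M * N).1 = M.1 * N.1 := rfl
        rw [this, Matrix.mul_apply, Fin.sum_univ_two]
      rw [ac_mul, h', h, e1, e1, e1, e1, v3_inj]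
      push_cast
      refine ⟨?_, rfl, ?_⟩
      · field_simp; ring
      · field_simp; ring
    | inv M _ hM =>
      obtain ⟨g, hg, h⟩ := hM
      refine ⟨g⁻¹, G.inv_mem hg, fun w a f => ?_⟩
      apply ac_inv_eq
      have e1 : ∀ i j, (M.1 i 0 * (M⁻¹).1 0 j + M.1 i 1 * (M⁻¹).1 1 j) = (1 : Matrix (Fin 2) (Fin 2) (KK hF)) i j := by
        intro i j
        have : M.1 * (M⁻¹).1 = 1 := congrArg Subtype.val (mul_inv_cancel M)
        rw [← this, Matrix.mul_apply, Fin.sum_univ_two]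
      have e00 := congrArg (Subtype.val) (e1 0 0)
      have e01 := congrArg (Subtype.val) (e1 0 1)
      have e10 := congrArg (Subtype.val) (e1 1 0)
      have e11 := congrArg (Subtype.val) (e1 1 1)
      simp only [Matrix.one_apply_eq, Matrix.one_apply_ne (show (0 : Fin 2) ≠ 1 by decide),
        Matrix.one_apply_ne (show (1 : Fin 2) ≠ 0 by decide)] at e00 e01 e10 e11
      push_cast at e00 e01 e10 e11
      rw [h, v3_inj]
      refine ⟨?_, rfl, ?_⟩
      · field_simp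
        linear_combination (w * ρ) * e00 + (2 * f) * e01
      · field_simp
        linear_combination (w * ρ) * e10 + (2 * f) * e11
  constructor
  · intro g c hg
    have hc := skew_of_tv hF he (by rw [HH_v3, zero_pow_q hF]; ring) (by
      intro h
      have := (v3_inj (F := F) (w := 1) (a := 0) (f := 0) (w' := 0) (a' := 0) (f' := 0)).mp h
      exact one_ne_zero this.1) hg
    have hmem : c * ρ / 2 ∈ KK hF := by
      rw [mem_KK, div_pow, mul_pow, hc, hρq, two_pow_q hF]; ring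
    obtain ⟨g', hg', h⟩ := key ⟨!![1, ⟨c * ρ / 2, hmem⟩; 0, 1], by simp [det_fin_two]⟩
    have : g = g' := by
      apply ac_ext e
      intro z
      rw [eq_v3 z, hg, h, HH_v3, v3_smul, v3_add, v3_inj]
      simp only [zero_pow_q hF, one_pow]
      refine ⟨?_, ?_, ?_⟩
      · simp; field_simp; simp
      · simp
      · simp
    rw [this]; exact hg'
  · intro g c hg
    have hc := skew_of_tv hF he (by rw [HH_v3, zero_pow_q hF]; ring) (by
      intro h
      have := (v3_inj (F := F) (w := 0) (a := 0) (f := 1) (w' := 0) (a' := 0) (f' := 0)).mp h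
      exact one_ne_zero this.2.2) hg
    have hmem : 2 * c / ρ ∈ KK hF := by
      rw [mem_KK, div_pow, mul_pow, hc, hρq, two_pow_q hF]
      field_simp
    obtain ⟨g', hg', h⟩ := key ⟨!![1, 0; ⟨2 * c / ρ, hmem⟩, 1], by simp [det_fin_two]⟩
    have : g = g' := by
      apply ac_ext e
      intro z
      rw [eq_v3 z, hg, h, HH_v3, v3_smul, v3_add, v3_inj]
      simp only [zero_pow_q hF, one_pow]
      refine ⟨?_, ?_, ?_⟩
      · simp
      · simp
      · simp; field_simp; ring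
    rw [this]; exact hg'

theorem three_odd3 (hF : Fintype.card F = q ^ 2) (h2 : (2 : F) ≠ 0) (hn : n = 3) : Three n F q := by
  obtain ⟨e, he⟩ := exists_iso (m := 1) hF (show n = 2 * 1 + 1 from hn)
  obtain ⟨s, hs⟩ : ∃ s : F, s = -(2 : F)⁻¹ := ⟨_, rfl⟩
  have hsq : s ^ q = s := by rw [hs, neg_pow_q hF, inv_pow, two_pow_q hF]
  have hs1 : s + s ^ q = -1 := by
    rw [hsq, hs]; field_simp; ring
  obtain ⟨u, hreg, hu⟩ := exists_u3 hF he hn hs1
  obtain ⟨θ, hθ0, hθ⟩ := CycGen.exists_gen (F := KK hF)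
  obtain ⟨ρ, hρ0, hρ2, hρq⟩ := exists_rho hF h2 hθ0 hθ
  obtain ⟨g, t, hgt, ht⟩ := exists_comm hF he hu (μ := 2 * ρ) (by rw [mul_pow, hρq, two_pow_q hF]; ring)
  obtain ⟨J, hJ⟩ := exists_Jm hF he
  obtain ⟨R, hR⟩ := exists_q3 hF he (x := -2) (s := -2) (by
    rw [neg_pow_q hF, two_pow_q hF]; ring)
  obtain ⟨h, hh⟩ : ∃ h, h = (J * R)⁻¹ := ⟨_, rfl⟩
  obtain ⟨v, hv⟩ : ∃ v, v = h * u * h⁻¹ := ⟨_, rfl⟩
  -- `v e = s f`
  have hve : ac e v (v3 1 0 0) = v3 0 0 s := by
    rw [hv, ac_mul, ac_mul, hh, inv_inv]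
    apply ac_inv_eq
    rw [ac_mul, ac_mul, hR, hJ, hR, hJ, hu, v3_inj, neg_pow_q hF, two_pow_q hF, hs]
    refine ⟨?_, ?_, ?_⟩ <;> field_simp <;> ring
  refine ⟨u, g, h, hreg, ?_⟩
  obtain ⟨G, hG⟩ : ∃ G, G = Subgroup.closure ({u, g * u * g⁻¹, h * u * h⁻¹} : Set (Cfsg.SU n F q)) := ⟨_, rfl⟩
  rw [← hG]
  have huG : u ∈ G := by rw [hG]; exact Subgroup.subset_closure (by simp)
  have hgG : g * u * g⁻¹ ∈ G := by rw [hG]; exact Subgroup.subset_closure (by simp)
  have hvG : v ∈ G := by rw [hG, hv]; exact Subgroup.subset_closure (by simp)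
  have htG : t ∈ G := by
    rw [hgt] at hgG
    have := G.mul_mem hgG (G.inv_mem huG)
    rwa [mul_inv_cancel_right] at this
  have hf : ∀ z, ac e (v * t * v⁻¹) z = z + ((ρ / 2) * HH q z (v3 0 0 1)) • v3 0 0 1 := by
    intro z
    rw [ac_mul, ac_mul, ht, ac_add, ac_smul, ac_ac_inv, hve]
    have e1 : HH q (ac e v⁻¹ z) (v3 1 0 0) = HH q z (v3 0 0 s) := by
      rw [ac_form_left he, inv_inv, hve]
    have e2 : v3 0 0 s = s • v3 0 0 1 := by rw [v3_smul]; simp
    rw [e1, e2, (HH_isH hF).smul_right, smul_smul, hsq]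
    congr 2
    rw [hs]
    field_simp
    try ring
  obtain ⟨h3, h4⟩ := dick3 hF he h2 hθ0 hθ hρ0 hρ2 hρq htG (G.mul_mem (G.mul_mem hvG htG) (G.inv_mem hvG)) ht hf
  have hq2 : q ≠ 2 := by
    have := q_odd hF h2
    rintro rfl
    revert this
    decide
  refine finish3 hF he hn hq2 h3 h4 huG (hu 0 0 1) ?_
  rw [zero_add]; exact one_ne_zero

end Cfsg.Agent.H42.SuGen
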