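import Mathlib
import Cfsg.Agent.H42.SuGen10

/-!
Generation of `SU_3(q)`, `q ≥ 4` even.
-/

set_option autoImplicit false

namespace Cfsg.Agent.H42.SuGen

open Matrix Cfsg.Agent.H42.Herm Cfsg.Agent.Uni Cfsg.Agent.H42.ThreeUnip

variable {F : Type*} [Field F] [Fintype F] {q n : ℕ}

theorem q_even (hF : Fintype.card F = q ^ 2) (h2 : (2 : F) = 0) : 2 ∣ q := by
  have h1 : 2 ∣ Nat.card F := CycGen.prime_dvd_card Nat.prime_two (by exact_mod_cast h2)
  rw [Nat.card_eq_fintype_card, hF] at h1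
  exact Nat.prime_two.dvd_of_dvd_pow h1

theorem exists_sq_pow (hF : Fintype.card F = q ^ 2) (h2 : (2 : F) = 0) {θ : KK hF} (hθ0 : θ ≠ 0)
    (hθ : ∀ x : KK hF, x ≠ 0 → ∃ k : ℕ, θ ^ k = x) (x : KK hF) (hx : x ≠ 0) : ∃ k : ℕ, θ ^ (2 * k) = x := by
  have hord := CycGen.order_gen hθ0 hθ
  rw [card_KK hF] at hord
  have h1 : θ ^ (q - 1) = 1 := by rw [← hord, pow_orderOf_eq_one]
  obtain ⟨r, hr⟩ := q_even hF h2
  have hq := two_le_q hF
  obtain ⟨k, hk⟩ := hθ x hx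
  rcases Nat.even_or_odd' k with ⟨j, hj | hj⟩
  · exact ⟨j, by rw [← hj, hk]⟩
  · refine ⟨j + r, ?_⟩
    have e1 : 2 * (j + r) = k + (q - 1) := by omega
    rw [e1, pow_add, h1, mul_one, hk]

theorem three_even3 (hF : Fintype.card F = q ^ 2) (h2 : (2 : F) = 0) (hq : 3 ≤ q) (hn : n = 3) : Three n F q := by
  obtain ⟨e, he⟩ := exists_iso (m := 1) hF (show n = 2 * 1 + 1 from hn)
  have hneg : ∀ x : F, -x = x := by
    intro x
    linear_combination (-x) * h2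
  obtain ⟨s, hs⟩ := exists_trace_eq hF (c := (-1 : F)) (by rw [neg_pow_q hF, one_pow])
  obtain ⟨u, hreg, hu⟩ := exists_u3 hF he hn hs
  obtain ⟨T, hT0, hT⟩ := CycGen.exists_gen (F := KK hF)
  have hord := CycGen.order_gen hT0 hT
  rw [card_KK hF] at hord
  obtain ⟨θ, hθ⟩ : ∃ θ : F, θ = (T : F) := ⟨_, rfl⟩
  have hθ0 : θ ≠ 0 := by rw [hθ]; exact fun h => hT0 (Subtype.ext h)
  have hθq : θ ^ q = θ := by rw [hθ]; exact (mem_KK hF).mp T.2
  have hθ1 : 1 + θ ≠ 0 := by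
    intro h
    have h3 : θ = 1 := by linear_combination h - h2
    have h4 : T = 1 := Subtype.ext (by rw [← hθ, h3]; rfl)
    rw [h4, orderOf_one] at hord
    omega
  obtain ⟨b, hb⟩ : ∃ b, b = θ + θ⁻¹ := ⟨_, rfl⟩
  have hbq : b ^ q = b := by rw [hb, add_pow_q hF, inv_pow, hθq]
  have hbθ : b * θ = θ ^ 2 + 1 := by rw [hb]; field_simp
  have hb0 : b ≠ 0 := by
    intro h
    rw [h, zero_mul] at hbθ
    have h3 : (1 + θ) ^ 2 = 0 := by linear_combination θ * h2 - hbθ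
    exact hθ1 (pow_eq_zero_iff two_ne_zero |>.mp h3)
  obtain ⟨c, hc⟩ := exists_norm_eq hF hbq
  have hc0 : c ≠ 0 := by
    rintro rfl
    rw [zero_pow (by omega)] at hc
    exact hb0 hc.symm
  obtain ⟨g, t, hgt, ht⟩ := exists_comm hF he hu (μ := θ) (by rw [hθq, hneg])
  obtain ⟨J, hJ⟩ := exists_Jm hF he
  obtain ⟨R, hR⟩ := exists_h3 hF he hc0
  obtain ⟨h, hh⟩ : ∃ h, h = J * R := ⟨_, rfl⟩
  obtain ⟨v, hv⟩ : ∃ v, v = h * u * h⁻¹ := ⟨_, rfl⟩
  refine ⟨u, g, h, hreg, ?_⟩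
  obtain ⟨G, hG⟩ : ∃ G, G = Subgroup.closure ({u, g * u * g⁻¹, h * u * h⁻¹} : Set (Cfsg.SU n F q)) := ⟨_, rfl⟩
  rw [← hG]
  have huG : u ∈ G := by rw [hG]; exact Subgroup.subset_closure (by simp)
  have hgG : g * u * g⁻¹ ∈ G := by rw [hG]; exact Subgroup.subset_closure (by simp)
  have hvG : v ∈ G := by rw [hG, hv]; exact Subgroup.subset_closure (by simp)
  have htG : t ∈ G := by
    rw [hgt] at hgG
    have := G.mul_mem hgG (G.inv_mem huG)
    rwa [mul_inv_cancel_right] at this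
  have hu2 : ∀ z, ac e (u * u) z = z + (1 * HH q z (v3 1 0 0)) • v3 1 0 0 := by
    intro z
    rw [eq_v3 z]
    generalize z.1 0 = w
    generalize z.2.1 = a
    generalize z.2.2 0 = f
    rw [ac_mul, hu, hu, HH_v3, v3_smul, v3_add, v3_inj, zero_pow_q hF, one_pow]
    refine ⟨?_, ?_, ?_⟩
    · linear_combination (-a + s * f - f) * h2
    · linear_combination f * h2
    · ring
  have hhe : ac e h (v3 1 0 0) = c • v3 0 0 1 := by
    rw [hh, ac_mul, hR, hJ, v3_smul, v3_inj]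
    refine ⟨?_, ?_, ?_⟩ <;> ring
  have hv2 : ∀ z, ac e (v * v) z = z + (b * HH q z (v3 0 0 1)) • v3 0 0 1 := by
    intro z
    have e0 : v * v = h * (u * u) * h⁻¹ := by rw [hv]; group
    rw [e0, ac_mul, ac_mul, hu2, ac_add, ac_smul, ac_ac_inv, ac_form_left he, inv_inv, hhe,
      (HH_isH hF).smul_right, smul_smul, ← hc]
    congr 2
    ring
  obtain ⟨d, hd⟩ : ∃ d, d = (u * u) * (v * v) := ⟨_, rfl⟩
  have hdG : d ∈ G := by rw [hd]; exact G.mul_mem (G.mul_mem huG huG) (G.mul_mem hvG hvG)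
  have hdv : ∀ w f, ac e d (v3 w 0 f) = v3 (w + f + b * w) 0 (f + b * w) := by
    intro w f
    rw [hd, ac_mul, hv2, HH_v3, v3_smul, v3_add, hu2, HH_v3, v3_smul, v3_add, v3_inj, zero_pow_q hF, one_pow]
    refine ⟨?_, ?_, ?_⟩ <;> ring
  have hde : ac e d (v3 (θ + 1) 0 b) = θ • v3 (θ + 1) 0 b := by
    rw [hdv, v3_smul, v3_inj]
    refine ⟨?_, ?_, ?_⟩
    · linear_combination hbθ + (1 + b) * h2
    · ring
    · linear_combination b * h2
  have hθi : b * θ⁻¹ = 1 + θ⁻¹ ^ 2 := by rw [hb]; field_simp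
  have hdf : ac e d (v3 (θ + 1 + b) 0 b) = θ⁻¹ • v3 (θ + 1 + b) 0 b := by
    have h3 : b = θ + θ⁻¹ := hb
    have h4 : θ * θ⁻¹ = 1 := mul_inv_cancel₀ hθ0
    rw [hdv, v3_smul, v3_inj]
    refine ⟨?_, ?_, ?_⟩
    · have h5 : θ + 1 + b = 1 + θ⁻¹ := by rw [h3]; linear_combination θ * h2
      rw [h5]
      linear_combination hθi + (1 + b) * h2
    · ring
    · have h5 : θ + 1 + b = 1 + θ⁻¹ := by rw [h3]; linear_combination θ * h2
      rw [h5]
      linear_combination b * h2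
  -- powers of `d`
  have hdj : ∀ j : ℕ, ac e (d ^ j) (v3 (θ + 1) 0 b) = θ ^ j • v3 (θ + 1) 0 b := by
    intro j
    induction j with
    | zero => rw [pow_zero, pow_zero, ac_one, one_smul]
    | succ j ih => rw [pow_succ', ac_mul, ih, ac_smul, hde, smul_smul, pow_succ]
  have hdj' : ∀ j : ℕ, ac e (d ^ j) (v3 (θ + 1 + b) 0 b) = (θ⁻¹) ^ j • v3 (θ + 1 + b) 0 b := by
    intro j
    induction j with
    | zero => rw [pow_zero, pow_zero, ac_one, one_smul]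
    | succ j ih => rw [pow_succ', ac_mul, ih, ac_smul, hdf, smul_smul, pow_succ]
  have hte : ac e t (v3 (θ + 1) 0 b) = (1 + θ) • v3 (θ + 1) 0 b + θ • v3 (θ + 1 + b) 0 b := by
    rw [ht, HH_v3, v3_smul, v3_smul, v3_smul, v3_add, v3_add, v3_inj, zero_pow_q hF, one_pow]
    refine ⟨?_, ?_, ?_⟩
    · linear_combination (-θ - θ ^ 2) * h2
    · ring
    · linear_combination (-b * θ) * h2
  -- the exponent
  obtain ⟨j, hj⟩ : ∃ j : ℕ, θ ^ (2 * j) * (1 + θ) = θ := by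
    have hmem : θ / (1 + θ) ∈ KK hF := by
      rw [mem_KK, div_pow, add_pow_q hF, one_pow, hθq]
    obtain ⟨j, hj⟩ := exists_sq_pow hF h2 hT0 hT ⟨θ / (1 + θ), hmem⟩ (fun h =>
      div_ne_zero hθ0 hθ1 (congrArg Subtype.val h))
    refine ⟨j, ?_⟩
    have h3 : θ ^ (2 * j) = θ / (1 + θ) := by
      have := congrArg Subtype.val hj
      rw [hθ]
      simpa [hθ] using this
    rw [h3, div_mul_cancel₀ _ hθ1]
  obtain ⟨C, hC⟩ : ∃ C, C = (1 + θ) * θ ^ j * b := ⟨_, rfl⟩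
  have hC0 : C ≠ 0 := by
    rw [hC]; exact mul_ne_zero (mul_ne_zero hθ1 (pow_ne_zero _ hθ0)) hb0
  obtain ⟨y, hy⟩ : ∃ y, y = d ^ j * t := ⟨_, rfl⟩
  have hyG : y ∈ G := by rw [hy]; exact G.mul_mem (G.pow_mem hdG j) htG
  have hye : ac e y (v3 (θ + 1) 0 b) = C • v3 1 0 0 := by
    have h3 : θ * (θ⁻¹) ^ j = (1 + θ) * θ ^ j := by
      rw [inv_pow]
      have h4 : θ ^ j ≠ 0 := pow_ne_zero _ hθ0
      field_simp
      rw [two_mul, pow_add] at hj
      linear_combination -hj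
    rw [hy, ac_mul, hte, ac_add, ac_smul, ac_smul, hdj, hdj', smul_smul, smul_smul, h3, v3_smul, v3_smul,
      v3_smul, v3_add, v3_inj, hC]
    refine ⟨?_, ?_, ?_⟩
    · linear_combination ((1 + θ) * θ ^ j * (θ + 1)) * h2
    · ring
    · linear_combination ((1 + θ) * θ ^ j * b) * h2
  obtain ⟨d', hd'⟩ : ∃ d', d' = y * d * y⁻¹ := ⟨_, rfl⟩
  have hd'G : d' ∈ G := by rw [hd']; exact G.mul_mem (G.mul_mem hyG hdG) (G.inv_mem hyG)
  have hd'e : ac e d' (v3 1 0 0) = θ • v3 1 0 0 := by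
    have h3 : ac e y⁻¹ (v3 1 0 0) = C⁻¹ • v3 (θ + 1) 0 b := by
      apply ac_inv_eq
      rw [ac_smul, hye, smul_smul, inv_mul_cancel₀ hC0, one_smul]
    rw [hd', ac_mul, ac_mul, h3, ac_smul, hde, ac_smul, ac_smul, hye, smul_smul, smul_smul]
    congr 1
    field_simp
  have hd'j : ∀ i : ℕ, ac e (d' ^ i) (v3 1 0 0) = θ ^ i • v3 1 0 0 := by
    intro i
    induction i with
    | zero => rw [pow_zero, pow_zero, ac_one, one_smul]
    | succ j ih => rw [pow_succ', ac_mul, ih, ac_smul, hd'e, smul_smul, pow_succ]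
  have h3 : Fu e G (v3 1 0 0) := by
    intro k c hk
    have hcq := skew_of_tv hF he (by rw [HH_v3, zero_pow_q hF]; ring) (by
      intro h
      have := (v3_inj (F := F) (w := 1) (a := 0) (f := 0) (w' := 0) (a' := 0) (f' := 0)).mp h
      exact one_ne_zero this.1) hk
    rw [hneg] at hcq
    by_cases hc1 : c = 0
    · have : k = 1 := by
        apply ac_ext e
        intro z
        rw [hk, hc1, zero_mul, zero_smul, add_zero, ac_one]
      rw [this]; exact G.one_mem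
    obtain ⟨i, hi⟩ := exists_sq_pow hF h2 hT0 hT ⟨c, (mem_KK hF).mpr hcq⟩ (fun h =>
      hc1 (congrArg Subtype.val h))
    have hi' : θ ^ (2 * i) = c := by
      have := congrArg Subtype.val hi
      rw [hθ]
      simpa using this
    have : k = d' ^ i * (u * u) * (d' ^ i)⁻¹ := by
      apply ac_ext e
      intro z
      rw [hk, ac_mul, ac_mul, hu2, ac_add, ac_smul, ac_ac_inv, ac_form_left he, inv_inv, hd'j,
        (HH_isH hF).smul_right, smul_smul, ← pow_mul, mul_comm i q, pow_mul, hθq, ← hi', two_mul, pow_add]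
      congr 2
      ring
    rw [this]
    exact G.mul_mem (G.mul_mem (G.pow_mem hd'G i) (G.mul_mem huG huG)) (G.inv_mem (G.pow_mem hd'G i))
  have h4 : Fu e G (v3 0 0 1) := by
    have h5 := h3.act he (G.mul_mem hvG hvG)
    rw [hv2, HH_v3, v3_smul, v3_add, zero_pow_q hF, one_pow] at h5
    obtain ⟨k, hk, e1, -⟩ := move_e hF he h3 (a := 1) (a' := 0) (b := b) hb0 (by
      rw [hbq, zero_pow_q hF]
      linear_combination b * h2)
    have e2 : v3 (1 + b * (1 * 1 + 0 * 0 + 0 * 0) * 0) (0 + b * (1 * 1 + 0 * 0 + 0 * 0) * 0)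
        (0 + b * (1 * 1 + 0 * 0 + 0 * 0) * 1) = v3 1 0 b := by
      rw [v3_inj]
      refine ⟨?_, ?_, ?_⟩ <;> ring
    rw [e2] at h5
    have h6 := (h5.act he hk).smul hF b⁻¹
    rw [e1, v3_smul, mul_zero, inv_mul_cancel₀ hb0] at h6
    exact h6
  refine finish3 hF he hn (by omega) h3 h4 huG (hu 0 0 1) ?_
  rw [zero_add]; exact one_ne_zero

/-- **the theorem** -/
theorem three_all (hF : Fintype.card F = q ^ 2) (hn : 3 ≤ n) (hodd : Odd n) (h32 : ¬ (n = 3 ∧ q = 2)) :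
    Three n F q := by
  by_cases h5 : 5 ≤ n
  · exact three_ge5 hF h5 hodd
  have hn3 : n = 3 := by
    obtain ⟨k, hk⟩ := hodd
    omega
  by_cases h2 : (2 : F) = 0
  · have := two_le_q hF
    have : q ≠ 2 := fun h => h32 ⟨hn3, h⟩
    exact three_even3 hF h2 (by omega) hn3
  · exact three_odd3 hF h2 hn3

end Cfsg.Agent.H42.SuGen
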