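import Mathlib
import Cfsg.Agent.H42.SuGen11

/-!
Generation of `SU_3(q)` by two conjugate regular unipotent elements: one full point suffices.
-/

set_option autoImplicit false

namespace Cfsg.Agent.H42.SuGen

open Matrix Cfsg.Agent.H42.Herm Cfsg.Agent.Uni Cfsg.Agent.H42.ThreeUnip

/-- the conclusion -/
def Two (n : ℕ) (F : Type*) [Field F] (q : ℕ) : Prop :=
  ∃ u g : Cfsg.SU n F q, RU u ∧ Subgroup.closure ({u, g * u * g⁻¹} : Set (Cfsg.SU n F q)) = ⊤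

variable {F : Type*} [Field F] [Fintype F] {q n : ℕ} {e : VV 1 F ≃ₗ[F] (Fin n → F)}
  (hF : Fintype.card F = q ^ 2) (he : ∀ x y, HH q x y = Cfsg.hermForm n F q (e x) (e y))

include hF he in
/-- an element moving an isotropic vector to `f` -/
theorem exists_to_f {w a : F} (hz : HH q (v3 w a 1) (v3 w a 1) = 0) :
    ∃ R : Cfsg.SU n F q, ac e R (v3 w a 1) = v3 0 0 1 ∧ ac e R (v3 1 0 0) = v3 1 0 0 := by
  rw [HH_v3, one_pow, mul_one, one_mul] at hz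
  obtain ⟨R, hR⟩ := exists_q3 hF he (x := a ^ q) (s := -w - a * a ^ q) (by
    rw [sub_pow_q hF, neg_pow_q hF, mul_pow, pow_q_pow_q hF]
    linear_combination -hz)
  refine ⟨R, ?_, ?_⟩
  · rw [hR, v3_inj, pow_q_pow_q hF]
    refine ⟨?_, ?_, ?_⟩ <;> ring
  · rw [hR, v3_inj]
    refine ⟨?_, ?_, ?_⟩ <;> ring

theorem Fu.map {m : ℕ} {e : VV m F ≃ₗ[F] (Fin n → F)} (he : ∀ x y, HH q x y = Cfsg.hermForm n F q (e x) (e y))
    {G : Subgroup (Cfsg.SU n F q)} {z : VV m F} (h : Fu e G z) (T : Cfsg.SU n F q) :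
    Fu e (G.map (MulAut.conj T).toMonoidHom) (ac e T z) := by
  intro k c hk
  refine ⟨T⁻¹ * k * T, ?_, ?_⟩
  · apply h _ c
    intro x
    rw [ac_mul, ac_mul, hk, ac_add, ac_smul, ac_inv_ac, ac_inv_ac, ac_form he]
  · show T * (T⁻¹ * k * T) * T⁻¹ = k
    group

include hF he in
/-- one full point outside `e^⊥` suffices -/
theorem fullpt (hn : n = 3) (hq : q ≠ 2) {G : Subgroup (Cfsg.SU n F q)} {u : Cfsg.SU n F q} {s : F}
    (hs : s + s ^ q = -1) (hu : ∀ w a f, ac e u (v3 w a f) = v3 (w - a + s * f) (a + f) f) (huG : u ∈ G)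
    {ρ : VV 1 F} (hρ : HH q ρ ρ = 0) (hf : ρ.2.2 0 ≠ 0) (hfu : Fu e G ρ) : G = ⊤ := by
  obtain ⟨w, a, hz0, hz0F⟩ : ∃ w a : F, HH q (v3 w a 1) (v3 w a 1) = 0 ∧ Fu e G (v3 w a 1) := by
    obtain ⟨w0, a0, f0, rfl⟩ : ∃ w0 a0 f0, ρ = v3 w0 a0 f0 := ⟨_, _, _, eq_v3 ρ⟩
    have hf0 : f0 ≠ 0 := hf
    have e1 : v3 (f0⁻¹ * w0) (f0⁻¹ * a0) 1 = f0⁻¹ • v3 w0 a0 f0 := by
      rw [v3_smul, inv_mul_cancel₀ hf0]
    refine ⟨f0⁻¹ * w0, f0⁻¹ * a0, ?_, ?_⟩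
    · rw [e1, (HH_isH hF).smul_left, (HH_isH hF).smul_right, hρ]; ring
    · rw [e1]; exact hfu.smul hF _
  have hz0' := hz0
  rw [HH_v3, one_pow, mul_one, one_mul] at hz0'
  obtain ⟨R1, hR1, -⟩ := exists_to_f hF he hz0
  obtain ⟨J, hJ⟩ := exists_Jm hF he
  -- the second point
  have hz1F : Fu e G (v3 (w - a + s) (a + 1) 1) := by
    have := hz0F.act he huG
    rw [hu, mul_one] at this
    exact this
  obtain ⟨w2, a2, f2, h2⟩ : ∃ w2 a2 f2 : F, ac e (J * R1) (v3 (w - a + s) (a + 1) 1) = v3 w2 a2 f2 :=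
    ⟨_, _, _, eq_v3 _⟩
  have hJR : ac e (J * R1) (v3 w a 1) = v3 1 0 0 := by
    rw [ac_mul, hR1, hJ, v3_inj]
    exact ⟨rfl, neg_zero, rfl⟩
  have hf2 : f2 ≠ 0 := by
    have h3 := ac_form he (J * R1) (v3 (w - a + s) (a + 1) 1) (v3 w a 1)
    rw [h2, hJR, HH_v3, HH_v3, one_pow, zero_pow_q hF] at h3
    intro h0
    rw [h0] at h3
    have h4 : s = a - a ^ q := by linear_combination -h3 - hz0'
    have h5 : s + s ^ q = 0 := by
      rw [h4, sub_pow_q hF, pow_q_pow_q hF]; ring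
    rw [hs] at h5
    exact neg_ne_zero.mpr one_ne_zero h5
  have hz2 : HH q (v3 (w2 / f2) (a2 / f2) 1) (v3 (w2 / f2) (a2 / f2) 1) = 0 := by
    have e1 : v3 (w2 / f2) (a2 / f2) 1 = f2⁻¹ • v3 w2 a2 f2 := by
      rw [v3_smul, v3_inj]
      refine ⟨?_, ?_, ?_⟩ <;> field_simp
    have e2 : HH q (v3 (w - a + s) (a + 1) 1) (v3 (w - a + s) (a + 1) 1) = 0 := by
      have := ac_form he u (v3 w a 1) (v3 w a 1)
      rw [hu, mul_one] at this
      rw [this, hz0]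
    rw [e1, (HH_isH hF).smul_left, (HH_isH hF).smul_right, ← h2, ac_form he, e2]; ring
  obtain ⟨R2, hR2, hR2e⟩ := exists_to_f hF he hz2
  obtain ⟨T, hT⟩ : ∃ T, T = R2 * (J * R1) := ⟨_, rfl⟩
  have hT0 : ac e T (v3 w a 1) = v3 1 0 0 := by rw [hT, ac_mul, hJR, hR2e]
  have hT1 : ac e T (v3 (w - a + s) (a + 1) 1) = f2 • v3 0 0 1 := by
    have e1 : v3 w2 a2 f2 = f2 • v3 (w2 / f2) (a2 / f2) 1 := by
      rw [v3_smul, v3_inj]
      refine ⟨?_, ?_, ?_⟩ <;> field_simp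
    rw [hT, ac_mul, h2, e1, ac_smul, hR2]
  obtain ⟨w3, a3, f3, h3⟩ : ∃ w3 a3 f3 : F, ac e T (v3 (w - a + s - (a + 1) + s) (a + 1 + 1) 1) = v3 w3 a3 f3 :=
    ⟨_, _, _, eq_v3 _⟩
  have ha3 : a3 ≠ 0 := by
    intro h0
    rw [h0] at h3
    have e1 : v3 w3 0 f3 = w3 • v3 1 0 0 + (f3 / f2) • (f2 • v3 0 0 1) := by
      rw [smul_smul, div_mul_cancel₀ _ hf2, v3_smul, v3_smul, v3_add, v3_inj]
      refine ⟨?_, ?_, ?_⟩ <;> ring
    rw [e1, ← hT0, ← hT1, ← ac_smul, ← ac_smul, ← ac_add] at h3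
    have h4 := (ac_inj e).mp h3
    rw [v3_smul, v3_smul, v3_add, v3_inj] at h4
    obtain ⟨h5, h6, h7⟩ := h4
    have h8 : (1 : F) = 0 := by
      linear_combination -h5 + (h6 - a * h7) * (s - a) + w * h7
    exact one_ne_zero h8
  have htop : G.map (MulAut.conj T).toMonoidHom = ⊤ := by
    apply finish3 hF he hn hq (g := T * u * T⁻¹) (w0 := f2⁻¹ * w3) (a0 := f2⁻¹ * a3) (f0 := f2⁻¹ * f3)
    · have := hz0F.map he T
      rwa [hT0] at this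
    · have := (hz1F.map he T).smul hF f2⁻¹
      rwa [hT1, smul_smul, inv_mul_cancel₀ hf2, one_smul] at this
    · exact ⟨u, huG, rfl⟩
    · have e1 : ac e T⁻¹ (v3 0 0 1) = f2⁻¹ • v3 (w - a + s) (a + 1) 1 := by
        apply ac_inv_eq
        rw [ac_smul, hT1, smul_smul, inv_mul_cancel₀ hf2, one_smul]
      rw [ac_mul, ac_mul, e1, ac_smul, ac_smul, hu, mul_one, h3, v3_smul]
    · exact mul_ne_zero (inv_ne_zero hf2) ha3
  rw [eq_top_iff]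
  intro x _
  have hx : T * x * T⁻¹ ∈ G.map (MulAut.conj T).toMonoidHom := by rw [htop]; trivial
  obtain ⟨y, hy, hyx⟩ := hx
  have hyx' : T * y * T⁻¹ = T * x * T⁻¹ := hyx
  have : y = x := by
    have h4 := congrArg (fun z => T⁻¹ * z * T) hyx'
    simpa [mul_assoc] using h4
  rw [← this]; exact hy

end Cfsg.Agent.H42.SuGen
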