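import Mathlib
import Cfsg.Agent.H42.SuTwo1

/-!
Generation of `SU_3(q)`, `q ≥ 4` even, by two conjugate regular unipotent elements.
-/

set_option autoImplicit false

namespace Cfsg.Agent.H42.SuGen

open Matrix Cfsg.Agent.H42.Herm Cfsg.Agent.Uni Cfsg.Agent.H42.ThreeUnip

variable {F : Type*} [Field F] [Fintype F] {q n : ℕ}

theorem two_even3 (hF : Fintype.card F = q ^ 2) (h2 : (2 : F) = 0) (hq : 3 ≤ q) (hn : n = 3) : Two n F q := by
  obtain ⟨e, he⟩ := exists_iso (m := 1) hF (show n = 2 * 1 + 1 from hn)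
  have hneg : ∀ x : F, -x = x := by
    intro x
    linear_combination (-x) * h2
  obtain ⟨s, hs⟩ := exists_trace_eq hF (c := (-1 : F)) (by rw [neg_pow_q hF, one_pow])
  obtain ⟨u, hreg, hu⟩ := exists_u3 hF he hn hs
  obtain ⟨T, hT0, hT⟩ := CycGen.exists_gen (F := KK hF)
  have hord := CycGen.order_gen hT0 hT
  rw [card_KK hF] at hord
  obtain ⟨θ, hθ⟩ : ∃ θ : F, θ = (T : F) := ⟨_, rfl⟩
  have hθ0 : θ ≠ 0 := by rw [hθ]; exact fun h => hT0 (Subtype.ext h)
  have hθq : θ ^ q = θ := by rw [hθ]; exact (mem_KK hF).mp T.2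
  have hθq1 : θ ^ (q - 1) = 1 := by
    have h1 : T ^ (q - 1) = 1 := by rw [← hord, pow_orderOf_eq_one]
    rw [hθ]
    have := congrArg Subtype.val h1
    simpa using this
  have hθ1 : 1 + θ ≠ 0 := by
    intro h
    have h3 : θ = 1 := by linear_combination h - h2
    have h4 : T = 1 := Subtype.ext (by rw [← hθ, h3]; rfl)
    rw [h4, orderOf_one] at hord
    omega
  obtain ⟨b, hb⟩ : ∃ b, b = θ + θ⁻¹ := ⟨_, rfl⟩
  have hbq : b ^ q = b := by rw [hb, add_pow_q hF, inv_pow, hθq]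
  have hbθ : b * θ = θ ^ 2 + 1 := by rw [hb]; field_simp
  have hb0 : b ≠ 0 := by
    intro h
    rw [h, zero_mul] at hbθ
    have h3 : (1 + θ) ^ 2 = 0 := by linear_combination θ * h2 - hbθ
    exact hθ1 (pow_eq_zero_iff two_ne_zero |>.mp h3)
  -- the constant
  obtain ⟨r0, hr0⟩ := q_even hF h2
  obtain ⟨k, hk⟩ : ∃ k, k = r0 - 1 := ⟨_, rfl⟩
  have hk1 : θ ^ (2 * k + 1) = 1 := by
    have : 2 * k + 1 = q - 1 := by omega
    rw [this, hθq1]
  obtain ⟨c, hc⟩ : ∃ c, c = θ ^ k * (1 + θ) := ⟨_, rfl⟩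
  have hcq : c ^ q = c := by
    rw [hc, mul_pow, add_pow_q hF, one_pow, hθq, ← pow_mul, mul_comm k q, pow_mul, hθq]
  have hcb : c * c = b := by
    have h3 : θ * (c * c) = θ * b := by
      rw [hc]
      have : θ * (θ ^ k * (1 + θ) * (θ ^ k * (1 + θ))) = θ ^ (2 * k + 1) * (1 + θ) ^ 2 := by ring
      rw [this, hk1, mul_comm θ b, hbθ]
      linear_combination θ * h2
    exact mul_left_cancel₀ hθ0 h3
  have hc0 : c ≠ 0 := by
    rw [hc]; exact mul_ne_zero (pow_ne_zero _ hθ0) hθ1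
  obtain ⟨g, t, hgt, ht⟩ := exists_comm hF he hu (μ := θ) (by rw [hθq, hneg])
  obtain ⟨J, hJ⟩ := exists_Jm hF he
  obtain ⟨R, hR⟩ := exists_h3 hF he hc0
  obtain ⟨h, hh⟩ : ∃ h, h = J * R := ⟨_, rfl⟩
  obtain ⟨v, hv⟩ : ∃ v, v = (h * g) * u * (h * g)⁻¹ := ⟨_, rfl⟩
  have hv' : v = h * (t * u) * h⁻¹ := by rw [hv, ← hgt]; group
  refine ⟨u, h * g, hreg, ?_⟩
  obtain ⟨G, hG⟩ : ∃ G, G = Subgroup.closure ({u, (h * g) * u * (h * g)⁻¹} : Set (Cfsg.SU n F q)) := ⟨_, rfl⟩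
  rw [← hG]
  have huG : u ∈ G := by rw [hG]; exact Subgroup.subset_closure (by simp)
  have hvG : v ∈ G := by rw [hG, hv]; exact Subgroup.subset_closure (by simp)
  have htv : ∀ w a f, ac e t (v3 w a f) = v3 (w + θ * f) a f := by
    intro w a f
    rw [ht, HH_v3, v3_smul, v3_add, v3_inj, zero_pow_q hF, one_pow]
    refine ⟨?_, ?_, ?_⟩ <;> ring
  have hu2 : ∀ z, ac e (u * u) z = z + (1 * HH q z (v3 1 0 0)) • v3 1 0 0 := by
    intro z
    rw [eq_v3 z]
    generalize z.1 0 = w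
    generalize z.2.1 = a
    generalize z.2.2 0 = f
    rw [ac_mul, hu, hu, HH_v3, v3_smul, v3_add, v3_inj, zero_pow_q hF, one_pow]
    refine ⟨?_, ?_, ?_⟩
    · linear_combination (-a + s * f - f) * h2
    · linear_combination f * h2
    · ring
  have htu2 : ∀ z, ac e ((t * u) * (t * u)) z = z + (1 * HH q z (v3 1 0 0)) • v3 1 0 0 := by
    intro z
    rw [eq_v3 z]
    generalize z.1 0 = w
    generalize z.2.1 = a
    generalize z.2.2 0 = f
    rw [ac_mul, ac_mul, ac_mul, hu, htv, hu, htv, HH_v3, v3_smul, v3_add, v3_inj, zero_pow_q hF, one_pow]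
    refine ⟨?_, ?_, ?_⟩
    · linear_combination (-a + s * f - f + θ * f) * h2
    · linear_combination f * h2
    · ring
  have hhe : ac e h (v3 1 0 0) = c • v3 0 0 1 := by
    rw [hh, ac_mul, hR, hJ, v3_smul, v3_inj]
    refine ⟨?_, ?_, ?_⟩ <;> ring
  have hh0 : ac e h (v3 0 1 0) = v3 0 1 0 := by
    rw [hh, ac_mul, hR, hJ, v3_inj, hcq, hneg]
    refine ⟨?_, ?_, ?_⟩
    · ring
    · field_simp
    · ring
  have hv2 : ∀ z, ac e (v * v) z = z + (b * HH q z (v3 0 0 1)) • v3 0 0 1 := by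
    intro z
    have e0 : v * v = h * ((t * u) * (t * u)) * h⁻¹ := by rw [hv']; group
    rw [e0, ac_mul, ac_mul, htu2, ac_add, ac_smul, ac_ac_inv, ac_form_left he, inv_inv, hhe,
      (HH_isH hF).smul_right, smul_smul, hcq, ← hcb]
    congr 2
    ring
  obtain ⟨d, hd⟩ : ∃ d, d = (u * u) * (v * v) := ⟨_, rfl⟩
  have hdG : d ∈ G := by rw [hd]; exact G.mul_mem (G.mul_mem huG huG) (G.mul_mem hvG hvG)
  have hdv : ∀ w f, ac e d (v3 w 0 f) = v3 (w + f + b * w) 0 (f + b * w) := by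
    intro w f
    rw [hd, ac_mul, hv2, HH_v3, v3_smul, v3_add, hu2, HH_v3, v3_smul, v3_add, v3_inj, zero_pow_q hF, one_pow]
    refine ⟨?_, ?_, ?_⟩ <;> ring
  have hd0 : ac e d (v3 0 1 0) = v3 0 1 0 := by
    rw [hd, ac_mul, hv2, HH_v3, v3_smul, v3_add, hu2, HH_v3, v3_smul, v3_add, v3_inj, zero_pow_q hF, one_pow]
    refine ⟨?_, ?_, ?_⟩ <;> ring
  have hd0j : ∀ j : ℕ, ac e (d ^ j) (v3 0 1 0) = v3 0 1 0 := by
    intro j
    induction j with
    | zero => rw [pow_zero, ac_one]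
    | succ j ih => rw [pow_succ', ac_mul, ih, hd0]
  have hde : ac e d (v3 (θ + 1) 0 b) = θ • v3 (θ + 1) 0 b := by
    rw [hdv, v3_smul, v3_inj]
    refine ⟨?_, ?_, ?_⟩
    · linear_combination hbθ + (1 + b) * h2
    · ring
    · linear_combination b * h2
  have hθi : b * θ⁻¹ = 1 + θ⁻¹ ^ 2 := by rw [hb]; field_simp
  have hdf : ac e d (v3 (θ + 1 + b) 0 b) = θ⁻¹ • v3 (θ + 1 + b) 0 b := by
    have h3 : b = θ + θ⁻¹ := hb
    have h4 : θ * θ⁻¹ = 1 := mul_inv_cancel₀ hθ0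
    rw [hdv, v3_smul, v3_inj]
    refine ⟨?_, ?_, ?_⟩
    · have h5 : θ + 1 + b = 1 + θ⁻¹ := by rw [h3]; linear_combination θ * h2
      rw [h5]
      linear_combination hθi + (1 + b) * h2
    · ring
    · have h5 : θ + 1 + b = 1 + θ⁻¹ := by rw [h3]; linear_combination θ * h2
      rw [h5]
      linear_combination b * h2
  -- powers of `d`
  have hdj : ∀ j : ℕ, ac e (d ^ j) (v3 (θ + 1) 0 b) = θ ^ j • v3 (θ + 1) 0 b := by
    intro j
    induction j with
    | zero => rw [pow_zero, pow_zero, ac_one, one_smul]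
    | succ j ih => rw [pow_succ', ac_mul, ih, ac_smul, hde, smul_smul, pow_succ]
  have hdj' : ∀ j : ℕ, ac e (d ^ j) (v3 (θ + 1 + b) 0 b) = (θ⁻¹) ^ j • v3 (θ + 1 + b) 0 b := by
    intro j
    induction j with
    | zero => rw [pow_zero, pow_zero, ac_one, one_smul]
    | succ j ih => rw [pow_succ', ac_mul, ih, ac_smul, hdf, smul_smul, pow_succ]
  -- `w0 = d ^ k` maps `e` to `c f`
  have hw0e : ac e (d ^ k) (v3 1 0 0) = c • v3 0 0 1 := by
    have e1 : v3 1 0 0 = b⁻¹ • (v3 (θ + 1) 0 b + v3 (θ + 1 + b) 0 b) := by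
      rw [v3_add, v3_smul, v3_inj]
      refine ⟨?_, ?_, ?_⟩
      · field_simp
        linear_combination (-1 - θ) * h2
      · ring
      · linear_combination -(b⁻¹ * b) * h2
    have e2 : (θ⁻¹) ^ k = θ ^ k * θ := by
      rw [inv_pow]
      have h4 : θ ^ k ≠ 0 := pow_ne_zero _ hθ0
      field_simp
      rw [← hk1]; ring
    rw [e1, ac_smul, ac_add, hdj, hdj', e2, v3_smul, v3_smul, v3_add, v3_smul, v3_smul, v3_inj, hc]
    refine ⟨?_, ?_, ?_⟩
    · field_simp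
      linear_combination (1 : F) * hbθ + (θ ^ 2 + θ + 1) * h2
    · ring
    · field_simp
  -- `r = w0⁻¹ h` is in the centre of the radical
  obtain ⟨r, hr⟩ : ∃ r, r = (d ^ k)⁻¹ * h := ⟨_, rfl⟩
  have hrP : PP e r 1 0 := by
    intro w a
    have e1 : (w, a, (0 : Fin 1 → F)) = w 0 • v3 1 0 0 + a • v3 0 1 0 := by
      rw [v3_smul, v3_smul, v3_add]
      refine Prod.ext ?_ (Prod.ext ?_ ?_)
      · ext i; fin_cases i; simp [v3]
      · simp [v3]
      · ext i; fin_cases i; simp [v3]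
    have e2 : ac e r (v3 1 0 0) = v3 1 0 0 := by
      rw [hr, ac_mul, hhe]
      exact ac_inv_eq e hw0e
    have e3 : ac e r (v3 0 1 0) = v3 0 1 0 := by
      rw [hr, ac_mul, hh0]
      exact ac_inv_eq e (hd0j k)
    rw [one_mulVec, smul_zero, add_zero, e1, ac_add, ac_smul, ac_smul, e2, e3]
  have htuP : PP e (t * u) 1 (fun _ => -1) := by
    intro w a
    have e1 : (w, a, (0 : Fin 1 → F)) = v3 (w 0) a 0 := by
      refine Prod.ext ?_ (Prod.ext rfl ?_)
      · ext i; fin_cases i; rfl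
      · ext i; fin_cases i; rfl
    rw [e1, ac_mul, hu, htv, one_mulVec]
    refine Prod.ext ?_ (Prod.ext ?_ ?_)
    · ext i; fin_cases i; simp [v3]; ring
    · simp [v3]
    · ext i; fin_cases i; simp [v3]
  obtain ⟨S1, hS1⟩ := hrP.isQ hF he
  obtain ⟨S2, hS2⟩ := htuP.isQ hF he
  have hcomm : r * (t * u) = (t * u) * r := by
    have h3 : r * (t * u) * ((t * u) * r)⁻¹ = 1 := by
      apply ac_ext e
      intro z
      rw [hS1.comm hS2, ac_one, sg_zero hF, zero_dotProduct, zero_smul, smul_zero, sub_zero]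
      exact add_zero z
    exact mul_inv_eq_one.mp h3
  have htG : t ∈ G := by
    have h3 : (d ^ k)⁻¹ * v * (d ^ k) = t * u := by
      have h4 : (d ^ k)⁻¹ * v * (d ^ k) = r * (t * u) * r⁻¹ := by rw [hr, hv']; group
      rw [h4, hcomm]; group
    have h4 : t = (d ^ k)⁻¹ * v * (d ^ k) * u⁻¹ := by rw [h3]; group
    rw [h4]
    exact G.mul_mem (G.mul_mem (G.mul_mem (G.inv_mem (G.pow_mem hdG k)) hvG) (G.pow_mem hdG k)) (G.inv_mem huG)
  have hte : ac e t (v3 (θ + 1) 0 b) = (1 + θ) • v3 (θ + 1) 0 b + θ • v3 (θ + 1 + b) 0 b := by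
    rw [ht, HH_v3, v3_smul, v3_smul, v3_smul, v3_add, v3_add, v3_inj, zero_pow_q hF, one_pow]
    refine ⟨?_, ?_, ?_⟩
    · linear_combination (-θ - θ ^ 2) * h2
    · ring
    · linear_combination (-b * θ) * h2
  -- the exponent
  obtain ⟨j, hj⟩ : ∃ j : ℕ, θ ^ (2 * j) * (1 + θ) = θ := by
    have hmem : θ / (1 + θ) ∈ KK hF := by
      rw [mem_KK, div_pow, add_pow_q hF, one_pow, hθq]
    obtain ⟨j, hj⟩ := exists_sq_pow hF h2 hT0 hT ⟨θ / (1 + θ), hmem⟩ (fun h =>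
      div_ne_zero hθ0 hθ1 (congrArg Subtype.val h))
    refine ⟨j, ?_⟩
    have h3 : θ ^ (2 * j) = θ / (1 + θ) := by
      have := congrArg Subtype.val hj
      rw [hθ]
      simpa [hθ] using this
    rw [h3, div_mul_cancel₀ _ hθ1]
  obtain ⟨C, hC⟩ : ∃ C, C = (1 + θ) * θ ^ j * b := ⟨_, rfl⟩
  have hC0 : C ≠ 0 := by
    rw [hC]; exact mul_ne_zero (mul_ne_zero hθ1 (pow_ne_zero _ hθ0)) hb0
  obtain ⟨y, hy⟩ : ∃ y, y = d ^ j * t := ⟨_, rfl⟩
  have hyG : y ∈ G := by rw [hy]; exact G.mul_mem (G.pow_mem hdG j) htG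
  have hye : ac e y (v3 (θ + 1) 0 b) = C • v3 1 0 0 := by
    have h3 : θ * (θ⁻¹) ^ j = (1 + θ) * θ ^ j := by
      rw [inv_pow]
      have h4 : θ ^ j ≠ 0 := pow_ne_zero _ hθ0
      field_simp
      rw [two_mul, pow_add] at hj
      linear_combination -hj
    rw [hy, ac_mul, hte, ac_add, ac_smul, ac_smul, hdj, hdj', smul_smul, smul_smul, h3, v3_smul, v3_smul,
      v3_smul, v3_add, v3_inj, hC]
    refine ⟨?_, ?_, ?_⟩
    · linear_combination ((1 + θ) * θ ^ j * (θ + 1)) * h2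
    · ring
    · linear_combination ((1 + θ) * θ ^ j * b) * h2
  obtain ⟨d', hd'⟩ : ∃ d', d' = y * d * y⁻¹ := ⟨_, rfl⟩
  have hd'G : d' ∈ G := by rw [hd']; exact G.mul_mem (G.mul_mem hyG hdG) (G.inv_mem hyG)
  have hd'e : ac e d' (v3 1 0 0) = θ • v3 1 0 0 := by
    have h3 : ac e y⁻¹ (v3 1 0 0) = C⁻¹ • v3 (θ + 1) 0 b := by
      apply ac_inv_eq
      rw [ac_smul, hye, smul_smul, inv_mul_cancel₀ hC0, one_smul]
    rw [hd', ac_mul, ac_mul, h3, ac_smul, hde, ac_smul, ac_smul, hye, smul_smul, smul_smul]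
    congr 1
    field_simp
  have hd'j : ∀ i : ℕ, ac e (d' ^ i) (v3 1 0 0) = θ ^ i • v3 1 0 0 := by
    intro i
    induction i with
    | zero => rw [pow_zero, pow_zero, ac_one, one_smul]
    | succ j ih => rw [pow_succ', ac_mul, ih, ac_smul, hd'e, smul_smul, pow_succ]
  have h3 : Fu e G (v3 1 0 0) := by
    intro k c hk
    have hcq := skew_of_tv hF he (by rw [HH_v3, zero_pow_q hF]; ring) (by
      intro h
      have := (v3_inj (F := F) (w := 1) (a := 0) (f := 0) (w' := 0) (a' := 0) (f' := 0)).mp h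
      exact one_ne_zero this.1) hk
    rw [hneg] at hcq
    by_cases hc1 : c = 0
    · have : k = 1 := by
        apply ac_ext e
        intro z
        rw [hk, hc1, zero_mul, zero_smul, add_zero, ac_one]
      rw [this]; exact G.one_mem
    obtain ⟨i, hi⟩ := exists_sq_pow hF h2 hT0 hT ⟨c, (mem_KK hF).mpr hcq⟩ (fun h =>
      hc1 (congrArg Subtype.val h))
    have hi' : θ ^ (2 * i) = c := by
      have := congrArg Subtype.val hi
      rw [hθ]
      simpa using this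
    have : k = d' ^ i * (u * u) * (d' ^ i)⁻¹ := by
      apply ac_ext e
      intro z
      rw [hk, ac_mul, ac_mul, hu2, ac_add, ac_smul, ac_ac_inv, ac_form_left he, inv_inv, hd'j,
        (HH_isH hF).smul_right, smul_smul, ← pow_mul, mul_comm i q, pow_mul, hθq, ← hi', two_mul, pow_add]
      congr 2
      ring
    rw [this]
    exact G.mul_mem (G.mul_mem (G.pow_mem hd'G i) (G.mul_mem huG huG)) (G.inv_mem (G.pow_mem hd'G i))
  have h5 := h3.act he (G.mul_mem hvG hvG)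
  refine fullpt hF he hn (by omega) hs hu huG ?_ ?_ h5
  · rw [ac_form he, HH_v3, zero_pow_q hF]; ring
  · rw [hv2, HH_v3, v3_smul, v3_add, zero_pow_q hF, one_pow]
    show 0 + b * (1 * 1 + 0 * 0 + 0 * 0) * 1 ≠ 0
    intro h
    apply hb0
    linear_combination h

end Cfsg.Agent.H42.SuGen
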