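import Mathlib
import Cfsg.Agent.H42.SuTwo1

/-!
Generation of `SU_3(q)`, `q` an odd prime, by two conjugate regular unipotent elements.
-/

set_option autoImplicit false

namespace Cfsg.Agent.H42.SuGen

open Matrix Cfsg.Agent.H42.Herm Cfsg.Agent.Uni Cfsg.Agent.H42.ThreeUnip

section setup

variable {F : Type*} [Field F] [Fintype F] {q n : ℕ} {e : VV 1 F ≃ₗ[F] (Fin n → F)}
  (hF : Fintype.card F = q ^ 2) (he : ∀ x y, HH q x y = Cfsg.hermForm n F q (e x) (e y))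

include hF he in
/-- the second generator -/
theorem exists_v {u : Cfsg.SU n F q} {s : F} (hu : ∀ w a f, ac e u (v3 w a f) = v3 (w - a + s * f) (a + f) f)
    {c μ : F} (hc : c ≠ 0) (hμ : μ ^ q = -μ) : ∃ g : Cfsg.SU n F q, ∀ w a f,
      ac e (g * u * g⁻¹) (v3 w a f) = v3 w (a - (c ^ q) ^ 2 * c⁻¹ * w)
        (f + c ^ 2 * (c ^ q)⁻¹ * a + c * c ^ q * (s + μ) * w) := by
  obtain ⟨g, t, hgt, ht⟩ := exists_comm hF he hu hμ
  obtain ⟨J, hJ⟩ := exists_Jm hF he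
  obtain ⟨R, hR⟩ := exists_h3 hF he hc
  refine ⟨J * R * g, fun w a f => ?_⟩
  have hcq : c ^ q ≠ 0 := pow_ne_zero _ hc
  have e1 : J * R * g * u * (J * R * g)⁻¹ = (J * R) * (t * u) * (J * R)⁻¹ := by
    rw [← hgt]; group
  have htu : ∀ w a f, ac e (t * u) (v3 w a f) = v3 (w - a + (s + μ) * f) (a + f) f := by
    intro w a f
    rw [ac_mul, hu, ht, HH_v3, v3_smul, v3_add, v3_inj]
    simp only [zero_pow_q hF, one_pow]
    refine ⟨?_, ?_, ?_⟩ <;> ring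
  have hJR : ∀ w a f, ac e (J * R) (v3 w a f) = v3 ((c ^ q)⁻¹ * f) (-(c ^ q * c⁻¹ * a)) (c * w) := by
    intro w a f
    rw [ac_mul, hR, hJ]
  have hJRi : ac e (J * R)⁻¹ (v3 w a f) = v3 (c⁻¹ * f) (-((c ^ q)⁻¹ * c * a)) (c ^ q * w) := by
    apply ac_inv_eq
    rw [hJR, v3_inj]
    refine ⟨?_, ?_, ?_⟩ <;> field_simp
  rw [e1, ac_mul, ac_mul, hJRi, htu, hJR, v3_inj]
  refine ⟨?_, ?_, ?_⟩ <;> field_simp <;> ring

end setup

section prime

variable {F : Type*} [Field F] [Fintype F] {q n : ℕ}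

/-- a good trace -/
theorem exists_sy (hF : Fintype.card F = q ^ 2) (h2 : (2 : F) ≠ 0) : ∃ s y : F, s + s ^ q = -1 ∧ y ≠ 0 ∧
    y ^ q = -y ∧ y ^ 2 * (s * s ^ q) = 4 ∧ s ^ q - s ≠ 0 := by
  obtain ⟨k, hk⟩ := q_odd hF h2
  have hk0 : 0 < k := by
    rcases Nat.eq_zero_or_pos k with h | h
    · exfalso
      have h1 := Fintype.one_lt_card (α := F)
      rw [hF, hk, h] at h1
      norm_num at h1
    · exact h
  obtain ⟨θ, hθ0, hθ⟩ := CycGen.exists_gen (F := F)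
  have hord := CycGen.order_gen hθ0 hθ
  rw [Nat.card_eq_fintype_card, hF] at hord
  have hq1 : q ^ 2 - 1 = 4 * (k * (k + 1)) := by
    rw [hk]
    have : (2 * k + 1) ^ 2 = 4 * (k * (k + 1)) + 1 := by ring
    omega
  have hfull : θ ^ (4 * (k * (k + 1))) = 1 := by rw [← hq1, ← hord, pow_orderOf_eq_one]
  have hhalf : θ ^ (2 * (k * (k + 1))) = -1 := by
    have h1 : (θ ^ (2 * (k * (k + 1))) - 1) * (θ ^ (2 * (k * (k + 1))) + 1) = 0 := by
      have : θ ^ (4 * (k * (k + 1))) = (θ ^ (2 * (k * (k + 1)))) ^ 2 := by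
        rw [← pow_mul]; congr 1; ring
      rw [this] at hfull
      linear_combination hfull
    rcases mul_eq_zero.mp h1 with h | h
    · exfalso
      have h3 := orderOf_dvd_of_pow_eq_one (sub_eq_zero.mp h)
      rw [hord, hq1] at h3
      have h4 : 0 < k * (k + 1) := by positivity
      have := Nat.le_of_dvd (by positivity) h3
      omega
    · linear_combination h
  have hτ : θ + θ ^ q ≠ 0 := by
    intro h
    have h1 : θ ^ (2 * q) = θ ^ 2 := by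
      have : θ ^ q = -θ := by linear_combination h
      rw [mul_comm, pow_mul, this]; ring
    have h3 : θ ^ (2 * q - 2) = 1 := by
      have e1 : 2 * q = (2 * q - 2) + 2 := by omega
      rw [e1, pow_add] at h1
      exact mul_right_cancel₀ (pow_ne_zero 2 hθ0) (h1.trans (one_mul _).symm)
    have h4 := orderOf_dvd_of_pow_eq_one h3
    rw [hord, hq1] at h4
    have h5 := Nat.le_of_dvd (by omega) h4
    have h6 : 2 * q - 2 = 4 * k := by omega
    rw [h6] at h5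
    nlinarith
  have hne : θ ^ q - θ ≠ 0 := by
    intro h
    have h1 : θ ^ q = θ := by linear_combination h
    have h3 : θ ^ (q - 1) = 1 := by
      have e1 : q = (q - 1) + 1 := by omega
      rw [e1, pow_succ] at h1
      exact mul_right_cancel₀ hθ0 (h1.trans (one_mul _).symm)
    have h4 := orderOf_dvd_of_pow_eq_one h3
    rw [hord, hq1] at h4
    have h5 := Nat.le_of_dvd (by omega) h4
    have h6 : q - 1 = 2 * k := by omega
    rw [h6] at h5
    nlinarith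
  have hτq : (θ + θ ^ q) ^ q = θ + θ ^ q := by
    rw [add_pow_q hF, pow_q_pow_q hF]; ring
  obtain ⟨ρ, hρ⟩ : ∃ ρ, ρ = θ ^ (k + 1) := ⟨_, rfl⟩
  have hρ0 : ρ ≠ 0 := by rw [hρ]; exact pow_ne_zero _ hθ0
  have hρ2 : ρ ^ 2 = θ * θ ^ q := by
    rw [hρ, ← pow_mul, hk, ← pow_succ']; congr 1; ring
  have hρq : ρ ^ q = -ρ := by
    have : ρ ^ q = θ ^ (2 * (k * (k + 1))) * ρ := by
      rw [hρ, ← pow_mul, ← pow_add, hk]; congr 1; ring
    rw [this, hhalf]; ring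
  have hθq0 : θ ^ q ≠ 0 := pow_ne_zero _ hθ0
  refine ⟨-θ / (θ + θ ^ q), 2 * (θ + θ ^ q) / ρ, ?_, ?_, ?_, ?_, ?_⟩
  · rw [div_pow, neg_pow_q hF, hτq]
    field_simp
    ring
  · exact div_ne_zero (mul_ne_zero h2 hτ) hρ0
  · rw [div_pow, mul_pow, hτq, hρq, two_pow_q hF, div_neg]
  · rw [div_pow, mul_pow, hρ2, div_pow, hτq, neg_pow_q hF]
    field_simp
    ring
  · rw [div_pow, neg_pow_q hF, hτq]
    have e1 : -θ ^ q / (θ + θ ^ q) - -θ / (θ + θ ^ q) = -(θ ^ q - θ) / (θ + θ ^ q) := by ring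
    rw [e1]
    exact div_ne_zero (neg_ne_zero.mpr hne) hτ

theorem aux3 {X x D H r : F} (hD : D ≠ 0) (h : (X - x) * D + H * r = 0) : X = x + (-D⁻¹ * H) * r := by
  have h1 : D⁻¹ * D = 1 := inv_mul_cancel₀ hD
  linear_combination D⁻¹ * h - (X - x) * h1

theorem two_prime3 (hF : Fintype.card F = q ^ 2) (h2 : (2 : F) ≠ 0) (hp : q.Prime) (hn : n = 3) : Two n F q := by
  obtain ⟨e, he⟩ := exists_iso (m := 1) hF (show n = 2 * 1 + 1 from hn)
  obtain ⟨s, y, hs, hy0, hyq, hys, hsne⟩ := exists_sy hF h2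
  obtain ⟨u, hreg, hu⟩ := exists_u3 hF he hn hs
  obtain ⟨S, hS⟩ : ∃ S, S = s ^ q := ⟨_, rfl⟩
  have hSq : S ^ q = s := by rw [hS, pow_q_pow_q hF]
  rw [← hS] at hys hsne
  have hs' : s + S = -1 := by rw [hS, hs]
  obtain ⟨g, hg⟩ := exists_v hF he hu (c := -y) (μ := S - s) (neg_ne_zero.mpr hy0) (by
    rw [sub_pow_q hF, hSq, ← hS]; ring)
  obtain ⟨v, hv⟩ : ∃ v, v = g * u * g⁻¹ := ⟨_, rfl⟩
  rw [← hv] at hg
  have hv3 : ∀ w a f, ac e v (v3 w a f) = v3 w (a + y * w) (f + y * a + -(y ^ 2 * S) * w) := by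
    intro w a f
    rw [hg, v3_inj, neg_pow_q hF, hyq]
    refine ⟨rfl, ?_, ?_⟩
    · field_simp; ring
    · field_simp; ring
  refine ⟨u, g, hreg, ?_⟩
  obtain ⟨G, hG⟩ : ∃ G, G = Subgroup.closure ({u, g * u * g⁻¹} : Set (Cfsg.SU n F q)) := ⟨_, rfl⟩
  rw [← hG]
  have huG : u ∈ G := by rw [hG]; exact Subgroup.subset_closure (by simp)
  have hvG : v ∈ G := by rw [hG, hv]; exact Subgroup.subset_closure (by simp)
  obtain ⟨M, hM⟩ : ∃ M, M = (u * v) * (u * v) := ⟨_, rfl⟩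
  have hMG : M ∈ G := by rw [hM]; exact G.mul_mem (G.mul_mem huG hvG) (G.mul_mem huG hvG)
  obtain ⟨D, hD⟩ : ∃ D, D = y ^ 2 * (S - s) := ⟨_, rfl⟩
  have hD0 : D ≠ 0 := by rw [hD]; exact mul_ne_zero (pow_ne_zero 2 hy0) hsne
  have h4q : (4 : F) ^ q = 4 := by
    have : (4 : F) = 2 * 2 := by norm_num
    rw [this, mul_pow, two_pow_q hF]
  have hDq : D ^ q = -D := by
    rw [hD, mul_pow, sub_pow_q hF, hSq, ← hS, ← pow_mul, mul_comm 2 q, pow_mul, hyq]; ring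
  obtain ⟨ρ, hρ⟩ : ∃ ρ, ρ = v3 (4 + y) (-2 * y + y ^ 2 * S) D := ⟨_, rfl⟩
  have hHρ : ∀ w a f, HH q (v3 w a f) ρ = w * -D + a * (2 * y + y ^ 2 * s) + f * (4 - y) := by
    intro w a f
    rw [hρ, HH_v3, hDq, add_pow_q hF, add_pow_q hF, mul_pow, mul_pow, neg_pow_q hF, h4q, two_pow_q hF, hyq, hSq,
      ← pow_mul, mul_comm 2 q, pow_mul, hyq]
    ring
  have hρρ : HH q ρ ρ = 0 := by
    have e1 := hHρ (4 + y) (-2 * y + y ^ 2 * S) D
    rw [← hρ] at e1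
    rw [e1, hD]
    linear_combination (y ^ 2 * 1) * hys
  have hM2 : ∀ w a f, ac e M (v3 w a f) = v3 w a f + (-D⁻¹ * HH q (v3 w a f) ρ) • ρ := by
    intro w a f
    rw [hHρ, hρ, hM, ac_mul, ac_mul, ac_mul, hv3, hu, hv3, hu, v3_smul, v3_add, v3_inj]
    have hSs : S = -1 - s := by linear_combination hs'
    rw [hSs] at hys hD ⊢
    refine ⟨aux3 hD0 ?_, aux3 hD0 ?_, aux3 hD0 ?_⟩
    · rw [hD]
      linear_combination (-w*y^2 + (-2)*w*y^2*s + (-1)*w*y^3 + (-2)*w*y^3*s + w*y^4*s + 3*w*y^4*s^2 + 2*w*y^4*s^3 + (-2)*a*y + (-1)*a*y^2 + (-2)*a*y^2*s + a*y^3*s + 2*a*y^3*s^2 + f*y^2*s + 2*f*y^2*s^2 + (-4)*f) * hys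
    · rw [hD]
      linear_combination (w*y^3 + 2*w*y^3*s + w*y^4 + 3*w*y^4*s + 2*w*y^4*s^2 + a*y^2 + a*y^3 + 2*a*y^3*s + 2*f*y + f*y^2 + 2*f*y^2*s) * hys
    · rw [hD]
      linear_combination (w*y^4 + 3*w*y^4*s + 2*w*y^4*s^2 + a*y^3 + 2*a*y^3*s + f*y^2 + 2*f*y^2*s) * hys
  have hMz : ∀ z, ac e M z = z + (-D⁻¹ * HH q z ρ) • ρ := by
    intro z
    have := hM2 (z.1 0) z.2.1 (z.2.2 0)
    rwa [← eq_v3] at this
  have hMj : ∀ (j : ℕ) (z : VV 1 F), ac e (M ^ j) z = z + ((j * -D⁻¹) * HH q z ρ) • ρ := by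
    intro j
    induction j with
    | zero => intro z; rw [pow_zero, ac_one, Nat.cast_zero, zero_mul, zero_mul, zero_smul, add_zero]
    | succ j ih =>
      intro z
      rw [pow_succ', ac_mul, ih, hMz, (HH_isH hF).add_left, (HH_isH hF).smul_left, hρρ, add_assoc, ← add_smul]
      congr 2
      push_cast
      ring
  have hfull : Fu e G ρ := by
    intro k c hk
    have hcq := skew_of_tv hF he hρρ (by
      rw [hρ]
      intro h
      exact hD0 (congrFun (congrArg (fun x => x.2.2) h) 0)) hk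
    have hmem : c * D ∈ KK hF := by
      rw [mem_KK, mul_pow, hcq, hDq]; ring
    haveI : Fact q.Prime := ⟨hp⟩
    obtain ⟨j, hj⟩ := mem_multiples_of_prime_card (G := KK hF) (card_KK hF) (g := -1) (g' := ⟨c * D, hmem⟩)
      (neg_ne_zero.mpr one_ne_zero)
    have hj' : (j : F) * -D⁻¹ = c := by
      have h3 : (j : F) * -1 = c * D := by
        have := congrArg Subtype.val hj
        simpa using this
      have h4 : (j : F) * -D⁻¹ = (j * -1) * D⁻¹ := by ring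
      rw [h4, h3, mul_inv_cancel_right₀ hD0]
    have : k = M ^ j := by
      apply ac_ext e
      intro z
      rw [hk, hMj, hj']
    rw [this]
    exact G.pow_mem hMG j
  refine fullpt hF he hn (by rintro rfl; exact absurd (q_odd hF h2) (by decide)) hs hu huG hρρ ?_ hfull
  rw [hρ]
  exact hD0

end prime

end Cfsg.Agent.H42.SuGen
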