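import Mathlib
import Cfsg.Agent.H42.SuGen10
import Cfsg.Agent.H42.SuTwo3

/-!
Generation of `SU_3(q)`, `q` odd: an element interchanging the two isotropic points.
-/

set_option autoImplicit false

namespace Cfsg.Agent.H42.SuGen

open Matrix Cfsg.Agent.H42.Herm Cfsg.Agent.Uni Cfsg.Agent.H42.ThreeUnip

theorem closure_gen_sub {F : Type*} [Field F] (x : F) (hx : x ∈ Subfield.closure ({x} : Set F)) :
    Subfield.closure ({(⟨x, hx⟩ : Subfield.closure ({x} : Set F))} : Set (Subfield.closure ({x} : Set F))) = ⊤ := by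
  rw [eq_top_iff]
  intro y _
  have h1 := RingHom.map_field_closure (Subfield.closure ({x} : Set F)).subtype
    ({(⟨x, hx⟩ : Subfield.closure ({x} : Set F))} : Set (Subfield.closure ({x} : Set F)))
  rw [Set.image_singleton] at h1
  have h2 : (Subfield.closure ({x} : Set F)).subtype ⟨x, hx⟩ = x := rfl
  rw [h2] at h1
  have h3 : (y : F) ∈ (Subfield.closure ({(⟨x, hx⟩ : Subfield.closure ({x} : Set F))} : Set _)).map
      (Subfield.closure ({x} : Set F)).subtype := by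
    rw [h1]; exact y.2
  obtain ⟨z, hz, hzy⟩ := h3
  have : z = y := Subtype.ext hzy
  rw [← this]; exact hz

/-- an element of the Dickson group with zero corner -/
theorem exists_corner {K : Type*} [Field K] [Fintype K] (h2 : (2 : K) ≠ 0) (lam : K) (hlam : lam ≠ 0)
    (hgen : Subfield.closure ({lam} : Set K) = ⊤) :
    ∃ M ∈ Subgroup.closure {g : SpecialLinearGroup (Fin 2) K | (g : Matrix (Fin 2) (Fin 2) K) = !![1, 0; 1, 1] ∨
      (g : Matrix (Fin 2) (Fin 2) K) = !![1, lam; 0, 1]}, M.1 0 0 = 0 := by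
  rcases Cfsg.Agent.S0801.result h2 lam hlam hgen with ⟨h, -⟩ | ⟨h9, hsq, -⟩
  · rw [h]
    exact ⟨⟨!![0, -1; 1, 0], by simp [det_fin_two]⟩, trivial, by simp⟩
  · have h3 : (3 : K) = 0 := by
      have : (3 : ℕ) ∣ Nat.card K := by rw [Nat.card_eq_fintype_card, h9]; norm_num
      exact_mod_cast CycGen.cast_eq_zero_of_dvd_card Nat.prime_three this
    obtain ⟨a, ha⟩ : ∃ a : SpecialLinearGroup (Fin 2) K, a.1 = !![1, 0; 1, 1] :=
      ⟨⟨!![1, 0; 1, 1], by simp [det_fin_two]⟩, rfl⟩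
    obtain ⟨b, hb⟩ : ∃ a : SpecialLinearGroup (Fin 2) K, a.1 = !![1, lam; 0, 1] :=
      ⟨⟨!![1, lam; 0, 1], by simp [det_fin_two]⟩, rfl⟩
    refine ⟨(b * a) * (b * a), ?_, ?_⟩
    · have h1 : b * a ∈ Subgroup.closure {g : SpecialLinearGroup (Fin 2) K |
          (g : Matrix (Fin 2) (Fin 2) K) = !![1, 0; 1, 1] ∨ (g : Matrix (Fin 2) (Fin 2) K) = !![1, lam; 0, 1]} :=
        Subgroup.mul_mem _ (Subgroup.subset_closure (Or.inr hb)) (Subgroup.subset_closure (Or.inl ha))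
      exact Subgroup.mul_mem _ h1 h1
    · have e1 : ((b * a) * (b * a)).1 = (b.1 * a.1) * (b.1 * a.1) := rfl
      rw [e1, ha, hb, mul_apply, Fin.sum_univ_two, mul_apply, mul_apply, mul_apply]
      simp [Fin.sum_univ_two]
      linear_combination hsq + lam * h3

variable {F : Type*} [Field F] [Fintype F] {q n : ℕ} {e : VV 1 F ≃ₗ[F] (Fin n → F)}
  (hF : Fintype.card F = q ^ 2) (he : ∀ x y, HH q x y = Cfsg.hermForm n F q (e x) (e y))

include hF he in
/-- the group generated by two transvections -/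
theorem key_two {L1 L2 : F} (h20 : L2 ≠ 0) (K : Subfield F) (lam : K) (hlam : (lam : F) = L1 * L2)
    {G : Subgroup (Cfsg.SU n F q)} {t1 t2 : Cfsg.SU n F q} (ht1 : t1 ∈ G) (ht2 : t2 ∈ G)
    (h1 : ∀ z, ac e t1 z = z + (L1 * HH q z (v3 1 0 0)) • v3 1 0 0)
    (h3 : ∀ z, ac e t2 z = z + (L2 * HH q z (v3 0 0 1)) • v3 0 0 1) (M : SpecialLinearGroup (Fin 2) K)
    (hM : M ∈ Subgroup.closure {g : SpecialLinearGroup (Fin 2) K | (g : Matrix (Fin 2) (Fin 2) K) = !![1, 0; 1, 1] ∨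
      (g : Matrix (Fin 2) (Fin 2) K) = !![1, lam; 0, 1]}) : ∃ g ∈ G, ∀ w a f : F, ac e g (v3 w a f) =
      v3 ((M.1 0 0 : F) * w + ((M.1 0 1 : F) / L2) * f) a ((L2 * (M.1 1 0 : F)) * w + (M.1 1 1 : F) * f) := by
  induction hM using Subgroup.closure_induction with
  | mem M hM =>
    rcases hM with hM | hM
    · refine ⟨t2, ht2, fun w a f => ?_⟩
      have hM' : M.1 = !![1, 0; 1, 1] := hM
      rw [hM', h3, HH_v3, v3_smul, v3_add, v3_inj]
      simp only [zero_pow_q hF, one_pow]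
      refine ⟨?_, ?_, ?_⟩
      · simp
      · simp
      · simp; ring
    · refine ⟨t1, ht1, fun w a f => ?_⟩
      have hM' : M.1 = !![1, lam; 0, 1] := hM
      rw [hM', h1, HH_v3, v3_smul, v3_add, v3_inj]
      simp only [zero_pow_q hF, one_pow]
      refine ⟨?_, ?_, ?_⟩
      · simp
        rw [hlam]; field_simp
        simp
      · simp
      · simp
  | one =>
    refine ⟨1, G.one_mem, fun w a f => ?_⟩
    have : (1 : SpecialLinearGroup (Fin 2) K).1 = 1 := rfl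
    rw [ac_one, this]
    simp
  | mul M N _ _ hM hN =>
    obtain ⟨g, hg, h⟩ := hM
    obtain ⟨g', hg', h'⟩ := hN
    refine ⟨g * g', G.mul_mem hg hg', fun w a f => ?_⟩
    have e1 : ∀ i j, ((M * N).1 i j) = M.1 i 0 * N.1 0 j + M.1 i 1 * N.1 1 j := by
      intro i j
      have : (M * N).1 = M.1 * N.1 := rfl
      rw [this, Matrix.mul_apply, Fin.sum_univ_two]
    rw [ac_mul, h', h, e1, e1, e1, e1, v3_inj]
    push_cast
    refine ⟨?_, rfl, ?_⟩
    · field_simp; ring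
    · field_simp; ring
  | inv M _ hM =>
    obtain ⟨g, hg, h⟩ := hM
    refine ⟨g⁻¹, G.inv_mem hg, fun w a f => ?_⟩
    apply ac_inv_eq
    have e1 : ∀ i j, (M.1 i 0 * (M⁻¹).1 0 j + M.1 i 1 * (M⁻¹).1 1 j) = (1 : Matrix (Fin 2) (Fin 2) K) i j := by
      intro i j
      have : M.1 * (M⁻¹).1 = 1 := congrArg Subtype.val (mul_inv_cancel M)
      rw [← this, Matrix.mul_apply, Fin.sum_univ_two]
    have e00 := congrArg (Subtype.val) (e1 0 0)
    have e01 := congrArg (Subtype.val) (e1 0 1)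
    have e10 := congrArg (Subtype.val) (e1 1 0)
    have e11 := congrArg (Subtype.val) (e1 1 1)
    simp only [Matrix.one_apply_eq, Matrix.one_apply_ne (show (0 : Fin 2) ≠ 1 by decide),
      Matrix.one_apply_ne (show (1 : Fin 2) ≠ 0 by decide)] at e00 e01 e10 e11
    push_cast at e00 e01 e10 e11
    rw [h, v3_inj]
    refine ⟨?_, rfl, ?_⟩
    · field_simp
      linear_combination (L2 * w) * e00 + f * e01
    · field_simp
      linear_combination (L2 * w) * e10 + f * e11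

include hF he in
theorem exists_swap (h2 : (2 : F) ≠ 0) {L1 L2 : F} (h10 : L1 ≠ 0) (h20 : L2 ≠ 0) (hL : L1 * L2 ∈ KK hF)
    {G : Subgroup (Cfsg.SU n F q)} {t1 t2 : Cfsg.SU n F q} (ht1 : t1 ∈ G) (ht2 : t2 ∈ G)
    (h1 : ∀ z, ac e t1 z = z + (L1 * HH q z (v3 1 0 0)) • v3 1 0 0)
    (h3 : ∀ z, ac e t2 z = z + (L2 * HH q z (v3 0 0 1)) • v3 0 0 1) :
    ∃ g ∈ G, ∃ t : F, t ≠ 0 ∧ t ^ q = t ∧ ac e g (v3 1 0 0) = v3 0 0 (L2 * t) ∧
      ac e g (v3 0 1 0) = v3 0 1 0 := by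
  have hx : L1 * L2 ∈ Subfield.closure ({L1 * L2} : Set F) := Subfield.subset_closure rfl
  haveI := Fintype.ofFinite (Subfield.closure ({L1 * L2} : Set F))
  obtain ⟨M, hM, hM0⟩ := exists_corner (K := Subfield.closure ({L1 * L2} : Set F))
    (fun h => h2 (congrArg Subtype.val h)) ⟨L1 * L2, hx⟩
    (fun h => mul_ne_zero h10 h20 (congrArg Subtype.val h)) (closure_gen_sub _ hx)
  obtain ⟨g, hg, hgM⟩ := key_two hF he h20 (Subfield.closure ({L1 * L2} : Set F)) ⟨L1 * L2, hx⟩ rfl ht1 ht2 h1 h3 M hM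
  have hle : Subfield.closure ({L1 * L2} : Set F) ≤ KK hF := by
    rw [Subfield.closure_le]
    rintro y (rfl : y = L1 * L2)
    exact hL
  refine ⟨g, hg, (M.1 1 0 : F), ?_, (mem_KK hF).mp (hle (M.1 1 0).2), ?_, ?_⟩
  · intro h
    have h4 := M.2
    have h5 : M.1 1 0 = 0 := Subtype.ext h
    rw [det_fin_two, hM0, h5] at h4
    simp at h4
  · rw [hgM, hM0, v3_inj]
    refine ⟨?_, rfl, ?_⟩
    · simp
    · simp
  · rw [hgM, v3_inj]
    refine ⟨?_, rfl, ?_⟩
    · simp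
    · simp

end Cfsg.Agent.H42.SuGen
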