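import Mathlib
import Cfsg.Agent.H42.SuTwo4
import Cfsg.Agent.H42.CycGen7

/-!
Generation of `SU_3(q)`, `q` odd and not prime, by two conjugate regular unipotent elements.
-/

set_option autoImplicit false

namespace Cfsg.Agent.H42.SuGen

open Matrix Cfsg.Agent.H42.Herm Cfsg.Agent.Uni Cfsg.Agent.H42.ThreeUnip

theorem nt_odd {r0 i q : ℕ} (hq : q = r0 ^ (2 * i + 1)) (hi : 1 ≤ i) (hodd : Odd q)
    (hd : q + 1 ∣ 9 * (r0 ^ 2 - 1)) (h9 : 9 ≤ q) : False := by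
  have hr0 : Odd r0 := by
    rw [hq] at hodd
    exact (Nat.odd_pow_iff (by omega)).mp hodd
  have h3 : 3 ≤ r0 := by
    obtain ⟨k, hk⟩ := hr0
    rcases Nat.eq_zero_or_pos k with h | h
    · rw [h, mul_zero, zero_add] at hk
      rw [hk, one_pow] at hq
      omega
    · omega
  obtain ⟨x, hx⟩ : ∃ x, x = r0 ^ 2 - 1 := ⟨_, rfl⟩
  have hx1 : r0 ^ 2 = x + 1 := by
    have : 1 ≤ r0 ^ 2 := Nat.one_le_pow _ _ (by omega)
    omega
  have hx0 : 0 < x := by nlinarith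
  rw [← hx] at hd
  have hle := Nat.le_of_dvd (by omega) hd
  have hi1 : i = 1 := by
    by_contra hne
    have h5 : r0 ^ 5 ≤ q := by
      rw [hq]; exact Nat.pow_le_pow_right (by omega) (by omega)
    have h6 : r0 ^ 5 = r0 ^ 3 * (x + 1) := by rw [← hx1]; ring
    have h7 : 27 ≤ r0 ^ 3 := by
      calc 27 = 3 ^ 3 := by norm_num
        _ ≤ r0 ^ 3 := Nat.pow_le_pow_left h3 3
    nlinarith
  rw [hi1] at hq
  have h8 : r0 ≤ 8 := by
    by_contra hcon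
    push Not at hcon
    have : q = r0 * (x + 1) := by rw [hq, ← hx1]; ring
    nlinarith
  rw [hq, hx] at hd
  clear hle hx hx1 hx0 hq
  interval_cases r0 <;> revert hd <;> norm_num

variable {F : Type*} [Field F] [Fintype F] {q n : ℕ}

theorem top_of_pow (hF : Fintype.card F = q ^ 2) (h2 : (2 : F) ≠ 0) (h9 : 9 ≤ q) (h17 : q ≠ 17) {η : F}
    (hη : orderOf η = q + 1) (R : Subfield F) (hR : η ^ 9 ∈ R) : R = ⊤ := by
  by_contra hne
  have hodd := q_odd hF h2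
  haveI := Fintype.ofFinite R
  have h1 : Nat.card F = Nat.card R ^ Module.finrank R F := Module.natCard_eq_pow_finrank
  rw [Nat.card_eq_fintype_card, hF] at h1
  have hj0 : 0 < Module.finrank R F := Module.finrank_pos
  have hj1 : Module.finrank R F ≠ 1 := by
    intro h3
    have hsq := CycGen.subfield_sq R hne
    rw [h3, pow_one] at h1
    rw [Nat.card_eq_fintype_card (α := F), hF, h1] at hsq
    have : 1 < Nat.card R := Finite.one_lt_card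
    nlinarith
  have hη0 : η ≠ 0 := by
    rintro rfl
    rw [orderOf_zero] at hη
    omega
  obtain ⟨r, hr⟩ : ∃ r, r = Nat.card R := ⟨_, rfl⟩
  have hr1 : 1 < r := by rw [hr]; exact Finite.one_lt_card
  have hpow : ∀ i : ℕ, (η ^ 9) ^ (r ^ i) = η ^ 9 := by
    intro i
    have h3 := FiniteField.pow_card_pow i (⟨η ^ 9, hR⟩ : R)
    have h4 := congrArg Subtype.val h3
    rw [hr, Nat.card_eq_fintype_card]
    exact h4
  have hdvd : ∀ N : ℕ, 0 < N → (η ^ 9) ^ N = η ^ 9 → q + 1 ∣ 9 * (N - 1) := by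
    intro N hN h
    rw [← hη]
    apply orderOf_dvd_of_pow_eq_one
    have e1 : N = (N - 1) + 1 := by omega
    rw [e1, pow_succ] at h
    rw [pow_mul]
    exact mul_right_cancel₀ (pow_ne_zero 9 hη0) (h.trans (one_mul _).symm)
  rw [← hr] at h1
  rcases Nat.even_or_odd' (Module.finrank R F) with ⟨i, hi | hi⟩
  · rw [hi, mul_comm, pow_mul] at h1
    have h3 : q = r ^ i := Nat.pow_left_injective (two_ne_zero) h1
    have h4 := hdvd _ (by positivity) (hpow i)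
    rw [← h3] at h4
    have h5 : q + 1 ∣ 18 := by
      have h6 : q + 1 ∣ 9 * (q + 1) := Dvd.intro_left 9 rfl
      have h7 := Nat.dvd_sub h6 h4
      have h8 : 9 * (q + 1) - 9 * (q - 1) = 18 := by omega
      rwa [h8] at h7
    have h6 := Nat.le_of_dvd (by norm_num) h5
    have h7 : q < 18 := by omega
    interval_cases q <;> revert h5 hodd h17 <;> decide
  · rw [hi] at h1
    have h3 : r ^ i ∣ q := by
      rw [← Nat.pow_dvd_pow_iff (two_ne_zero), h1]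
      exact ⟨r, by rw [← pow_mul, ← pow_succ, mul_comm i 2]⟩
    obtain ⟨r0, hr0⟩ := h3
    have h4 : r = r0 ^ 2 := by
      rw [hr0, mul_pow, ← pow_mul, mul_comm i 2, pow_succ] at h1
      exact (Nat.eq_of_mul_eq_mul_left (by positivity) h1).symm
    have h5 : q = r0 ^ (2 * i + 1) := by
      rw [hr0, h4, ← pow_mul, pow_succ]
    have h6 := hdvd _ (by positivity) (hpow 1)
    rw [pow_one, h4] at h6
    exact nt_odd h5 (by omega) hodd h6 h9

theorem two_nonprime3 (hF : Fintype.card F = q ^ 2) (h2 : (2 : F) ≠ 0) (h9 : 9 ≤ q) (h11 : q ≠ 11) (h17 : q ≠ 17)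
    (hn : n = 3) : Two n F q := by
  obtain ⟨e, he⟩ := exists_iso (m := 1) hF (show n = 2 * 1 + 1 from hn)
  obtain ⟨θ, hθ0, hθ⟩ := CycGen.exists_gen (F := F)
  have hord := CycGen.order_gen hθ0 hθ
  rw [Nat.card_eq_fintype_card, hF] at hord
  have hfac : q ^ 2 - 1 = (q + 1) * (q - 1) := by
    have := Nat.sq_sub_sq q 1
    simpa using this
  obtain ⟨η, hη⟩ : ∃ η, η = θ ^ (q - 1) := ⟨_, rfl⟩
  have hη0 : η ≠ 0 := by rw [hη]; exact pow_ne_zero _ hθ0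
  have hηord : orderOf η = q + 1 := by
    rw [hη, orderOf_pow_of_dvd (by omega) (by rw [hord, hfac]; exact Dvd.intro_left _ rfl), hord, hfac,
      Nat.mul_div_cancel _ (by omega)]
  have hηq : η ^ q = η⁻¹ := by
    apply eq_inv_of_mul_eq_one_left
    rw [← pow_succ, ← hηord, pow_orderOf_eq_one]
  have hηne : ∀ k : ℕ, 0 < k → ¬ (q + 1 ∣ k) → η ^ k ≠ 1 := by
    intro k _ hk h
    apply hk
    rw [← hηord]
    exact orderOf_dvd_of_pow_eq_one h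
  obtain ⟨ξ, hξ⟩ : ∃ ξ, ξ = η ^ 3 := ⟨_, rfl⟩
  have hξ0 : ξ ≠ 0 := by rw [hξ]; exact pow_ne_zero _ hη0
  have hξq : ξ ^ q = ξ⁻¹ := by rw [hξ, ← pow_mul, mul_comm 3 q, pow_mul, hηq, inv_pow]
  have hξ1 : ξ ^ 2 ≠ 1 := by
    rw [hξ, ← pow_mul]
    exact hηne _ (by norm_num) (fun h => by have := Nat.le_of_dvd (by norm_num) h; omega)
  have hξ2 : ξ ^ 4 ≠ 1 := by
    rw [hξ, ← pow_mul]
    refine hηne _ (by norm_num) (fun h => ?_)
    have := Nat.le_of_dvd (by norm_num) h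
    have h3 : q ≤ 11 := by omega
    clear hF hfac hηq hηord hord hη hξq
    interval_cases q
    · revert h; norm_num
    · revert h; norm_num
    · exact h11 rfl
  obtain ⟨T, hT⟩ : ∃ T, T = 1 + ξ := ⟨_, rfl⟩
  have hT0 : T ≠ 0 := by
    intro h
    apply hξ1
    have : ξ = -1 := by linear_combination h - hT
    rw [this]; ring
  have hTq : T ^ q = T / ξ := by
    rw [hT, add_pow_q hF, one_pow, hξq]; field_simp; ring
  obtain ⟨s, hs⟩ : ∃ s, s = -ξ / T := ⟨_, rfl⟩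
  have hs0 : s ≠ 0 := by rw [hs]; exact div_ne_zero (neg_ne_zero.mpr hξ0) hT0
  have hsq : s ^ q = -1 / T := by
    rw [hs, div_pow, neg_pow_q hF, hξq, hTq]; field_simp
  have hs1 : s + s ^ q = -1 := by
    rw [hsq, hs]; field_simp; linear_combination hT
  obtain ⟨u, hreg, hu⟩ := exists_u3 hF he hn hs1
  obtain ⟨g, hg⟩ := exists_v hF he hu (c := -T * η⁻¹) (μ := 0) (mul_ne_zero (neg_ne_zero.mpr hT0) (inv_ne_zero hη0))
    (by rw [zero_pow_q hF, neg_zero])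
  obtain ⟨v, hv⟩ : ∃ v, v = g * u * g⁻¹ := ⟨_, rfl⟩
  rw [← hv] at hg
  have hcq : (-T * η⁻¹) ^ q = -T * ξ⁻¹ * η := by
    rw [mul_pow, neg_pow_q hF, hTq, inv_pow, hηq, inv_inv]; ring
  have hv3 : ∀ w a f, ac e v (v3 w a f) = v3 w (a + T / ξ * w) (f - T * a - T * w) := by
    intro w a f
    rw [hg, v3_inj, hcq, hs]
    refine ⟨rfl, ?_, ?_⟩
    · have h3 : ξ = η ^ 3 := hξ
      field_simp
      rw [h3]; ring
    · have h3 : ξ = η ^ 3 := hξ
      field_simp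
      rw [h3]; ring
  refine ⟨u, g, hreg, ?_⟩
  obtain ⟨G, hG⟩ : ∃ G, G = Subgroup.closure ({u, g * u * g⁻¹} : Set (Cfsg.SU n F q)) := ⟨_, rfl⟩
  rw [← hG]
  have huG : u ∈ G := by rw [hG]; exact Subgroup.subset_closure (by simp)
  have hvG : v ∈ G := by rw [hG, hv]; exact Subgroup.subset_closure (by simp)
  obtain ⟨W, hW⟩ : ∃ W, W = v * u := ⟨_, rfl⟩
  have hWG : W ∈ G := by rw [hW]; exact G.mul_mem hvG huG
  have hWf : ac e W (v3 0 0 1) = v3 s 0 0 := by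
    rw [hW, ac_mul, hu, hv3, v3_inj, hs]
    refine ⟨?_, ?_, ?_⟩
    · ring
    · field_simp; ring
    · field_simp; linear_combination -hT
  have hW0 : ac e W (v3 0 1 0) = v3 (-1) (-ξ⁻¹) 0 := by
    rw [hW, ac_mul, hu, hv3, v3_inj]
    refine ⟨?_, ?_, ?_⟩
    · ring
    · field_simp; linear_combination -hT
    · ring
  have hWie : ac e W⁻¹ (v3 1 0 0) = s⁻¹ • v3 0 0 1 := by
    apply ac_inv_eq
    rw [ac_smul, hWf, v3_smul, v3_inj]
    refine ⟨?_, ?_, ?_⟩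
    · exact inv_mul_cancel₀ hs0
    · ring
    · ring
  have hWi0 : ac e W⁻¹ (v3 0 1 0) = (-ξ) • v3 0 1 0 + T • v3 0 0 1 := by
    apply ac_inv_eq
    rw [ac_add, ac_smul, ac_smul, hWf, hW0, v3_smul, v3_smul, v3_add, v3_inj, hs]
    refine ⟨?_, ?_, ?_⟩
    · field_simp; ring
    · field_simp; ring
    · ring
  -- the first element of the radical
  obtain ⟨v', hv'⟩ : ∃ v', v' = W * v * W⁻¹ := ⟨_, rfl⟩
  have hv'G : v' ∈ G := by rw [hv']; exact G.mul_mem (G.mul_mem hWG hvG) (G.inv_mem hWG)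
  have hvf : ac e v (v3 0 0 1) = v3 0 0 1 := by
    rw [hv3, v3_inj]; refine ⟨?_, ?_, ?_⟩ <;> ring
  have hv0 : ac e v (v3 0 1 0) = v3 0 1 0 + (-T) • v3 0 0 1 := by
    rw [hv3, v3_smul, v3_add, v3_inj]; refine ⟨?_, ?_, ?_⟩ <;> ring
  have hv'e : ac e v' (v3 1 0 0) = v3 1 0 0 := by
    rw [hv', ac_mul, ac_mul, hWie, ac_smul, hvf, ← hWie, ac_ac_inv]
  have hv'0 : ac e v' (v3 0 1 0) = v3 (-ξ ^ 2) 1 0 := by
    have e1 : ac e v (ac e W⁻¹ (v3 0 1 0)) = ac e W⁻¹ (v3 0 1 0) + (ξ * T) • v3 0 0 1 := by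
      rw [hWi0, ac_add, ac_smul, ac_smul, hvf, hv0, v3_smul, v3_smul, v3_smul, v3_smul, v3_add, v3_smul, v3_add,
        v3_add, v3_add, v3_inj]
      refine ⟨?_, ?_, ?_⟩ <;> ring
    rw [hv', ac_mul, ac_mul, e1, ac_add, ac_ac_inv, ac_smul, hWf, v3_smul, v3_add, v3_inj, hs]
    refine ⟨?_, ?_, ?_⟩
    · field_simp; ring
    · ring
    · ring
  have mkPP : ∀ (k : Cfsg.SU n F q) (x : F), ac e k (v3 1 0 0) = v3 1 0 0 → ac e k (v3 0 1 0) = v3 x 1 0 →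
      PP e k 1 (fun _ => x) := by
    intro k x h3 h4 w a
    have e1 : (w, a, (0 : Fin 1 → F)) = w 0 • v3 1 0 0 + a • v3 0 1 0 := by
      rw [v3_smul, v3_smul, v3_add]
      refine Prod.ext ?_ (Prod.ext ?_ ?_)
      · ext i; fin_cases i; simp [v3]
      · simp [v3]
      · ext i; fin_cases i; simp [v3]
    rw [e1, ac_add, ac_smul, ac_smul, h3, h4, one_mulVec, v3_smul, v3_smul, v3_add]
    refine Prod.ext ?_ (Prod.ext ?_ ?_)
    · ext i; fin_cases i; simp [v3]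
    · simp [v3]
    · ext i; fin_cases i; simp [v3]
  have hue : ac e u (v3 1 0 0) = v3 1 0 0 := by
    rw [hu, v3_inj]; refine ⟨?_, ?_, ?_⟩ <;> ring
  have hu0 : ac e u (v3 0 1 0) = v3 (-1) 1 0 := by
    rw [hu, v3_inj]; refine ⟨?_, ?_, ?_⟩ <;> ring
  obtain ⟨S1, hS1⟩ := (mkPP _ _ hv'e hv'0).isQ hF he
  obtain ⟨S2, hS2⟩ := (mkPP _ _ hue hu0).isQ hF he
  -- the transvections
  obtain ⟨L1, hL1⟩ : ∃ L1, L1 = (ξ⁻¹) ^ 2 - ξ ^ 2 := ⟨_, rfl⟩
  have hL10 : L1 ≠ 0 := by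
    intro h
    apply hξ2
    rw [hL1, inv_pow] at h
    field_simp at h
    linear_combination -h
  have hL1q : L1 ^ q = -L1 := by
    rw [hL1, sub_pow_q hF, ← pow_mul, ← pow_mul, mul_comm 2 q, pow_mul, pow_mul, hξq, inv_pow, hξq, inv_inv]
    ring
  obtain ⟨t1, ht1⟩ : ∃ t1, t1 = v' * u * (u * v')⁻¹ := ⟨_, rfl⟩
  have ht1G : t1 ∈ G := by
    rw [ht1]; exact G.mul_mem (G.mul_mem hv'G huG) (G.inv_mem (G.mul_mem huG hv'G))
  have ht1z : ∀ z, ac e t1 z = z + (L1 * HH q z (v3 1 0 0)) • v3 1 0 0 := by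
    intro z
    rw [ht1, hS1.comm hS2]
    congr 1
    rw [eq_v3 z]
    generalize z.1 0 = w
    generalize z.2.1 = a
    generalize z.2.2 0 = f
    rw [HH_v3, v3_smul, hL1]
    simp only [zero_pow_q hF, one_pow]
    refine Prod.ext ?_ (Prod.ext ?_ ?_)
    · ext i; fin_cases i
      simp [v3, sg, dotProduct, neg_pow_q hF]
      rw [← pow_mul, mul_comm 2 q, pow_mul, hξq]
      ring
    · simp [v3]
    · ext i; fin_cases i
      simp [v3]
  obtain ⟨L2, hL2⟩ : ∃ L2, L2 = L1 * (T ^ 2 / ξ) := ⟨_, rfl⟩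
  have hL20 : L2 ≠ 0 := by
    rw [hL2]; exact mul_ne_zero hL10 (div_ne_zero (pow_ne_zero 2 hT0) hξ0)
  have hL2q : L2 ^ q = -L2 := by
    rw [hL2, mul_pow, div_pow, ← pow_mul, mul_comm 2 q, pow_mul, hTq, hξq, hL1q]
    field_simp
  obtain ⟨t2, ht2⟩ : ∃ t2, t2 = W⁻¹ * t1 * W := ⟨_, rfl⟩
  have ht2G : t2 ∈ G := by
    rw [ht2]; exact G.mul_mem (G.mul_mem (G.inv_mem hWG) ht1G) hWG
  have ht2z : ∀ z, ac e t2 z = z + (L2 * HH q z (v3 0 0 1)) • v3 0 0 1 := by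
    intro z
    rw [ht2, ac_mul, ac_mul, ht1z, ac_add, ac_smul, ac_inv_ac, ac_form_left he, hWie, (HH_isH hF).smul_right,
      smul_smul, hL2, inv_pow, hsq, hs]
    congr 2
    field_simp
  obtain ⟨m0, hm0G, t, ht0, htq, hm0e, hm00⟩ := exists_swap hF he h2 hL10 hL20 (by
    rw [mem_KK, mul_pow, hL1q, hL2q]; ring) ht1G ht2G ht1z ht2z
  -- the additive group
  obtain ⟨κ, hκ⟩ : ∃ κ, κ = L2 * t := ⟨_, rfl⟩
  have hκ0 : κ ≠ 0 := by rw [hκ]; exact mul_ne_zero hL20 ht0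
  have hκq : κ ^ q = -κ := by rw [hκ, mul_pow, hL2q, htq]; ring
  rw [← hκ] at hm0e
  obtain ⟨b, hb⟩ : ∃ b, b = W * m0 := ⟨_, rfl⟩
  have hbG : b ∈ G := by rw [hb]; exact G.mul_mem hWG hm0G
  have hbe : ac e b (v3 1 0 0) = (κ * s) • v3 1 0 0 := by
    have e1 : v3 0 0 κ = κ • v3 0 0 1 := by
      rw [v3_smul, v3_inj]; refine ⟨?_, ?_, ?_⟩ <;> ring
    rw [hb, ac_mul, hm0e, e1, ac_smul, hWf, v3_smul, v3_smul, v3_inj]
    refine ⟨?_, ?_, ?_⟩ <;> ring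
  have hb0 : ac e b (v3 0 1 0) = v3 (-1) (-ξ⁻¹) 0 := by
    rw [hb, ac_mul, hm00, hW0]
  have hks : κ * s ≠ 0 := mul_ne_zero hκ0 hs0
  have hbie : ac e b⁻¹ (v3 1 0 0) = (κ * s)⁻¹ • v3 1 0 0 := by
    apply ac_inv_eq
    rw [ac_smul, hbe, smul_smul, inv_mul_cancel₀ hks, one_smul]
  have hbi0 : ac e b⁻¹ (v3 0 1 0) = (-ξ) • v3 0 1 0 + (-ξ * (κ * s)⁻¹) • v3 1 0 0 := by
    apply ac_inv_eq
    rw [ac_add, ac_smul, ac_smul, hbe, hb0, smul_smul, v3_smul, v3_smul, v3_add, v3_inj]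
    refine ⟨?_, ?_, ?_⟩
    · field_simp; ring
    · field_simp; ring
    · ring
  obtain ⟨XX, hXX⟩ : ∃ XX : AddSubgroup F, ∀ x, x ∈ XX ↔ ∃ k ∈ G, ac e k (v3 1 0 0) = v3 1 0 0 ∧
      ac e k (v3 0 1 0) = v3 0 1 0 + x • v3 1 0 0 := by
    refine ⟨{ carrier := {x | ∃ k ∈ G, ac e k (v3 1 0 0) = v3 1 0 0 ∧
                ac e k (v3 0 1 0) = v3 0 1 0 + x • v3 1 0 0}
              add_mem' := ?_, zero_mem' := ?_, neg_mem' := ?_ }, fun x => Iff.rfl⟩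
    · rintro x y ⟨k, hk, h3, h4⟩ ⟨k', hk', h3', h4'⟩
      refine ⟨k * k', G.mul_mem hk hk', by rw [ac_mul, h3', h3], ?_⟩
      rw [ac_mul, h4', ac_add, ac_smul, h3, h4, add_smul, add_assoc]
    · exact ⟨1, G.one_mem, ac_one _ _, by rw [ac_one, zero_smul, add_zero]⟩
    · rintro x ⟨k, hk, h3, h4⟩
      refine ⟨k⁻¹, G.inv_mem hk, ac_inv_eq e h3, ?_⟩
      apply ac_inv_eq
      rw [ac_add, ac_smul, h3, h4, neg_smul, add_neg_cancel_right]
  have hm1 : (-1 : F) ∈ XX := by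
    rw [hXX]
    refine ⟨u, huG, hue, ?_⟩
    rw [hu0, v3_smul, v3_add, v3_inj]
    refine ⟨?_, ?_, ?_⟩ <;> ring
  obtain ⟨mm, hmm⟩ : ∃ mm, mm = -ξ * (κ * s) := ⟨_, rfl⟩
  have hmmR : mm ∈ CycGen.stab XX := by
    intro x hx
    rw [hXX] at hx ⊢
    obtain ⟨k, hk, h3, h4⟩ := hx
    refine ⟨b * k * b⁻¹, G.mul_mem (G.mul_mem hbG hk) (G.inv_mem hbG), ?_, ?_⟩
    · rw [ac_mul, ac_mul, hbie, ac_smul, h3, ← hbie, ac_ac_inv]
    · have e1 : ac e k (ac e b⁻¹ (v3 0 1 0)) = ac e b⁻¹ (v3 0 1 0) + (-ξ * x) • v3 1 0 0 := by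
        rw [hbi0, ac_add, ac_smul, ac_smul, h3, h4, smul_add, smul_smul]
        abel
      rw [ac_mul, ac_mul, e1, ac_add, ac_ac_inv, ac_smul, hbe, smul_smul, hmm]
      congr 2
      ring
  have hmm0 : mm ≠ 0 := by rw [hmm]; exact mul_ne_zero (neg_ne_zero.mpr hξ0) hks
  have hmmq : mm ^ q * ξ ^ 3 = -mm := by
    rw [hmm, mul_pow, mul_pow, neg_pow_q hF, hξq, hκq, hsq, hs]
    field_simp
  have hη9 : η ^ 9 ∈ CycGen.stab XX := by
    have e1 : η ^ 9 = -mm / mm ^ q := by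
      rw [eq_div_iff (pow_ne_zero q hmm0), ← hmmq, hξ]
      ring
    rw [e1]
    exact div_mem (neg_mem hmmR) (pow_mem hmmR q)
  have hRtop := top_of_pow hF h2 h9 h17 hηord _ hη9
  have hXtop : ∀ x, x ∈ XX := by
    intro x
    have h3 : -x ∈ CycGen.stab XX := by rw [hRtop]; trivial
    have h4 := h3 (-1) hm1
    have h5 : -x * -1 = x := by ring
    rwa [h5] at h4
  have hB : ∀ b : Fin 1 → F, ∃ g ∈ G, ∃ S, IsQ e g b S := by
    intro b
    obtain ⟨k, hk, h3, h4⟩ := (hXX (b 0)).mp (hXtop (b 0))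
    obtain ⟨S, hS⟩ := (mkPP k (b 0) h3 (by
      rw [h4, v3_smul, v3_add, v3_inj]; refine ⟨?_, ?_, ?_⟩ <;> ring)).isQ hF he
    refine ⟨k, hk, S, ?_⟩
    have : b = fun _ => b 0 := by
      ext i; fin_cases i; rfl
    rw [this]; exact hS
  have hfu : Fu e G (v3 1 0 0) := fu_W hF he hB (fun _ => 1)
  have hfu2 := hfu.act he hvG
  refine fullpt hF he hn (by omega) hs1 hu huG ?_ ?_ hfu2
  · rw [ac_form he, HH_v3, zero_pow_q hF]; ring
  · rw [hv3]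
    show (0 - T * 0 - T * 1 : F) ≠ 0
    intro h
    apply hT0
    linear_combination -h

end Cfsg.Agent.H42.SuGen
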