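import Mathlib.GroupTheory.IndexNormal
import Cfsg.Agent.H49.Core
import Cfsg.Agent.H30.Solv

set_option autoImplicit false

/-! Solvable groups whose maximal subgroups are 2-nilpotent or of prime index. -/

open Subgroup

namespace Cfsg.Agent.H42.TNM

universe u

def Hyp (G : Type u) [Group G] : Prop :=
  ∀ M : Subgroup G, IsCoatom M → (∃ K : Subgroup ↥M, K.Normal ∧ ¬ 2 ∣ Nat.card K ∧
    ∃ k : ℕ, K.index = 2 ^ k) ∨ (M.index).Prime

theorem relIndex_eq_index_of_sup {G : Type u} [Group G] {M B : Subgroup G} [B.Normal]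
    (h : M ⊔ B = ⊤) : B.relIndex M = B.index := by
  rw [← relIndex_top_right, ← h, relIndex_sup_right]

theorem relIndex_eq_index_of_sup' {G : Type u} [Group G] [Finite G] {M B : Subgroup G} [B.Normal]
    (h : M ⊔ B = ⊤) : M.relIndex B = M.index := by
  have h1 := relIndex_inf_mul_relIndex M B ⊤
  have h2 := relIndex_inf_mul_relIndex B M ⊤
  rw [inf_top_eq, relIndex_top_right, relIndex_top_right] at h1 h2
  rw [relIndex_eq_index_of_sup h, inf_comm, ← h1, mul_comm] at h2
  exact (Nat.eq_of_mul_eq_mul_right (Nat.pos_of_ne_zero index_ne_zero_of_finite)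
    (by rw [← h2, mul_comm])).symm

theorem core {G : Type u} [Group G] [Finite G] (hG : Group.IsSolvable G)
    (hmax : Hyp G) (hodd : ∀ A : Subgroup G, A.Normal → Odd (Nat.card A) → A = ⊥) :
    ∃ B C : Subgroup G, B.Normal ∧ C.Normal ∧ B ≤ C ∧ (∃ k, Nat.card B = 2 ^ k) ∧
      Odd (B.relIndex C) ∧ ∃ k, C.index = 2 ^ k := by
  classical
  haveI : Fact (Nat.Prime 2) := ⟨Nat.prime_two⟩
  set B : Subgroup G := Cfsg.pCore 2 G with hB
  haveI hBn : B.Normal := H49.pCore_normal' 2
  have hBp : IsPGroup 2 B := H49.pCore_isPGroup 2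
  obtain ⟨b, hb⟩ := (IsPGroup.iff_card).1 hBp
  by_cases hBt : B = ⊤
  · refine ⟨B, ⊤, hBn, inferInstance, le_top, ⟨b, hb⟩, ?_, 0, by simp⟩
    rw [hBt]
    simp
  haveI : Nontrivial (G ⧸ B) := by
    rw [← not_subsingleton_iff_nontrivial, QuotientGroup.subsingleton_iff] 
    exact hBt
  haveI : Group.IsSolvable G := hG
  obtain ⟨r, E, hr, hEn, hEb, hE⟩ := H30.exists_normal_elementaryAbelian (G ⧸ B)
  haveI : Fact r.Prime := ⟨hr⟩
  rw [H30.isElementaryAbelian_iff] at hE
  have hEp : IsPGroup r E := fun x => ⟨1, by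
    rw [pow_one]; exact Subtype.ext (hE.2 x x.2)⟩
  set R : Subgroup G := E.comap (QuotientGroup.mk' B) with hR
  haveI hRn : R.Normal := inferInstance
  have hBR : B ≤ R := by
    intro x hx
    rw [hR, mem_comap]
    have : QuotientGroup.mk' B x = 1 := (QuotientGroup.eq_one_iff x).2 hx
    rw [this]
    exact E.one_mem
  have hr2 : r ≠ 2 := by
    rintro rfl
    have h1 : IsPGroup 2 R := hEp.comap_of_ker_isPGroup _ (by rwa [QuotientGroup.ker_mk'])
    have h2 : R ≤ B := H49.le_pCore hRn h1
    apply hEb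
    rw [eq_bot_iff]
    intro x hx
    obtain ⟨g, rfl⟩ := QuotientGroup.mk'_surjective B x
    exact (QuotientGroup.eq_one_iff g).2 (h2 hx)
  obtain ⟨R1⟩ : Nonempty (Sylow r R) := inferInstance
  set P : Subgroup G := (R1 : Subgroup R).map R.subtype with hP
  have hPR : P ≤ R := map_subtype_le _
  have hPp : IsPGroup r P := R1.2.map _
  have hPi : ¬ r ∣ P.relIndex R := by
    have h1 : P.relIndex R = (R1 : Subgroup R).index := by
      rw [relIndex, hP, subgroupOf, comap_map_eq_self_of_injective R.subtype_injective]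
    rw [h1]
    exact R1.not_dvd_index
  have hBE : ∃ e, B.relIndex R = r ^ e := by
    have h1 : B.relIndex R = Nat.card E := by
      have h2 := relIndex_ker (QuotientGroup.mk' B) (K := R)
      rw [QuotientGroup.ker_mk', hR, map_comap_eq_self_of_surjective
        (QuotientGroup.mk'_surjective B)] at h2
      exact h2
    rw [h1]
    exact IsPGroup.iff_card.1 hEp
  have hsup : P ⊔ B = R := by
    have hle : P ⊔ B ≤ R := sup_le hPR hBR
    apply le_antisymm hle
    rw [← relIndex_eq_one]
    obtain ⟨e, he⟩ := hBE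
    have h1 : (P ⊔ B).relIndex R ∣ r ^ e := by
      rw [← he]; exact relIndex_dvd_of_le_left _ le_sup_right
    have h2 : (P ⊔ B).relIndex R ∣ P.relIndex R := relIndex_dvd_of_le_left _ le_sup_left
    obtain ⟨i, _, hi⟩ := (Nat.dvd_prime_pow hr).1 h1
    rcases Nat.eq_zero_or_pos i with h0 | h0
    · rw [hi, h0, pow_zero]
    · exfalso
      apply hPi
      refine dvd_trans ?_ h2
      rw [hi]
      exact dvd_pow_self r h0.ne'
  have hN1 : normalizer (P : Set G) ⊔ B = ⊤ := by
    have h1 := Sylow.normalizer_sup_eq_top R1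
    rw [eq_top_iff, ← h1]
    refine sup_le le_sup_left ?_
    rw [← hsup]
    exact sup_le (le_normalizer.trans le_sup_left) le_sup_right
  have hPodd : Odd (Nat.card P) := by
    obtain ⟨c, hc⟩ := IsPGroup.iff_card.1 hPp
    rw [hc]
    exact (hr.odd_of_ne_two hr2).pow
  have hN1t : normalizer (P : Set G) ≠ ⊤ := by
    intro h
    have h1 : P.Normal := normalizer_eq_top_iff.1 h
    have h2 := hodd P h1 hPodd
    rw [h2, bot_sup_eq] at hsup
    apply hEb
    rw [eq_bot_iff]
    intro x hx
    obtain ⟨g, rfl⟩ := QuotientGroup.mk'_surjective B x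
    have : g ∈ R := hx
    rw [← hsup] at this
    exact (QuotientGroup.eq_one_iff g).2 this
  obtain ⟨M, hM, hNM⟩ := (eq_top_or_exists_le_coatom (normalizer (P : Set G))).resolve_left hN1t
  have hMB : M ⊔ B = ⊤ := by
    rw [eq_top_iff, ← hN1]
    exact sup_le_sup_right hNM _
  have hPM : P ≤ M := le_normalizer.trans hNM
  rcases hmax M hM with ⟨K, hKn, hK2, k, hk⟩ | hp
  · -- K normal complement
    haveI := hKn
    set K' : Subgroup G := K.map M.subtype with hK'
    have hK'M : K' ≤ M := map_subtype_le _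
    have hMnK : M ≤ normalizer (K' : Set G) := by
      rw [← normal_subgroupOf_iff_le_normalizer hK'M, hK', subgroupOf,
        comap_map_eq_self_of_injective M.subtype_injective]
      exact hKn
    set C : Subgroup G := K' ⊔ B with hC
    have hCn : C.Normal := by
      rw [← normalizer_eq_top_iff, eq_top_iff, ← hMB]
      refine sup_le ?_ (le_sup_right.trans le_normalizer)
      refine le_trans (le_inf hMnK ?_) (normalizer_inf_normalizer_le_normalizer_sup K' B)
      rw [normalizer_eq_top]; exact le_top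
    have hcardK : Nat.card K' = Nat.card K := by
      rw [hK']
      exact Nat.card_congr (K.equivMapOfInjective _ M.subtype_injective).symm.toEquiv
    refine ⟨B, C, hBn, hCn, le_sup_right, ⟨b, hb⟩, ?_, ?_⟩
    · rw [hC, relIndex_sup_right]
      have h1 : B.relIndex K' ∣ Nat.card K' := relIndex_dvd_card _ _
      rw [hcardK] at h1
      rw [← Nat.not_even_iff_odd, even_iff_two_dvd]
      exact fun h => hK2 (h.trans h1)
    · haveI := hCn
      have h1 : C.index = C.relIndex M := by
        refine (relIndex_eq_index_of_sup ?_).symm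
        rw [eq_top_iff, ← hMB]
        exact sup_le_sup_left le_sup_right _
      have h2 : C.relIndex M ∣ K'.relIndex M := relIndex_dvd_of_le_left _ le_sup_left
      have h3 : K'.relIndex M = K.index := by
        rw [relIndex, hK', subgroupOf, comap_map_eq_self_of_injective M.subtype_injective]
      rw [h3, hk] at h2
      obtain ⟨i, _, hi⟩ := (Nat.dvd_prime_pow Nat.prime_two).1 h2
      exact ⟨i, by rw [h1, hi]⟩
  · exfalso
    have h1 : M.index ∣ 2 ^ b := by
      rw [← relIndex_eq_index_of_sup' hMB, ← hb]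
      exact relIndex_dvd_card _ _
    have h2 : M.index = 2 := (Nat.prime_dvd_prime_iff_eq hp Nat.prime_two).1
      (hp.dvd_of_dvd_pow h1)
    haveI hMn : M.Normal := Subgroup.normal_of_index_eq_two h2
    set L : Subgroup G := R ⊓ M with hL
    haveI hLn : L.Normal := inferInstance
    have hPL : P ≤ L := le_inf hPR hPM
    have hPLi : ¬ r ∣ (P.subgroupOf L).index := by
      intro h
      apply hPi
      rw [← relIndex_mul_relIndex P L R hPL inf_le_left]
      exact Dvd.dvd.mul_right h _
    let Q : Sylow r L := IsPGroup.toSylow (P := P.subgroupOf L) hPp.comap_subtype hPLi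
    have hQ : (Q : Subgroup L).map L.subtype = P := by
      have : (Q : Subgroup L) = P.subgroupOf L := rfl
      rw [this, subgroupOf_map_subtype, inf_of_le_left hPL]
    have h3 := Sylow.normalizer_sup_eq_top Q
    rw [hQ] at h3
    apply hM.1
    rw [eq_top_iff, ← h3]
    exact sup_le hNM inf_le_right

theorem hyp_quotient {G : Type u} [Group G] [Finite G] (A : Subgroup G) [A.Normal]
    (hmax : Hyp G) : Hyp (G ⧸ A) := by
  intro M hM
  set f := QuotientGroup.mk' A with hf
  have hfs : Function.Surjective f := QuotientGroup.mk'_surjective A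
  have h1 : IsCoatom (M.comap f) := isCoatom_comap_of_surjective hfs hM
  rcases hmax _ h1 with ⟨K, hKn, hK2, k, hk⟩ | h2
  · left
    let g : ↥(M.comap f) →* ↥M := f.subgroupComap M
    have hg : Function.Surjective g := f.subgroupComap_surjective_of_surjective M hfs
    refine ⟨K.map g, hKn.map g hg, ?_, ?_⟩
    · intro h
      exact hK2 (h.trans (Subgroup.card_map_dvd K g))
    · have h3 : (K.map g).index ∣ 2 ^ k := by
        rw [← hk]
        exact K.index_map_dvd hg
      obtain ⟨i, _, hi⟩ := (Nat.dvd_prime_pow Nat.prime_two).1 h3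
      exact ⟨i, hi⟩
  · right
    rwa [index_comap_of_surjective M hfs] at h2

theorem main {G : Type u} [Group G] [Finite G] (hG : Group.IsSolvable G) (hmax : Hyp G) :
    ∃ A B C : Subgroup G, A.Normal ∧ B.Normal ∧ C.Normal ∧ A ≤ B ∧ B ≤ C ∧ Odd (Nat.card A) ∧
      (∃ k : ℕ, A.relIndex B = 2 ^ k) ∧ Odd (B.relIndex C) ∧ ∃ k : ℕ, C.index = 2 ^ k := by
  classical
  -- a maximal normal subgroup of odd order
  obtain ⟨A, ⟨hAn, hAo⟩, hAmax⟩ : ∃ A : Subgroup G, (A.Normal ∧ Odd (Nat.card A)) ∧
      ∀ X : Subgroup G, X.Normal ∧ Odd (Nat.card X) → A ≤ X → X = A := by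
    have hfin : (Set.univ : Set (Subgroup G)).Finite := Set.toFinite _
    obtain ⟨A, hA⟩ := (Set.toFinite {A : Subgroup G | A.Normal ∧ Odd (Nat.card A)}).exists_maximal
      ⟨⊥, inferInstance, by simp⟩
    exact ⟨A, hA.1, fun X hX hAX => le_antisymm (hA.2 hX hAX) hAX⟩
  haveI := hAn
  set f := QuotientGroup.mk' A with hf
  have hfs : Function.Surjective f := QuotientGroup.mk'_surjective A
  have hker : f.ker = A := QuotientGroup.ker_mk' A
  haveI : Group.IsSolvable G := hG
  have hQ : Group.IsSolvable (G ⧸ A) := inferInstance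
  have hodd : ∀ X : Subgroup (G ⧸ A), X.Normal → Odd (Nat.card X) → X = ⊥ := by
    intro X hXn hXo
    have hle : A ≤ X.comap f := hker.symm.le.trans (ker_le_comap f X)
    have h1 : Nat.card (X.comap f) = Nat.card A * Nat.card X := by
      have h2 := relIndex_ker f (K := X.comap f)
      rw [hker, map_comap_eq_self_of_surjective hfs] at h2
      rw [← h2, ← relIndex_bot_left (H := A), relIndex_mul_relIndex _ _ _ bot_le hle,
        relIndex_bot_left]
    have h4 := hAmax (X.comap f) ⟨hXn.comap f, by rw [h1]; exact hAo.mul hXo⟩ hle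
    rw [eq_bot_iff]
    intro x hx
    obtain ⟨g, rfl⟩ := hfs x
    have : g ∈ X.comap f := hx
    rw [h4, ← hker] at this
    exact this
  obtain ⟨B, C, hBn, hCn, hBC, ⟨b, hb⟩, ho, k, hk⟩ := core hQ (hyp_quotient A hmax) hodd
  refine ⟨A, B.comap f, C.comap f, hAn, hBn.comap f, hCn.comap f, ?_, comap_mono hBC, hAo,
    ⟨b, ?_⟩, ?_, k, ?_⟩
  · exact hker.symm.le.trans (ker_le_comap f B)
  · have h2 := relIndex_ker f (K := B.comap f)
    rw [hker, map_comap_eq_self_of_surjective hfs] at h2
    rw [h2, hb]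
  · rw [relIndex_comap, map_comap_eq_self_of_surjective hfs]
    exact ho
  · rw [index_comap_of_surjective C hfs, hk]

end Cfsg.Agent.H42.TNM
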