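import Mathlib
import Cfsg.Agent.H12.JordanCycle

/-!
Groups generated by an element of prime order `p` and a cycle of prime length `q` with large supports.
-/

set_option autoImplicit false

namespace Cfsg.Agent.H42.TwoPr

open Equiv MulAction
open scoped Pointwise

theorem pow_inj_of_prime {G X : Type*} [Group G] [MulAction G X] {g : G} {q : ℕ} (hq : q.Prime) (hg : g ^ q = 1) {b : X}
    (hb : g • b ≠ b) : Function.Injective (fun i : Fin q => g ^ (i : ℕ) • b) := by
  have key : ∀ i j : ℕ, i < j → j < q → g ^ i • b ≠ g ^ j • b := by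
    intro i j hij hj h
    apply hb
    have h1 : g ^ (j - i) ∈ stabilizer G b := by
      rw [mem_stabilizer_iff]
      have : g ^ j = g ^ i * g ^ (j - i) := by rw [← pow_add]; congr 1; omega
      rw [this, mul_smul] at h
      exact (smul_left_cancel _ h).symm
    have h2 : g ^ q ∈ stabilizer G b := by rw [hg]; exact Subgroup.one_mem _
    have hcop : Nat.gcd (j - i) q = 1 :=
      (Nat.coprime_of_lt_prime (by omega) (by omega) hq).symm
    have h3 : (g : G) = (g ^ (j - i)) ^ (Nat.gcdA (j - i) q) * (g ^ q) ^ (Nat.gcdB (j - i) q) := by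
      have e := Nat.gcd_eq_gcd_ab (j - i) q
      rw [hcop] at e
      rw [← zpow_natCast, ← zpow_natCast, ← zpow_mul, ← zpow_mul, ← zpow_add, ← e]
      simp
    have h4 : g ∈ stabilizer G b := by
      rw [h3]
      exact Subgroup.mul_mem _ (Subgroup.zpow_mem _ h1 _) (Subgroup.zpow_mem _ h2 _)
    exact h4
  intro i j hij
  rcases lt_trichotomy (i : ℕ) j with h | h | h
  · exact absurd hij (key i j h j.2)
  · exact Fin.ext h
  · exact absurd hij.symm (key j i h i.2)

variable {α : Type*} [Fintype α] [DecidableEq α]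

/-- primitivity from a long cycle of prime length -/
theorem primitive_of_cycle (G : Subgroup (Perm α)) (hG : IsPretransitive G α) {y : Perm α} (hy : y ∈ G) {q : ℕ}
    (hq : q.Prime) (hyc : y.IsCycle) (hys : y.support.card = q) (hcard : Fintype.card α < 2 * q) :
    IsPreprimitive G α := by
  obtain ⟨a, ha⟩ : y.support.Nonempty := by rw [← Finset.card_pos, hys]; exact hq.pos
  refine IsPreprimitive.of_isTrivialBlock_base a fun {B} haB hB => ?_
  let y' : G := ⟨y, hy⟩
  have hyq : y' ^ q = 1 := Subtype.ext (by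
    show y ^ q = 1
    rw [← hys, ← hyc.orderOf]; exact pow_orderOf_eq_one y)
  by_cases hyB : y' • B = B
  · right
    have hsub : (y.support : Set α) ⊆ B := by
      intro z hz
      obtain ⟨i, rfl⟩ := hyc.exists_zpow_eq (Perm.mem_support.mp ha) (Perm.mem_support.mp hz)
      have h1 : y' ^ i ∈ stabilizer G B := Subgroup.zpow_mem _ (by exact hyB) i
      have h2 : (y' ^ i) • B = B := h1
      rw [← h2]
      exact ⟨a, haB, rfl⟩
    apply hB.eq_univ_of_card_lt
    have h3 : q ≤ B.ncard := by
      rw [← hys, ← Set.ncard_coe_finset]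
      exact Set.ncard_le_ncard hsub (Set.toFinite B)
    rw [Nat.card_eq_fintype_card]
    omega
  · left
    apply hB.subsingleton_of_card_lt
    have hinj := pow_inj_of_prime hq hyq hyB
    have h3 : q ≤ (orbit G B).ncard := by
      have h4 : (Set.range (fun i : Fin q => y' ^ (i : ℕ) • B)).ncard = q := by
        rw [Set.ncard_range_of_injective hinj, Nat.card_eq_fintype_card, Fintype.card_fin]
      rw [← h4]
      apply Set.ncard_le_ncard _ (Set.toFinite _)
      rintro _ ⟨i, rfl⟩
      exact ⟨_, rfl⟩
    rw [Nat.card_eq_fintype_card]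
    omega

/-- transitivity -/
theorem trans_of (x y : Perm α) {p q : ℕ} (hp : p.Prime) (hxp : x ^ p = 1) (hyc : y.IsCycle) (hys : y.support.card = q)
    (hcov : ∀ z, z ∉ y.support → x z ≠ z) (hcard : Fintype.card α < p + q) :
    IsPretransitive (Subgroup.closure {x, y} : Subgroup (Perm α)) α := by
  obtain ⟨a, ha⟩ := hyc.nonempty_support
  have hx : x ∈ Subgroup.closure {x, y} := Subgroup.subset_closure (by simp)
  have hy : y ∈ Subgroup.closure {x, y} := Subgroup.subset_closure (by simp)
  have hsup : ∀ z ∈ y.support, ∃ g : (Subgroup.closure {x, y} : Subgroup (Perm α)), g • a = z := by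
    intro z hz
    obtain ⟨i, hi⟩ := hyc.exists_zpow_eq (Perm.mem_support.mp ha) (Perm.mem_support.mp hz)
    exact ⟨⟨y ^ i, Subgroup.zpow_mem _ hy i⟩, hi⟩
  have hall : ∀ z, ∃ g : (Subgroup.closure {x, y} : Subgroup (Perm α)), g • a = z := by
    intro z
    by_cases hz : z ∈ y.support
    · exact hsup z hz
    have h1 : ∃ i : Fin p, (x ^ (i : ℕ)) z ∈ y.support := by
      by_contra hcon
      push Not at hcon
      have hinj : Function.Injective (fun i : Fin p => (x ^ (i : ℕ)) z) :=
        pow_inj_of_prime (g := x) hp hxp (b := z) (hcov z hz)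
      have h2 : (Finset.univ.image (fun i : Fin p => (x ^ (i : ℕ)) z)).card = p := by
        rw [Finset.card_image_of_injective _ hinj, Finset.card_univ, Fintype.card_fin]
      have h3 : Disjoint (Finset.univ.image (fun i : Fin p => (x ^ (i : ℕ)) z)) y.support := by
        rw [Finset.disjoint_left]
        intro w hw
        rw [Finset.mem_image] at hw
        obtain ⟨i, -, rfl⟩ := hw
        exact hcon i
      have h4 := Finset.card_union_of_disjoint h3
      have h5 := Finset.card_le_univ (Finset.univ.image (fun i : Fin p => (x ^ (i : ℕ)) z) ∪ y.support)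
      omega
    obtain ⟨i, hi⟩ := h1
    obtain ⟨g, hg⟩ := hsup _ hi
    refine ⟨⟨(x ^ (i : ℕ))⁻¹ * g, Subgroup.mul_mem _ (Subgroup.inv_mem _ (Subgroup.pow_mem _ hx _)) g.2⟩, ?_⟩
    show (x ^ (i : ℕ))⁻¹ ((g : Perm α) a) = z
    have hg' : (g : Perm α) a = (x ^ (i : ℕ)) z := hg
    rw [hg']; exact (x ^ (i : ℕ)).symm_apply_apply z
  constructor
  intro u v
  obtain ⟨g, rfl⟩ := hall u
  obtain ⟨h, rfl⟩ := hall v
  exact ⟨h * g⁻¹, by rw [mul_smul, inv_smul_smul]⟩

theorem prim_closure (x y : Perm α) {p q : ℕ} (hp : p.Prime) (hq : q.Prime) (hxp : x ^ p = 1) (hyc : y.IsCycle)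
    (hys : y.support.card = q)
    (hcov : ∀ z, z ∉ y.support → x z ≠ z) (hcard : Fintype.card α < p + q) (hcard2 : Fintype.card α < 2 * q) :
    IsPreprimitive (Subgroup.closure {x, y} : Subgroup (Perm α)) α :=
  primitive_of_cycle _ (trans_of x y hp hxp hyc hys hcov hcard) (Subgroup.subset_closure (by simp)) hq hyc hys hcard2

/-- the transfer to the support -/
theorem iso_of_support {m : ℕ} (x y : alternatingGroup (Fin m)) (S : Finset (Fin m))
    (hx : ∀ i, i ∉ S → (x : Perm (Fin m)) i = i) (hy : ∀ i, i ∉ S → (y : Perm (Fin m)) i = i)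
    (h : ∀ x' y' : Perm {i // i ∈ S}, Perm.ofSubtype x' = (x : Perm (Fin m)) → Perm.ofSubtype y' = (y : Perm (Fin m)) →
      alternatingGroup {i // i ∈ S} ≤ Subgroup.closure {x', y'}) :
    Nonempty (Subgroup.closure ({x, y} : Set (alternatingGroup (Fin m))) ≃* alternatingGroup (Fin S.card)) := by
  have hxS : ∀ i, (x : Perm (Fin m)) i ∈ S ↔ i ∈ S := by
    intro i
    constructor
    · intro hi
      by_contra hc
      rw [hx i hc] at hi; exact hc hi
    · intro hi
      by_contra hc
      have := hx _ hc
      have h2 := (x : Perm (Fin m)).injective this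
      rw [h2] at hc; exact hc hi
  have hyS : ∀ i, (y : Perm (Fin m)) i ∈ S ↔ i ∈ S := by
    intro i
    constructor
    · intro hi
      by_contra hc
      rw [hy i hc] at hi; exact hc hi
    · intro hi
      by_contra hc
      have := hy _ hc
      have h2 := (y : Perm (Fin m)).injective this
      rw [h2] at hc; exact hc hi
  obtain ⟨x', hx'⟩ : ∃ x' : Perm {i // i ∈ S}, Perm.ofSubtype x' = (x : Perm (Fin m)) :=
    ⟨(x : Perm (Fin m)).subtypePerm hxS, Perm.ofSubtype_subtypePerm hxS (fun i hi => by
      by_contra hc; exact hi (hx i hc))⟩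
  obtain ⟨y', hy'⟩ : ∃ y' : Perm {i // i ∈ S}, Perm.ofSubtype y' = (y : Perm (Fin m)) :=
    ⟨(y : Perm (Fin m)).subtypePerm hyS, Perm.ofSubtype_subtypePerm hyS (fun i hi => by
      by_contra hc; exact hi (hy i hc))⟩
  have hle := h x' y' hx' hy'
  -- equality
  have heq : Subgroup.closure {x', y'} = alternatingGroup {i // i ∈ S} := by
    apply le_antisymm _ hle
    rw [Subgroup.closure_le]
    rintro z (rfl | hz)
    · show z ∈ alternatingGroup _
      rw [Perm.mem_alternatingGroup, ← Perm.sign_ofSubtype, hx']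
      exact x.2
    · rw [Set.mem_singleton_iff] at hz
      subst hz
      show z ∈ alternatingGroup _
      rw [Perm.mem_alternatingGroup, ← Perm.sign_ofSubtype, hy']
      exact y.2
  -- the closure as a subgroup of the symmetric group
  have e1 : (Subgroup.closure ({x, y} : Set (alternatingGroup (Fin m)))).map (alternatingGroup (Fin m)).subtype =
      (Subgroup.closure {x', y'}).map (Perm.ofSubtype (p := fun i => i ∈ S)) := by
    rw [MonoidHom.map_closure, MonoidHom.map_closure]
    congr 1
    rw [Set.image_pair, Set.image_pair, hx', hy']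
    rfl
  have e2 := (Subgroup.closure ({x, y} : Set (alternatingGroup (Fin m)))).equivMapOfInjective
    (alternatingGroup (Fin m)).subtype (Subgroup.subtype_injective _)
  have e3 := (Subgroup.closure {x', y'}).equivMapOfInjective (Perm.ofSubtype (p := fun i => i ∈ S))
    Perm.ofSubtype_injective
  have e4 : alternatingGroup {i // i ∈ S} ≃* alternatingGroup (Fin S.card) :=
    (Fintype.equivFinOfCardEq (by simp)).altCongrHom
  exact ⟨e2.trans ((MulEquiv.subgroupCongr e1).trans (e3.symm.trans ((MulEquiv.subgroupCongr heq).trans e4)))⟩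

end Cfsg.Agent.H42.TwoPr
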