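import Mathlib
import Cfsg.Agent.H42.TwoPrB
import Cfsg.Agent.H34.Sharp3
import Cfsg.Agent.S0991

/-!
Primitive groups of degree `p + 2` containing a cycle of prime length `p`; degrees 6 and 7.
-/

set_option autoImplicit false

namespace Cfsg.Agent.H42.TwoPr

open Equiv MulAction

section gen

variable {α : Type*} [Fintype α] [DecidableEq α]

/-- proper subgroups of the alternating group have index at least the degree -/
theorem index_ge (hn : 5 ≤ Fintype.card α) (H : Subgroup (alternatingGroup α)) (hH : H ≠ ⊤) :
    Fintype.card α ≤ H.index := by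
  have : Nontrivial α := Fintype.one_lt_card_iff_nontrivial.mp (by omega)
  have hs : IsSimpleGroup (alternatingGroup α) := alternatingGroup.isSimpleGroup (by rwa [Nat.card_eq_fintype_card])
  have hcardA : 2 * Nat.card (alternatingGroup α) = (Fintype.card α).factorial := by
    rw [Nat.card_eq_fintype_card, two_mul_card_alternatingGroup, Fintype.card_perm]
  have hnc : ¬ IsMulCommutative (alternatingGroup α) := by
    intro hc
    have h1 : Nat.card (alternatingGroup α) = (Nat.card (alternatingGroup α)).minFac ∨ True := Or.inr trivial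
    have hcomm : ∀ x y : alternatingGroup α, x * y = y * x := fun x y => hc.is_comm.comm x y
    -- a three cycle and another element do not commute
    obtain ⟨l, hl, hlen⟩ : ∃ l : List α, l.Nodup ∧ l.length = 4 := by
      obtain ⟨s, hs⟩ := Finset.exists_subset_card_eq (s := (Finset.univ : Finset α)) (n := 4) (by
        rw [Finset.card_univ]; omega)
      exact ⟨s.toList, s.nodup_toList, by rw [Finset.length_toList, hs.2]⟩
    match l, hl, hlen with
    | [a, b, c, d], hl, _ =>
      simp only [List.nodup_cons, List.mem_cons, List.mem_singleton, not_or, List.not_mem_nil, not_false_eq_true,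
        List.nodup_nil, and_true] at hl
      obtain ⟨⟨hab, hac, had⟩, ⟨hbc, hbd⟩, hcd⟩ := hl
      have h3 := hcomm ⟨swap a b * swap b c, by
          rw [Perm.mem_alternatingGroup, map_mul, Perm.sign_swap hab, Perm.sign_swap hbc]; rfl⟩
        ⟨swap a b * swap c d, by
          rw [Perm.mem_alternatingGroup, map_mul, Perm.sign_swap hab, Perm.sign_swap hcd]; rfl⟩
      have h4 := congrArg (fun z : alternatingGroup α => (z : Perm α) d) h3
      simp only [Subgroup.coe_mul, Perm.mul_apply] at h4
      rw [swap_apply_right, swap_apply_of_ne_of_ne (Ne.symm hac) (Ne.symm hbc), swap_apply_right,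
        swap_apply_right, swap_apply_of_ne_of_ne (Ne.symm hbd) (Ne.symm hcd),
        swap_apply_of_ne_of_ne (Ne.symm had) (Ne.symm hbd), swap_apply_right,
        swap_apply_of_ne_of_ne (Ne.symm hac) (Ne.symm hbc)] at h4
      exact hac h4
  obtain ⟨f, hf⟩ := Cfsg.Agent.S0991.result hnc H hH
  have hle : Nat.card (alternatingGroup α) ≤ Nat.card (alternatingGroup (Fin H.index)) :=
    Nat.card_le_card_of_injective f hf
  by_contra hlt
  push Not at hlt
  have hidx0 : 0 < H.index := Nat.pos_of_ne_zero Subgroup.index_ne_zero_of_finite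
  have h2 : 2 * Nat.card (alternatingGroup (Fin H.index)) ≤ 2 * H.index.factorial := by
    apply Nat.mul_le_mul_left
    have h3 : Nat.card (alternatingGroup (Fin H.index)) ≤ Nat.card (Perm (Fin H.index)) :=
      Nat.card_le_card_of_injective _ Subtype.val_injective
    rwa [Nat.card_eq_fintype_card, Nat.card_eq_fintype_card, Fintype.card_perm, Fintype.card_fin,
      ← Nat.card_eq_fintype_card] at h3
  obtain ⟨k, hk⟩ : ∃ k, Fintype.card α = k + 1 := ⟨Fintype.card α - 1, by omega⟩
  have h5 : H.index.factorial ≤ k.factorial := Nat.factorial_le (by omega)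
  have h6 : (Fintype.card α).factorial = (k + 1) * k.factorial := by rw [hk, Nat.factorial_succ]
  have h7 : 0 < k.factorial := Nat.factorial_pos k
  have h8 : (k + 1) * k.factorial ≤ 2 * k.factorial := by
    calc (k + 1) * k.factorial = 2 * Nat.card (alternatingGroup α) := by rw [hcardA, h6]
      _ ≤ 2 * Nat.card (alternatingGroup (Fin H.index)) := Nat.mul_le_mul_left 2 hle
      _ ≤ 2 * H.index.factorial := h2
      _ ≤ 2 * k.factorial := Nat.mul_le_mul_left 2 h5
  have h9 : k + 1 ≤ 2 := Nat.le_of_mul_le_mul_right h8 h7
  omega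

theorem not_sharp2 (G : Subgroup (Perm α)) (hG : IsMultiplyPretransitive G α 2)
    (hs : ∀ x : Fin 2 ↪ α, stabilizer G x = ⊥) (h6 : Fintype.card α = 6) : False := by
  have h := Cfsg.Agent.H34.sharp2_of hs
  obtain ⟨K, p, j, hp, hj, hcard, -⟩ := h.exists_kernel (by rw [Nat.card_eq_fintype_card]; omega)
  rw [Nat.card_eq_fintype_card, h6] at hcard
  have h2 : 2 ∣ p ^ j := by rw [← hcard]; norm_num
  have h3 : 3 ∣ p ^ j := by rw [← hcard]; norm_num
  have e2 := (Nat.prime_dvd_prime_iff_eq Nat.prime_two hp).mp (Nat.prime_two.dvd_of_dvd_pow h2)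
  have e3 := (Nat.prime_dvd_prime_iff_eq Nat.prime_three hp).mp (Nat.prime_three.dvd_of_dvd_pow h3)
  omega

theorem not_sharp3 (G : Subgroup (Perm α)) (hG : IsMultiplyPretransitive G α 3)
    (hs : ∀ x : Fin 3 ↪ α, stabilizer G x = ⊥) (h13 : Fintype.card α = 7 ∨ Fintype.card α = 13) : False := by
  have hne : Nonempty α := Fintype.card_pos_iff.mp (by omega)
  obtain ⟨i⟩ := hne
  have h := (Cfsg.Agent.H34.sharp3_of hG hs).sharp2 i
  let _act := Cfsg.Agent.H34.stabAct G i
  have hc : Nat.card {x : α // x ≠ i} = Fintype.card α - 1 := by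
    rw [Nat.card_eq_fintype_card, Fintype.card_subtype_compl]; simp
  obtain ⟨K, p, j, hp, hj, hcard, -⟩ := h.exists_kernel (by rw [hc]; omega)
  rw [hc] at hcard
  have h2 : 2 ∣ p ^ j := by rw [← hcard]; omega
  have h3 : 3 ∣ p ^ j := by rw [← hcard]; omega
  have e2 := (Nat.prime_dvd_prime_iff_eq Nat.prime_two hp).mp (Nat.prime_two.dvd_of_dvd_pow h2)
  have e3 := (Nat.prime_dvd_prime_iff_eq Nat.prime_three hp).mp (Nat.prime_three.dvd_of_dvd_pow h3)
  omega

/-- the order of a multiply transitive group -/
theorem card_of_multi (G : Subgroup (Perm α)) (k : ℕ) (hG : IsMultiplyPretransitive G α k) (x : Fin k ↪ α) :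
    Nat.card G = (Fintype.card α).descFactorial k * Nat.card (stabilizer G x) := by
  have h1 : (stabilizer G x).index = Nat.card (Fin k ↪ α) := by
    exact @index_stabilizer_of_transitive G (Fin k ↪ α) _ _ x hG
  have h2 := Subgroup.card_mul_index (stabilizer G x)
  rw [h1, Nat.card_eq_fintype_card (α := Fin k ↪ α), Fintype.card_embedding_eq, Fintype.card_fin] at h2
  rw [← h2, mul_comm]

theorem card_stab_eq (G : Subgroup (Perm α)) (k : ℕ) (hG : IsMultiplyPretransitive G α k) (x y : Fin k ↪ α) :
    Nat.card (stabilizer G x) = Nat.card (stabilizer G y) := by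
  have h1 := card_of_multi G k hG x
  have h2 := card_of_multi G k hG y
  have h3 : 0 < (Fintype.card α).descFactorial k := by
    rw [Nat.descFactorial_pos]
    have := Fintype.card_le_of_injective x x.injective
    rwa [Fintype.card_fin] at this
  rw [h1] at h2
  exact Nat.eq_of_mul_eq_mul_left h3 h2

/-- degree six: the group is isomorphic to `A_5` or is `A_6` -/
theorem degree_six (G : Subgroup (Perm α)) (hG : IsMultiplyPretransitive G α 2) (hA : G ≤ alternatingGroup α)
    (h6 : Fintype.card α = 6) :
    Nonempty (G ≃* alternatingGroup (Fin 5)) ∨ Nonempty (G ≃* alternatingGroup (Fin 6)) := by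
  have hne : Nonempty (Fin 2 ↪ α) := by
    rw [Function.Embedding.nonempty_iff_card_le, Fintype.card_fin]; omega
  obtain ⟨x⟩ := hne
  have hcG := card_of_multi G 2 hG x
  have hst : 2 ≤ Nat.card (stabilizer G x) := by
    by_contra hlt
    have h1 : Nat.card (stabilizer G x) = 1 := by
      have : 0 < Nat.card (stabilizer G x) := Nat.card_pos
      omega
    apply not_sharp2 G hG _ h6
    intro y
    have h2 := card_stab_eq G 2 hG x y
    rw [h1] at h2
    exact Subgroup.card_eq_one.mp h2.symm
  have h30 : (Fintype.card α).descFactorial 2 = 30 := by rw [h6]; rfl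
  rw [h30] at hcG
  have hcardA : Nat.card (alternatingGroup α) = 360 := by
    have : Nontrivial α := Fintype.one_lt_card_iff_nontrivial.mp (by omega)
    have h := two_mul_card_alternatingGroup (α := α)
    rw [Fintype.card_perm, h6] at h
    have e : (6 : ℕ).factorial = 720 := by rfl
    rw [e] at h
    rw [Nat.card_eq_fintype_card]; omega
  obtain ⟨H, hH⟩ : ∃ H : Subgroup (alternatingGroup α), H = G.subgroupOf (alternatingGroup α) := ⟨_, rfl⟩
  have eH : G ≃* H := by rw [hH]; exact (Subgroup.subgroupOfEquivOfLe hA).symm
  have hcH : Nat.card H = Nat.card G := (Nat.card_congr eH.toEquiv).symm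
  have hidx := Subgroup.card_mul_index H
  rw [hcH, hcardA] at hidx
  by_cases htop : H = ⊤
  · right
    have e6 : alternatingGroup α ≃* alternatingGroup (Fin 6) := (Fintype.equivFinOfCardEq h6).altCongrHom
    refine ⟨eH.trans (MulEquiv.trans ?_ e6)⟩
    rw [htop]; exact Subgroup.topEquiv
  · left
    have hge := index_ge (by omega) H htop
    rw [h6] at hge
    have hi6 : H.index = 6 := by
      by_contra h
      have h7 : 7 ≤ H.index := by omega
      have : 60 * 7 ≤ Nat.card G * H.index := Nat.mul_le_mul (by omega) h7
      omega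
    have hG60 : Nat.card G = 60 := by rw [hi6] at hidx; omega
    -- the action on the cosets
    have : Nontrivial α := Fintype.one_lt_card_iff_nontrivial.mp (by omega)
    have hs : IsSimpleGroup (alternatingGroup α) := alternatingGroup.isSimpleGroup (by rw [Nat.card_eq_fintype_card]; omega)
    let X := alternatingGroup α ⧸ H
    have hX : Nat.card X = 6 := by rw [← hi6]; rfl
    let _ : Fintype X := Fintype.ofFinite X
    let _ : DecidableEq X := Classical.decEq X
    have hXf : Fintype.card X = 6 := by rw [← Nat.card_eq_fintype_card]; exact hX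
    have hXnt : Nontrivial X := Fintype.one_lt_card_iff_nontrivial.mp (by omega)
    let φ : alternatingGroup α →* Perm X := toPermHom (alternatingGroup α) X
    have hker : φ.ker = ⊥ := by
      rcases IsSimpleGroup.eq_bot_or_eq_top_of_normal φ.ker inferInstance with h | h
      · exact h
      · exfalso
        apply htop
        rw [eq_top_iff]
        intro g _
        have hg : g ∈ φ.ker := by rw [h]; trivial
        have h1 : φ g ((1 : alternatingGroup α) : X) = ((1 : alternatingGroup α) : X) := by
          rw [MonoidHom.mem_ker.mp hg]; rfl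
        have h2 : ((g * 1 : alternatingGroup α) : X) = ((1 : alternatingGroup α) : X) := h1
        rw [QuotientGroup.eq] at h2
        simpa using h2
    have hinj : Function.Injective φ := (MonoidHom.ker_eq_bot_iff φ).mp hker
    have hrange : φ.range = alternatingGroup X := by
      apply Perm.eq_alternatingGroup_of_index_eq_two
      have h1 := Subgroup.card_mul_index φ.range
      have h2 : Nat.card φ.range = 360 := by
        rw [← hcardA]
        exact (Nat.card_congr (MonoidHom.ofInjective hinj).toEquiv).symm
      rw [h2, Nat.card_eq_fintype_card (α := Perm X), Fintype.card_perm, hXf] at h1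
      have e : (6 : ℕ).factorial = 720 := by rfl
      rw [e] at h1
      omega
    -- the subgroup `H` maps onto the stabilizer
    let x0 : X := ((1 : alternatingGroup α) : X)
    have hstab : H.map φ ≤ (alternatingGroup {z : X // z ≠ x0}).map (Perm.ofSubtype (p := fun z => z ≠ x0)) := by
      rintro _ ⟨g, hg, rfl⟩
      have hfix : φ g x0 = x0 := by
        show ((g * 1 : alternatingGroup α) : X) = ((1 : alternatingGroup α) : X)
        rw [QuotientGroup.eq, mul_one, mul_one]
        exact H.inv_mem hg
      have hp : ∀ z, φ g z ≠ x0 ↔ z ≠ x0 := by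
        intro z
        rw [not_iff_not]
        constructor
        · intro h
          apply (φ g).injective
          rw [h, hfix]
        · rintro rfl
          exact hfix
      have hmv : ∀ z, φ g z ≠ z → z ≠ x0 := by
        intro z hz hzx
        rw [hzx] at hz; exact hz hfix
      have hof : Perm.ofSubtype ((φ g).subtypePerm hp) = φ g :=
        Perm.ofSubtype_subtypePerm (p := fun z => z ≠ x0) hp hmv
      refine ⟨(φ g).subtypePerm hp, ?_, hof⟩
      show (φ g).subtypePerm hp ∈ alternatingGroup _
      rw [Perm.mem_alternatingGroup, ← Perm.sign_ofSubtype, hof]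
      have : φ g ∈ φ.range := ⟨g, rfl⟩
      rw [hrange] at this
      exact this
    have hc5 : Fintype.card {z : X // z ≠ x0} = 5 := by
      rw [Fintype.card_subtype_compl]; simp [hXf]
    have hcS : Nat.card ((alternatingGroup {z : X // z ≠ x0}).map (Perm.ofSubtype (p := fun z => z ≠ x0))) = 60 := by
      have : Nontrivial {z : X // z ≠ x0} := Fintype.one_lt_card_iff_nontrivial.mp (by omega)
      rw [← Nat.card_congr ((alternatingGroup {z : X // z ≠ x0}).equivMapOfInjective _ Perm.ofSubtype_injective).toEquiv]
      have h := two_mul_card_alternatingGroup (α := {z : X // z ≠ x0})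
      rw [Fintype.card_perm, hc5] at h
      have e : (5 : ℕ).factorial = 120 := by rfl
      rw [e] at h
      rw [Nat.card_eq_fintype_card]; omega
    have hcM : Nat.card (H.map φ) = 60 := by
      rw [← Nat.card_congr (H.equivMapOfInjective φ hinj).toEquiv, hcH, hG60]
    have heq : H.map φ = (alternatingGroup {z : X // z ≠ x0}).map (Perm.ofSubtype (p := fun z => z ≠ x0)) :=
      Subgroup.eq_of_le_of_card_ge hstab (by rw [hcM, hcS])
    have e5 : alternatingGroup {z : X // z ≠ x0} ≃* alternatingGroup (Fin 5) :=
      (Fintype.equivFinOfCardEq hc5).altCongrHom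
    exact ⟨eH.trans ((H.equivMapOfInjective φ hinj).trans ((MulEquiv.subgroupCongr heq).trans
      (((alternatingGroup {z : X // z ≠ x0}).equivMapOfInjective _ Perm.ofSubtype_injective).symm.trans e5)))⟩

end gen

end Cfsg.Agent.H42.TwoPr
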