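import Mathlib
import Cfsg.Agent.H42.TwoPrC

/-!
Primitive groups of degree `p + 2` containing a cycle of prime length `p`: degree 7.
-/

set_option autoImplicit false

namespace Cfsg.Agent.H42.TwoPr

open Equiv MulAction

variable {α : Type*} [Fintype α] [DecidableEq α]

theorem conj_pow_apply {g u : Perm α} {s : ℕ} (h : u * g * u⁻¹ = g ^ s) (i : ℕ) (z : α) :
    u ((g ^ i) z) = (g ^ (s * i)) (u z) := by
  have h1 : u * g ^ i = g ^ (s * i) * u := by
    have h2 : u * g ^ i * u⁻¹ = g ^ (s * i) := by rw [pow_mul, ← h, conj_pow]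
    rw [← h2]; group
  exact congrArg (fun σ : Perm α => σ z) h1

theorem mem_support_of_conj {g u : Perm α} {s : ℕ} (h : u * g * u⁻¹ = g ^ s) {z : α} (hz : z ∈ g.support) :
    u z ∈ g.support := by
  rw [Perm.mem_support] at hz ⊢
  intro hc
  apply hz
  have h1 := conj_pow_apply h 1 z
  rw [pow_one, mul_one] at h1
  have h2 : (g ^ s) (u z) = u z := Perm.pow_apply_eq_self_of_apply_eq_self hc s
  rw [h2] at h1
  exact u.injective h1

theorem exists_adjust {g u : Perm α} (hg : g.IsCycle) {s : ℕ} (h : u * g * u⁻¹ = g ^ s) {c : α} (hc : c ∈ g.support) :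
    ∃ k : ℕ, (g ^ k * u) c = c ∧ (g ^ k * u) * g * (g ^ k * u)⁻¹ = g ^ s := by
  have h1 := mem_support_of_conj h hc
  obtain ⟨k, hk⟩ := hg.exists_pow_eq (Perm.mem_support.mp h1) (Perm.mem_support.mp hc)
  refine ⟨k, hk, ?_⟩
  have : (g ^ k * u) * g * (g ^ k * u)⁻¹ = g ^ k * (u * g * u⁻¹) * (g ^ k)⁻¹ := by group
  rw [this, h, mul_inv_eq_iff_eq_mul, ← pow_add, ← pow_add, add_comm]

theorem fix_of_comm {g w : Perm α} (hg : g.IsCycle) {s : ℕ} (h : w * g * w⁻¹ = g ^ s) {c : α} (hc : c ∈ g.support)
    (hwc : w c = c) (hs : g ^ s = g) : ∀ z ∈ g.support, w z = z := by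
  intro z hz
  obtain ⟨k, rfl⟩ := hg.exists_pow_eq (Perm.mem_support.mp hc) (Perm.mem_support.mp hz)
  rw [conj_pow_apply h, hwc, pow_mul, hs]

theorem fix_inv {g w : Perm α} (hg : g.IsCycle) {p : ℕ} (hp : p.Prime) (hp2 : p ≠ 2) (hgs : g.support.card = p) {s : ℕ}
    (h : w * g * w⁻¹ = g ^ s) {c : α} (hc : c ∈ g.support)
    (hwc : w c = c) (hs : g ^ s * g = 1) : ∀ z ∈ g.support, w (w z) = z ∧ (w z = z → z = c) := by
  intro z hz
  obtain ⟨k, rfl⟩ := hg.exists_pow_eq (Perm.mem_support.mp hc) (Perm.mem_support.mp hz)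
  have hinv : g ^ s = g⁻¹ := mul_eq_one_iff_eq_inv.mp hs
  have e1 : w ((g ^ k) c) = (g⁻¹ ^ k) c := by rw [conj_pow_apply h, hwc, pow_mul, hinv]
  have hord : orderOf g = p := by rw [hg.orderOf, hgs]
  constructor
  · have h2 : w * g⁻¹ * w⁻¹ = g := by
      have h3 : w * g * w⁻¹ = g⁻¹ := by rw [h, hinv]
      have h4 : w * g⁻¹ * w⁻¹ = (w * g * w⁻¹)⁻¹ := by group
      rw [h4, h3, inv_inv]
    have h5 : w * g⁻¹ ^ k = g ^ k * w := by
      have h6 : w * g⁻¹ ^ k * w⁻¹ = g ^ k := by rw [← conj_pow, h2]
      rw [← h6]; group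
    rw [e1]
    have h7 := congrArg (fun σ : Perm α => σ c) h5
    simp only [Perm.mul_apply] at h7
    rw [h7, hwc]
  · intro h2
    rw [e1] at h2
    -- g^(2k) c = c
    have h3 : (g ^ (k + k)) c = c := by
      rw [pow_add, Perm.mul_apply, ← h2, ← Perm.mul_apply, inv_pow, mul_inv_cancel]; rfl
    have h4 : g ^ (k + k) = 1 := by
      rcases hg.pow_eq_one_iff' (Perm.mem_support.mp hc) (n := k + k) with ⟨_, h5⟩
      exact h5 h3
    have h5 : p ∣ k + k := by rw [← hord]; exact orderOf_dvd_of_pow_eq_one h4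
    have h6 : p ∣ k := by
      have h7 : p ∣ 2 * k := by rwa [two_mul]
      rcases hp.dvd_mul.mp h7 with h8 | h8
      · exact absurd ((Nat.prime_dvd_prime_iff_eq hp Nat.prime_two).mp h8) hp2
      · exact h8
    have h7 : g ^ k = 1 := by rw [← hord] at h6; exact orderOf_dvd_iff_pow_eq_one.mp h6
    rw [h7]; rfl

/-- the sign of an involution with a given number of fixed points -/
theorem sign_involution {w : Perm α} (hw : ∀ z, w (w z) = z) {n k : ℕ} (hn : Fintype.card α = n)
    (F : Finset α) (hF : ∀ z, w z = z ↔ z ∈ F) (hk : F.card = k) : Perm.sign w = (-1) ^ ((n - k) / 2) := by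
  have h1 : w ^ 2 = 1 := by
    ext z
    rw [pow_two]
    exact hw z
  rw [Perm.sign_of_pow_two_eq_one h1, hn]
  congr 3
  rw [← hk, ← Fintype.card_coe]
  apply Fintype.card_congr
  exact Equiv.subtypeEquivRight (fun z => hF z)

theorem emb3_inj {a b c : α} (hab : a ≠ b) (hbc : b ≠ c) (hac : a ≠ c) : Function.Injective ![a, b, c] := by
  intro i j hij
  fin_cases i <;> fin_cases j <;> simp_all

/-- the outside points and an element swapping them -/
theorem exists_swap (G : Subgroup (Perm α)) (hG : IsPreprimitive G α) {p : ℕ} (hp : p.Prime)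
    (hcard : Fintype.card α = p + 2) {g : Perm α} (hg : g.IsCycle) (hgs : g.support.card = p) (hgG : g ∈ G) :
    ∃ a b : α, a ≠ b ∧ a ∉ g.support ∧ b ∉ g.support ∧ (∀ z, z ∉ g.support → z = a ∨ z = b) ∧
      ∃ t ∈ G, t a = b ∧ t b = a ∧ ∃ s : ℕ, t * g * t⁻¹ = g ^ s := by
  have h1 : (g.supportᶜ).card = 2 := by rw [Finset.card_compl, hcard, hgs]; omega
  obtain ⟨a, b, hab, hc⟩ := Finset.card_eq_two.mp h1
  have ha : a ∉ g.support := by
    have : a ∈ g.supportᶜ := by rw [hc]; simp
    exact Finset.mem_compl.mp this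
  have hb : b ∉ g.support := by
    have : b ∈ g.supportᶜ := by rw [hc]; simp
    exact Finset.mem_compl.mp this
  have hout : ∀ z, z ∉ g.support → z = a ∨ z = b := by
    intro z hz
    have : z ∈ g.supportᶜ := Finset.mem_compl.mpr hz
    rw [hc] at this
    simpa using this
  refine ⟨a, b, hab, ha, hb, hout, ?_⟩
  obtain ⟨t, htG, ht1, s, hts⟩ := H12.exists_normalizing G hG hp (by omega) hg hgs hgG (swap a b) (by
    intro x hx
    rcases hout x hx with rfl | rfl
    · rw [swap_apply_left]; exact hb
    · rw [swap_apply_right]; exact ha)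
  exact ⟨t, htG, by rw [ht1 a ha, swap_apply_left], by rw [ht1 b hb, swap_apply_right], s, hts⟩

theorem pow_fix {g : Perm α} {a : α} (ha : a ∉ g.support) (k : ℕ) : (g ^ k) a = a :=
  Perm.pow_apply_eq_self_of_apply_eq_self (Perm.notMem_support.mp ha) k

/-- degree seven -/
theorem degree_seven (G : Subgroup (Perm α)) (hG : IsPreprimitive G α) (hA : G ≤ alternatingGroup α)
    (h7 : Fintype.card α = 7) {g : Perm α} (hg : g.IsCycle) (hgs : g.support.card = 5) (hgG : g ∈ G) :
    alternatingGroup α ≤ G := by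
  obtain ⟨a, b, hab, ha, hb, hout, t, htG, hta, htb, s, hts⟩ :=
    exists_swap G hG Nat.prime_five (by omega) hg hgs hgG
  obtain ⟨c, hc⟩ := hg.nonempty_support
  have hord : orderOf g = 5 := by rw [hg.orderOf, hgs]
  have hca : c ≠ a := fun h => ha (h ▸ hc)
  have hcb : c ≠ b := fun h => hb (h ▸ hc)
  by_cases h2 : g ^ (s * s) = g
  · exfalso
    have h3 : s * s ≡ 1 [MOD 5] := by
      rw [← hord]
      apply pow_eq_pow_iff_modEq.mp
      rw [h2, pow_one]
    have h4 : s % 5 = 1 ∨ s % 5 = 4 := by
      have h5 : (s % 5) * (s % 5) % 5 = 1 := by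
        rw [← Nat.mul_mod]; exact h3
      have h6 : s % 5 < 5 := Nat.mod_lt _ (by norm_num)
      interval_cases (s % 5) <;> omega
    obtain ⟨k, hk1, hk2⟩ := exists_adjust hg hts hc
    have hwG : g ^ k * t ∈ G := G.mul_mem (G.pow_mem hgG k) htG
    have hwA : Perm.sign (g ^ k * t) = 1 := hA hwG
    have hwa : (g ^ k * t) a = b := by rw [Perm.mul_apply, hta, pow_fix hb]
    have hwb : (g ^ k * t) b = a := by rw [Perm.mul_apply, htb, pow_fix ha]
    rcases h4 with h4 | h4
    · have hs : g ^ s = g := by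
        conv_rhs => rw [← pow_one g]
        apply pow_eq_pow_iff_modEq.mpr
        rw [hord]; exact h4
      have h5 := fix_of_comm hg hk2 hc hk1 hs
      have h6 : g ^ k * t = swap a b := by
        ext z
        by_cases hz : z ∈ g.support
        · have hza : z ≠ a := fun h => ha (h ▸ hz)
          have hzb : z ≠ b := fun h => hb (h ▸ hz)
          rw [h5 z hz, swap_apply_of_ne_of_ne hza hzb]
        · rcases hout z hz with rfl | rfl
          · rw [hwa, swap_apply_left]
          · rw [hwb, swap_apply_right]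
      rw [h6, Perm.sign_swap hab] at hwA
      exact absurd hwA (by decide)
    · have hs : g ^ s * g = 1 := by
        rw [← pow_succ]
        apply orderOf_dvd_iff_pow_eq_one.mp
        rw [hord]; omega
      have h5 := fix_inv hg Nat.prime_five (by norm_num) hgs hk2 hc hk1 hs
      have h6 := sign_involution (w := g ^ k * t) (fun z => by
        by_cases hz : z ∈ g.support
        · exact (h5 z hz).1
        · rcases hout z hz with rfl | rfl
          · rw [hwa, hwb]
          · rw [hwb, hwa]) h7 {c} (fun z => by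
        rw [Finset.mem_singleton]
        constructor
        · intro h
          by_cases hz : z ∈ g.support
          · exact (h5 z hz).2 h
          · rcases hout z hz with rfl | rfl
            · rw [hwa] at h; exact absurd h hab.symm
            · rw [hwb] at h; exact absurd h hab
        · rintro rfl; exact hk1) (Finset.card_singleton c)
      rw [h6] at hwA
      exact absurd hwA (by decide)
  · -- an element fixing three points
    have hu : (t * t) * g * (t * t)⁻¹ = g ^ (s * s) := by
      have : (t * t) * g * (t * t)⁻¹ = t * (t * g * t⁻¹) * t⁻¹ := by group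
      rw [this, hts, ← conj_pow, hts, ← pow_mul]
    obtain ⟨k, hk1, hk2⟩ := exists_adjust hg hu hc
    have hwG : g ^ k * (t * t) ∈ G := G.mul_mem (G.pow_mem hgG k) (G.mul_mem htG htG)
    have hwa : (g ^ k * (t * t)) a = a := by rw [Perm.mul_apply, Perm.mul_apply, hta, htb, pow_fix ha]
    have hwb : (g ^ k * (t * t)) b = b := by rw [Perm.mul_apply, Perm.mul_apply, htb, hta, pow_fix hb]
    have hw1 : g ^ k * (t * t) ≠ 1 := by
      intro h
      rw [h] at hk2
      apply h2
      rw [← hk2]; simp
    have h3 : IsMultiplyPretransitive G α 3 := by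
      have := (H12.multiplyPreprimitive_of_cycle G hG Nat.prime_five (by omega) hg hgs hgG).isMultiplyPretransitive
      rw [h7] at this
      exact this
    let x : Fin 3 ↪ α := ⟨![a, b, c], emb3_inj hab (Ne.symm hcb) (Ne.symm hca)⟩
    have hmem : (⟨g ^ k * (t * t), hwG⟩ : G) ∈ stabilizer G x := by
      rw [mem_stabilizer_iff]
      ext i
      show (g ^ k * (t * t)) (![a, b, c] i) = ![a, b, c] i
      fin_cases i
      · exact hwa
      · exact hwb
      · exact hk1
    have hst : 2 ≤ Nat.card (stabilizer G x) := by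
      by_contra hlt
      have h1 : Nat.card (stabilizer G x) = 1 := by
        have : 0 < Nat.card (stabilizer G x) := Nat.card_pos
        omega
      rw [Subgroup.card_eq_one.mp h1, Subgroup.mem_bot] at hmem
      exact hw1 (congrArg Subtype.val hmem)
    have hcG := card_of_multi G 3 h3 x
    have h210 : (Fintype.card α).descFactorial 3 = 210 := by rw [h7]; rfl
    rw [h210] at hcG
    have : Nontrivial α := Fintype.one_lt_card_iff_nontrivial.mp (by omega)
    have hcardA : Nat.card (alternatingGroup α) = 2520 := by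
      have h := two_mul_card_alternatingGroup (α := α)
      rw [Fintype.card_perm, h7] at h
      have e : (7 : ℕ).factorial = 5040 := by rfl
      rw [e] at h
      rw [Nat.card_eq_fintype_card]; omega
    by_contra hnot
    have htop : G.subgroupOf (alternatingGroup α) ≠ ⊤ := by
      intro h
      exact hnot (Subgroup.subgroupOf_eq_top.mp h)
    have hge := index_ge (by omega) _ htop
    have hidx := Subgroup.card_mul_index (G.subgroupOf (alternatingGroup α))
    rw [Nat.card_congr (Subgroup.subgroupOfEquivOfLe hA).toEquiv, hcardA] at hidx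
    rw [h7] at hge
    have : 420 * 7 ≤ Nat.card G * (G.subgroupOf (alternatingGroup α)).index := Nat.mul_le_mul (by omega) hge
    omega

end Cfsg.Agent.H42.TwoPr
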