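import Mathlib
import Cfsg.Agent.H42.TwoPrD

/-!
Primitive groups of even permutations of degree 13 containing a cycle of length 11.
-/

set_option autoImplicit false

namespace Cfsg.Agent.H42.TwoPr

open Equiv MulAction

variable {α : Type*} [Fintype α] [DecidableEq α]

theorem conj_iter {g w : Perm α} {s : ℕ} (h : w * g * w⁻¹ = g ^ s) (n : ℕ) :
    w ^ n * g * (w ^ n)⁻¹ = g ^ (s ^ n) := by
  induction n with
  | zero => simp
  | succ n ih =>
    have : w ^ (n + 1) * g * (w ^ (n + 1))⁻¹ = w * (w ^ n * g * (w ^ n)⁻¹) * w⁻¹ := by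
      rw [pow_succ']; group
    rw [this, ih, ← conj_pow, h, ← pow_mul, pow_succ']

/-- the normalizer of the 11-cycle in the stabilizer of the two fixed points -/
theorem norm_key (G : Subgroup (Perm α)) (hA : G ≤ alternatingGroup α)
    (h13 : Fintype.card α = 13) {g : Perm α} (hg : g.IsCycle) (hgs : g.support.card = 11) (hgG : g ∈ G)
    (h5 : ¬ 5 ∣ Nat.card G) {a b c : α} (hab : a ≠ b) (ha : a ∉ g.support) (hb : b ∉ g.support)
    (hc : c ∈ g.support) (hout : ∀ z, z ∉ g.support → z = a ∨ z = b) (u : Perm α) (hu : u ∈ G) (hua : u a = a)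
    (hub : u b = b) (s : ℕ) (hs : u * g * u⁻¹ = g ^ s) : ∃ i : ℕ, u = g ^ i := by
  have hord : orderOf g = 11 := by rw [hg.orderOf, hgs]
  obtain ⟨k, hk1, hk2⟩ := exists_adjust hg hs hc
  set w := g ^ k * u with hw
  have hwG : w ∈ G := G.mul_mem (G.pow_mem hgG k) hu
  have hwA : Perm.sign w = 1 := hA hwG
  have hwa : w a = a := by rw [hw, Perm.mul_apply, hua, pow_fix ha]
  have hwb : w b = b := by rw [hw, Perm.mul_apply, hub, pow_fix hb]
  have hs0 : ¬ 11 ∣ s := by
    intro h
    have h1 : g ^ s = 1 := by rw [← hord] at h; exact orderOf_dvd_iff_pow_eq_one.mp h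
    rw [h1] at hk2
    have h2 : g = 1 := by
      have : g = w⁻¹ * (w * g * w⁻¹) * w := by group
      rw [this, hk2]; group
    exact hg.ne_one h2
  have hf : s ^ 10 ≡ 1 [MOD 11] := by
    have := Nat.ModEq.pow_totient (n := 11) (x := s) ((Nat.Prime.coprime_iff_not_dvd (by norm_num)).mpr hs0).symm
    rwa [Nat.totient_prime (by norm_num)] at this
  have hw10 : w ^ 10 = 1 := by
    have h1 := conj_iter hk2 10
    have h2 : g ^ (s ^ 10) = g := by
      conv_rhs => rw [← pow_one g]
      apply pow_eq_pow_iff_modEq.mpr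
      rw [hord]; exact hf
    have h3 := fix_of_comm hg h1 hc (Perm.pow_apply_eq_self_of_apply_eq_self hk1 10) h2
    ext z
    by_cases hz : z ∈ g.support
    · exact h3 z hz
    · rcases hout z hz with rfl | rfl
      · exact Perm.pow_apply_eq_self_of_apply_eq_self hwa 10
      · exact Perm.pow_apply_eq_self_of_apply_eq_self hwb 10
  have hw2 : w ^ 2 = 1 := by
    have h1 : orderOf w ∣ 10 := orderOf_dvd_of_pow_eq_one hw10
    have h2 : orderOf w ∣ Nat.card G := by
      have : orderOf (⟨w, hwG⟩ : G) = orderOf w := Subgroup.orderOf_mk w hwG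
      rw [← this]; exact orderOf_dvd_natCard _
    have h3 : ¬ 5 ∣ orderOf w := fun h => h5 (h.trans h2)
    have h4 : (orderOf w).Coprime 5 := ((Nat.Prime.coprime_iff_not_dvd (by norm_num)).mpr h3).symm
    exact orderOf_dvd_iff_pow_eq_one.mp (h4.dvd_of_dvd_mul_right (by norm_num; exact h1))
  have hss : g ^ (s * s) = g := by
    have h1 := conj_iter hk2 2
    rw [hw2, pow_two] at h1
    rw [← h1]; simp
  have h3 : s * s ≡ 1 [MOD 11] := by
    rw [← hord]
    apply pow_eq_pow_iff_modEq.mp
    rw [hss, pow_one]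
  have h4 : s % 11 = 1 ∨ s % 11 = 10 := by
    have h5 : (s % 11) * (s % 11) % 11 = 1 := by
      rw [← Nat.mul_mod]; exact h3
    have h6 : s % 11 < 11 := Nat.mod_lt _ (by norm_num)
    interval_cases (s % 11) <;> omega
  rcases h4 with h4 | h4
  · have hs1 : g ^ s = g := by
      conv_rhs => rw [← pow_one g]
      apply pow_eq_pow_iff_modEq.mpr
      rw [hord]; exact h4
    have h5 := fix_of_comm hg hk2 hc hk1 hs1
    have h6 : w = 1 := by
      ext z
      by_cases hz : z ∈ g.support
      · exact h5 z hz
      · rcases hout z hz with rfl | rfl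
        · exact hwa
        · exact hwb
    refine ⟨k * 10, ?_⟩
    have h7 : g ^ k * g ^ (k * 10) = 1 := by
      rw [← pow_add]
      apply orderOf_dvd_iff_pow_eq_one.mp
      rw [hord]; exact ⟨k, by ring⟩
    exact mul_left_cancel (a := g ^ k) (by rw [← hw, h6, h7])
  · exfalso
    have hs1 : g ^ s * g = 1 := by
      rw [← pow_succ]
      apply orderOf_dvd_iff_pow_eq_one.mp
      rw [hord]; omega
    have h5 := fix_inv hg (by norm_num : Nat.Prime 11) (by norm_num) hgs hk2 hc hk1 hs1
    have hca : c ≠ a := fun h => ha (h ▸ hc)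
    have hcb : c ≠ b := fun h => hb (h ▸ hc)
    have h6 := sign_involution (w := w) (fun z => by
      by_cases hz : z ∈ g.support
      · exact (h5 z hz).1
      · rcases hout z hz with rfl | rfl
        · rw [hwa, hwa]
        · rw [hwb, hwb]) h13 {a, b, c} (fun z => by
      rw [Finset.mem_insert, Finset.mem_insert, Finset.mem_singleton]
      constructor
      · intro h
        by_cases hz : z ∈ g.support
        · exact Or.inr (Or.inr ((h5 z hz).2 h))
        · rcases hout z hz with rfl | rfl
          · exact Or.inl rfl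
          · exact Or.inr (Or.inl rfl)
      · rintro (rfl | rfl | rfl)
        · exact hwa
        · exact hwb
        · exact hk1) (by
      rw [Finset.card_insert_of_notMem, Finset.card_insert_of_notMem, Finset.card_singleton]
      · rw [Finset.mem_singleton]; exact hcb.symm
      · rw [Finset.mem_insert, Finset.mem_singleton]; push Not; exact ⟨hab, hca.symm⟩)
    rw [h6] at hwA
    exact absurd hwA (by decide)

end Cfsg.Agent.H42.TwoPr
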