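import Mathlib
import Cfsg.Agent.H42.TwoPrE

/-!
Degree 13: five divides the order.
-/

set_option autoImplicit false

namespace Cfsg.Agent.H42.TwoPr

open Equiv MulAction

variable {α : Type*} [Fintype α] [DecidableEq α]

theorem five_dvd (G : Subgroup (Perm α)) (hG : IsPreprimitive G α) (hA : G ≤ alternatingGroup α)
    (h13 : Fintype.card α = 13) {g : Perm α} (hg : g.IsCycle) (hgs : g.support.card = 11) (hgG : g ∈ G) :
    5 ∣ Nat.card G := by
  by_contra h5
  have hp11 : Nat.Prime 11 := by norm_num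
  haveI : Fact (Nat.Prime 11) := ⟨hp11⟩
  obtain ⟨a, b, hab, ha, hb, hout, -⟩ := exists_swap G hG hp11 (by omega) hg hgs hgG
  obtain ⟨c, hc⟩ := hg.nonempty_support
  have hord : orderOf g = 11 := by rw [hg.orderOf, hgs]
  have hca : c ≠ a := fun h => ha (h ▸ hc)
  have hcb : c ≠ b := fun h => hb (h ▸ hc)
  have hkey := norm_key G hA h13 hg hgs hgG h5 hab ha hb hc hout
  have hga : g a = a := Perm.notMem_support.mp ha
  have hgb : g b = b := Perm.notMem_support.mp hb
  -- the pointwise stabilizer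
  obtain ⟨K, hK⟩ : ∃ K : Subgroup (Perm α), ∀ k, k ∈ K ↔ k ∈ G ∧ k a = a ∧ k b = b :=
    ⟨G ⊓ (stabilizer (Perm α) a ⊓ stabilizer (Perm α) b), fun k => Iff.rfl⟩
  have hgK : g ∈ K := (hK g).mpr ⟨hgG, hga, hgb⟩
  let gK : K := ⟨g, hgK⟩
  have hordK : orderOf gK = 11 := by rw [← hord]; exact Subgroup.orderOf_mk g hgK
  -- the Sylow subgroup
  have hz : IsPGroup 11 (Subgroup.zpowers gK) := by
    apply IsPGroup.of_card (n := 1)
    rw [Nat.card_zpowers, hordK, pow_one]
  obtain ⟨P, hP⟩ := hz.exists_le_sylow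
  have hPeq : (P : Subgroup K) = Subgroup.zpowers gK := by
    obtain ⟨n, hn⟩ := IsPGroup.iff_card.mp P.2
    have h1 : Nat.card P ∣ Nat.factorial 13 := by
      have h2 : Nat.card P ∣ Nat.card K := Subgroup.card_subgroup_dvd_card _
      have h3 : Nat.card K ∣ Nat.card (Perm α) := Subgroup.card_subgroup_dvd_card _
      rw [Nat.card_eq_fintype_card (α := Perm α), Fintype.card_perm, h13] at h3
      exact h2.trans h3
    have h2 : n ≤ 1 := by
      by_contra hcon
      have h3 : 11 ^ 2 ∣ Nat.factorial 13 := by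
        refine dvd_trans ?_ h1
        rw [hn]; exact pow_dvd_pow 11 (by omega)
      exact absurd h3 (by decide)
    symm
    apply Subgroup.eq_of_le_of_card_ge hP
    rw [Nat.card_zpowers, hordK, hn]
    calc 11 ^ n ≤ 11 ^ 1 := Nat.pow_le_pow_right (by norm_num) h2
      _ = 11 := by norm_num
  have hcardP : Nat.card P = 11 := by
    show Nat.card (P : Subgroup K) = 11
    rw [hPeq, Nat.card_zpowers, hordK]
  have hnorm : Subgroup.normalizer ((P : Subgroup K) : Set K) ≤ Subgroup.centralizer ((P : Subgroup K) : Set K) := by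
    intro u hu
    rw [hPeq] at hu ⊢
    have h1 : u * gK * u⁻¹ ∈ Subgroup.zpowers gK :=
      (Subgroup.mem_normalizer_iff.mp hu gK).mp (Subgroup.mem_zpowers gK)
    rw [mem_zpowers_iff_mem_range_orderOf, Finset.mem_image] at h1
    obtain ⟨s, -, hs⟩ := h1
    have hu' := (hK u).mp u.2
    obtain ⟨i, hi⟩ := hkey (u : Perm α) hu'.1 hu'.2.1 hu'.2.2 s (congrArg Subtype.val hs).symm
    have hui : u = gK ^ i := Subtype.ext hi
    rw [Subgroup.mem_centralizer_iff]
    rintro _ ⟨j, rfl⟩
    rw [hui]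
    show gK ^ j * gK ^ i = gK ^ i * gK ^ j
    rw [← zpow_natCast, ← zpow_add, ← zpow_add, add_comm]
  obtain ⟨N, hNn, hN11, hNc⟩ : ∃ N : Subgroup K, N.Normal ∧ ¬ 11 ∣ Nat.card N ∧ Subgroup.IsComplement' N P :=
    ⟨(MonoidHom.transferSylow P hnorm).ker, inferInstance, MonoidHom.not_dvd_card_ker_transferSylow P hnorm,
      MonoidHom.ker_transferSylow_isComplement' P hnorm⟩
  -- the action on the support
  have hmoves : ∀ k ∈ K, ∀ z ∈ g.support, k z ∈ g.support := by
    intro k hk z hz
    obtain ⟨-, hka, hkb⟩ := (hK k).mp hk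
    by_contra hc'
    rcases hout _ hc' with h | h
    · have : z = a := k.injective (by rw [h, hka])
      exact ha (this ▸ hz)
    · have : z = b := k.injective (by rw [h, hkb])
      exact hb (this ▸ hz)
  let X : SubMulAction K α :=
    { carrier := {z | z ∈ g.support}
      smul_mem' := fun k z hz => hmoves k k.2 z hz }
  have hXcard : Nat.card X = 11 := by
    have : Nat.card X = Nat.card {z // z ∈ g.support} := rfl
    rw [this, Nat.card_eq_fintype_card, Fintype.card_coe, hgs]
  have hXt : IsPretransitive K X := by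
    constructor
    rintro ⟨z, hz⟩ ⟨z', hz'⟩
    obtain ⟨i, hi⟩ := hg.exists_pow_eq (Perm.mem_support.mp hz) (Perm.mem_support.mp hz')
    exact ⟨gK ^ i, Subtype.ext hi⟩
  have hNfix : ∀ n ∈ N, ∀ x : X, n • x = x := by
    intro n hn x
    have hblock : IsBlock K (orbit N x) := IsBlock.orbit_of_normal x
    have h1 : (orbit N x).ncard ∣ 11 := by
      rw [← hXcard]
      exact hblock.ncard_dvd_card ⟨x, mem_orbit_self x⟩
    have h2 : (orbit N x).ncard ∣ Nat.card N := by
      rw [← index_stabilizer]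
      exact Subgroup.index_dvd_card _
    have h3 : (orbit N x).ncard = 1 := by
      rcases (Nat.dvd_prime hp11).mp h1 with h | h
      · exact h
      · rw [h] at h2; exact absurd h2 hN11
    obtain ⟨y, hy⟩ := Set.ncard_eq_one.mp h3
    have h4 : x ∈ orbit N x := mem_orbit_self x
    have h5 : n • x ∈ orbit N x := ⟨⟨n, hn⟩, rfl⟩
    rw [hy, Set.mem_singleton_iff] at h4 h5
    rw [h5, h4]
  have hNbot : N = ⊥ := by
    rw [eq_bot_iff]
    intro n hn
    rw [Subgroup.mem_bot]
    apply Subtype.ext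
    ext z
    obtain ⟨-, hka, hkb⟩ := (hK n).mp n.2
    by_cases hz : z ∈ g.support
    · exact congrArg Subtype.val (hNfix n hn ⟨z, hz⟩)
    · rcases hout z hz with rfl | rfl
      · exact hka
      · exact hkb
  have hPtop : (P : Subgroup K) = ⊤ := by
    apply Subgroup.eq_top_of_card_eq
    have h1 := hNc.card_mul_card
    rw [hNbot, Subgroup.card_bot, one_mul] at h1
    exact h1
  -- the stabilizer of three points is trivial
  have h3 : IsMultiplyPretransitive G α 3 := by
    have := (H12.multiplyPreprimitive_of_cycle G hG hp11 (by omega) hg hgs hgG).isMultiplyPretransitive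
    rw [h13] at this
    exact this
  let x : Fin 3 ↪ α := ⟨![a, b, c], emb3_inj hab (Ne.symm hcb) (Ne.symm hca)⟩
  have hst : stabilizer G x = ⊥ := by
    rw [eq_bot_iff]
    rintro ⟨w, hwG⟩ hw
    rw [mem_stabilizer_iff] at hw
    have hw' : ∀ i, w (![a, b, c] i) = ![a, b, c] i := fun i => congrArg (fun y : Fin 3 ↪ α => y i) hw
    have hwa : w a = a := hw' 0
    have hwb : w b = b := hw' 1
    have hwc : w c = c := hw' 2
    have hwK : w ∈ K := (hK w).mpr ⟨hwG, hwa, hwb⟩
    have h1 : (⟨w, hwK⟩ : K) ∈ (P : Subgroup K) := by rw [hPtop]; trivial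
    rw [hPeq, mem_zpowers_iff_mem_range_orderOf, Finset.mem_image] at h1
    obtain ⟨i, -, hi⟩ := h1
    have hi' : g ^ i = w := congrArg Subtype.val hi
    have h2 : g ^ i = 1 := by
      apply (hg.pow_eq_one_iff' (Perm.mem_support.mp hc)).mpr
      rw [hi']; exact hwc
    rw [Subgroup.mem_bot]
    apply Subtype.ext
    show w = 1
    rw [← hi', h2]
  apply not_sharp3 G h3 _ (Or.inr h13)
  intro y
  have h4 := card_stab_eq G 3 h3 x y
  rw [hst, Subgroup.card_bot] at h4
  exact Subgroup.card_eq_one.mp h4.symm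

end Cfsg.Agent.H42.TwoPr
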