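import Mathlib
import Cfsg.Agent.H42.TwoPrF

/-!
Degree 13.
-/

set_option autoImplicit false

namespace Cfsg.Agent.H42.TwoPr

open Equiv MulAction

variable {α : Type*} [Fintype α] [DecidableEq α]

/-- `v` commutes with `s` of order 5 whose support has 10 points: `v ^ 10` is trivial there -/
theorem pow_ten {s v : Perm α} (hs5 : s ^ 5 = 1) (hsc : s.support.card = 10) (hcomm : v * s = s * v) {z : α}
    (hz : z ∈ s.support) : (v ^ 10) z = z := by
  have hc : ∀ i k : ℕ, v ^ k * s ^ i = s ^ i * v ^ k := by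
    intro i k
    exact ((show Commute v s from hcomm).pow_pow k i)
  have hca : ∀ (i k : ℕ) (y : α), (v ^ k) ((s ^ i) y) = (s ^ i) ((v ^ k) y) := fun i k y =>
    congrArg (fun σ : Perm α => σ y) (hc i k)
  have hmem : ∀ k : ℕ, (v ^ k) z ∈ s.support := by
    intro k
    rw [Perm.mem_support] at hz ⊢
    intro h
    apply hz
    have h1 := hca 1 k z
    rw [pow_one, h] at h1
    exact (v ^ k).injective h1
  -- the relation `v ^ 2 z = s ^ M z`
  obtain ⟨M, hM⟩ : ∃ M : ℕ, (v ^ 2) z = (s ^ M) z := by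
    -- a coincidence
    have hni : ¬ Function.Injective (fun x : Fin 3 × Fin 5 => (s ^ (x.2 : ℕ)) ((v ^ (x.1 : ℕ)) z)) := by
      intro hinj
      have h1 : (Finset.univ.image (fun x : Fin 3 × Fin 5 => (s ^ (x.2 : ℕ)) ((v ^ (x.1 : ℕ)) z))).card = 15 := by
        rw [Finset.card_image_of_injective _ hinj, Finset.card_univ]
        simp
      have h2 : Finset.univ.image (fun x : Fin 3 × Fin 5 => (s ^ (x.2 : ℕ)) ((v ^ (x.1 : ℕ)) z)) ⊆ s.support := by
        intro y hy
        rw [Finset.mem_image] at hy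
        obtain ⟨x, -, rfl⟩ := hy
        exact Perm.pow_apply_mem_support.mpr (hmem _)
      have h3 := Finset.card_le_card h2
      omega
    rw [Function.Injective] at hni
    push Not at hni
    obtain ⟨⟨k, i⟩, ⟨k', i'⟩, heq, hne⟩ := hni
    simp only at heq
    -- reduce to a relation
    have hrel : ∀ (k k' i i' : ℕ), k ≤ 2 → k' ≤ 2 → i < 5 → i' < 5 → (s ^ i) ((v ^ k) z) = (s ^ i') ((v ^ k') z) → k < k' →
        ∃ M : ℕ, (v ^ 2) z = (s ^ M) z := by
      intro k k' i i' hk hk' hi hi' h hlt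
      have h1 : (s ^ (i + (5 - i'))) z = (v ^ (k' - k)) z := by
        have e1 : v ^ k' = v ^ k * v ^ (k' - k) := by rw [← pow_add]; congr 1; omega
        have h2 : (v ^ k) ((s ^ i) z) = (v ^ k) ((s ^ i') ((v ^ (k' - k)) z)) := by
          rw [hca, h, e1, Perm.mul_apply, hca]
        have h3 := (v ^ k).injective h2
        have e2 : s ^ (i + (5 - i')) = s ^ (5 - i') * s ^ i := by rw [← pow_add, add_comm]
        rw [e2, Perm.mul_apply, h3, ← Perm.mul_apply, ← pow_add]
        have e3 : 5 - i' + i' = 5 := by omega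
        rw [e3, hs5]; rfl
      have h4 : k' - k = 1 ∨ k' - k = 2 := by omega
      obtain ⟨m, hm⟩ : ∃ m, m = i + (5 - i') := ⟨_, rfl⟩
      rw [← hm] at h1
      rcases h4 with h4 | h4
      · rw [h4, pow_one] at h1
        refine ⟨m + m, ?_⟩
        have e5 := hca m 1 z
        rw [pow_one] at e5
        rw [pow_two, Perm.mul_apply, ← h1, e5, ← h1, pow_add, Perm.mul_apply]
      · rw [h4] at h1
        exact ⟨_, h1.symm⟩
    rcases lt_trichotomy (k : ℕ) k' with h | h | h
    · exact hrel k k' i i' (by omega) (by omega) (by omega) (by omega) heq h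
    · exfalso
      have hkk : k = k' := Fin.ext h
      subst hkk
      apply hne
      have hinj := pow_inj_of_prime (g := s) Nat.prime_five hs5 (b := (v ^ (k : ℕ)) z) (Perm.mem_support.mp (hmem _))
      rw [hinj heq]
    · exact hrel k' k i' i (by omega) (by omega) (by omega) (by omega) heq.symm h
  have h2 : ∀ n : ℕ, (v ^ (2 * n)) z = (s ^ (M * n)) z := by
    intro n
    induction n with
    | zero => simp
    | succ n ih =>
      have e1 : v ^ (2 * (n + 1)) = v ^ 2 * v ^ (2 * n) := by rw [← pow_add]; congr 1; ring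
      have e2 : s ^ (M * (n + 1)) = s ^ (M * n) * s ^ M := by rw [← pow_add]; congr 1
      rw [e1, Perm.mul_apply, ih, hca, hM, e2, Perm.mul_apply]
  have h3 := h2 5
  have e : s ^ (M * 5) = 1 := by rw [mul_comm, pow_mul, hs5, one_pow]
  rw [e] at h3
  exact h3

theorem degree_thirteen_aux (G : Subgroup (Perm α)) (hG : IsPreprimitive G α)
    (h13 : Fintype.card α = 13) {g : Perm α} (hg : g.IsCycle) (hgs : g.support.card = 11) (hgG : g ∈ G)
    (h5 : 5 ∣ Nat.card G) : alternatingGroup α ≤ G := by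
  have hp11 : Nat.Prime 11 := by norm_num
  haveI : Fact (Nat.Prime 5) := ⟨Nat.prime_five⟩
  have h3 : IsMultiplyPretransitive G α 3 := by
    have := (H12.multiplyPreprimitive_of_cycle G hG hp11 (by omega) hg hgs hgG).isMultiplyPretransitive
    rw [h13] at this
    exact this
  have hne : Nonempty (Fin 3 ↪ α) := by
    rw [Function.Embedding.nonempty_iff_card_le, Fintype.card_fin]; omega
  obtain ⟨x⟩ := hne
  have hcG := card_of_multi G 3 h3 x
  have h1716 : (Fintype.card α).descFactorial 3 = 1716 := by rw [h13]; rfl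
  rw [h1716] at hcG
  have h5S : 5 ∣ Nat.card (stabilizer G x) := by
    rw [hcG] at h5
    rcases Nat.prime_five.dvd_mul.mp h5 with h | h
    · exact absurd h (by norm_num)
    · exact h
  by_contra hnot
  have hJ := fun {r : ℕ} (hr : r.Prime) (hr3 : r + 3 ≤ Fintype.card α) {k : Perm α} (hk : k.IsCycle)
    (hks : k.support.card = r) (hkG : k ∈ G) => hnot (H12.jordan_prime_cycle G hG hr hr3 hk hks hkG)
  -- the complement
  have hfixS : ∀ w : stabilizer G x, ∀ i, ((w : G) : Perm α) (x i) = x i := by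
    intro w i
    have := mem_stabilizer_iff.mp w.2
    exact congrArg (fun y : Fin 3 ↪ α => y i) this
  let Y : Finset α := (Finset.univ.map x)ᶜ
  have hYc : Y.card = 10 := by
    rw [Finset.card_compl, Finset.card_map, h13]; simp
  have hmemY : ∀ z, z ∈ Y ↔ ∀ i, x i ≠ z := by
    intro z
    simp [Y]
  -- elements of order five
  have hord5 : ∀ w : stabilizer G x, orderOf w = 5 → ((w : G) : Perm α).support = Y := by
    intro w hw
    have ho : orderOf ((w : G) : Perm α) = 5 := by
      rw [Subgroup.orderOf_coe, Subgroup.orderOf_coe]; exact hw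
    have hsub : ((w : G) : Perm α).support ⊆ Y := by
      intro z hz
      rw [hmemY]
      rintro i rfl
      exact Perm.mem_support.mp hz (hfixS w i)
    apply Finset.eq_of_subset_of_card_le hsub
    rw [hYc]
    by_contra hlt
    have hcyc : ((w : G) : Perm α).IsCycle :=
      Perm.isCycle_of_prime_order (by rw [ho]; exact Nat.prime_five) (by rw [ho]; omega)
    have hsc : ((w : G) : Perm α).support.card = 5 := by rw [← hcyc.orderOf, ho]
    exact hJ Nat.prime_five (by omega) hcyc hsc w.1.2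
  -- the Sylow subgroup
  obtain ⟨R⟩ : Nonempty (Sylow 5 (stabilizer G x)) := inferInstance
  have hfree : ∀ r ∈ (R : Subgroup (stabilizer G x)), ∀ z ∈ Y, ((r : G) : Perm α) z = z → r = 1 := by
    intro r hr z hz hrz
    by_contra hr1
    obtain ⟨n, hn⟩ := R.2 ⟨r, hr⟩
    obtain ⟨m, -, hm⟩ := (Nat.dvd_prime_pow Nat.prime_five).mp
      (orderOf_dvd_of_pow_eq_one (show r ^ 5 ^ n = 1 from congrArg Subtype.val hn))
    rcases m with _ | m
    · rw [pow_zero, orderOf_eq_one_iff] at hm
      exact hr1 hm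
    · have h6 : orderOf (r ^ 5 ^ m) = 5 := by
        rw [orderOf_pow' r (by positivity), hm, pow_succ]
        rw [Nat.gcd_eq_right (Dvd.intro _ rfl)]
        exact Nat.mul_div_cancel_left 5 (by positivity)
      have h7 := hord5 _ h6
      have h8 : z ∈ (((r ^ 5 ^ m : stabilizer G x) : G) : Perm α).support := by rw [h7]; exact hz
      rw [Perm.mem_support] at h8
      apply h8
      have h9 : (((r ^ 5 ^ m : stabilizer G x) : G) : Perm α) = ((r : G) : Perm α) ^ 5 ^ m := by
        push_cast; rfl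
      rw [h9]
      exact Perm.pow_apply_eq_self_of_apply_eq_self hrz _
  have hYne : Y.Nonempty := by rw [← Finset.card_pos, hYc]; norm_num
  obtain ⟨z0, hz0⟩ := hYne
  have hRle : Nat.card R ≤ 10 := by
    have hinj : Function.Injective (fun r : R => (((r : stabilizer G x) : G) : Perm α) z0) := by
      intro r r' h
      have h6 : (((r'⁻¹ * r : stabilizer G x) : G) : Perm α) z0 = z0 := by
        show ((((r' : stabilizer G x) : G) : Perm α)⁻¹ * (((r : stabilizer G x) : G) : Perm α)) z0 = z0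
        rw [Perm.mul_apply]
        have h' : (((r : stabilizer G x) : G) : Perm α) z0 = (((r' : stabilizer G x) : G) : Perm α) z0 := h
        rw [h']
        exact Equiv.symm_apply_apply _ _
      have h7 := hfree _ (R.mul_mem (R.inv_mem r'.2) r.2) z0 hz0 h6
      exact Subtype.ext (inv_mul_eq_one.mp h7).symm
    have h8 : ∀ r : R, (((r : stabilizer G x) : G) : Perm α) z0 ∈ Y := by
      intro r
      rw [hmemY]
      intro i hi
      rw [← hfixS r i] at hi
      have := (((r : stabilizer G x) : G) : Perm α).injective hi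
      exact (hmemY z0).mp hz0 i this
    have h9 : Nat.card R ≤ Nat.card Y :=
      Nat.card_le_card_of_injective (fun r : R => (⟨_, h8 r⟩ : Y)) (fun r r' h => hinj (congrArg Subtype.val h))
    rwa [Nat.card_eq_fintype_card (α := Y), Fintype.card_coe, hYc] at h9
  have hRcard : Nat.card R = 5 := by
    obtain ⟨n, hn⟩ := IsPGroup.iff_card.mp R.2
    have h6 : 5 ∣ Nat.card R := R.dvd_card_of_dvd_card h5S
    have h7 : n < 2 := by
      by_contra hcon
      have : 5 ^ 2 ≤ 5 ^ n := Nat.pow_le_pow_right (by norm_num) (by omega)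
      rw [hn] at hRle
      omega
    rw [hn] at h6 ⊢
    interval_cases n
    · norm_num at h6
    · norm_num
  -- a generator
  obtain ⟨s, hsR, hsS⟩ : ∃ s : stabilizer G x, s ∈ (R : Subgroup (stabilizer G x)) ∧ orderOf s = 5 := by
    obtain ⟨s, hs⟩ : ∃ s : (R : Subgroup (stabilizer G x)), orderOf s = 5 :=
      exists_prime_orderOf_dvd_card' 5 (by rw [hRcard])
    exact ⟨s, s.2, by rw [Subgroup.orderOf_coe]; exact hs⟩
  have hs5 : s ^ 5 = 1 := by
    have := pow_orderOf_eq_one s
    rwa [hsS] at this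
  have hRz : (R : Subgroup (stabilizer G x)) = Subgroup.zpowers s := by
    symm
    apply Subgroup.eq_of_le_of_card_ge
    · rw [Subgroup.zpowers_le]; exact hsR
    · rw [Nat.card_zpowers, hsS]; exact hRcard.le
  obtain ⟨σ, hσ⟩ : ∃ σ : Perm α, σ = ((s : G) : Perm α) := ⟨_, rfl⟩
  have hσsup : σ.support = Y := by rw [hσ]; exact hord5 _ hsS
  have hσ5 : σ ^ 5 = 1 := by
    have h7 := congrArg (fun w : stabilizer G x => ((w : G) : Perm α)) hs5
    rw [hσ]
    exact h7
  -- an element permuting the three points cyclically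
  let c3 : Perm (Fin 3) := finRotate 3
  obtain ⟨g0, hg0⟩ := h3.exists_smul_eq x (c3.toEmbedding.trans x)
  have hg0' : ∀ i, (g0 : Perm α) (x i) = x (c3 i) := fun i => congrArg (fun y : Fin 3 ↪ α => y i) hg0
  have hg0i : ∀ i, (g0 : Perm α)⁻¹ (x i) = x (c3.symm i) := by
    intro i
    rw [Perm.inv_eq_iff_eq, hg0', Equiv.apply_symm_apply]
  -- the conjugate of the generator
  have hs'mem : g0 * (s : G) * g0⁻¹ ∈ stabilizer G x := by
    rw [mem_stabilizer_iff]
    ext i
    show ((g0 : Perm α) * ((s : G) : Perm α) * (g0 : Perm α)⁻¹) (x i) = x i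
    rw [Perm.mul_apply, Perm.mul_apply, hg0i, hfixS, hg0', Equiv.apply_symm_apply]
  obtain ⟨s', hs'⟩ : ∃ s' : stabilizer G x, (s' : G) = g0 * (s : G) * g0⁻¹ := ⟨⟨_, hs'mem⟩, rfl⟩
  have hs'5 : s' ^ 5 = 1 := by
    apply Subtype.ext
    rw [Subgroup.coe_pow, hs', conj_pow]
    have h7 : (s : G) ^ 5 = 1 := congrArg Subtype.val hs5
    rw [h7]; simp
  have hz' : IsPGroup 5 (Subgroup.zpowers s') := by
    intro w
    obtain ⟨_, j, rfl⟩ := w
    refine ⟨1, Subtype.ext ?_⟩
    show (s' ^ j) ^ 5 ^ 1 = 1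
    rw [pow_one, ← zpow_natCast, ← zpow_mul, mul_comm, zpow_mul, zpow_natCast, hs'5, one_zpow]
  obtain ⟨Q, hQ⟩ := hz'.exists_le_sylow
  obtain ⟨h, hh⟩ := MulAction.exists_smul_eq (stabilizer G x) Q R
  have hmemR : h * s' * h⁻¹ ∈ (R : Subgroup (stabilizer G x)) := by
    rw [← hh, Sylow.coe_subgroup_smul, Subgroup.mem_pointwise_smul_iff_inv_smul_mem]
    have h3 : (MulAut.conj h)⁻¹ • (h * s' * h⁻¹) = s' := by
      rw [MulAut.smul_def, MulAut.conj_inv_apply]
      group
    rw [h3]
    exact hQ (Subgroup.mem_zpowers _)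
  rw [hRz, mem_zpowers_iff_mem_range_orderOf, Finset.mem_image] at hmemR
  obtain ⟨j, -, hj⟩ := hmemR
  obtain ⟨w, hw⟩ : ∃ w : Perm α, w = ((h : G) : Perm α) * (g0 : Perm α) := ⟨_, rfl⟩
  have hwG : w ∈ G := by rw [hw]; exact G.mul_mem h.1.2 g0.2
  have hwx : ∀ i, w (x i) = x (c3 i) := by
    intro i
    rw [hw, Perm.mul_apply, hg0', hfixS]
  have hwσ : w * σ * w⁻¹ = σ ^ j := by
    have h6 := congrArg (fun w : stabilizer G x => ((w : G) : Perm α)) hj
    have h7 : σ ^ j = ((h : G) : Perm α) * (((s' : stabilizer G x) : G) : Perm α) * ((h : G) : Perm α)⁻¹ := by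
      rw [hσ]; exact h6
    rw [h7, hs', hw, hσ]
    show _ = ((h : G) : Perm α) * ((g0 : Perm α) * ((s : G) : Perm α) * (g0 : Perm α)⁻¹) *
      ((h : G) : Perm α)⁻¹
    group
  have hσord : orderOf σ = 5 := by
    rw [hσ, Subgroup.orderOf_coe, Subgroup.orderOf_coe]; exact hsS
  have hj0 : ¬ 5 ∣ j := by
    intro hd
    have h1 : σ ^ j = 1 := by rw [← hσord] at hd; exact orderOf_dvd_iff_pow_eq_one.mp hd
    rw [h1] at hwσ
    have h2 : σ = 1 := by
      have : σ = w⁻¹ * (w * σ * w⁻¹) * w := by group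
      rw [this, hwσ]; group
    rw [h2, orderOf_one] at hσord
    omega
  have hf : j ^ 4 ≡ 1 [MOD 5] := by
    have := Nat.ModEq.pow_totient (n := 5) (x := j) ((Nat.Prime.coprime_iff_not_dvd (by norm_num)).mpr hj0).symm
    rwa [Nat.totient_prime (by norm_num)] at this
  have hcomm : w ^ 4 * σ = σ * w ^ 4 := by
    have h1 := conj_iter hwσ 4
    have h2 : σ ^ (j ^ 4) = σ := by
      conv_rhs => rw [← pow_one σ]
      apply pow_eq_pow_iff_modEq.mpr
      rw [hσord]; exact hf
    rw [h2] at h1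
    calc w ^ 4 * σ = (w ^ 4 * σ * (w ^ 4)⁻¹) * w ^ 4 := by group
      _ = σ * w ^ 4 := by rw [h1]
  -- the three-cycle
  have hτY : ∀ z ∈ Y, ((w ^ 4) ^ 10) z = z := fun z hz =>
    pow_ten hσ5 (by rw [hσsup, hYc]) hcomm (by rw [hσsup]; exact hz)
  have hwpow : ∀ (n : ℕ) (i : Fin 3), (w ^ n) (x i) = x ((c3 ^ n) i) := by
    intro n
    induction n with
    | zero => intro i; rfl
    | succ n ih =>
      intro i
      rw [pow_succ, Perm.mul_apply, hwx, ih, pow_succ, Perm.mul_apply]
  have hτx : ∀ i, ((w ^ 4) ^ 10) (x i) ≠ x i := by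
    intro i hi
    rw [← pow_mul, hwpow] at hi
    have h1 := x.injective hi
    have hcube : finRotate 3 ^ 3 = 1 := by decide
    have hdec : ∀ i : Fin 3, (finRotate 3) i ≠ i := by decide
    have h40 : finRotate 3 ^ (4 * 10) = finRotate 3 := by
      have e : 4 * 10 = 3 * 13 + 1 := by norm_num
      rw [e, pow_add, pow_mul, hcube, one_pow, one_mul, pow_one]
    have h2 : (finRotate 3 ^ (4 * 10)) i = i := h1
    rw [h40] at h2
    exact hdec i h2
  have hsup : ((w ^ 4) ^ 10).support = Finset.univ.map x := by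
    ext z
    rw [Perm.mem_support, Finset.mem_map]
    constructor
    · intro hz
      by_contra hcon
      apply hz
      apply hτY
      rw [hmemY]
      intro i hi
      exact hcon ⟨i, Finset.mem_univ _, hi⟩
    · rintro ⟨i, -, rfl⟩
      exact hτx i
  apply hnot
  apply Equiv.Perm.alternatingGroup_le_of_isPreprimitive_of_isThreeCycle_mem hG (g := (w ^ 4) ^ 10) _
    (G.pow_mem (G.pow_mem hwG 4) 10)
  rw [← card_support_eq_three_iff, hsup, Finset.card_map, Finset.card_univ, Fintype.card_fin]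

/-- degree thirteen -/
theorem degree_thirteen (G : Subgroup (Perm α)) (hG : IsPreprimitive G α) (hA : G ≤ alternatingGroup α)
    (h13 : Fintype.card α = 13) {g : Perm α} (hg : g.IsCycle) (hgs : g.support.card = 11) (hgG : g ∈ G) :
    alternatingGroup α ≤ G :=
  degree_thirteen_aux G hG h13 hg hgs hgG (five_dvd G hG hA h13 hg hgs hgG)

end Cfsg.Agent.H42.TwoPr
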