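import Mathlib
import Cfsg.Agent.H42.TwoPrA
import Cfsg.Agent.H42.TwoPrG

/-!
Two primes forcing the generation of an alternating group.
-/

set_option autoImplicit false

namespace Cfsg.Agent.H42.TwoPr

open Equiv MulAction

theorem iso_closure {m : ℕ} (x y : alternatingGroup (Fin m)) (S : Finset (Fin m)) (x' y' : Perm {i // i ∈ S})
    (hx' : Perm.ofSubtype x' = (x : Perm (Fin m))) (hy' : Perm.ofSubtype y' = (y : Perm (Fin m))) :
    Nonempty (Subgroup.closure ({x, y} : Set (alternatingGroup (Fin m))) ≃*
      (Subgroup.closure {x', y'} : Subgroup (Perm {i // i ∈ S}))) := by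
  have e1 : (Subgroup.closure ({x, y} : Set (alternatingGroup (Fin m)))).map (alternatingGroup (Fin m)).subtype =
      (Subgroup.closure {x', y'}).map (Perm.ofSubtype (p := fun i => i ∈ S)) := by
    rw [MonoidHom.map_closure, MonoidHom.map_closure]
    congr 1
    rw [Set.image_pair, Set.image_pair, hx', hy']
    rfl
  have e2 := (Subgroup.closure ({x, y} : Set (alternatingGroup (Fin m)))).equivMapOfInjective
    (alternatingGroup (Fin m)).subtype (Subgroup.subtype_injective _)
  have e3 := (Subgroup.closure {x', y'}).equivMapOfInjective (Perm.ofSubtype (p := fun i => i ∈ S))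
    Perm.ofSubtype_injective
  exact ⟨e2.trans ((MulEquiv.subgroupCongr e1).trans e3.symm)⟩

theorem gen_step {m p q : ℕ} (hm : 5 ≤ m) (hp : p.Prime) (hq : q.Prime) (hmp : m ≤ 2 * p) (hpq : p < q) (hqm : q ≤ m)
    (H1 : q = p + 2 → p = 3 ∨ p = 5 ∨ p = 11) (H2 : m = 2 * p → q + 3 ≤ m ∨ m = 6)
    (x y : alternatingGroup (Fin m)) (hx : orderOf x = p) (hy : orderOf y = q) :
    ∃ d : ℕ, 5 ≤ d ∧ Nonempty (Subgroup.closure ({x, y} : Set (alternatingGroup (Fin m))) ≃* alternatingGroup (Fin d)) := by
  have hp3 : 3 ≤ p := by omega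
  have hpodd : p % 2 = 1 := by
    rcases hp.eq_two_or_odd with h | h
    · omega
    · exact h
  have hqodd : q % 2 = 1 := by
    rcases hq.eq_two_or_odd with h | h
    · omega
    · exact h
  have hxo : orderOf (x : Perm (Fin m)) = p := by rw [Subgroup.orderOf_coe]; exact hx
  have hyo : orderOf (y : Perm (Fin m)) = q := by rw [Subgroup.orderOf_coe]; exact hy
  obtain ⟨S, hS⟩ : ∃ S : Finset (Fin m), S = (x : Perm (Fin m)).support ∪ (y : Perm (Fin m)).support := ⟨_, rfl⟩
  have hxS : ∀ i, i ∉ S → (x : Perm (Fin m)) i = i := by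
    intro i hi
    rw [hS, Finset.mem_union, not_or] at hi
    exact Perm.notMem_support.mp hi.1
  have hyS : ∀ i, i ∉ S → (y : Perm (Fin m)) i = i := by
    intro i hi
    rw [hS, Finset.mem_union, not_or] at hi
    exact Perm.notMem_support.mp hi.2
  have hmemS : ∀ i, i ∈ S → (x : Perm (Fin m)) i ≠ i ∨ (y : Perm (Fin m)) i ≠ i := by
    intro i hi
    rw [hS, Finset.mem_union, Perm.mem_support, Perm.mem_support] at hi
    exact hi
  have hd : Fintype.card {i // i ∈ S} = S.card := Fintype.card_coe S
  have hdm : S.card ≤ m := by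
    have := Finset.card_le_univ S
    rwa [Fintype.card_fin] at this
  -- the data on the support
  have hdata : ∀ x' y' : Perm {i // i ∈ S}, Perm.ofSubtype x' = (x : Perm (Fin m)) →
      Perm.ofSubtype y' = (y : Perm (Fin m)) →
      orderOf x' = p ∧ y'.IsCycle ∧ y'.support.card = q ∧ q ≤ S.card ∧
        IsPreprimitive (Subgroup.closure {x', y'} : Subgroup (Perm {i // i ∈ S})) {i // i ∈ S} ∧
        Subgroup.closure {x', y'} ≤ alternatingGroup {i // i ∈ S} := by
    intro x' y' hx' hy'
    have ho1 : orderOf x' = p := by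
      rw [← hxo, ← hx', orderOf_injective _ Perm.ofSubtype_injective]
    have ho2 : orderOf y' = q := by
      rw [← hyo, ← hy', orderOf_injective _ Perm.ofSubtype_injective]
    have hcyc : y'.IsCycle := Perm.isCycle_of_prime_order' (by rw [ho2]; exact hq) (by rw [ho2, hd]; omega)
    have hsc : y'.support.card = q := by rw [← hcyc.orderOf, ho2]
    have hqS : q ≤ S.card := by
      rw [← hsc, ← hd]; exact Finset.card_le_univ _
    refine ⟨ho1, hcyc, hsc, hqS, ?_, ?_⟩
    · apply prim_closure x' y' hp hq (by rw [← ho1]; exact pow_orderOf_eq_one _) hcyc hsc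
      · intro z hz hxz
        have h1 : y' z = z := Perm.notMem_support.mp hz
        have h2 : (y : Perm (Fin m)) z = z := by
          rw [← hy', Perm.ofSubtype_apply_coe, h1]
        have h3 : (x : Perm (Fin m)) z = z := by
          rw [← hx', Perm.ofSubtype_apply_coe, hxz]
        rcases hmemS z z.2 with h4 | h4
        · exact h4 h3
        · exact h4 h2
      · rw [hd]; omega
      · rw [hd]; omega
    · rw [Subgroup.closure_le]
      rintro z (rfl | hz)
      · show z ∈ alternatingGroup _
        rw [Perm.mem_alternatingGroup, ← Perm.sign_ofSubtype, hx']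
        exact x.2
      · rw [Set.mem_singleton_iff] at hz
        subst hz
        show z ∈ alternatingGroup _
        rw [Perm.mem_alternatingGroup, ← Perm.sign_ofSubtype, hy']
        exact y.2
  -- the cardinality of the union if `x` is not a cycle
  by_cases hxc : (x : Perm (Fin m)).IsCycle
  · -- the first case
    have hq5 : 5 ≤ q := by omega
    refine ⟨S.card, ?_, iso_of_support x y S hxS hyS ?_⟩
    · have : (y : Perm (Fin m)).support ⊆ S := by rw [hS]; exact Finset.subset_union_right
      have h1 := Finset.card_le_card this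
      have h2 : (y : Perm (Fin m)).IsCycle := Perm.isCycle_of_prime_order' (by rw [hyo]; exact hq) (by
        rw [hyo, Fintype.card_fin]; omega)
      rw [← h2.orderOf, hyo] at h1
      omega
    intro x' y' hx' hy'
    obtain ⟨ho1, hcyc, hsc, hqS, hprim, hle⟩ := hdata x' y' hx' hy'
    have hxmem : x' ∈ Subgroup.closure {x', y'} := Subgroup.subset_closure (by simp)
    have hxcyc : x'.IsCycle := by
      apply Perm.isCycle_of_prime_order (by rw [ho1]; exact hp)
      rw [ho1]
      have h1 : x'.support.card ≤ (x : Perm (Fin m)).support.card := by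
        rw [← Finset.card_map (Function.Embedding.subtype (fun i => i ∈ S))]
        apply Finset.card_le_card
        intro i hi
        rw [Finset.mem_map] at hi
        obtain ⟨z, hz, rfl⟩ := hi
        rw [Perm.mem_support] at hz ⊢
        intro hcon
        apply hz
        apply Subtype.ext
        rw [← Perm.ofSubtype_apply_coe, hx']
        exact hcon
      rw [← hxc.orderOf, hxo] at h1
      have := hp.pos
      omega
    have hxsc : x'.support.card = p := by rw [← hxcyc.orderOf, ho1]
    by_cases hfar : p + 3 ≤ S.card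
    · exact H12.jordan_prime_cycle _ hprim hp (by rw [hd]; exact hfar) hxcyc hxsc hxmem
    · have hq2 : q = p + 2 := by omega
      have hS2 : S.card = p + 2 := by omega
      rcases H1 hq2 with h | h | h
      · apply Equiv.Perm.alternatingGroup_le_of_isPreprimitive_of_isThreeCycle_mem hprim (g := x') _ hxmem
        rw [← card_support_eq_three_iff, hxsc, h]
      · exact degree_seven _ hprim hle (by rw [hd, hS2, h]) hxcyc (by rw [hxsc, h]) hxmem
      · exact degree_thirteen _ hprim hle (by rw [hd, hS2, h]) hxcyc (by rw [hxsc, h]) hxmem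
  · -- `x` is a product of two `p`-cycles
    have hsx : 2 * p ≤ (x : Perm (Fin m)).support.card := by
      by_contra hlt
      apply hxc
      exact Perm.isCycle_of_prime_order (by rw [hxo]; exact hp) (by rw [hxo]; omega)
    have hxsub : (x : Perm (Fin m)).support.card ≤ S.card := Finset.card_le_card (by
      rw [hS]; exact Finset.subset_union_left)
    have hSm : S.card = m := by omega
    have hm2 : m = 2 * p := by omega
    rcases H2 hm2 with h | h
    · refine ⟨S.card, by omega, iso_of_support x y S hxS hyS ?_⟩
      intro x' y' hx' hy'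
      obtain ⟨ho1, hcyc, hsc, hqS, hprim, hle⟩ := hdata x' y' hx' hy'
      have hymem : y' ∈ Subgroup.closure {x', y'} := Subgroup.subset_closure (by simp)
      exact H12.jordan_prime_cycle _ hprim hq (by rw [hd, hSm]; exact h) hcyc hsc hymem
    · -- degree six
      have hxS' : ∀ i, (x : Perm (Fin m)) i ∈ S ↔ i ∈ S := by
        have : S = Finset.univ := by
          apply Finset.eq_univ_of_card
          rw [hSm, Fintype.card_fin]
        intro i
        rw [this]; simp
      have hyS' : ∀ i, (y : Perm (Fin m)) i ∈ S ↔ i ∈ S := by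
        have : S = Finset.univ := by
          apply Finset.eq_univ_of_card
          rw [hSm, Fintype.card_fin]
        intro i
        rw [this]; simp
      obtain ⟨x', hx'⟩ : ∃ x' : Perm {i // i ∈ S}, Perm.ofSubtype x' = (x : Perm (Fin m)) :=
        ⟨(x : Perm (Fin m)).subtypePerm hxS', Perm.ofSubtype_subtypePerm hxS' (fun i hi => by
          by_contra hc; exact hi (hxS i hc))⟩
      obtain ⟨y', hy'⟩ : ∃ y' : Perm {i // i ∈ S}, Perm.ofSubtype y' = (y : Perm (Fin m)) :=
        ⟨(y : Perm (Fin m)).subtypePerm hyS', Perm.ofSubtype_subtypePerm hyS' (fun i hi => by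
          by_contra hc; exact hi (hyS i hc))⟩
      obtain ⟨ho1, hcyc, hsc, hqS, hprim, hle⟩ := hdata x' y' hx' hy'
      have hymem : y' ∈ Subgroup.closure {x', y'} := Subgroup.subset_closure (by simp)
      have hc6 : Fintype.card {i // i ∈ S} = 6 := by rw [hd, hSm, h]
      have hq5 : q = 5 := by
        have : p = 3 := by omega
        have h6 : q ≠ 6 := by rintro rfl; exact absurd hq (by norm_num)
        omega
      have h2t : IsMultiplyPretransitive (Subgroup.closure {x', y'} : Subgroup (Perm {i // i ∈ S})) {i // i ∈ S} 2 := by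
        have := (H12.multiplyPreprimitive_of_cycle _ hprim hq (by rw [hc6]; omega) hcyc hsc hymem).isMultiplyPretransitive
        rw [hc6, hq5] at this
        exact this
      obtain ⟨e0⟩ := iso_closure x y S x' y' hx' hy'
      rcases degree_six _ h2t hle hc6 with ⟨⟨e⟩⟩ | ⟨⟨e⟩⟩
      · exact ⟨5, le_refl _, ⟨e0.trans e⟩⟩
      · exact ⟨6, by norm_num, ⟨e0.trans e⟩⟩

theorem main (m : ℕ) (hm : 5 ≤ m) :
    ∃ p q : ℕ, p.Prime ∧ q.Prime ∧ m ≤ 2 * p ∧ p < q ∧ q ≤ m ∧
      ∀ x y : alternatingGroup (Fin m), orderOf x = p → orderOf y = q →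
        ∃ d : ℕ, 5 ≤ d ∧ Nonempty (Subgroup.closure ({x, y} : Set (alternatingGroup (Fin m))) ≃* alternatingGroup (Fin d)) := by
  rcases lt_or_ge m 7 with h | h
  · exact ⟨3, 5, by norm_num, by norm_num, by omega, by omega, by omega, fun x y hx hy =>
      gen_step hm (by norm_num) (by norm_num) (by omega) (by omega) (by omega) (by omega) (by omega) x y hx hy⟩
  rcases lt_or_ge m 11 with h1 | h1
  · exact ⟨5, 7, by norm_num, by norm_num, by omega, by omega, by omega, fun x y hx hy =>
      gen_step hm (by norm_num) (by norm_num) (by omega) (by omega) (by omega) (by omega) (by omega) x y hx hy⟩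
  rcases lt_or_ge m 15 with h2 | h2
  · exact ⟨7, 11, by norm_num, by norm_num, by omega, by omega, by omega, fun x y hx hy =>
      gen_step hm (by norm_num) (by norm_num) (by omega) (by omega) (by omega) (by omega) (by omega) x y hx hy⟩
  rcases lt_or_ge m 17 with h3 | h3
  · exact ⟨11, 13, by norm_num, by norm_num, by omega, by omega, by omega, fun x y hx hy =>
      gen_step hm (by norm_num) (by norm_num) (by omega) (by omega) (by omega) (by omega) (by omega) x y hx hy⟩
  · obtain ⟨p, q, hp, hq, h4, h5, h6⟩ := exists_far m h3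
    exact ⟨p, q, hp, hq, by omega, by omega, by omega, fun x y hx hy =>
      gen_step hm hp hq (by omega) (by omega) (by omega) (by omega) (by omega) x y hx hy⟩

end Cfsg.Agent.H42.TwoPr
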